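import Cfsg.Agent.U6.V
import Cfsg.Agent.X9.Md

/-! The elements of order three with a one-dimensional fixed space. -/

set_option autoImplicit false
namespace U6A
open U6 Equiv

/-- `γ` is `1` on the unit vector `d` and `ω` on `d^⊥` -/
def Th (γ : Perm V) (d : V) : Prop := ∀ x, γ x = ω • x + (ω * ω * hf x d) • d
/-- the orthonormal basis -/
def ev : Fin 4 → V := ![(1, 0, 0, 0), (0, 1, 0, 0), (0, 0, 1, 0), (0, 0, 0, 1)]

end U6A
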