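import Cfsg.Agent.H9.Sp4b
import Cfsg.Agent.H2.F4

/-! Generators of `Sp₄(3)`. -/

set_option autoImplicit false

namespace U6A
open Matrix H9 Equiv

abbrev K3 := ZMod 3
instance factThreeU6A : Fact (Nat.Prime 3) := ⟨Nat.prime_three⟩
abbrev Sp := Sp4 K3
abbrev T4 := K3 × K3 × K3 × K3

/-- transport of symplectic groups -/
def spCongr {R S : Type*} [CommRing R] [CommRing S] (e : R ≃+* S) :
    symplecticGroup (Fin 2) R ≃* symplecticGroup (Fin 2) S where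
  toFun g := ⟨g.1.map e, SymplecticGroup.map_mem g.2 e⟩
  invFun g := ⟨g.1.map e.symm, SymplecticGroup.map_mem g.2 e.symm⟩
  left_inv g := by ext i l; exact e.symm_apply_apply _
  right_inv g := by ext i l; exact e.apply_symm_apply _
  map_mul' g h := Subtype.ext Matrix.map_mul

/-- coordinates -/
def vec (v : T4) : I4 → K3 := Sum.elim ![v.1, v.2.1] ![v.2.2.1, v.2.2.2]
theorem vec_surj (w : I4 → K3) : ∃ v, vec v = w :=
  ⟨(w (.inl 0), w (.inl 1), w (.inr 0), w (.inr 1)), funext fun i => by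
    rcases i with i | i <;> fin_cases i <;> rfl⟩
/-- the symplectic form -/
def fm (w v : T4) : K3 := w.2.2.1 * v.1 + w.2.2.2 * v.2.1 - w.1 * v.2.2.1 - w.2.1 * v.2.2.2
/-- transvections -/
def tw (w : T4) : Sp := tv (vec w) 1
theorem vec_add (v w : T4) (c : K3) : vec (v + c • w) = vec v + c • vec w := funext fun i => by
  rcases i with i | i <;> fin_cases i <;> rfl
theorem tw_vec (w v : T4) : (tw w).1 *ᵥ vec v = vec (v + fm w v • w) := by
  rw [tw, tv_mulVec, vec_add, one_mul]; rfl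
theorem fm_eq (w v : T4) : fm w v = vec w ⬝ᵥ Matrix.J (Fin 2) K3 *ᵥ vec v := by
  simp [fm, vec, Matrix.J, dotProduct, mulVec, Fintype.sum_sum_type, Fin.sum_univ_two, fromBlocks,
    Matrix.one_apply]
  ring
theorem fm_map {g : Sp} {w v w' v' : T4} (h1 : g.1 *ᵥ vec w = vec w') (h2 : g.1 *ᵥ vec v = vec v') :
    fm w' v' = fm w v := by
  rw [fm_eq, fm_eq, ← h1, ← h2, ← vecMul_transpose, ← dotProduct_mulVec, mulVec_mulVec,
    mulVec_mulVec, SymplecticGroup.mem_iff'.1 g.2]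
theorem sp_ext {g h : Sp} (e : ∀ v, g.1 *ᵥ vec v = h.1 *ᵥ vec v) : g = h :=
  Subtype.ext (Matrix.ext_iff_mulVec.2 fun w => by obtain ⟨v, rfl⟩ := vec_surj w; exact e v)
theorem mul_vec (g h : Sp) (v : I4 → K3) : (g * h).1 *ᵥ v = g.1 *ᵥ (h.1 *ᵥ v) :=
  (mulVec_mulVec _ _ _).symm
theorem tw_conj {g : Sp} {w w' : T4} (h : g.1 *ᵥ vec w = vec w') : g * tw w = tw w' * g :=
  sp_ext fun v => by
    obtain ⟨v', e⟩ := vec_surj (g.1 *ᵥ vec v)
    rw [mul_vec, mul_vec, tw_vec, vec_add, mulVec_add, mulVec_smul, h, ← e, tw_vec, vec_add,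
      fm_map h e.symm]
theorem tw_neg (w : T4) : tw (-w) = tw w := sp_ext fun v => by
  rw [tw_vec, tw_vec, show fm (-w) v = -fm w v by simp [fm]; ring, smul_neg, neg_smul, neg_neg]
theorem tw_comm {v w : T4} (h : fm v w = 0) : tw v * tw w = tw w * tw v :=
  tw_conj (by rw [tw_vec, h, zero_smul, add_zero])
theorem tw_cube (w : T4) : tw w * tw w * tw w = 1 := sp_ext fun v => by
  rw [mul_vec, mul_vec, tw_vec, tw_vec, tw_vec]
  show _ = (1 : Matrix I4 I4 K3) *ᵥ _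
  rw [one_mulVec]
  congr 1
  revert v w; decide +kernel

/-- centres of the generators -/
def cw : ℕ → T4
  | 0 => (1, 0, 0, 0)
  | 1 => (0, 1, 0, 0)
  | 2 => (1, 1, 0, 0)
  | 3 => (0, 0, 0, 1)
  | _ => (0, 0, 1, 0)
/-- action of the generators -/
def ac : ℕ → T4 → T4
  | 0, (a, b, c, d) => (a - c, b, c, d)
  | 1, (a, b, c, d) => (a, b - d, c, d)
  | 2, (a, b, c, d) => (a - c - d, b - c - d, c, d)
  | 3, (a, b, c, d) => (a, b, c, d + b)
  | _, (a, b, c, d) => (a, b, c + a, d)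
theorem ac_eq (n : ℕ) (v : T4) : v + fm (cw n) v • cw n = ac n v := by
  match n with
  | 0 => revert v; decide +kernel
  | 1 => revert v; decide +kernel
  | 2 => revert v; decide +kernel
  | 3 => revert v; decide +kernel
  | _ + 4 => exact (by decide +kernel : ∀ v, v + fm (cw 4) v • cw 4 = ac 4 v) v
/-- the basis -/
def bs : Fin 4 → T4 := ![(1, 0, 0, 0), (0, 0, 1, 0), (0, 1, 0, 0), (0, 0, 0, 1)]
/-- words -/
def wd : Fin 4 → List (List ℕ) := ![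
  [[],[],[4,0,0,4],[4,0,2,4,3,2,1,3],[4,0,2,2,4,4],[4,2,2,4],[4,2,2,4,3,2,2,3],[4,0,0,2,4,4],
  [4,0,2,4],[4,4,0,0],[4,4],[4,4,0],[4,4,0,2],[4,0,2,2,4],[4,4,2],[4,4,2,2],[4,0,0,2,4],
  [4,0,2,4,4],[4,0],[4],[4,0,0],[4,0,0,2,2],[4,0,2,2],[4,2,2],[4,2],[4,0,0,2],[4,0,2],
  [4,0,2,4,3,2],[4,4,2,3,3,2,4],[4,0,2,4,3,1],[4,0,2,4,3,2,1],[4,0,2,4,3,2,2],[4,2,2,4,3,3],
  [4,2,2,4,3,3,2],[4,0,0,2,4,4,3],[4,0,2,4,3],[4,4,2,2,3,1],[4,4,2,3,3,2],[4,0,2,4,3,1,4],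
  [4,4,0,2,3,3],[4,0,2,2,4,3,3],[4,4,2,3,3],[4,4,2,2,3],[4,0,0,2,4,3],[4,0,2,4,3,4],[4,2,3,1],
  [4,0,0,2,3,1],[4,0,2,3,1],[4,2,3,1,1],[4,0,2,2,3,3],[4,2,2,3,3],[4,2,3],[4,0,0,2,3],[4,0,2,3],
  [4,0,2,2,4,4,3,2],[4,2,2,4,3,2],[4,2,2,4,3,1],[4,2,2,4,3,2,2,1],[4,0,2,2,4,4,3],[4,2,2,4,3],
  [4,2,2,4,3,2,2],[4,2,2,4,3,2,1],[4,0,2,4,3,3],[4,4,0,2,3,1],[4,2,3,3,2,4],[4,4,2,3,1],
  [4,4,0,2,3],[4,0,2,2,4,3],[4,4,2,3],[4,4,2,2,3,3],[4,0,0,2,4,3,3],[4,4,2,3,1,1],[4,0,2,3,3,2],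
  [4,2,3,3,2],[4,2,2,3,1],[4,2,3,3,1],[4,0,2,2,3],[4,2,2,3],[4,2,3,3],[4,0,0,2,3,3],[4,0,2,3,3]],
  [[],[],[],[],[],[],[],[],[],[],[0],[0,0],[0,0,2],[2],[0,2],[0,2,2],[0,0,2,2],[2,2],[],[],[],[],
  [],[],[],[],[],[],[],[],[],[],[],[],[],[],[2,3,3,2],[0,2,3,3,2],[2,2,3,1],[0,0,2,3,3],[2,3,3],
  [0,2,3,3],[0,2,2,3],[2,3,3,1],[2,2,3],[],[],[],[],[],[],[],[],[],[],[],[],[],[],[],[],[],[],
  [0,0,2,3,1],[2,3,1],[0,2,3,1],[0,0,2,3],[2,3],[0,2,3],[0,2,2,3,3],[2,3,1,1],[2,2,3,3]],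
  [[],[],[],[],[],[],[3,1,1,3],[],[],[],[],[],[],[],[],[],[],[],[],[],[],[],[],[],[],[],[],
  [3,3,1,1],[],[],[3,3],[],[],[3,3,1],[],[],[],[],[],[],[],[],[],[],[],[],[],[],[],[],[],[],[],[],
  [3,1],[],[],[3],[],[],[3,1,1]],
  [[],[],[],[],[],[],[],[],[],[],[],[],[],[],[],[],[],[],[],[],[],[],[],[],[],[],[],[],[],[],[1],
  [],[],[1,1]]]
/-- the word of a vector -/
def wv (k : Fin 4) (v : T4) : List ℕ :=
  (wd k).getD (v.1.val + 3 * v.2.1.val + 9 * v.2.2.1.val + 27 * v.2.2.2.val) []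
theorem wd_spec : ∀ k v, v ≠ 0 → (∀ j < k, fm (bs j) v = fm (bs j) (bs k)) →
    (wv k v).foldr ac v = bs k ∧ ∀ j < k, (wv k v).foldr ac (bs j) = bs j := by decide +kernel

theorem word_mem {K : Subgroup Sp} (h : ∀ n, tw (cw n) ∈ K) (l : List ℕ) :
    ∃ g ∈ K, ∀ v, g.1 *ᵥ vec v = vec (l.foldr ac v) := by
  induction l with
  | nil => exact ⟨1, K.one_mem, fun v => one_mulVec _⟩
  | cons a l ih =>
    obtain ⟨g, hg, e⟩ := ih
    exact ⟨_, K.mul_mem (h a) hg, fun v => by rw [mul_vec, e, tw_vec, ac_eq]; rfl⟩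

theorem gen {K : Subgroup Sp} (h : ∀ n, tw (cw n) ∈ K) (g : Sp) : g ∈ K := by
  have k : ∀ n ≤ 4, ∃ a ∈ K, ∀ j : Fin 4, j.1 < n → (a * g).1 *ᵥ vec (bs j) = vec (bs j) := by
    intro n
    induction n with
    | zero => exact fun _ => ⟨1, K.one_mem, fun _ h => absurd h (Nat.not_lt_zero _)⟩
    | succ n ih =>
      intro hn
      obtain ⟨a, ha, e⟩ := ih (by omega)
      obtain ⟨v, hv⟩ := vec_surj ((a * g).1 *ᵥ vec (bs ⟨n, hn⟩))
      obtain ⟨s1, s2⟩ := wd_spec ⟨n, hn⟩ v (fun c => by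
        have := mul_vec (a * g)⁻¹ (a * g) (vec (bs ⟨n, hn⟩))
        rw [inv_mul_cancel, ← hv, c, show vec 0 = 0 by decide, mulVec_zero] at this
        have : vec (bs ⟨n, hn⟩) = 0 := (one_mulVec _).symm.trans this
        revert this
        generalize (⟨n, hn⟩ : Fin 4) = k
        revert k; decide) fun j hj => fm_map (e j hj) hv.symm
      obtain ⟨b, hb, f⟩ := word_mem h (wv ⟨n, hn⟩ v)
      refine ⟨b * a, K.mul_mem hb ha, fun j hj => ?_⟩
      rw [mul_assoc, mul_vec]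
      rcases (Nat.lt_succ_iff.1 hj).eq_or_lt with c | c
      · obtain rfl : j = ⟨n, hn⟩ := Fin.ext c
        rw [← hv, f, s1]
      · rw [e j c, f, s2 j c]
  obtain ⟨a, ha, e⟩ := k 4 le_rfl
  have : a * g = 1 := Subtype.ext (Matrix.ext fun i j => by
    obtain ⟨k, hk⟩ : ∃ k, vec (bs k) = Pi.single j 1 := by clear * -; revert j; decide
    have := congrFun (e k k.2) i
    rw [hk, mulVec_single_one] at this
    rw [show (a * g).1 i j = _ from this]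
    simp [Pi.single_apply, one_apply])
  rw [eq_inv_of_mul_eq_one_right this]
  exact K.inv_mem ha

theorem exists_conj (w : T4) (h : w ≠ 0) : ∃ g : Sp, g * tw w = tw (cw 0) * g := by
  obtain ⟨g, -, e⟩ := word_mem (K := ⊤) (fun _ => trivial) (wv 0 w)
  exact ⟨g, tw_conj (by rw [e, (wd_spec 0 w h fun j hj => absurd hj (by simp)).1]; rfl)⟩

/-- four points on a line -/
def w4 : Fin 4 → T4 := ![(1, 0, 0, 0), (0, 1, 0, 0), (1, 1, 0, 0), (1, -1, 0, 0)]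
/-- the four commuting transvections -/
def tt (i : Fin 4) : Sp := tw (w4 i)
theorem tt_comm (i j : Fin 4) : tt i * tt j = tt j * tt i :=
  tw_comm (by revert i j; decide)
theorem tt_prod : tt 0 * tt 1 * tt 2 * tt 3 = 1 := sp_ext fun v => by
  rw [mul_vec, mul_vec, mul_vec, tt, tt, tt, tt, tw_vec, tw_vec, tw_vec, tw_vec,
    show ((1 : Sp).1 : Matrix I4 I4 K3) = 1 from rfl, one_mulVec]
  refine congrArg vec ?_
  revert v; decide +kernel
/-- the Levi action -/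
def lv (a b c d : K3) (w : T4) : T4 := (a * w.1 + b * w.2.1, c * w.1 + d * w.2.1, 0, 0)
theorem perm_spec : ∀ s : Perm (Fin 4), ∃ a b c d : K3, (a * d - b * c) * (a * d - b * c) = 1 ∧
    ∀ i, lv a b c d (w4 i) = w4 (s i) ∨ lv a b c d (w4 i) = -w4 (s i) := by decide +kernel

theorem exists_perm (s : Perm (Fin 4)) : ∃ g : Sp, ∀ i, g * tt i = tt (s i) * g := by
  obtain ⟨a, b, c, d, h1, h2⟩ := perm_spec s
  let g : Sp := ⟨fromBlocks !![a, b; c, d] 0 0 ((a * d - b * c) • !![d, -c; -b, a]), by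
    rw [SymplecticGroup.mem_iff]
    ext i j
    rcases i with i | i <;> rcases j with j | j <;> fin_cases i <;> fin_cases j <;>
      simp [Matrix.J, Matrix.mul_apply, Fintype.sum_sum_type, Fin.sum_univ_two, fromBlocks] <;>
      first | ring1 | linear_combination h1 | linear_combination -h1⟩
  have e : ∀ i, g.1 *ᵥ vec (w4 i) = vec (lv a b c d (w4 i)) := fun k => funext fun i => by
    have : (w4 k).2.2.1 = 0 ∧ (w4 k).2.2.2 = 0 := by clear * -; revert k; decide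
    rcases i with i | i <;> fin_cases i <;>
      simp [g, vec, lv, mulVec, dotProduct, Fintype.sum_sum_type, Fin.sum_univ_two, fromBlocks, this]
  refine ⟨g, fun i => ?_⟩
  rcases h2 i with c | c
  · exact tw_conj (by rw [e, c])
  · rw [tt, tt, ← tw_neg (w4 (s i))]; exact tw_conj (by rw [e, c])

theorem not_comm {v w : T4} (h : fm v w ≠ 0)
    (hc : tw v * tw w * (tw v)⁻¹ * (tw w)⁻¹ ∈ Subgroup.center Sp) : False := by
  obtain ⟨c, hc, e⟩ : ∃ c ∈ Subgroup.center Sp, tw v * tw w = c * (tw w * tw v) :=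
    ⟨_, hc, by group⟩
  have := congrArg (fun g : Sp => g.1 *ᵥ vec v) e
  simp only [mul_vec, tw_vec] at this
  have inj : ∀ a b : T4, (vec a = vec b → a = b) ∧ (vec a = -vec b → a = -b) := fun a b =>
    ⟨fun e => Prod.ext (congrFun e (.inl 0)) (Prod.ext (congrFun e (.inl 1))
      (Prod.ext (congrFun e (.inr 0)) (congrFun e (.inr 1)))), fun e =>
      Prod.ext (congrFun e (.inl 0)) (Prod.ext (congrFun e (.inl 1))
      (Prod.ext (congrFun e (.inr 0)) (congrFun e (.inr 1))))⟩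
  rcases center_sp hc with k | k <;> rw [k] at this
  · rw [one_mulVec] at this
    have := (inj _ _).1 this
    clear * - h this; revert v w; decide +kernel
  · rw [neg_mulVec, one_mulVec] at this
    have := (inj _ _).2 this
    clear * - h this; revert v w; decide +kernel

end U6A
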