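import Cfsg.Agent.U6.A0

/-! Weight spaces of an elementary abelian `3`-group on a group of order `256`. -/

set_option autoImplicit false
set_option maxRecDepth 100000
namespace U6A
open U6 Equiv
open X9 (E E_ap E_fix c2 ff bb)

variable {U : Type*} [AddCommGroup U] [Module (ZMod 2) U]

theorem tw2 (x : U) : x + x = 0 := by apply c2; match_scalars; decide
def k0 (a : K4) : ZMod 2 := if a = 1 ∨ a = ω + 1 then 1 else 0
def k1 (a : K4) : ZMod 2 := if a = ω ∨ a = ω + 1 then 1 else 0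
theorem k_add : ∀ a b, k0 (a + b) = k0 a + k0 b ∧ k1 (a + b) = k1 a + k1 b := by decide +kernel
theorem k_ω : ∀ a, k0 (ω * a) = k1 a ∧ k1 (ω * a) = k0 a + k1 a := by decide +kernel
theorem k_cs : ∀ a, a = 0 ∨ (k0 a = 1 ∧ k1 a = 0) ∨ (k0 a = 0 ∧ k1 a = 1) ∨
    (k0 a = 1 ∧ k1 a = 1) := by decide +kernel
/-- combinations of two vectors -/
def ck (p p' : U) : K4 →+ U := AddMonoidHom.mk' (fun a => k0 a • p + k1 a • p') fun a b => by
  rw [(k_add a b).1, (k_add a b).2]; module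
theorem ck_ap (p p' : U) (a : K4) : ck p p' a = k0 a • p + k1 a • p' := rfl
theorem ck_map (f : U →+ U) (p p' : U) (a : K4) : f (ck p p' a) = ck (f p) (f p') a := by
  simp only [ck_ap, map_add, ZMod.map_smul]
theorem ck_cs (p p' : U) (a : K4) :
    a = 0 ∨ ck p p' a = p ∨ ck p p' a = p' ∨ ck p p' a = p + p' := by
  rcases k_cs a with h | h | h | h <;> simp [ck_ap, h]
theorem ck_inj {p p' : U} (h : p ≠ 0 ∧ p' ≠ 0 ∧ p ≠ p') : Function.Injective (ck p p') :=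
  (injective_iff_map_eq_zero _).2 fun a e => by
    rcases ck_cs p p' a with c | c | c | c
    · exact c
    · exact absurd (c ▸ e) h.1
    · exact absurd (c ▸ e) h.2.1
    · exact absurd (X9.eq_of_add tw2 (c ▸ e)) h.2.2
theorem indep {ι : Type} [Fintype ι] (P : ι → U →+ U) (p p' : ι → U)
    (h0 : ∀ i, p i ≠ 0 ∧ p' i ≠ 0 ∧ p i ≠ p' i) (h1 : ∀ i, P i (p i) = p i ∧ P i (p' i) = p' i)
    (h2 : ∀ i j, j ≠ i → P i (p j) = 0 ∧ P i (p' j) = 0) :
    Function.Injective fun a : ι → K4 => ∑ i, ck (p i) (p' i) (a i) := fun a b e => funext fun i => by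
  have k : ∀ a : ι → K4, P i (∑ i, ck (p i) (p' i) (a i)) = ck (p i) (p' i) (a i) := fun a => by
    rw [map_sum, Finset.sum_eq_single i (fun j _ n => by
      rw [ck_map, (h2 i j n).1, (h2 i j n).2, ck_ap, smul_zero, smul_zero, add_zero]) (by simp),
      ck_map, (h1 i).1, (h1 i).2]
  exact ck_inj (h0 i) (by rw [← k a, ← k b]; exact congrArg (P i) e)
theorem nz3 {g : U →+ U} {p : U} (g3 : ∀ u, g (g (g u)) = u) (p0 : p ≠ 0) (N : E g p = 0) :
    p ≠ 0 ∧ g p ≠ 0 ∧ p ≠ g p :=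
  ⟨p0, fun e => p0 (by rw [← g3 p, e, map_zero, map_zero]),
    fun e => p0 (by rw [← N, E_fix tw2 e.symm])⟩
theorem sqE {g : U →+ U} {p : U} (N : E g p = 0) : g (g p) = p + g p := (X9.eq_of_add tw2 N).symm

/-- four commuting automorphisms of order three, permuted by `S₄` -/
structure Tr (U : Type*) [AddCommGroup U] where
  t : Fin 4 → U →+ U
  card : Nat.card U = 256
  cm : ∀ i j u, t i (t j u) = t j (t i u)
  cu : ∀ i u, t i (t i (t i u)) = u
  pr : ∀ u, t 0 (t 1 (t 2 (t 3 u))) = u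
  pm : ∀ s : Perm (Fin 4), ∃ g : U ≃+ U, ∀ i u, g (t i u) = t (s i) (g u)
  ne : ∃ u, t 0 u ≠ u

/-- coordinates -/
def co : V →+ (Fin 4 → K4) := AddMonoidHom.mk' (fun x => ![x.1, x.2.1, x.2.2.1, x.2.2.2])
  fun x y => funext fun i => by fin_cases i <;> rfl
theorem co_inj : Function.Injective co := fun _ _ e =>
  Prod.ext (congrFun e 0) (Prod.ext (congrFun e 1) (Prod.ext (congrFun e 2) (congrFun e 3)))
theorem co_th : ∀ (i j : Fin 4) (x : V), co (ω • x + (ω * ω * hf x (ev i)) • ev i) j =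
    if j = i then co x j else ω * co x j := by decide +kernel
theorem ex_perm : ∀ k l k' l' : Fin 4, k ≠ l → k' ≠ l' → ∃ s : Perm (Fin 4), s k = k' ∧ s l = l' := by
  decide +kernel
theorem ex_perm3 : ∀ k l : Fin 4, k ≠ 0 → l ≠ 0 → l ≠ k →
    ∃ s : Perm (Fin 4), s 0 = 0 ∧ s 1 = k ∧ s 2 = l := by decide +kernel

namespace Tr
variable (M : Tr U)

omit [Module (ZMod 2) U] in
theorem Et (i j : Fin 4) (u : U) : E (M.t i) (M.t j u) = M.t j (E (M.t i) u) := by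
  simp only [E_ap, map_add, M.cm i j]
omit [Module (ZMod 2) U] in
theorem Eg {g : U ≃+ U} {s : Perm (Fin 4)} (h : ∀ i u, g (M.t i u) = M.t (s i) (g u)) (i : Fin 4)
    (u : U) : E (M.t (s i)) (g u) = g (E (M.t i) u) := by simp only [E_ap, map_add, h]
omit [Module (ZMod 2) U] in
theorem t3 (u : U) : M.t 3 u = M.t 0 (M.t 0 (M.t 1 (M.t 1 (M.t 2 (M.t 2 u))))) := by
  rw [← M.pr (M.t 0 _)]
  simp only [M.cm 3 0, M.cm 3 1, M.cm 3 2, M.cm 2 0, M.cm 2 1, M.cm 1 0, M.cu]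

/-- weight vectors of the natural module -/
def Wt (i : Fin 4) (x : U) : Prop :=
  M.t i x = x ∧ ∀ j, j ≠ i → E (M.t j) x = 0 ∧ ∀ k, k ≠ i → M.t j x = M.t k x

theorem case1 {i0 : Fin 4} {x0 : U} (n0 : x0 ≠ 0) (h : M.Wt i0 x0) : ∃ φ : V ≃+ U, ∀ i x,
    M.t i (φ x) = φ (ω • x + (ω * ω * hf x (ev i)) • ev i) := by
  have : ∀ i, ∃ p, p ≠ 0 ∧ M.Wt i p := fun i => by
    obtain ⟨g, hg⟩ := M.pm (swap i0 i)
    refine ⟨g x0, by simpa using n0, ?_, fun j hj => ?_⟩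
    · rw [← swap_apply_left i0 i, ← hg, h.1]
    obtain ⟨j, rfl⟩ := (swap i0 i).surjective j
    have nj : j ≠ i0 := fun e => hj (by rw [e, swap_apply_left])
    refine ⟨by rw [M.Eg hg, (h.2 j nj).1, map_zero], fun k hk => ?_⟩
    obtain ⟨k, rfl⟩ := (swap i0 i).surjective k
    rw [← hg, ← hg, (h.2 j nj).2 k fun e => hk (by rw [e, swap_apply_left])]
  choose p p0 hp using this
  have s1 : ∀ i : Fin 4, i + 1 ≠ i := by decide
  let F : (Fin 4 → K4) →+ U := AddMonoidHom.mk' (fun a => ∑ i, ck (p i) (M.t (i + 1) (p i)) (a i))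
    fun a b => by simp only [Pi.add_apply, map_add, Finset.sum_add_distrib]
  have inj : Function.Injective F := indep (fun i => E (M.t i)) p _
    (fun i => nz3 (M.cu _) (p0 i) ((hp i).2 _ (s1 i)).1)
    (fun i => ⟨E_fix tw2 (hp i).1, E_fix tw2 (by rw [M.cm, (hp i).1])⟩)
    fun i j n => ⟨((hp j).2 i n.symm).1, by rw [M.Et, ((hp j).2 i n.symm).1, map_zero]⟩
  have : Finite U := Nat.finite_of_card_ne_zero (by rw [M.card]; omega)
  refine ⟨AddEquiv.ofBijective (F.comp co) ((inj.comp co_inj).bijective_of_nat_card_le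
    (by rw [M.card, cardV])), fun i x => ?_⟩
  show M.t i (∑ j, ck (p j) (M.t (j + 1) (p j)) (co x j)) =
    ∑ j, ck (p j) (M.t (j + 1) (p j)) (co _ j)
  rw [map_sum]
  refine Finset.sum_congr rfl fun j _ => ?_
  rw [ck_map, co_th]
  split_ifs with c
  · rw [c, M.cm, (hp i).1]
  · obtain ⟨a, b⟩ := (hp j).2 i (Ne.symm c)
    rw [← b _ (s1 j), sqE a, ck_ap, ck_ap, (k_ω _).1, (k_ω _).2]; module

/-- vectors fixed by two of the automorphisms -/
def Xw (k l : Fin 4) (x : U) : Prop :=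
  M.t k x = x ∧ M.t l x = x ∧ ∀ i, i ≠ k → i ≠ l → E (M.t i) x = 0
def pk : Fin 5 → Fin 4 := ![0, 0, 0, 1, 1]
def pl : Fin 5 → Fin 4 := ![1, 2, 3, 2, 3]
def pn : Fin 5 → Fin 4 := ![2, 1, 1, 0, 0]
theorem p_spec : (∀ a, pk a ≠ pl a ∧ pn a ≠ pk a ∧ pn a ≠ pl a) ∧
    ∀ a b, b ≠ a → (pk a ≠ pk b ∧ pk a ≠ pl b) ∨ (pl a ≠ pk b ∧ pl a ≠ pl b) := by decide

theorem noX {k l : Fin 4} (n : k ≠ l) {x : U} (h : M.Xw k l x) : x = 0 := by
  by_contra x0
  have : ∀ a, ∃ p, p ≠ 0 ∧ M.Xw (pk a) (pl a) p := fun a => by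
    obtain ⟨s, s1, s2⟩ := ex_perm k l _ _ n (p_spec.1 a).1
    obtain ⟨g, hg⟩ := M.pm s
    refine ⟨g x, by simpa using x0, by rw [← s1, ← hg, h.1], by rw [← s2, ← hg, h.2.1],
      fun i a b => ?_⟩
    obtain ⟨i, rfl⟩ := s.surjective i
    rw [M.Eg hg, h.2.2 i (fun e => a (by rw [e, s1])) fun e => b (by rw [e, s2]), map_zero]
  choose p p0 hp using this
  have cl : ∀ {k l} (m) {x}, M.Xw k l x → M.Xw k l (M.t m x) := fun m _ h =>
    ⟨by rw [M.cm, h.1], by rw [M.cm, h.2.1], fun i a b => by rw [M.Et, h.2.2 i a b, map_zero]⟩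
  have f1 : ∀ a {x}, M.Xw (pk a) (pl a) x → ((E (M.t (pk a))).comp (E (M.t (pl a)))) x = x :=
    fun a _ h => by rw [AddMonoidHom.comp_apply, E_fix tw2 h.2.1, E_fix tw2 h.1]
  have f2 : ∀ a b, b ≠ a → ∀ {x}, M.Xw (pk b) (pl b) x →
      ((E (M.t (pk a))).comp (E (M.t (pl a)))) x = 0 := fun a b n x h => by
    rw [AddMonoidHom.comp_apply]
    rcases p_spec.2 a b n with c | c
    · simp only [E_ap (M.t (pl a)), map_add, M.Et, h.2.2 _ c.1 c.2, map_zero, add_zero]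
    · rw [h.2.2 _ c.1 c.2, map_zero]
  have : Finite U := Nat.finite_of_card_ne_zero (by rw [M.card]; omega)
  have := Nat.card_le_card_of_injective _ (indep _ p (fun a => M.t (pn a) (p a))
    (fun a => nz3 (M.cu _) (p0 a) ((hp a).2.2 _ (p_spec.1 a).2.1 (p_spec.1 a).2.2))
    (fun a => ⟨f1 a (hp a), f1 a (cl _ (hp a))⟩) fun a b n => ⟨f2 a b n (hp b), f2 a b n (cl _ (hp b))⟩)
  rw [M.card, Nat.card_fun, Nat.card_eq_fintype_card, H2.F4.card_F4] at this
  simp at this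

theorem fa4 {P : Fin 4 → Prop} (h0 : P 0) (h1 : P 1) (h2 : P 2) (h3 : P 3) (i : Fin 4) : P i := by
  fin_cases i; exacts [h0, h1, h2, h3]
omit [Module (ZMod 2) U] in
theorem wt0 {x : U} (h0 : M.t 0 x = x) (h1 : E (M.t 1) x = 0) (h2 : M.t 2 x = M.t 1 x)
    (h3 : M.t 3 x = M.t 1 x) : M.Wt 0 x := by
  have k : ∀ j, j ≠ 0 → M.t j x = M.t 1 x :=
    fa4 (fun a => absurd rfl a) (fun _ => rfl) (fun _ => h2) fun _ => h3
  refine ⟨h0, fun j a => ⟨?_, fun l b => (k j a).trans (k l b).symm⟩⟩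
  rw [E_ap, k j a, M.cm, k j a, ← E_ap, h1]

theorem fixall (hW : ∀ x, M.Wt 0 x → x = 0) (i j : Fin 4) (u : U) (h : M.t i u = u) :
    M.t j u = u := by
  have k : ∀ u, M.t 0 u = u → M.t 1 u = u := fun u h => by
    have y1 := M.noX (k := 0) (l := 2) (by decide) (x := E (M.t 2) (ff (M.t 1) u)) ⟨?_, ?_,
      fa4 (fun a _ => absurd rfl a) (fun _ _ => ?_) (fun _ b => absurd rfl b) fun _ _ => ?_⟩
    have y2 := M.noX (k := 0) (l := 3) (by decide) (x := E ((M.t 1).comp (M.t 2)) (ff (M.t 1) u))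
      ⟨?_, ?_, fa4 (fun a _ => absurd rfl a) (fun _ _ => ?_) (fun _ _ => ?_) fun _ b => absurd rfl b⟩
    have y3 := hW (E ((M.t 1).comp ((M.t 1).comp (M.t 2))) (ff (M.t 1) u)) (M.wt0 ?_ ?_ ?_ ?_)
    · have : ff (M.t 1) u = 0 := by
        rw [← add_zero (0 : U), ← add_zero (0 + 0 : U)]
        nth_rewrite 1 [← y1]
        nth_rewrite 1 [← y2]
        rw [← y3]
        simp only [ff, E_ap, map_add, AddMonoidHom.comp_apply, M.cm 2 1, M.cu]
        apply c2; match_scalars <;> decide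
      rw [← M.cu 1 (M.t 1 u), ← X9.eq_of_add tw2 this, M.cu]
    all_goals
      simp only [ff, E_ap, map_add, AddMonoidHom.comp_apply, M.t3, M.cm 2 1, M.cm 0 1, M.cm 0 2,
        M.cu, h]
      try (apply c2; match_scalars <;> decide)
  by_cases n : i = j
  · exact n ▸ h
  obtain ⟨s, rfl, rfl⟩ := ex_perm 0 1 i j (by decide) n
  obtain ⟨g, hg⟩ := M.pm s
  obtain ⟨u, rfl⟩ := g.surjective u
  rw [← hg, k u (g.injective (by rw [hg, h]))]

/-- weight spaces of the six-dimensional module -/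
def Yw (k : Fin 4) (x : U) : Prop := E (M.t 0) x = 0 ∧ M.t k x = M.t 0 x

section
variable (fx : ∀ i j u, M.t i u = u → M.t j u = u)
include fx

theorem kill {z : U} (h : E (M.t 0) z = 0) (j : Fin 4) (e : M.t j z = z) : z = 0 := by
  rw [← h, E_fix tw2 (fx j 0 z e)]

theorem ysq {k l : Fin 4} (k0 : k ≠ 0) (l0 : l ≠ 0) (n : l ≠ k) {u : U} (h : M.Yw k u) :
    M.t l u = M.t 0 (M.t 0 u) := by
  have key : ∀ u, M.Yw 1 u → M.t 2 u = M.t 0 (M.t 0 u) := fun u h => by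
    have h1 := sqE h.1
    have z1 := M.kill fx (z := E (M.t 2) u) ?_ 2 ?_
    have z2 := M.kill fx (z := E ((M.t 0).comp ((M.t 0).comp (M.t 2))) u) ?_ 3 ?_
    have e : E ((M.t 0).comp (M.t 2)) u = u + E (M.t 2) u +
      E ((M.t 0).comp ((M.t 0).comp (M.t 2))) u := ?_
    have e' : M.t 0 (M.t 2 (E ((M.t 0).comp (M.t 2)) u)) = E ((M.t 0).comp (M.t 2)) u := ?_
    · rw [e, z1, z2, add_zero, add_zero] at e'
      rw [← M.cu 0 (M.t 2 u), e']
    all_goals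
      simp only [E_ap, map_add, AddMonoidHom.comp_apply, M.t3, M.cm 1 2, M.cm 0 2, M.cm 1 0,
        M.cu, h.2, h1]
      try (apply c2; match_scalars <;> decide)
  obtain ⟨s, s0, rfl, rfl⟩ := ex_perm3 k l k0 l0 n
  obtain ⟨g, hg⟩ := M.pm s
  obtain ⟨u, rfl⟩ := g.surjective u
  rw [← hg, key u ⟨g.injective (by rw [← M.Eg hg, s0, h.1, map_zero]),
    g.injective (by rw [hg, hg, s0, h.2])⟩, hg, hg, s0]

theorem dec (u : U) : ∃ a b c d, M.t 0 a = a ∧ M.Yw 1 b ∧ M.Yw 2 c ∧ M.Yw 3 d ∧ u = a + b + c + d := by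
  have sp : ∀ j v, E (M.t 0) v = 0 → ∃ a b, v = a + b ∧ M.Yw j a ∧ E (M.t 0) b = 0 ∧
      M.t j b = M.t 0 (M.t 0 b) ∧ ∀ k, M.t k v = M.t 0 (M.t 0 v) →
        M.t k a = M.t 0 (M.t 0 a) ∧ M.t k b = M.t 0 (M.t 0 b) := fun j v h => by
    have h1 := sqE h
    have z1 := M.kill fx (z := E (M.t j) v) ?_ j ?_
    refine ⟨E ((M.t 0).comp ((M.t 0).comp (M.t j))) v, E ((M.t 0).comp (M.t j)) v,
      (add_zero v).symm.trans (z1 ▸ ?_), ⟨?_, ?_⟩, ?_, ?_, fun k hk => ?_⟩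
    rotate_right 3
    · simp only [E_ap, map_add, AddMonoidHom.comp_apply, M.cm k j, M.cm k 0, M.cm 0 j, hk, and_self]
    all_goals
      simp only [E_ap, map_add, AddMonoidHom.comp_apply, M.cm 0 j, M.cu, h1]
      try (apply c2; match_scalars <;> decide)
  obtain ⟨b, w, e1, hb, w0, w1, -⟩ := sp 1 (u + E (M.t 0) u) (by
    simp only [E_ap, map_add, M.cu]; apply c2; match_scalars <;> decide)
  obtain ⟨c, d, e2, hc, d0, d2, hk⟩ := sp 2 w w0
  refine ⟨E (M.t 0) u, b, c, d, ?_, hb, hc, ⟨d0, ?_⟩, ?_⟩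
  · simp only [E_ap, map_add, M.cu]; abel
  · simp only [M.t3, d2, M.cm 2 0, M.cm 1 0, (hk 1 w1).2, M.cu]
  · rw [add_assoc, add_assoc, ← e2, ← e1, add_left_comm, tw2, add_zero]

theorem card4 : Nat.card {u // M.t 0 u = u} = 4 := by
  have : Finite U := Nat.finite_of_card_ne_zero (by rw [M.card]; omega)
  let P := fun j => E ((M.t 0).comp ((M.t 0).comp (M.t j)))
  have p0 : ∀ j a, M.t 0 a = a → P j a = a := fun j a h =>
    E_fix tw2 (by simp only [AddMonoidHom.comp_apply, fx 0 j a h, h])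
  have p1 : ∀ j a, M.Yw j a → P j a = a := fun j a h =>
    E_fix tw2 (by simp only [AddMonoidHom.comp_apply, h.2, M.cu])
  have p2 : ∀ j k a, k ≠ 0 → j ≠ 0 → j ≠ k → M.Yw k a → P j a = 0 := fun j k a k0 j0 n h => by
    rw [← h.1]
    simp only [P, E_ap, AddMonoidHom.comp_apply, M.cm j 0, M.ysq fx k0 j0 n h, M.cu]
  let f : {u // M.t 0 u = u} × {u // M.Yw 1 u} × {u // M.Yw 2 u} × {u // M.Yw 3 u} → U :=
    fun x => x.1.1 + x.2.1.1 + x.2.2.1.1 + x.2.2.2.1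
  have bij : Function.Bijective f := ⟨fun x y e => ?_, fun u => ?_⟩
  rotate_left
  · have k : ∀ x, E (M.t 0) (f x) = x.1.1 ∧ P 1 (f x) = x.1.1 + x.2.1.1 ∧
        P 2 (f x) = x.1.1 + x.2.2.1.1 ∧ P 3 (f x) = x.1.1 + x.2.2.2.1 := fun ⟨a, b, c, d⟩ => by
      simp only [f, map_add, E_fix tw2 a.2, b.2.1, c.2.1, d.2.1, p0 _ _ a.2, p1 _ _ b.2, p1 _ _ c.2,
        p1 _ _ d.2, p2 1 2 _ (by decide) (by decide) (by decide) c.2,
        p2 1 3 _ (by decide) (by decide) (by decide) d.2,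
        p2 2 1 _ (by decide) (by decide) (by decide) b.2,
        p2 2 3 _ (by decide) (by decide) (by decide) d.2,
        p2 3 1 _ (by decide) (by decide) (by decide) b.2,
        p2 3 2 _ (by decide) (by decide) (by decide) c.2, add_zero, and_self]
    obtain ⟨a, b, c, d⟩ := k x
    obtain ⟨a', b', c', d'⟩ := k y
    rw [e, a'] at a
    rw [e, b', a, add_right_inj] at b
    rw [e, c', a, add_right_inj] at c
    rw [e, d', a, add_right_inj] at d
    exact Prod.ext (Subtype.ext a.symm) (Prod.ext (Subtype.ext b.symm)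
      (Prod.ext (Subtype.ext c.symm) (Subtype.ext d.symm)))
  · obtain ⟨a, b, c, d, ha, hb, hc, hd, e⟩ := M.dec fx u
    exact ⟨(⟨a, ha⟩, ⟨b, hb⟩, ⟨c, hc⟩, ⟨d, hd⟩), e.symm⟩
  have eq : ∀ k, k ≠ 0 → Nat.card {u // M.Yw k u} = Nat.card {u // M.Yw 1 u} := fun k k0 => by
    obtain ⟨s, s0, s1⟩ := ex_perm 0 1 0 k (by decide) k0.symm
    obtain ⟨g, hg⟩ := M.pm s
    refine (Nat.card_congr (g.toEquiv.subtypeEquiv fun u => ?_)).symm
    show _ ↔ M.Yw k (g u)
    rw [Yw, Yw, ← s1]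
    nth_rewrite 3 4 [← s0]
    rw [M.Eg hg, ← hg, ← hg, map_eq_zero_iff _ g.injective, g.injective.eq_iff]
  have ge : ∀ k a, k ≠ 0 → M.Yw k a → a ≠ 0 → 4 ≤ Nat.card {u // M.Yw 1 u} := fun k a k0 h a0 => by
    have := Nat.card_le_card_of_injective (fun c : K4 => (⟨ck a (M.t 0 a) c, by
      rw [ck_map, M.Et, h.1, map_zero, ck_ap, smul_zero, smul_zero, add_zero], by
      rw [ck_map, ck_map, M.cm k, h.2]⟩ : {u // M.Yw k u}))
      fun _ _ e => ck_inj (nz3 (M.cu 0) a0 h.1) (congrArg Subtype.val e)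
    rwa [eq k k0, Nat.card_eq_fintype_card, H2.F4.card_F4] at this
  have n4 : 4 ≤ Nat.card {u // M.Yw 1 u} := by
    by_contra n
    obtain ⟨u, hu⟩ := M.ne
    obtain ⟨a, b, c, d, ha, hb, hc, hd, e⟩ := M.dec fx u
    rw [e, by_contra fun x => n (ge 1 b (by decide) hb x), by_contra fun x => n (ge 2 c (by decide) hc x),
      by_contra fun x => n (ge 3 d (by decide) hd x), add_zero, add_zero, add_zero] at hu
    exact hu ha
  have := Nat.card_congr (Equiv.ofBijective f bij)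
  rw [M.card, Nat.card_prod, Nat.card_prod, Nat.card_prod, eq 2 (by decide), eq 3 (by decide)] at this
  generalize Nat.card {u // M.Yw 1 u} = n at *
  generalize Nat.card {u // M.t 0 u = u} = m at *
  have : n ≤ 6 := by
    by_contra c
    have : 7 * (7 * 7) ≤ n * (n * n) := Nat.mul_le_mul (by omega) (Nat.mul_le_mul (by omega) (by omega))
    have : n * (n * n) ≤ m * (n * (n * n)) := Nat.le_mul_of_pos_left _ (Nat.pos_of_ne_zero (by
      rintro rfl; omega))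
    omega
  interval_cases n <;> omega

theorem six {q : U → ZMod 2} (Bl : ∀ x y w, bb q (x + y) w = bb q x w + bb q y w)
    (nd : ∀ x, (∀ y, bb q x y = 0) → x = 0) (qi : ∀ x, q (M.t 0 x) = q x) :
    ∃ x y, M.t 0 x = x ∧ M.t 0 y = y ∧ bb q x y ≠ 0 ∧
      ∀ u, M.t 0 u = u → u = 0 ∨ u = x ∨ u = y ∨ u = x + y := by
  have c4 := M.card4 fx
  have : Finite {u // M.t 0 u = u} := Nat.finite_of_card_ne_zero (by omega)
  have : Nontrivial {u // M.t 0 u = u} := Finite.one_lt_card_iff_nontrivial.1 (by omega)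
  obtain ⟨⟨x, hx⟩, x0⟩ := exists_ne (⟨0, map_zero _⟩ : {u // M.t 0 u = u})
  obtain ⟨u, hu⟩ := not_forall.1 (mt (nd x) fun e => x0 (Subtype.ext e))
  have sy : ∀ a b, bb q a b = bb q b a := fun a b => by simp only [bb, add_comm a b]; ring
  have iv : ∀ a, bb q (M.t 0 a) x = bb q a x := fun a => by
    nth_rewrite 1 [← hx]
    simp only [bb, ← map_add, qi]
  have b0 : ∀ w, bb q 0 w = 0 := fun w => by simpa using Bl 0 0 w
  have hy : bb q x (E (M.t 0) u) ≠ 0 := by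
    rw [sy, E_ap, Bl, Bl, iv, iv, iv, CharTwo.add_self_eq_zero, zero_add, sy]; exact hu
  have fy : M.t 0 (E (M.t 0) u) = E (M.t 0) u := by simp only [E_ap, map_add, M.cu]; abel
  refine ⟨x, _, hx, fy, hy, fun v hv => ?_⟩
  obtain ⟨c, e⟩ := (Function.Injective.bijective_of_nat_card_le (f := fun c : K4 =>
    (⟨ck x (E (M.t 0) u) c, by rw [ck_map, hx, fy]⟩ : {u // M.t 0 u = u}))
    (fun _ _ e => ck_inj ⟨fun e => x0 (Subtype.ext e), fun e => hy (by rw [e, sy, b0]),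
      fun e => hy (by
        have := b0 0
        rw [← e]
        simp only [bb, tw2, add_assoc, CharTwo.add_self_eq_zero, add_zero] at this ⊢
        rw [zero_add] at this
        exact this)⟩ (congrArg Subtype.val e))
    (by rw [c4, Nat.card_eq_fintype_card, H2.F4.card_F4])).2 ⟨v, hv⟩
  rw [← show ck x (E (M.t 0) u) c = v from congrArg Subtype.val e]
  exact (ck_cs _ _ c).imp_left fun e => by rw [e, map_zero]
end
end Tr
end U6A
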