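import Cfsg.Agent.U6.A1
import Cfsg.Agent.U6.A3
import Cfsg.Agent.X9.Asm

/-! The action of `C(z)` on `Q/⟨z⟩`. -/

set_option autoImplicit false
namespace U6A
open U6 Equiv Subgroup
open X9 (bb mcs)
universe u
variable {G : Type u} [Group G]

theorem faith [Finite G] {z m : G} {Q : Subgroup G} (es : H7.ES Q z)
    (hc : ∀ m, Commute m z → (∀ q ∈ Q, Commute m q) → m ∈ Q) (hm : Commute m z)
    (h : ∀ q ∈ Q, m * q * m⁻¹ = q ∨ m * q * m⁻¹ = q * z) : m ∈ Q := by
  by_cases c : ∀ q ∈ Q, Commute m q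
  · exact hc m hm c
  push Not at c
  obtain ⟨y, hy, c⟩ := c
  obtain ⟨x, hx, h1, h2⟩ := es.exists_not_commute (M := centralizer {m}) (mcs.2 hm.symm) hy
    fun e => c (mcs.1 e).symm
  have k : ∀ q ∈ Q, ¬ Commute m q → m * q * m⁻¹ = q * z := fun q hq n =>
    (h q hq).resolve_left fun e => n (mul_inv_eq_iff_eq_mul.1 e)
  have e : ∀ q ∈ Q, m * q * m⁻¹ = x * q * x⁻¹ := fun q hq => by
    have a : ∀ q ∈ Q, Commute m q → m * q * m⁻¹ = x * q * x⁻¹ := fun q hq n => by
      rw [n.eq, ← h1 q (mcs.2 n.symm) hq]; simp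
    by_cases n : Commute m q
    · exact a q hq n
    have := a _ (mul_mem (inv_mem hy) hq) (mul_inv_eq_iff_eq_mul.1 (by
      rw [show m * (y⁻¹ * q) * m⁻¹ = (m * y * m⁻¹)⁻¹ * (m * q * m⁻¹) by group, k y hy c, k q hq n,
        es.cent y hy, es.cent q hq]; group))
    calc m * q * m⁻¹ = m * y * m⁻¹ * (m * (y⁻¹ * q) * m⁻¹) := by group
      _ = _ := by rw [this, k y hy c, es.cent y hy, ← es.conj_eq hx hy h2]; group
  have := hc (x⁻¹ * m) ((show Commute x z from es.cent x hx).inv_left.mul_left hm) fun q hq =>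
    mul_inv_eq_iff_eq_mul.1 (by
      rw [show x⁻¹ * m * q * (x⁻¹ * m)⁻¹ = x⁻¹ * (m * q * m⁻¹) * x by group, e q hq]; group)
  simpa using mul_mem hx this

/-- the module `Q/⟨z⟩` -/
structure Ly (z : G) (Q : Subgroup G) (U : Type u) [AddCommGroup U] where
  r : G → U
  α : centralizer ({z} : Set G) →* Perm U
  q : U → ZMod 2
  card : Nat.card U = 256
  two : ∀ u : U, u + u = 0
  rm : ∀ a ∈ Q, ∀ b ∈ Q, r (a * b) = r a + r b
  rk : ∀ a ∈ Q, r a = 0 ↔ a = 1 ∨ a = z
  rs : ∀ u, ∃ a ∈ Q, r a = u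
  eqr : ∀ a ∈ Q, ∀ b ∈ Q, r a = r b → b = a ∨ b = a * z
  ar : ∀ m, ∀ a ∈ Q, α m (r a) = r (m * a * m.1⁻¹)
  ak : ∀ m, α m = 1 ↔ m.1 ∈ Q
  add : ∀ m x y, α m (x + y) = α m x + α m y
  qr : ∀ a ∈ Q, q (r a) = 0 ↔ a * a = 1
  br : ∀ a ∈ Q, ∀ b ∈ Q, bb q (r a) (r b) = 0 ↔ Commute a b
  Bl : ∀ x y w, bb q (x + y) w = bb q x w + bb q y w
  qi : ∀ m x, q (α m x) = q x
  nd : ∀ x, (∀ y, bb q x y = 0) → x = 0

theorem layer [Finite G] {z : G} {Q : Subgroup G} (es : H7.ES Q z) (card : Nat.card Q = 512)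
    (nq : ∀ {m q}, Commute m z → q ∈ Q → m * q * m⁻¹ ∈ Q)
    (hc : ∀ m, Commute m z → (∀ q ∈ Q, Commute m q) → m ∈ Q) :
    ∃ (U : Type u) (_ : AddCommGroup U), Nonempty (Ly z Q U) := by
  classical
  obtain ⟨U, _, r, cU, rm, rk, rs⟩ := X9.ex_quot es card
  choose sec sQ rsec using rs
  have QM : ∀ {q}, q ∈ Q → Commute q z := fun hq => es.cent _ hq
  have rz : r z = 0 := (rk z es.mem).2 (Or.inr rfl)
  have two : ∀ u : U, u + u = 0 := fun u => by
    rw [← rsec u, ← rm _ (sQ u) _ (sQ u), rk _ (mul_mem (sQ u) (sQ u))]; exact es.sq _ (sQ u)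
  have rinv : ∀ a ∈ Q, r a⁻¹ = r a := fun a ha => X9.eq_of_add two (by
    rw [← rm _ (inv_mem ha) _ ha, inv_mul_cancel, rk _ Q.one_mem]; exact Or.inl rfl)
  have eqr : ∀ a ∈ Q, ∀ b ∈ Q, r a = r b → b = a ∨ b = a * z := fun a ha b hb e => by
    have := (rk _ (mul_mem (inv_mem ha) hb)).1 (by rw [rm _ (inv_mem ha) _ hb, rinv a ha, e, two])
    exact this.imp (fun h => (inv_mul_eq_one.1 h).symm) fun h => by rw [← h]; group
  have cz : ∀ {m} (q : G), Commute m z → m * (q * z) * m⁻¹ = m * q * m⁻¹ * z := fun q hm => by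
    rw [mul_assoc, mul_assoc, ← hm.inv_left.eq]; group
  have ar : ∀ {m a}, Commute m z → a ∈ Q → r (m * sec (r a) * m⁻¹) = r (m * a * m⁻¹) :=
    fun {m a} hm ha => by
      rcases eqr _ ha _ (sQ (r a)) (rsec _).symm with e | e <;> rw [e]
      rw [cz _ hm, rm _ (nq hm ha) _ es.mem, rz, add_zero]
  have rs : ∀ u, ∃ q ∈ Q, r q = u := fun u => ⟨_, sQ u, rsec u⟩
  let α0 : centralizer ({z} : Set G) →* Function.End U :=
    { toFun := fun m u => r (m * sec u * m.1⁻¹)
      map_one' := funext fun u => Eq.trans (by simp) (rsec u)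
      map_mul' := fun a b => funext fun u => by
        show _ = r (a * sec (r (b * sec u * b.1⁻¹)) * a.1⁻¹)
        rw [ar (mcs.1 a.2) (nq (mcs.1 b.2) (sQ u))]
        congr 1; simp only [coe_mul]; group }
  have ar' : ∀ m, ∀ a ∈ Q, α0.toHomPerm m (r a) = r (m * a * m.1⁻¹) := fun m a ha =>
    ar (mcs.1 m.2) ha
  let qU : U → ZMod 2 := fun u => if sec u * sec u = 1 then 0 else 1
  have zz := es.sq_z
  have qr : ∀ q ∈ Q, qU (r q) = if q * q = 1 then 0 else 1 := fun q hq => by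
    rcases eqr _ hq _ (sQ (r q)) (rsec _).symm with e | e <;> simp only [qU, e]
    rw [show q * z * (q * z) = q * q by
      rw [mul_assoc, ← mul_assoc z, ← (QM hq).eq, mul_assoc q z, zz, mul_one]]
  have cj : ∀ a ∈ Q, ∀ b ∈ Q, ¬ Commute a b → a * b * a⁻¹ = b * z := fun a ha b hb h =>
    (es.conj_eq ha hb h).trans (QM hb).eq.symm
  have br : ∀ a ∈ Q, ∀ b ∈ Q, bb qU (r a) (r b) = if Commute a b then 0 else 1 :=
    fun a ha b hb => by
      rw [bb, ← rm a ha b hb, qr _ (mul_mem ha hb), qr a ha, qr b hb]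
      have z1 := es.ne
      by_cases h : Commute a b
      · rw [show a * b * (a * b) = a * a * (b * b) by
          rw [mul_assoc, ← mul_assoc b, ← h.eq]; group]
        rcases es.sq a ha with x | x <;> rcases es.sq b hb with y | y <;>
          simp [x, y, h, z1, zz] <;> decide
      · rw [show a * b * (a * b) = z * (a * a * (b * b)) by
          have := cj _ hb _ ha fun c => h c.symm
          calc a * b * (a * b) = a * (b * a * b⁻¹) * (b * b) := by group
            _ = a * a * z * (b * b) := by rw [this]; group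
            _ = _ := by rw [(QM (mul_mem ha ha)).eq]; group]
        rcases es.sq a ha with x | x <;> rcases es.sq b hb with y | y <;>
          simp [x, y, h, z1, zz] <;> decide
  have br' : ∀ a ∈ Q, ∀ b ∈ Q, bb qU (r a) (r b) = 0 ↔ Commute a b := fun a ha b hb => by
    rw [br a ha b hb]; split_ifs with c <;> simp [c]
  refine ⟨U, inferInstance, ⟨{
    r := r, α := α0.toHomPerm, q := qU, card := cU, two := two, rm := rm, rk := rk, rs := rs
    eqr := eqr, ar := ar', br := br'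
    ak := fun m => ⟨fun e => faith es hc (mcs.1 m.2) fun q hq =>
      eqr _ hq _ (nq (mcs.1 m.2) hq) (by rw [← ar' m q hq, e]; rfl), fun h => Equiv.ext fun u => ?_⟩
    add := fun m x y => ?_
    qr := fun a ha => by rw [qr a ha]; split_ifs with c <;> simp [c]
    Bl := fun x y w => ?_
    qi := fun m u => ?_
    nd := fun x h => ?_ }⟩⟩
  · obtain ⟨q, hq, rfl⟩ := rs u
    rw [ar' m q hq, rm _ (mul_mem h hq) _ (inv_mem h), rm _ h _ hq, rinv _ h, add_right_comm, two,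
      zero_add]; rfl
  · obtain ⟨a, ha, rfl⟩ := rs x
    obtain ⟨b, hb, rfl⟩ := rs y
    rw [← rm a ha b hb, ar' m a ha, ar' m b hb, ar' m _ (mul_mem ha hb),
      ← rm _ (nq (mcs.1 m.2) ha) _ (nq (mcs.1 m.2) hb)]
    congr 1; group
  · obtain ⟨a, ha, rfl⟩ := rs x
    obtain ⟨b, hb, rfl⟩ := rs y
    obtain ⟨c, hc, rfl⟩ := rs w
    rw [← rm a ha b hb, br _ (mul_mem ha hb) c hc, br a ha c hc, br b hb c hc]
    have e : a * b * c * (a * b)⁻¹ = a * (b * c * b⁻¹) * a⁻¹ := by group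
    by_cases h1 : Commute a c <;> by_cases h2 : Commute b c
    · simp [h1, h2, h1.mul_left h2]
    · have : ¬ Commute (a * b) c := fun h => h2 (by simpa using h1.inv_left.mul_left h)
      simp [h1, h2, this]
    · have : ¬ Commute (a * b) c := fun h => h1 (by simpa using h.mul_left h2.inv_left)
      simp [h1, h2, this]
    · have : Commute (a * b) c := mul_inv_eq_iff_eq_mul.1 (by
        rw [e, cj b hb c hc h2, cz _ (QM ha), cj a ha c hc h1, mul_assoc, zz, mul_one])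
      simp only [h1, h2, this, if_true, if_false]; rfl
  · obtain ⟨q, hq, rfl⟩ := rs u
    rw [ar' m q hq, qr _ (nq (mcs.1 m.2) hq), qr q hq,
      show m * q * m.1⁻¹ * (m * q * m.1⁻¹) = m * (q * q) * m.1⁻¹ by group]
    simp [mul_inv_eq_iff_eq_mul]
  · obtain ⟨a, ha, rfl⟩ := rs x
    exact (rk a ha).2 (es.center a ha fun q hq => ((br' a ha q hq).1 (h _)).symm.eq)

end U6A
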