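import Cfsg.Agent.U6.AV2

/-! The vector space level part of the identification of `C(z)/Q`. -/

set_option autoImplicit false
set_option maxRecDepth 100000
namespace U6A
open U6 Equiv

def nzq (c : K4) : ZMod 2 := if c = 0 then 0 else 1
theorem k_nz : ∀ x : V, nzq x.1 + nzq x.2.1 + nzq x.2.2.1 + nzq x.2.2.2 = 0 ↔ hf x x = 0 := by
  decide +kernel
theorem z2a : ∀ a : ZMod 2, a = a + a → a = 0 := by decide
theorem z2b : ∀ a b c : ZMod 2, a + b + c = 0 → a = b + c := by decide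
theorem z2c : ∀ a : ZMod 2, a ≠ 0 → a = 1 := by decide

theorem q_eq {q : V → ZMod 2} {θ : Fin 4 → Perm V}
    (Bl : ∀ x y w, X9.bb q (x + y) w = X9.bb q x w + X9.bb q y w)
    (nd : ∀ x, (∀ y, X9.bb q x y = 0) → x = 0) (th : ∀ i, Th (θ i) (ev i))
    (qi : ∀ i x, q (θ i x) = q x) (x : V) : q x = 0 ↔ hf x x = 0 := by
  have b0 : ∀ w, X9.bb q 0 w = 0 := fun w => z2a _ (by rw [← Bl, add_zero])
  have q0 : q 0 = 0 := by
    have := b0 0
    rw [X9.bb, add_zero] at this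
    revert this; generalize q 0 = a; revert a; decide
  have sy : ∀ x y, X9.bb q x y = X9.bb q y x := fun x y => by
    rw [X9.bb, X9.bb, add_comm x y, add_right_comm]
  have bi : ∀ i x y, X9.bb q (θ i x) (θ i y) = X9.bb q x y := fun i x y => by
    rw [X9.bb, ← SL.add (Or.inl ((th i).lin (ev_u i))), qi, qi, qi, X9.bb]
  have bp : ∀ j x (b : K4), hf x (ev j) = 0 → X9.bb q x (b • ev j) = 0 := fun j x b h => by
    have A : ∀ x, hf x (ev j) = 0 → X9.bb q (ω • x) (b • ev j) = X9.bb q x (b • ev j) :=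
      fun x h => by rw [← bi j x, (th j).ap, (th j).ap, tf_perp h, tf_self (ev_u j)]
    have B := A (ω • x) (by rw [hf_smull, h, mul_zero])
    rw [ωv, Bl, A x h] at B
    exact z2a _ B.symm
  have qa : ∀ j x (b : K4), hf x (ev j) = 0 → q (x + b • ev j) = q x + q (b • ev j) :=
    fun j x b h => z2b _ _ _ (bp j x b h)
  have qs : ∀ i (c : K4), c ≠ 0 → q (c • ev i) = q (ev i) := fun i c c0 => by
    have A : ∀ c : K4, q (ω • c • ev i) = q (c • ev i) := fun c => by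
      rw [← qi (i + 1) (c • ev i), (th _).ap, tf_perp]
      rw [hf_smull, ev_p (by revert i; decide), mul_zero]
    have B := A 1
    have C := A ω
    rw [one_smul] at B
    rw [smul_smul, ωω] at C
    rcases K4c c with rfl | rfl | rfl | rfl
    exacts [absurd rfl c0, by rw [one_smul], B, C.trans B]
  have q1 : ∀ i, q (ev i) = 1 := fun i => z2c _ fun e => by
    have z : ∀ c : K4, q (c • ev i) = 0 := fun c => by
      by_cases c0 : c = 0
      · rw [c0, zero_smul, q0]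
      · rw [qs i c c0, e]
    have A : ∀ j (c : K4), X9.bb q (c • ev j) (ev i) = 0 := fun j c => by
      by_cases k : j = i
      · have := z (c + 1)
        rw [add_smul, one_smul] at this
        rw [k, X9.bb, this, z, e]; rfl
      · rw [← one_smul K4 (ev i)]
        exact bp i _ 1 (by rw [hf_smull, ev_p k, mul_zero])
    have := nd (ev i) fun y => by
      rw [sy, ev_sum y, Bl, Bl, Bl, A, A, A, A]; rfl
    have k := ev_u i
    rw [this, hf0l] at k
    exact zero_ne_one k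
  have qn : ∀ i (c : K4), q (c • ev i) = nzq c := fun i c => by
    unfold nzq; split_ifs with c0
    · rw [c0, zero_smul, q0]
    · rw [qs i c c0, q1]
  rw [← k_nz]
  nth_rw 1 [ev_sum x]
  rw [qa, qa, qa, qn, qn, qn, qn] <;>
    simp only [hf_addl, hf_smull, ev_hf] <;> simp

theorem k_u0 : ∀ u, hf u u = 1 → tf u (tf (ev 0) (ev 0)) = tf (ev 0) (tf u (ev 0)) →
    P0 u ∨ ∀ x, tf u (tf (ev 1) x) = tf (ev 1) (tf u x) := by decide +kernel
theorem k_u1 : ∀ u, hf u u = 1 → tf u (tf (ev 1) (ev 1)) = tf (ev 1) (tf u (ev 1)) →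
    P1 u ∨ ∀ x, tf u (tf (ev 0) x) = tf (ev 0) (tf u x) := by decide +kernel

def μ : Perm V := MulAction.toPerm (Units.mk0 ω ω0)
theorem μ_ap (x : V) : μ x = ω • x := rfl
theorem ω3 (x : V) : ω • ω • ω • x = x := by
  rw [smul_smul, smul_smul, show ω * ω * ω = 1 by decide +kernel, one_smul]

theorem vmain {R Λ : Subgroup (Perm V)} {q : V → ZMod 2} {θ : Fin 4 → Perm V} {T1 T2 : Perm V}
    (add : ∀ m ∈ R, ∀ x y, m (x + y) = m x + m y)
    (Bl : ∀ x y w, X9.bb q (x + y) w = X9.bb q x w + X9.bb q y w)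
    (nd : ∀ x, (∀ y, X9.bb q x y = 0) → x = 0) (qi : ∀ m ∈ R, ∀ x, q (m x) = q x)
    (le : Λ ≤ R) (nm : ∀ m ∈ R, ∀ h ∈ Λ, m * h * m⁻¹ ∈ Λ)
    (cen : ∀ m ∈ R, (∀ h ∈ Λ, m * h = h * m) → m = 1)
    (th : ∀ i, θ i ∈ Λ ∧ Th (θ i) (ev i))
    (gen : ∀ K : Subgroup (Perm V), (∀ i, θ i ∈ K) → T1 ∈ K → T2 ∈ K → Λ ≤ K)
    (c1 : ∃ g ∈ Λ, g * T1 = θ 0 * g) (c2 : ∃ g ∈ Λ, g * T2 = θ 0 * g)
    (a1 : T1 * θ 1 = θ 1 * T1) (n1 : T1 * θ 0 ≠ θ 0 * T1)
    (a2 : T2 * θ 0 = θ 0 * T2) (n2 : T2 * θ 1 ≠ θ 1 * T2) :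
    (∀ x, q x = 0 ↔ hf x x = 0) ∧ Γ0 ≤ Λ ∧ (∀ m ∈ R, Lin m ∨ ALin m) ∧
      (∀ m ∈ R, Lin m → m ∈ Γ0) ∧ ∀ m ∈ Λ, Lin m := by
  have Q := q_eq Bl nd (fun i => (th i).2) fun i => qi _ (le (th i).1)
  have qf : ∀ m ∈ R, ∀ x, hf (m x) (m x) = hf x x := fun m hm x => by
    have := (Q (m x)).symm.trans (qi m hm x ▸ Q x)
    rcases hf_self x with h | h
    · rw [h]; exact this.2 h
    · rw [h]; exact (hf_self _).resolve_left fun e => zero_ne_one ((this.1 e).symm.trans h)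
  have cj : ∀ {T}, (∃ g ∈ Λ, g * T = θ 0 * g) → ∃ g ∈ Λ, T = g * θ 0 * g⁻¹ := fun ⟨g, hg, e⟩ =>
    ⟨g⁻¹, Λ.inv_mem hg, by rw [inv_inv, mul_assoc, ← e, inv_mul_cancel_left]⟩
  have cμ : ∀ {T}, (∃ g ∈ Λ, g * T = θ 0 * g) → ∀ i, T * θ i = θ i * T →
      T ∈ Subgroup.centralizer {μ} := fun c i a => by
    obtain ⟨g, hg, rfl⟩ := cj c
    rw [Subgroup.mem_centralizer_singleton_iff]
    refine Equiv.ext fun x => comm_μ (add _ (le (nm _ (le hg) _ (th 0).1))) (fun x => ?_) (ev_u i)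
      (fun x => ?_) x
    · simp only [Perm.mul_apply, Perm.inv_def, symm_apply_apply, (th 0).2.ap, tf3 (ev_u 0),
        apply_symm_apply]
    · rw [← (th i).2.ap, ← (th i).2.ap]; exact congrArg (fun f : Perm V => f x) a
  have Lμ : ∀ m ∈ Λ, ∀ x, m (ω • x) = ω • m x := fun m hm x => congrArg (fun f : Perm V => f x)
    (Subgroup.mem_centralizer_singleton_iff.1 (gen (Subgroup.centralizer {μ}) (fun i =>
      Subgroup.mem_centralizer_singleton_iff.2 (Equiv.ext fun x =>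
        ((th i).2.lin (ev_u i)).smul ω x)) (cμ c1 1 a1) (cμ c2 0 a2) hm))
  have L : ∀ m ∈ Λ, Lin m := fun m hm => lin_of (add m (le hm)) (qf m (le hm)) (Lμ m hm)
  have I : ∀ i, In Λ (ev i) := fun i => ⟨ev_u i, _, th i⟩
  have al : ∀ d, hf d d = 1 → In Λ d := fun d hd => by
    obtain ⟨g, hg, rfl⟩ := cj c1
    obtain ⟨g', hg', rfl⟩ := cj c2
    have t := (th 0).2.conj (L g hg)
    have t' := (th 0).2.conj (L g' hg')
    have u := (I 0).act hg (L g hg)
    have u' := (I 0).act hg' (L g' hg')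
    refine all_in I u' ((k_u0 _ u'.1 ?_).resolve_right fun h => n2 (Equiv.ext fun x => ?_)) u
      ((k_u1 _ u.1 ?_).resolve_right fun h => n1 (Equiv.ext fun x => ?_)) hd
    · rw [← t'.ap, ← t'.ap, ← (th 0).2.ap, ← (th 0).2.ap]
      exact congrArg (fun f : Perm V => f _) a2
    · rw [Perm.mul_apply, Perm.mul_apply (θ 1), t'.ap, t'.ap, (th 1).2.ap, (th 1).2.ap, h]
    · rw [← t.ap, ← t.ap, ← (th 1).2.ap, ← (th 1).2.ap]
      exact congrArg (fun f : Perm V => f _) a1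
    · rw [Perm.mul_apply, Perm.mul_apply (θ 0), t.ap, t.ap, (th 0).2.ap, (th 0).2.ap, h]
  have gl := Γ0_le al
  refine ⟨Q, gl, fun m hm => ?_, fun m hm l => ?_, L⟩
  · have a : ∀ x y, m (ω • m⁻¹ (x + y)) = m (ω • m⁻¹ x) + m (ω • m⁻¹ y) := fun x y => by
      rw [add _ (R.inv_mem hm), smul_add, add m hm]
    have cm : ∀ d, hf d d = 1 → ∀ x, m (ω • m⁻¹ (tf d x)) = tf d (m (ω • m⁻¹ x)) := fun d hd x => by
      obtain ⟨-, γ, hγ, t⟩ := al d hd
      have := Lμ _ (nm _ (R.inv_mem hm) γ hγ) (m⁻¹ x)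
      simp only [Perm.mul_apply, Perm.inv_def, symm_symm, apply_symm_apply] at this
      rw [← t.ap, ← t.ap, Perm.inv_def, ← this, apply_symm_apply]
    obtain ⟨c, hc⟩ := scalar (T := fun x => m (ω • m⁻¹ x)) a
      (comm_μ (T := fun x => m (ω • m⁻¹ x)) a (fun x => by
        simp only [Perm.inv_def, symm_apply_apply, ω3, apply_symm_apply])
        (ev_u 0) (cm _ (ev_u 0))) fun d hd => tf_fix (by
          have := tf_self hd 1
          rw [one_smul] at this
          rw [← cm d hd, this])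
    have hc' : ∀ x, m (ω • x) = c • m x := fun x => by
      rw [← hc, Perm.inv_def, symm_apply_apply]
    rcases K4c c with rfl | rfl | rfl | rfl
    · have := hc' (ev 0)
      rw [zero_smul, ← add0 (add m hm), m.apply_eq_iff_eq] at this
      exact absurd this (by decide +kernel)
    · have := hc' (ev 0)
      rw [one_smul, m.apply_eq_iff_eq] at this
      exact absurd this (by decide +kernel)
    · exact Or.inl (lin_of (add m hm) (qf m hm) hc')
    · exact Or.inr (alin_of (add m hm) (qf m hm) hc')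
  · obtain ⟨c, -, δ, hδ, s⟩ := lin_sc l
    have e : ∀ x, (m * δ⁻¹) x = c • x := fun x => by
      rw [Perm.mul_apply, s, Perm.inv_def, apply_symm_apply]
    have := cen _ (R.mul_mem hm (R.inv_mem (le (gl hδ)))) fun h hh => Equiv.ext fun x => by
      rw [Perm.mul_apply, e, Perm.mul_apply, e, (L h hh).smul]
    rw [mul_inv_eq_one.1 this]; exact hδ

end U6A
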