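import Cfsg.Agent.U6.A4
import Cfsg.Agent.U6.AV3

/-! The module `Q/⟨z⟩` is the natural unitary module or has a two-dimensional fixed space. -/

set_option autoImplicit false
namespace U6A
open U6 Equiv Subgroup
open X9 (bb mcs)
universe u
variable {G : Type u} [Group G]

theorem sp_fix {U : Type*} (σ : Sp →* Perm U) (fx : ∀ i j u, σ (tt i) u = u → σ (tt j) u = u)
    (g : Sp) {u : U} (h : σ (tt 0) u = u) : σ g u = u := by
  let N : Subgroup Sp :=
    { carrier := {g | ∀ u, σ (tt 0) (σ g u) = σ g u ↔ σ (tt 0) u = u}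
      one_mem' := fun u => by simp
      mul_mem' := fun {a b} ha hb u => by rw [map_mul, Perm.mul_apply, ha, hb]
      inv_mem' := fun {a} ha u => by rw [← ha]; simp }
  have k : ∀ i w, fm (w4 i) w = 0 → tw w ∈ N := fun i w e u => by
    have : ∀ v, σ (tt 0) v = v ↔ σ (tt i) v = v := fun v => ⟨fx _ _ v, fx _ _ v⟩
    rw [this, this, ← Perm.mul_apply, ← map_mul, tt, tw_comm e, map_mul, Perm.mul_apply,
      (σ (tw w)).injective.eq_iff]
  have hN : ∀ g, g ∈ N := gen fun n => match n with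
    | 0 => k 0 _ (by decide)
    | 1 => k 0 _ (by decide)
    | 2 => k 0 _ (by decide)
    | 3 => k 0 _ (by decide)
    | _ + 4 => k 1 (cw 4) (by decide)
  let K : Subgroup Sp :=
    { carrier := {g | ∀ u, σ (tt 0) u = u → σ g u = u}
      one_mem' := fun u _ => by simp
      mul_mem' := fun {a b} ha hb u h => by rw [map_mul, Perm.mul_apply, hb u h, ha u h]
      inv_mem' := fun {a} ha u h => by rw [map_inv, Perm.inv_eq_iff_eq, ha u h] }
  refine gen (K := K) (fun n u hu => ?_) g u h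
  obtain ⟨a, e⟩ := exists_conj (cw n) (match n with
    | 0 => by decide
    | 1 => by decide
    | 2 => by decide
    | 3 => by decide
    | _ + 4 => show cw 4 ≠ 0 by decide)
  refine (σ a).injective ?_
  rw [← Perm.mul_apply, ← map_mul, e, map_mul, Perm.mul_apply]
  exact (hN a u).2 hu

theorem sp_pf (f : Sp →* ℤˣ) (g : Sp) : f g = 1 := gen (K := f.ker) (fun n => by
  have := congrArg f (tw_cube (cw n))
  rwa [map_mul, map_mul, Int.units_mul_self, one_mul, map_one] at this) g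

end U6A

namespace U6
open U6A Equiv Subgroup
open X9 (bb mcs)
universe u
variable {G : Type u} [Group G]

theorem modA [Finite G] {F : Type*} [Field F] [Fintype F] (hF : Fintype.card F = 3) {z : G}
    {Q H0 : Subgroup G} (h : Hyp F z Q H0) :
    (∃ S : St z, S.Q = Q ∧ ∀ m, Commute m z → (Lin (S.π m) ↔ m ∈ H0)) ∨
      ∃ x y, Six z Q H0 x y := by
  classical
  obtain ⟨U, _, ⟨L⟩⟩ := layer h.es h.card h.nq h.hc
  let _ := X9.zm L.two
  have le : H0 ≤ centralizer {z} := fun a ha => mcs.2 (h.Hz ha)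
  let ε := spCongr (FiniteField.ringEquivOfCardEq (K := K3) (K' := F) (by rw [hF, ZMod.card]))
  let ψ : Sp →* Cfsg.PSp 2 F := (QuotientGroup.mk' _).comp ε.toMonoidHom
  have ψs : Function.Surjective ψ :=
    (QuotientGroup.mk'_surjective _).comp (MulEquiv.surjective _)
  have ψk : ∀ g, ψ g = 1 → g ∈ center Sp := fun g e =>
    (MulEquivClass.apply_mem_center_iff ε).1 ((QuotientGroup.eq_one_iff (ε g)).1 e)
  have lift : ∀ {X : Type u} [Group X] (f : H0 →* X), (∀ a : H0, a.1 ∈ Q → f a = 1) →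
      ∃ σ : Sp →* X, (∀ g, ∃ a, h.φ a = ψ g ∧ σ g = f a) ∧ ∀ a, ∃ g, σ g = f a := fun f hf => by
    have e := h.φ.liftOfRightInverse_comp_apply _ (Function.rightInverse_surjInv h.sj)
      ⟨f, fun a ha => hf a ((h.ker a).1 ha)⟩
    refine ⟨(h.φ.liftOfSurjective h.sj ⟨f, fun a ha => hf a ((h.ker a).1 ha)⟩).comp ψ,
      fun g => ?_, fun a => ?_⟩
    · obtain ⟨a, ha⟩ := h.sj (ψ g)
      exact ⟨a, ha, by rw [MonoidHom.comp_apply, ← ha]; exact e a⟩
    · obtain ⟨g, hg⟩ := ψs (h.φ a)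
      exact ⟨g, by rw [MonoidHom.comp_apply, hg]; exact e a⟩
  obtain ⟨σ, s1, s2⟩ := lift (L.α.comp (inclusion le)) fun a ha => (L.ak _).2 ha
  have σk : ∀ g, σ g = 1 → g ∈ center Sp := fun g e => by
    obtain ⟨a, b, c⟩ := s1 g
    exact ψk g (b ▸ (h.ker a).2 ((L.ak (inclusion le a)).1 (c.symm.trans e)))
  have σa : ∀ g x y, σ g (x + y) = σ g x + σ g y := fun g x y => by
    obtain ⟨a, -, c⟩ := s1 g
    rw [c]; exact L.add _ x y
  have nc : ∀ v w, fm v w ≠ 0 → σ (tw v) * σ (tw w) ≠ σ (tw w) * σ (tw v) := fun v w e c =>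
    not_comm e (σk _ (by simp only [map_mul, map_inv, c]; group))
  have mu : ∀ a b u, σ a (σ b u) = σ (a * b) u := fun a b u => by rw [map_mul]; rfl
  let M : Tr U :=
    { t := fun i => AddMonoidHom.mk' (σ (tt i)) (σa _)
      card := L.card
      cm := fun i j u => by simp only [AddMonoidHom.mk'_apply, mu, tt_comm i j]
      cu := fun i u => by
        simp only [AddMonoidHom.mk'_apply, mu, ← mul_assoc, tt, tw_cube, map_one, Perm.one_apply]
      pr := fun u => by
        simp only [AddMonoidHom.mk'_apply, mu, ← mul_assoc, tt_prod, map_one, Perm.one_apply]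
      pm := fun s => by
        obtain ⟨g, hg⟩ := exists_perm s
        exact ⟨{ σ g with map_add' := σa g }, fun i u => (mu _ _ u).trans (hg i ▸ (mu _ _ u).symm)⟩
      ne := by
        by_contra c
        push Not at c
        have : σ (tw (w4 0)) = 1 := Equiv.ext c
        exact nc (w4 0) (cw 4) (by decide) (by rw [this, one_mul, mul_one]) }
  have QM : ∀ {q}, q ∈ Q → Commute q z := fun hq => h.es.cent _ hq
  by_cases hW : ∀ x, M.Wt 0 x → x = 0
  · right
    have fx := M.fixall hW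
    obtain ⟨a0, -, e0⟩ := s1 (tt 0)
    obtain ⟨x, y, hx, hy, xy, all⟩ := M.six fx L.Bl L.nd fun x => by
      show L.q (σ (tt 0) x) = _
      rw [e0]; exact L.qi _ x
    obtain ⟨x, xQ, rfl⟩ := L.rs x
    obtain ⟨y, yQ, rfl⟩ := L.rs y
    have f : ∀ a ∈ Q, M.t 0 (L.r a) = L.r a → ∀ k ∈ H0, k * a * k⁻¹ = a ∨ k * a * k⁻¹ = a * z :=
      fun a aQ e k hk => L.eqr _ aQ _ (h.nq (h.Hz hk) aQ) (by
        obtain ⟨g, hg⟩ := s2 ⟨k, hk⟩
        rw [← sp_fix σ fx g e, hg]; exact L.ar _ a aQ)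
    have n : ¬ Commute x y := fun c => xy ((L.br x xQ y yQ).2 c)
    refine ⟨x, y, xQ, yQ, n, f x xQ hx, f y yQ hy, fun q hq e => ?_, fun f hf a => ?_⟩
    · have mx : x ∈ closure ({x, y} : Set G) := subset_closure (Or.inl rfl)
      have my : y ∈ closure ({x, y} : Set G) := subset_closure (Or.inr rfl)
      have mz : z ∈ closure ({x, y} : Set G) := by
        rw [show z = x * y * x⁻¹ * y⁻¹ by rw [h.es.conj_eq xQ yQ n]; group]
        exact mul_mem (mul_mem (mul_mem mx my) (inv_mem mx)) (inv_mem my)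
      have k : ∀ a ∈ Q, a ∈ closure ({x, y} : Set G) → L.r q = L.r a →
          q ∈ closure ({x, y} : Set G) := fun a aQ ha c => by
        rcases L.eqr a aQ q hq c.symm with rfl | rfl
        exacts [ha, mul_mem ha mz]
      rcases all (L.r q) (by
        show σ (tt 0) _ = _
        rw [e0]
        refine (L.ar _ q hq).trans ?_
        rcases e a0 a0.2 with c | c <;> refine (congrArg L.r c).trans ?_
        · rfl
        · rw [L.rm q hq z h.es.mem, (L.rk z h.es.mem).2 (Or.inr rfl), add_zero]) with c | c | c | c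
      · exact k 1 (one_mem _) (one_mem _) (c.trans ((L.rk 1 (one_mem _)).2 (Or.inl rfl)).symm)
      · exact k x xQ mx c
      · exact k y yQ my c
      · exact k _ (mul_mem xQ yQ) (mul_mem mx my) (c.trans (L.rm x xQ y yQ).symm)
    · obtain ⟨σ', -, t⟩ := lift ((MulEquiv.ulift.symm.toMonoidHom : ℤˣ →* ULift.{u} ℤˣ).comp f)
        fun a ha => by rw [MonoidHom.comp_apply, hf a ha, map_one]
      obtain ⟨g, hg⟩ := t a
      have := sp_pf (MulEquiv.ulift.toMonoidHom.comp σ') g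
      rw [MonoidHom.comp_apply, hg] at this
      exact this
  left
  push Not at hW
  obtain ⟨x0, w0, n0⟩ := hW
  obtain ⟨φ, hφ⟩ := M.case1 n0 w0
  let c : Perm U ≃* Perm V := φ.toEquiv.symm.permCongrHom
  have ce : ∀ γ x, c γ x = φ.symm (γ (φ x)) := fun _ _ => rfl
  let A := c.toMonoidHom.comp L.α
  let B := c.toMonoidHom.comp σ
  have BA : ∀ g, ∃ a : H0, B g = A (inclusion le a) := fun g =>
    (s1 g).imp fun a e => congrArg c e.2
  have AB : ∀ a : H0, ∃ g, B g = A (inclusion le a) := fun a => (s2 a).imp fun g e => congrArg c e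
  have Ak : ∀ m, A m = 1 ↔ m.1 ∈ Q := fun m => (map_eq_one_iff _ c.injective).trans (L.ak m)
  have nc' : ∀ v w, fm v w ≠ 0 → B (tw v) * B (tw w) ≠ B (tw w) * B (tw v) := fun v w e k =>
    nc v w e (c.injective (by rw [map_mul, map_mul]; exact k))
  have cj : ∀ w, w ≠ 0 → ∃ g ∈ B.range, g * B (tw w) = B (tt 0) * g := fun w w0 => by
    obtain ⟨g, e⟩ := exists_conj w w0
    exact ⟨B g, ⟨g, rfl⟩, by rw [← map_mul, e, map_mul]; rfl⟩
  obtain ⟨v1, v2, v3, v4, v5⟩ := vmain (R := A.range) (Λ := B.range) (q := fun x => L.q (φ x))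
    (θ := fun i => B (tt i)) (T1 := B (tw (cw 4))) (T2 := B (tw (cw 3)))
    (by rintro _ ⟨m, rfl⟩ x y; exact (ce _ _).trans (by rw [map_add, L.add, map_add]; rfl))
    (fun x y w => by simpa only [bb, map_add] using L.Bl (φ x) (φ y) (φ w))
    (fun x e => (map_eq_zero_iff _ φ.injective).1 (L.nd _ fun y => by
      simpa only [bb, map_add, φ.apply_symm_apply] using e (φ.symm y)))
    (by
      rintro _ ⟨m, rfl⟩ x
      exact (congrArg L.q (φ.apply_symm_apply _)).trans (L.qi m _))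
    (by rintro _ ⟨g, rfl⟩; exact (BA g).elim fun a e => ⟨_, e.symm⟩)
    (by
      rintro _ ⟨m, rfl⟩ _ ⟨g, rfl⟩
      obtain ⟨a, e⟩ := BA g
      obtain ⟨g', e'⟩ := AB ⟨_, h.nH (mcs.1 m.2) a.2⟩
      exact ⟨g', by rw [e', e, ← map_inv, ← map_mul, ← map_mul]; rfl⟩)
    (by
      rintro _ ⟨m, rfl⟩ e
      refine (Ak m).2 (h.cen _ (mcs.1 m.2) fun k hk =>
        (Ak (m * inclusion le ⟨k, hk⟩ * m⁻¹ * (inclusion le ⟨k, hk⟩)⁻¹)).1 ?_)
      obtain ⟨g, e'⟩ := AB ⟨k, hk⟩
      simp only [map_mul, map_inv, ← e', e _ ⟨g, rfl⟩]; group)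
    (fun i => ⟨⟨_, rfl⟩, fun x => φ.symm_apply_eq.2 (hφ i x)⟩)
    (fun K k0 k1 k2 => by
      rintro _ ⟨g, rfl⟩
      exact gen (K := K.comap B) (fun n => match n with
        | 0 => k0 0
        | 1 => k0 1
        | 2 => k0 2
        | 3 => k2
        | _ + 4 => k1) g)
    (cj _ (by decide)) (cj _ (by decide))
    (by rw [← map_mul, ← map_mul, tt, tw_comm (by decide)]) (nc' _ _ (by decide))
    (by rw [← map_mul, ← map_mul, tt, tw_comm (by decide)]) (nc' _ _ (by decide))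
  let π : G → Perm V := fun m => if e : Commute m z then A ⟨m, mcs.2 e⟩ else 1
  have πe : ∀ {m} (e : Commute m z), π m = A ⟨m, mcs.2 e⟩ := fun e => dif_pos e
  refine ⟨{
    Q := Q
    π := π
    ρ := fun q => φ.symm (L.r q)
    z2 := h.es.sq_z
    z1 := h.es.ne
    zQ := h.es.mem
    QM := QM
    pm := fun ha hb => by rw [πe ha, πe hb, πe (ha.mul_left hb), ← map_mul]; rfl
    pk := fun ha => by rw [πe ha, Ak]
    ps := fun hγ => by
      obtain ⟨g, rfl⟩ := v2 hγ
      obtain ⟨a, e⟩ := BA g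
      exact ⟨a, h.Hz a.2, (πe (h.Hz a.2)).trans e.symm⟩
    rm := fun ha hb => by rw [L.rm _ ha _ hb, map_add]
    rk := fun ha => by rw [← L.rk _ ha, map_eq_zero_iff _ φ.symm.injective]
    rs := fun v => by
      obtain ⟨q, hq, e⟩ := L.rs (φ v)
      exact ⟨q, hq, by rw [e, φ.symm_apply_apply]⟩
    rc := fun hm hq => by
      rw [πe hm]
      refine Eq.trans ?_ (ce _ _).symm
      rw [φ.apply_symm_apply, L.ar _ _ hq]
    sq := fun hq => by rw [← v1, φ.apply_symm_apply, L.qr _ hq]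
    sl := fun hm => by rw [πe hm]; exact v3 _ ⟨_, rfl⟩
    ns := fun hm => by rw [πe hm]; exact v4 _ ⟨_, rfl⟩ }, rfl, fun m hm => ?_⟩
  show Lin (π m) ↔ _
  rw [πe hm]
  refine ⟨fun l => ?_, fun k => (AB ⟨m, k⟩).elim fun g e => v5 _ ⟨g, e⟩⟩
  obtain ⟨g, e⟩ := v2 (v4 _ ⟨_, rfl⟩ l)
  obtain ⟨a, e'⟩ := BA g
  have := h.QH ((Ak (⟨m, mcs.2 hm⟩ * (inclusion le a)⁻¹)).1 (by
    rw [map_mul, map_inv, ← e, ← e', mul_inv_cancel]))
  simpa using mul_mem this a.2

end U6
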