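import Cfsg.Agent.U6.CK
import Cfsg.Agent.U6.A0

/-! The elements `θ_d` of `SU₄(2)`. -/

set_option autoImplicit false
set_option maxRecDepth 100000
namespace U6A
open U6 Equiv

def tf (d x : V) : V := ω • x + (ω * ω * hf x d) • d

variable {γ δ : Perm V} {d e : V}

theorem Th.ap (h : Th γ d) (x : V) : γ x = tf d x := h x
theorem Th.eq (h : Th γ d) (k : Th δ d) : γ = δ := Equiv.ext fun x => (h x).trans (k x).symm
theorem Th.sc (h : Th γ d) {c : K4} (c0 : c ≠ 0) : Th γ (c • d) := fun x => by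
  rw [h, hf_smulr, smul_smul]
  congr 2
  rw [mul_comm (cj c), ← mul_assoc, mul_assoc _ (cj c), mul_comm (cj c), mul_cj c c0, mul_one]
theorem k_lin : ∀ a b c : K4, cj ω * (ω * a + ω * ω * b * c) +
    cj (ω * ω * cj c) * (ω * b + ω * ω * b * 1) = a := by decide +kernel
theorem Th.lin (h : Th γ d) (u : hf d d = 1) : Lin γ := fun x y => by
  rw [h, h]
  simp only [hf_addl, hf_addr, hf_smull, hf_smulr, u]
  rw [hf_cj d y]
  exact k_lin _ _ _
theorem Th.conj (h : Th γ d) (k : Lin δ) : Th (δ * γ * δ⁻¹) (δ d) := fun x => by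
  obtain ⟨x, rfl⟩ := δ.surjective x
  rw [Perm.mul_apply, Perm.mul_apply, Perm.inv_def, symm_apply_apply, h, SL.add (Or.inl k),
    k.smul, k.smul, k]
theorem tf_perp {x : V} (h : hf x d = 0) : tf d x = ω • x := by
  rw [tf, h, mul_zero, zero_smul, add_zero]
theorem k_fx : ∀ a : K4, ω * a + ω * ω * (a * 1) = a := by decide +kernel
theorem tf_self (u : hf d d = 1) (c : K4) : tf d (c • d) = c • d := by
  rw [tf, hf_smull, u, smul_smul, ← add_smul, k_fx]
theorem tf_fix {x : V} (h : tf d x = x) : x = hf x d • d := by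
  have e : (ω * ω) • x = (ω * ω) • hf x d • d := by
    rw [smul_smul, ωω, add_smul, one_smul, ← ωω]
    nth_rw 2 [← h]
    rw [tf, V2']
  exact smul_right_injective V (mul_ne_zero ω0 ω0) e
theorem tf3 (u : hf d d = 1) (x : V) : tf d (tf d (tf d x)) = x := by
  simp only [tf, hf_addl, hf_smull, u]
  generalize hf x d = a
  match_scalars
  · decide +kernel
  · revert a; decide +kernel
theorem tf_sum (u : hf d d = 1) (x : V) : x + tf d x + tf d (tf d x) = hf x d • d := by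
  simp only [tf, hf_addl, hf_smull, u]
  generalize hf x d = a
  match_scalars
  · decide +kernel
  · revert a; decide +kernel
theorem tf_tau {p : V} (u : hf d d = 1) (hp : hf p p = 0) (h : hf d p = 0) (x : V) :
    tf d (tf (d + p) (tf d (tf (d + p) (tf d (tf (d + p) x))))) = x + hf x p • p := by
  have A : ∀ x, tf d (tf (d + p) x) = (ω * ω) • x + (ω * hf x d + ω * ω * hf x p) • d +
      (hf x d + hf x p) • p := fun x => by
    simp only [tf, hf_addl, hf_addr, hf_smull, u, hf_symm h]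
    generalize hf x d = a
    generalize hf x p = b
    match_scalars
    · decide +kernel
    · revert a b; decide +kernel
    · revert a b; decide +kernel
  simp only [A, hf_addl, hf_smull, u, hp, h, hf_symm h]
  generalize hf x d = a
  generalize hf x p = b
  match_scalars
  · decide +kernel
  · revert a b; decide +kernel
  · revert a b; decide +kernel

/-- `θ_d ∈ K` -/
def In (K : Subgroup (Perm V)) (d : V) : Prop := hf d d = 1 ∧ ∃ γ ∈ K, Th γ d
variable {K : Subgroup (Perm V)}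
theorem In.act (h : In K d) (hδ : δ ∈ K) (k : Lin δ) : In K (δ d) := by
  obtain ⟨u, γ, hγ, t⟩ := h
  exact ⟨(k d d).trans u, _, K.mul_mem (K.mul_mem hδ hγ) (K.inv_mem hδ), t.conj k⟩
theorem In.tf (h : In K d) (k : In K e) : In K (tf e d) := by
  obtain ⟨u, γ, hγ, t⟩ := k
  rw [← t.ap]; exact h.act hγ (t.lin u)
theorem In.it (h : In K d) (k : In K e) (n : ℕ) : In K ((U6A.tf e)^[n] d) := by
  induction n with
  | zero => exact h
  | succ n ih => rw [Function.iterate_succ_apply']; exact ih.tf k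
theorem In.sc (h : In K d) {c : K4} (c0 : c ≠ 0) : In K (c • d) := by
  obtain ⟨u, γ, hγ, t⟩ := h
  exact ⟨(qf_smul c0 d).trans u, γ, hγ, t.sc c0⟩
def Rel (u d : V) : Prop := ∃ i j k : Fin 3, ∃ s : K4, s ≠ 0 ∧
  d = s • (tf (ev 0))^[i] ((tf (ev 1))^[j] ((tf (ev 2))^[k] u))
instance decRel (u d : V) : Decidable (Rel u d) := by unfold Rel; infer_instance
theorem In.rel (h : In K d) (k : ∀ i, In K (ev i)) (r : Rel d e) : In K e := by
  obtain ⟨i, j, l, s, s0, rfl⟩ := r
  exact (((h.it (k 2) l).it (k 1) j).it (k 0) i).sc s0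
def P0 (u : V) : Prop := u.1 = 0 ∧ u.2.1 ≠ 0 ∧ u.2.2.1 ≠ 0 ∧ u.2.2.2 ≠ 0
def P1 (u : V) : Prop := u.1 ≠ 0 ∧ u.2.1 = 0 ∧ u.2.2.1 ≠ 0 ∧ u.2.2.2 ≠ 0
instance decP0 (u : V) : Decidable (P0 u) := by unfold P0; infer_instance
instance decP1 (u : V) : Decidable (P1 u) := by unfold P1; infer_instance
theorem k_r0 : ∀ u, P0 u → Rel u (0, 1, 1, 1) := by decide +kernel
theorem k_r1 : ∀ u, P1 u → Rel u (1, 0, 1, ω) ∧ Rel u (1, 0, ω, 1) := by decide +kernel
theorem k_r2 : ∀ d, hf d d = 1 → (∃ i, ∃ c : K4, c ≠ 0 ∧ d = c • ev i) ∨ Rel (0, 1, 1, 1) d ∨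
    Rel (1, 0, 1, ω) d ∨ Rel (tf (0, 1, 1, 1) (1, 0, 1, ω)) d ∨
    Rel (tf (0, 1, 1, 1) (1, 0, ω, 1)) d := by decide +kernel
theorem all_in (k : ∀ i, In K (ev i)) {u v : V} (hu : In K u) (pu : P0 u) (hv : In K v) (pv : P1 v)
    (h : hf d d = 1) : In K d := by
  have a := hu.rel k (k_r0 u pu)
  have b := hv.rel k (k_r1 v pv).1
  have c := hv.rel k (k_r1 v pv).2
  rcases k_r2 d h with ⟨i, c, c0, rfl⟩ | r | r | r | r
  exacts [(k i).sc c0, a.rel k r, b.rel k r, (b.tf a).rel k r, (c.tf a).rel k r]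
theorem Γ0_le (h : ∀ d, hf d d = 1 → In K d) : Γ0 ≤ K := by
  refine (Subgroup.closure_le K).2 ?_
  rintro τ ⟨p, hp, t⟩
  obtain ⟨d, dp, u⟩ := k_unit p hp
  obtain ⟨-, γ, hγ, a⟩ := h d u
  obtain ⟨-, δ, hδ, b⟩ := h (d + p) (by rw [qf_add, u, hp, bf_of_hf dp, add_zero, add_zero])
  have : τ = γ * δ * (γ * δ) * (γ * δ) := Equiv.ext fun x => by
    simp only [Perm.mul_apply, a.ap, b.ap, tf_tau u hp dp, t x]
  have m := K.mul_mem hγ hδ
  exact this ▸ K.mul_mem (K.mul_mem m m) m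

theorem in_perp (h : In Γ0 e) (u : hf d d = 1) (p : hf e d = 0) : In Γ0 d := by
  have i : hf (e + d) (e + d) = 0 := by rw [qf_add, h.1, u, bf_of_hf p, K2, add_zero]
  have := h.act ((tv_τ i).mem i) ((tv_τ i).lin i)
  rwa [tv_τ i, hf_addr, h.1, p, add_zero, one_smul, V2'] at this
theorem in0 : In Γ0 (ev 0) := by
  have a : hf (0, 1, 1, 0) (0, 1, 1, 0) = 0 := by decide +kernel
  have b : hf (0, 1, ω, 0) (0, 1, ω, 0) = 0 := by decide +kernel
  have c : hf (0, 0, 1, 1) (0, 0, 1, 1) = 0 := by decide +kernel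
  have d : hf (0, 0, ω, 1) (0, 0, ω, 1) = 0 := by decide +kernel
  refine ⟨by decide +kernel, τ _ a * τ _ b * (τ _ c * τ _ d), Γ0.mul_mem
    (Γ0.mul_mem ((tv_τ a).mem a) ((tv_τ b).mem b)) (Γ0.mul_mem ((tv_τ c).mem c) ((tv_τ d).mem d)),
    fun x => ?_⟩
  simp only [Perm.mul_apply, tv_τ a _, tv_τ b _, tv_τ c _, tv_τ d _]
  revert x; decide +kernel
theorem inΓ (u : hf d d = 1) : In Γ0 d := by
  have h1 : In Γ0 (ev 1) := in_perp in0 (by decide +kernel) (by decide +kernel)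
  refine all_in (u := (0, 1, 1, 1)) (v := (1, 0, 1, 1)) (fun i => ?_)
    (in_perp in0 (by decide +kernel) (by decide +kernel)) (by decide +kernel)
    (in_perp h1 (by decide +kernel) (by decide +kernel)) (by decide +kernel) u
  fin_cases i
  exacts [in0, h1, in_perp in0 (by decide +kernel) (by decide +kernel),
    in_perp in0 (by decide +kernel) (by decide +kernel)]

end U6A
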