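import Cfsg.Agent.U6.AV1

/-! `GU₄(2) = Z × SU₄(2)` and additive maps commuting with the `θ_d`. -/

set_option autoImplicit false
set_option maxRecDepth 100000
namespace U6A
open U6 Equiv

variable {γ δ : Perm V} {d e : V}

/-- `γ` is a scalar multiple of an element of `Γ0` -/
def Sc (γ : V → V) : Prop := ∃ c : K4, c ≠ 0 ∧ ∃ δ ∈ Γ0, ∀ x, γ x = c • δ x
theorem Sc.comp {f g : V → V} (h : Sc f) (k : Sc g) : Sc (f ∘ g) := by
  obtain ⟨c, c0, a, ha, h⟩ := h
  obtain ⟨c', c0', b, hb, k⟩ := k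
  exact ⟨c * c', mul_ne_zero c0 c0', a * b, Γ0.mul_mem ha hb, fun x => by
    rw [Function.comp, h, k, (Γ0_lin ha).smul, smul_smul, Perm.mul_apply]⟩
theorem Sc.hf {f : V → V} (h : Sc f) (x y : V) : hf (f x) (f y) = hf x y := by
  obtain ⟨c, c0, a, ha, h⟩ := h
  rw [h, h, hf_smull, hf_smulr, ← mul_assoc, mul_cj c c0, one_mul, Γ0_lin ha]
theorem sc_r (u : hf d d = 1) : Sc fun x => x + (ω * hf x d) • d := by
  obtain ⟨-, γ, hγ, t⟩ := inΓ u
  refine ⟨ω * ω, mul_ne_zero ω0 ω0, γ, hγ, fun x => ?_⟩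
  simp only [t x]
  generalize hf x d = a
  match_scalars
  · decide +kernel
  · revert a; decide +kernel
theorem sc_r2 (u : hf d d = 1) : Sc fun x => x + (ω * ω * hf x d) • d := by
  convert (sc_r u).comp (sc_r u) using 2 with x
  simp only [Function.comp, hf_addl, hf_smull, u]
  generalize hf x d = a
  match_scalars
  · decide +kernel
  · revert a; decide +kernel
def Mv (v e : V) : Prop := ∃ f, Sc f ∧ f v = e ∧ ∀ x, hf x v = 0 → hf x e = 0 → f x = x
theorem mv_ω {v : V} (u : hf v v = 1) (w : hf e e = 1) (h : hf v e = ω ∨ hf v e = ω + 1) :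
    Mv v e := by
  have n : hf (v + e) (v + e) = 1 := by
    rw [qf_add, u, w, bf_eq]; rcases h with h | h <;> rw [h] <;> decide +kernel
  rcases h with h | h
  · refine ⟨_, sc_r n, ?_, fun x a b => ?_⟩
    · rw [hf_addr, u, h, show ω * (1 + ω) = 1 by decide +kernel, one_smul, V2']
    · rw [hf_addr, a, b, add_zero, mul_zero, zero_smul, add_zero]
  · refine ⟨_, sc_r2 n, ?_, fun x a b => ?_⟩
    · rw [hf_addr, u, h, show ω * ω * (1 + (ω + 1)) = 1 by decide +kernel, one_smul, V2']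
    · rw [hf_addr, a, b, add_zero, mul_zero, zero_smul, add_zero]
theorem mv {v : V} (u : hf v v = 1) (w : hf e e = 1) : Mv v e := by
  rcases K4c (hf v e) with h | h | h
  · have i : hf (v + e) (v + e) = 0 := by rw [qf_add, u, w, bf_of_hf h, K2, add_zero]
    refine ⟨τ _ i, ⟨1, one_ne_zero, _, (tv_τ i).mem i, fun x => (one_smul _ _).symm⟩, ?_,
      fun x a b => ?_⟩
    · rw [tv_τ i, hf_addr, u, h, add_zero, one_smul, V2']
    · rw [tv_τ i, hf_addr, a, b, add_zero, zero_smul, add_zero]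
  · have e1 : v + (ω * hf v v) • v = (ω + 1) • v := by
      rw [u, mul_one, add_smul, one_smul, add_comm]
    obtain ⟨f, s, f1, f2⟩ := mv_ω (v := (ω + 1) • v) (e := e)
      ((qf_smul (by decide +kernel) v).trans u) w (Or.inr (by rw [hf_smull, h, mul_one]))
    refine ⟨_, s.comp (sc_r u), ?_, fun x a b => ?_⟩
    · simp only [Function.comp, e1, f1]
    · simp only [Function.comp, a, mul_zero, zero_smul, add_zero]
      exact f2 x (by rw [hf_smulr, a, mul_zero]) b
  · exact mv_ω u w h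
theorem ev_hf : ∀ i j, hf (ev i) (ev j) = if i = j then 1 else 0 := by decide +kernel
theorem ev_u (i : Fin 4) : hf (ev i) (ev i) = 1 := by rw [ev_hf, if_pos rfl]
theorem ev_p {i j : Fin 4} (h : i ≠ j) : hf (ev i) (ev j) = 0 := by rw [ev_hf, if_neg h]
theorem ev_sum (x : V) : x = x.1 • ev 0 + x.2.1 • ev 1 + x.2.2.1 • ev 2 + x.2.2.2 • ev 3 := by
  obtain ⟨a, b, c, d⟩ := x; simp [ev]
theorem lin_sc (h : Lin γ) : Sc γ := by
  have st : ∀ n : ℕ, n ≤ 4 → ∃ f, Sc f ∧ ∀ i : Fin 4, i.1 < n → f (γ (ev i)) = ev i := by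
    intro n
    induction n with
    | zero => exact fun _ => ⟨id, ⟨1, one_ne_zero, 1, Γ0.one_mem, fun x => (one_smul _ _).symm⟩,
        fun i hi => absurd hi (Nat.not_lt_zero _)⟩
    | succ n ih =>
      intro hn
      obtain ⟨f, s, hf'⟩ := ih (by omega)
      obtain ⟨g, t, g1, g2⟩ := mv (v := f (γ (ev ⟨n, hn⟩))) (e := ev ⟨n, hn⟩)
        (by rw [s.hf, h, ev_u]) (ev_u _)
      refine ⟨g ∘ f, t.comp s, fun i hi => ?_⟩
      by_cases e : i = ⟨n, hn⟩
      · rw [e]; exact g1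
      · have hi' : i.1 < n := lt_of_le_of_ne (by omega) fun k => e (Fin.ext k)
        have := hf' i hi'
        rw [Function.comp, this]
        refine g2 _ ?_ (ev_p e)
        rw [← this, s.hf, h, ev_p e]
  obtain ⟨f, ⟨c, c0, δ, hδ, s⟩, k⟩ := st 4 le_rfl
  have L := (Γ0_lin hδ).mul h
  have k' : ∀ i, (δ * γ) (ev i) = c⁻¹ • ev i := fun i => by
    conv_rhs => rw [← k i i.2, s, smul_smul, inv_mul_cancel₀ c0, one_smul]
    rfl
  refine ⟨c⁻¹, inv_ne_zero c0, δ⁻¹, Γ0.inv_mem hδ, fun x => ?_⟩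
  rw [← (Γ0_lin hδ).inv.smul, Perm.eq_inv_iff_eq, ← Perm.mul_apply]
  have a := SL.add (Or.inl L)
  rw [ev_sum x, a, a, a, L.smul, L.smul, L.smul, L.smul, k', k', k', k']
  simp only [smul_add, smul_comm c⁻¹]

/-! ### Additive maps -/

def t4 (a b c : K4) : K4 := if c = 0 then 0 else if c = 1 then a else if c = ω then b else a + b
theorem k_t4 : ∀ a b : K4, (∀ c, t4 a b (t4 a b (t4 a b c)) = c) →
    ∀ c, t4 a b (ω * c) = ω * t4 a b c := by decide +kernel
theorem add0 {T : V → V} (a : ∀ x y, T (x + y) = T x + T y) : T 0 = 0 := by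
  rw [← V2 0, a, V2, V2]
theorem comm_μ {T : V → V} (a : ∀ x y, T (x + y) = T x + T y) (c : ∀ x, T (T (T x)) = x)
    (u : hf d d = 1) (h : ∀ x, T (tf d x) = tf d (T x)) (x : V) : T (ω • x) = ω • T x := by
  have d0 : d ≠ 0 := fun e => by rw [e, hf0l] at u; exact zero_ne_one u
  have p : ∀ x, hf x d = 0 → T (ω • x) = ω • T x := fun x p => by
    have := congrArg T (tf_sum u x)
    rw [a, a, h, h, h, tf_sum u, p, zero_smul, add0 a, smul_eq_zero] at this
    rw [← tf_perp p, h, tf_perp (this.resolve_right d0)]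
  have f : ∀ c : K4, T (c • d) = hf (T (c • d)) d • d := fun c =>
    tf_fix (by rw [← h, tf_self u])
  have t : ∀ c : K4, T (c • d) = t4 (hf (T ((1 : K4) • d)) d) (hf (T (ω • d)) d) c • d := fun c => by
    rcases K4c c with rfl | rfl | rfl | rfl
    · rw [zero_smul, add0 a, t4, if_pos rfl, zero_smul]
    · exact f 1
    · exact f ω
    · rw [add_smul, a, f, f 1, ← add_smul, add_comm, f ω, f 1]
      simp only [hf_smull, u, mul_one]; rfl
  generalize hf (T ((1 : K4) • d)) d = α at t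
  generalize hf (T (ω • d)) d = β at t
  have q := k_t4 α β fun x => smul_left_injective K4 d0 (by
    simp only []; rw [← t, ← t, ← t, c])
  have e : x = (x + hf x d • d) + hf x d • d := (V2r _ _).symm
  rw [e, smul_add, a, a, p _ (by rw [hf_addl, hf_smull, u, mul_one, K2]), smul_smul, t, q, t,
    smul_add, smul_smul]
theorem ksmul {T : V → V} (a : ∀ x y, T (x + y) = T x + T y) (h : ∀ x, T (ω • x) = ω • T x)
    (c : K4) (x : V) : T (c • x) = c • T x := by
  rcases K4c c with rfl | rfl | rfl | rfl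
  · rw [zero_smul, add0 a, zero_smul]
  · rw [one_smul, one_smul]
  · exact h x
  · rw [add_smul, add_smul, a, h, one_smul, one_smul]
theorem scalar {T : V → V} (a : ∀ x y, T (x + y) = T x + T y) (h : ∀ x, T (ω • x) = ω • T x)
    (k : ∀ d, hf d d = 1 → T d = hf (T d) d • d) : ∃ c : K4, ∀ x, T x = c • x := by
  have s := ksmul a h
  have e := fun i => k _ (ev_u i)
  have A := k (ev 1 + ev 2 + ev 3) (by decide +kernel)
  have B := k (ev 0 + ev 2 + ev 3) (by decide +kernel)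
  generalize hf (T (ev 1 + ev 2 + ev 3)) _ = α at A
  generalize hf (T (ev 0 + ev 2 + ev 3)) _ = β at B
  rw [a, a, e 1, e 2, e 3] at A
  rw [a, a, e 0, e 2, e 3] at B
  refine ⟨α, fun x => ?_⟩
  rw [ev_sum x, a, a, a, s, s, s, s, e 0, e 1, e 2, e 3]
  generalize hf (T (ev 0)) _ = c0 at *
  generalize hf (T (ev 1)) _ = c1 at *
  generalize hf (T (ev 2)) _ = c2 at *
  generalize hf (T (ev 3)) _ = c3 at *
  simp [ev] at A B
  obtain ⟨rfl, rfl, rfl⟩ := A
  obtain ⟨rfl, rfl, -⟩ := B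
  rw [smul_add, smul_add, smul_add, smul_comm x.1, smul_comm x.2.1, smul_comm x.2.2.1,
    smul_comm x.2.2.2]
theorem k_al : ∀ h h' : K4, h' + cj h' = h + cj h →
    (ω + 1) * h' + cj ((ω + 1) * h') = ω * h + cj (ω * h) → h' = cj h := by decide +kernel
theorem k_li : ∀ h h' : K4, h' + cj h' = h + cj h →
    ω * h' + cj (ω * h') = ω * h + cj (ω * h) → h' = h := by decide +kernel
theorem bf_inv (a : ∀ x y, γ (x + y) = γ x + γ y) (h : ∀ x, hf (γ x) (γ x) = hf x x) (x y : V) :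
    bf (γ x) (γ y) = bf x y := by
  have := h (x + y)
  rwa [a, qf_add, qf_add, h, h, add_right_inj] at this
theorem lin_of (a : ∀ x y, γ (x + y) = γ x + γ y) (h : ∀ x, hf (γ x) (γ x) = hf x x)
    (k : ∀ x, γ (ω • x) = ω • γ x) : Lin γ := fun x y => by
  have b := bf_inv a h x y
  have c := bf_inv a h (ω • x) y
  rw [k] at c
  simp only [bf_eq, hf_smull] at b c
  exact k_li _ _ b c
theorem alin_of (a : ∀ x y, γ (x + y) = γ x + γ y) (h : ∀ x, hf (γ x) (γ x) = hf x x)
    (k : ∀ x, γ (ω • x) = (ω + 1) • γ x) : ALin γ := fun x y => by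
  have b := bf_inv a h x y
  have c := bf_inv a h (ω • x) y
  rw [k] at c
  simp only [bf_eq, hf_smull] at b c
  exact k_al _ _ b c

end U6A
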