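import Cfsg.Agent.U6.St
import Cfsg.Agent.H7.Parity

/-! The case `6 ⊕ 2`: transfer and the calculus modulo `z`. -/

set_option autoImplicit false
set_option linter.unusedSectionVars false
set_option linter.unusedVariables false
open Subgroup MulAction H7

namespace U6.SB

variable {G : Type*} [Group G]

theorem other [Finite G] {H K : Subgroup G} {t : G} (hG : ∀ f : G →* ℤˣ, f t = 1)
    (hK : K.relIndex H = 2) (ht : t ∈ H) (htK : t ∉ K)
    (h : ∀ (g : G) (k : ℕ), g⁻¹ * t ^ k * g ∈ H → g⁻¹ * t * g ∉ H → g⁻¹ * t ^ k * g ∈ K)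
    {S : Subgroup G} (hS : IsPGroup 2 S) (hSH : S ≤ H) (hSt : ∀ s ∈ S, s * t = t * s) :
    ∃ g ∉ H, g⁻¹ * t * g ∈ H ∧ g⁻¹ * t * g ∉ K ∧ ∀ s ∈ S, g⁻¹ * s * g ∈ H := by
  classical
  have : Fact (Nat.Prime 2) := ⟨Nat.prime_two⟩
  have := Fintype.ofFinite (G ⧸ H)
  have hP : ∀ g : G, ∀ x ∈ H, (g⁻¹ * t * g ∈ H ∧ g⁻¹ * t * g ∉ K) →
      ((g * x)⁻¹ * t * (g * x) ∈ H ∧ (g * x)⁻¹ * t * (g * x) ∉ K) := by
    rintro g x hx ⟨h1, h2⟩
    have e : (g * x)⁻¹ * t * (g * x) = x⁻¹ * (g⁻¹ * t * g) * x := by group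
    rw [e, conj_mem_iff_of_relIndex_two hK hx h1]
    exact ⟨mul_mem (mul_mem (inv_mem hx) h1) hx, h2⟩
  have hout : ∀ g : G, (g⁻¹ * t * g ∈ H ∧ g⁻¹ * t * g ∉ K) →
      ((g : G ⧸ H).out⁻¹ * t * (g : G ⧸ H).out ∈ H ∧
        (g : G ⧸ H).out⁻¹ * t * (g : G ⧸ H).out ∉ K) := by
    intro g hg
    obtain ⟨x, hx⟩ := QuotientGroup.mk_out_eq_mul H g
    rw [hx]
    exact hP g x x.2 hg
  let X : SubMulAction S (G ⧸ H) :=
    { carrier := {c | c.out⁻¹ * t * c.out ∈ H ∧ c.out⁻¹ * t * c.out ∉ K}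
      smul_mem' := by
        intro s c hc
        rw [← c.out_eq']
        refine hout (s * c.out) ?_
        have e : ((s : G) * c.out)⁻¹ * t * (s * c.out) = c.out⁻¹ * t * c.out := by
          calc _ = c.out⁻¹ * ((s : G)⁻¹ * (t * s)) * c.out := by group
            _ = _ := by rw [← hSt s s.2, inv_mul_cancel_left]
        rw [e]
        exact hc }
  have h1 := transfer_eq_prod_fixed (H2.signHom (K.subgroupOf H) hK) t
    (fun g k hk hg => H2.signHom_of_mem hK (h g k hk hg))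
  rw [hG] at h1
  have h2 : ∀ c : G ⧸ H, (if hc : c.out⁻¹ * t * c.out ∈ H then
      H2.signHom (K.subgroupOf H) hK ⟨_, hc⟩ else 1) = if c ∈ X then -1 else 1 := by
    intro c
    by_cases hc : c.out⁻¹ * t * c.out ∈ H
    · rw [dif_pos hc]
      by_cases hc' : c.out⁻¹ * t * c.out ∈ K
      · rw [H2.signHom_of_mem hK hc', if_neg fun h => h.2 hc']
      · rw [H2.signHom_of_notMem hK hc', if_pos ⟨hc, hc'⟩]
    · rw [dif_neg hc, if_neg fun h => hc h.1]
  simp_rw [h2] at h1
  rw [Finset.prod_ite, Finset.prod_const_one, mul_one, Finset.prod_const, eq_comm,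
    neg_one_pow_eq_one_iff_even (by decide)] at h1
  have h3 : 2 ∣ Nat.card X := by
    rw [Nat.card_eq_fintype_card, Fintype.card_subtype]
    exact h1.two_dvd
  have h4 : ((1 : G) : G ⧸ H) ∈ X := hout 1 (by simpa using ⟨ht, htK⟩)
  obtain ⟨b, hb, hne⟩ := hS.exists_fixed_point_of_prime_dvd_card_of_fixed_point X h3
    (a := ⟨_, h4⟩) (fun s => Subtype.ext (by
      change (((s : G) * 1 : G) : G ⧸ H) = ((1 : G) : G ⧸ H)
      rw [eq_comm, QuotientGroup.eq]
      simpa using hSH s.2))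
  refine ⟨b.1.out, fun hb' => hne (Subtype.ext ?_), b.2.1, b.2.2, fun s hs => ?_⟩
  · change ((1 : G) : G ⧸ H) = b.1
    rw [← b.1.out_eq', QuotientGroup.eq]
    simpa using hb'
  · have h5 : s • b.1 = b.1 := congrArg Subtype.val (hb ⟨s, hs⟩)
    conv at h5 => rw [← b.1.out_eq', eq_comm]
    rwa [Quotient.smul_coe, QuotientGroup.eq, smul_eq_mul, ← mul_assoc] at h5

theorem transf [Finite G] {Q : Subgroup G} {z t : G} (h : ES Q z)
    (hN : centralizer {z} ≤ normalizer (Q : Set G)) (hC : centralizer (Q : Set G) ≤ Q)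
    (h8 : 8 < Nat.card Q) {K : Subgroup G} (hi : K.relIndex (centralizer {z}) = 2)
    (ht : t ∈ Q) (htK : t ∉ K) (ht2 : t * t = 1) : ∃ f : G →* ℤˣ, f t ≠ 1 := by
  by_contra hG
  push Not at hG
  have hQH : Q ≤ centralizer {z} := fun q hq => mem_centralizer_singleton_iff.mpr (h.cent q hq)
  obtain ⟨g, hg, h1, h2, h3⟩ := other hG hi (hQH ht) htK (fun g k hk hg => by
      rcases Nat.even_or_odd' k with ⟨j, rfl | rfl⟩
      · rw [pow_mul, pow_two, ht2]; simp
      · rw [pow_succ, pow_mul, pow_two, ht2, one_pow, one_mul] at hk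
        exact absurd hk hg)
    (S := Q ⊓ centralizer {t}) (h.isPGroup.to_le inf_le_left) (inf_le_left.trans hQH)
    fun s hs => mem_centralizer_singleton_iff.mp hs.2
  have hc : ∀ d ∈ Q, d * t = t * d → d * (g * z * g⁻¹) = g * z * g⁻¹ * d := fun d hd hdt => by
    have := mem_centralizer_singleton_iff.mp (h3 d ⟨hd, mem_centralizer_singleton_iff.mpr hdt⟩)
    calc _ = g * (g⁻¹ * d * g * z) * g⁻¹ := by group
      _ = _ := by rw [this]; group
  have hu := (h.toSymT.conj g).sq_z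
  have huQ := h.mem_of_centralizes_large hC ht hu
    (hN (mem_centralizer_singleton_iff.mpr (hc z h.mem (h.cent t ht).symm).symm)) hc
  obtain ⟨d, hd, hdt, hd2⟩ : ∃ d ∈ Q, d * t = t * d ∧ d * d ≠ 1 := by
    by_contra hcon
    push Not at hcon
    exact absurd (h.card_le_eight ht ht2 hcon) (by omega)
  have hdz := (h.sq d hd).resolve_left hd2
  have k1 : z ∈ K := hdz ▸ mul_self_mem_of_index_two hi ⟨d, hQH hd⟩
  have k2 : g⁻¹ * z * g ∈ K := by
    have := mul_self_mem_of_index_two hi ⟨_, h3 d ⟨hd, mem_centralizer_singleton_iff.mpr hdt⟩⟩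
    rw [← hdz]
    convert (show g⁻¹ * d * g * (g⁻¹ * d * g) ∈ K from this) using 1
    group
  rcases h.mem_of_centralizes ht ht2 huQ hu hc with e | e
  · rcases h.mem_zpowers_iff.mp e with e | e
    · exact (h.toSymT.conj g).ne e
    · exact hg (mem_centralizer_singleton_iff.mpr (mul_inv_eq_iff_eq_mul.mp e))
  · apply h2
    have e1 : g⁻¹ * t * g = z⁻¹ * (g⁻¹ * (g * z * g⁻¹ * t) * g) := by group
    rw [e1]
    refine mul_mem (inv_mem k1) ?_
    rcases h.mem_zpowers_iff.mp e with e | e <;> rw [e]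
    · simp
    · exact k2

/-- equality modulo `z` -/
def E (z a b : G) : Prop := a = b ∨ a = b * z

/-- `h` fixes `w` modulo `z` -/
abbrev F (z h w : G) : Prop := E z (h * w * h⁻¹) w

open Classical in
/-- the sign of `h` on `w` -/
noncomputable def ch (w h : G) : ℤˣ := if Commute h w then 1 else -1

variable {z a b c d h k w w' : G}

theorem ch_one : ch w h = 1 ↔ Commute h w := by
  unfold ch; split_ifs with e <;> simp [e]

theorem ch_eq (e : Commute h w ↔ Commute k w') : ch w h = ch w' k := by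
  unfold ch
  by_cases e1 : Commute k w'
  · rw [if_pos e1, if_pos (e.2 e1)]
  · rw [if_neg e1, if_neg fun e2 => e1 (e.1 e2)]

theorem ch_mul_of (e : Commute a b ↔ (Commute h w ↔ Commute k w')) :
    ch b a = ch w h * ch w' k := by
  unfold ch
  by_cases e1 : Commute h w <;> by_cases e2 : Commute k w' <;> simp [e, e1, e2]

theorem cj_iff : h * w * h⁻¹ = w ↔ Commute h w := mul_inv_eq_iff_eq_mul

namespace E

theorem rfl' : E z a a := Or.inl rfl

theorem of_eq (e : a = b) : E z a b := Or.inl e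

theorem symm (z2 : z * z = 1) (e : E z a b) : E z b a := by
  rcases e with rfl | rfl
  · exact rfl'
  · exact Or.inr (by rw [mul_assoc, z2, mul_one])

theorem trans (z2 : z * z = 1) (e : E z a b) (e' : E z b c) : E z a c := by
  rcases e with rfl | rfl
  · exact e'
  rcases e' with rfl | rfl
  · exact Or.inr rfl
  · exact Or.inl (by rw [mul_assoc, z2, mul_one])

theorem mull (a : G) (e : E z b c) : E z (a * b) (a * c) := by
  rcases e with rfl | rfl
  · exact rfl'
  · exact Or.inr (mul_assoc _ _ _).symm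

theorem mulr (hc : Commute c z) (e : E z a b) : E z (a * c) (b * c) := by
  rcases e with rfl | rfl
  · exact rfl'
  · exact Or.inr (by rw [mul_assoc, ← hc.eq, mul_assoc])

theorem mul (z2 : z * z = 1) (hc : Commute c z) (e : E z a b) (e' : E z c d) :
    E z (a * c) (b * d) := (e.mulr hc).trans z2 (e'.mull b)

theorem cj (hh : Commute h z) (e : E z a b) : E z (h * a * h⁻¹) (h * b * h⁻¹) :=
  (e.mull h).mulr hh.inv_left

theorem canr (hc : Commute c z) (e : E z (a * c) (b * c)) : E z a b := by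
  simpa using e.mulr hc.inv_left

theorem canl (e : E z (c * a) (c * b)) : E z a b := by
  simpa using e.mull c⁻¹

theorem cm (hh : Commute h z) (e : E z a b) : Commute h a ↔ Commute h b := by
  rcases e with rfl | rfl
  · rfl
  · exact ⟨fun e => by simpa using e.mul_right hh.inv_right, fun e => e.mul_right hh⟩

theorem mem {Q : Subgroup G} (hz : z ∈ Q) (e : E z a b) (hb : b ∈ Q) : a ∈ Q := by
  rcases e with rfl | rfl
  · exact hb
  · exact mul_mem hb hz

end E

theorem F.of_cm (e : Commute h w) : F z h w := Or.inl (cj_iff.2 e)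

theorem F.nc (e : F z h w) (n : ¬ Commute h w) : h * w * h⁻¹ = w * z :=
  e.resolve_left fun e => n (cj_iff.1 e)

theorem nc_of (z1 : z ≠ 1) (e : h * w * h⁻¹ = w * z) : ¬ Commute h w := fun e' =>
  z1 (by rwa [cj_iff.2 e', eq_comm, mul_eq_left] at e)

theorem F.mul (z2 : z * z = 1) (hh : Commute h z) (e : F z h w) (e' : F z k w) :
    F z (h * k) w := by
  have := (e'.cj hh).trans z2 e
  rwa [show h * (k * w * k⁻¹) * h⁻¹ = h * k * w * (h * k)⁻¹ by group] at this

theorem F.inv (z2 : z * z = 1) (hh : Commute h z) (e : F z h w) : F z h⁻¹ w := by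
  have := (e.cj hh.inv_left).symm z2
  rwa [show h⁻¹ * (h * w * h⁻¹) * h⁻¹⁻¹ = w by group] at this

theorem F.mulw (z2 : z * z = 1) (hh : Commute h z) (hw : Commute w' z) (e : F z h w)
    (e' : F z h w') : F z h (w * w') := by
  have := E.mul z2 ((hh.mul_left hw).mul_left hh.inv_left) e e'
  rwa [show h * w * h⁻¹ * (h * w' * h⁻¹) = h * (w * w') * h⁻¹ by group] at this

theorem F.of_E (z2 : z * z = 1) (hh : Commute h z) (e : F z h w) (e' : E z w' w) : F z h w' :=
  ((e'.cj hh).trans z2 e).trans z2 (e'.symm z2)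

theorem cm_mul (z2 : z * z = 1) (z1 : z ≠ 1) (hh : Commute h z) (e : F z h w) (e' : F z k w) :
    Commute (h * k) w ↔ (Commute h w ↔ Commute k w) := by
  have e0 : h * k * w * (h * k)⁻¹ = h * (k * w * k⁻¹) * h⁻¹ := by group
  by_cases e2 : Commute k w
  · simp only [e2, iff_true]
    rw [← cj_iff, ← cj_iff, e0, cj_iff.2 e2]
  have e3 : h * (w * z) * h⁻¹ = h * w * h⁻¹ * z := by
    rw [← mul_assoc, mul_assoc _ z, ← hh.inv_left.eq, ← mul_assoc]
  by_cases e1 : Commute h w
  · exact iff_of_false (nc_of z1 (by rw [e0, e'.nc e2, e3, cj_iff.2 e1])) fun e4 => e2 (e4.1 e1)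
  · simp only [e1, e2, iff_true]
    rw [← cj_iff, e0, e'.nc e2, e3, e.nc e1, mul_assoc, z2, mul_one]

theorem cm_mulw (z2 : z * z = 1) (z1 : z ≠ 1) (hw : Commute w' z) (e : F z h w)
    (e' : F z h w') : Commute h (w * w') ↔ (Commute h w ↔ Commute h w') := by
  have e0 : h * (w * w') * h⁻¹ = h * w * h⁻¹ * (h * w' * h⁻¹) := by group
  by_cases e1 : Commute h w
  · simp only [e1, true_iff]
    rw [← cj_iff, ← cj_iff, e0, cj_iff.2 e1, mul_right_inj]
  by_cases e2 : Commute h w'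
  · simp only [e1, e2, iff_false, iff_true]
    exact nc_of z1 (by rw [e0, e.nc e1, cj_iff.2 e2, mul_assoc, ← hw.eq, mul_assoc])
  · simp only [e1, e2, iff_true]
    rw [← cj_iff, e0, e.nc e1, e'.nc e2, mul_assoc, ← mul_assoc z, ← hw.eq, mul_assoc, z2, mul_one]

end U6.SB
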