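import Cfsg.Agent.U6.B1

/-! The case `6 ⊕ 2`: basic lemmas. -/

set_option autoImplicit false
set_option linter.unusedSectionVars false
set_option linter.unusedVariables false
open Subgroup MulAction H7

namespace U6.SB

variable {G : Type*} [Group G] {z a b c d h k w w' x y q m t : G} {Q H0 : Subgroup G}

theorem qz (h : ES Q z) (ha : a ∈ Q) : Commute a z := h.cent a ha

theorem E1 : E z a 1 ↔ a = 1 ∨ a = z := by unfold E; rw [one_mul]

theorem sqE (h : ES Q z) (ha : a ∈ Q) : E z (a * a) 1 := E1.2 (h.sq a ha)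

theorem FQ (h : ES Q z) (ha : a ∈ Q) (hb : b ∈ Q) : F z a b := by
  by_cases e : Commute a b
  · exact F.of_cm e
  · exact Or.inr (by rw [h.conj_eq ha hb e, h.cent b hb])

theorem swE (h : ES Q z) (ha : a ∈ Q) (hb : b ∈ Q) : E z (a * b) (b * a) := by
  simpa using (FQ h ha hb).mulr (qz h ha)

theorem invE (h : ES Q z) (ha : a ∈ Q) : E z a⁻¹ a := by
  simpa using ((sqE h ha).mull a⁻¹).symm h.sq_z

theorem E_of_mul (h : ES Q z) (ha : a ∈ Q) (e : E z (a * b) 1) : E z b a := by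
  have := e.mull a⁻¹
  rw [inv_mul_cancel_left, mul_one] at this
  exact this.trans h.sq_z (invE h ha)

theorem cmQ (h : ES Q z) (ha : a ∈ Q) (hb : b ∈ Q) (hc : c ∈ Q) :
    Commute (a * b) c ↔ (Commute a c ↔ Commute b c) :=
  cm_mul h.sq_z h.ne (qz h ha) (FQ h ha hc) (FQ h hb hc)

theorem cmQ' (h : ES Q z) (ha : a ∈ Q) (hb : b ∈ Q) (hc : c ∈ Q) :
    Commute a (b * c) ↔ (Commute a b ↔ Commute a c) :=
  cm_mulw h.sq_z h.ne (qz h hc) (FQ h ha hb) (FQ h ha hc)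

theorem ex_nc (h : ES Q z) (ha : a ∈ Q) (n : ¬ E z a 1) : ∃ q ∈ Q, ¬ Commute q a := by
  by_contra hc
  push Not at hc
  exact n (E1.2 (h.center a ha hc))

theorem cm1 (hh : Commute h z) (e : E z a 1) : Commute h a := (e.cm hh).2 (Commute.one_right h)

theorem sq_of_E (z2 : z * z = 1) (hb : Commute b z) (e : E z a b) : a * a = b * b := by
  rcases e with rfl | rfl
  · rfl
  · rw [mul_assoc, ← mul_assoc z, ← hb.eq, mul_assoc, z2, mul_one]

theorem F.sq (z2 : z * z = 1) (z1 : z ≠ 1) (hh : Commute h z) (e : F z h w) :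
    Commute (h * h) w := (cm_mul z2 z1 hh e e).2 Iff.rfl

theorem cover [Finite G] {X Y : Subgroup G} (h : ∀ r ∈ X, r ∈ Y ∨ r * y ∈ Y) :
    Nat.card X ≤ 2 * Nat.card Y := by
  classical
  let f : X → Bool × Y := fun r => if e : r.1 ∈ Y then (true, ⟨r, e⟩)
    else (false, ⟨r * y, (h r r.2).resolve_left e⟩)
  have : Function.Injective f := by
    intro r s e
    by_cases e1 : r.1 ∈ Y <;> by_cases e2 : s.1 ∈ Y <;> simp [f, e1, e2] at e <;> exact e
  simpa using Nat.card_le_card_of_injective f this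

theorem dbl [Finite G] {X Y : Subgroup G} (h : X ≤ Y) (ha : a ∈ Y) (n : a ∉ X) :
    2 * Nat.card X ≤ Nat.card Y := by
  obtain ⟨k, hk⟩ := card_dvd_of_le h
  have h1 : k ≠ 1 := by
    rintro rfl
    exact n ((eq_of_le_of_card_ge h (by omega)) ▸ ha)
  have h0 : k ≠ 0 := by
    rintro rfl
    exact absurd hk Nat.card_pos.ne'
  rw [hk, mul_comm]
  exact Nat.mul_le_mul_left _ (by omega)

theorem ex_nE {A : Subgroup G} (hA : 2 < Nat.card A) : ∃ a ∈ A, ¬ E z a 1 := by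
  obtain ⟨a, ha, n⟩ := ex_not_mem A [1, z] hA
  exact ⟨a, ha, by simpa [E1] using n⟩

theorem big [Finite G] (h : ES Q z) (hQ : Nat.card Q = 512) {A : Subgroup G} (hA : A ≤ Q)
    (hc : 128 ≤ Nat.card A) : ∃ a ∈ A, a * a = z := by
  by_contra hn
  push Not at hn
  have h2 : ∀ a ∈ A, a * a = 1 := fun a ha => (h.sq a (hA ha)).resolve_right (hn a ha)
  obtain ⟨a1, m1, n1⟩ := ex_nE (z := z) (A := A) (by omega)
  obtain ⟨q1, k1, c1⟩ := ex_nc h (hA m1) n1
  have d1 := h.card_le_two_mul k1 hA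
  obtain ⟨a2, m2, n2⟩ := ex_nE (z := z) (A := A ⊓ centralizer {q1}) (by omega)
  obtain ⟨q2, k2, c2⟩ := ex_nc h (hA m2.1) n2
  have d2 := h.card_le_two_mul k2 (A := A ⊓ centralizer {q1}) (inf_le_left.trans hA)
  obtain ⟨a3, m3, n3⟩ := ex_nE (z := z) (A := A ⊓ centralizer {q1} ⊓ centralizer {q2}) (by omega)
  obtain ⟨q3, k3, c3⟩ := ex_nc h (hA m3.1.1) n3
  have e1 : Nat.card A ≤ Nat.card
      (Q ⊓ centralizer {a3} ⊓ centralizer {a2} ⊓ centralizer {a1} : Subgroup G) :=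
    card_le_of_le fun a ha => ⟨⟨⟨hA ha, mcs.2 (comm_of_sq h2 ha m3.1.1)⟩,
      mcs.2 (comm_of_sq h2 ha m2.1)⟩, mcs.2 (comm_of_sq h2 ha m1)⟩
  have e2 := dbl (X := Q ⊓ centralizer {a3} ⊓ centralizer {a2} ⊓ centralizer {a1})
    (Y := Q ⊓ centralizer {a3} ⊓ centralizer {a2}) (a := q1) inf_le_left
    ⟨⟨k1, mcs.2 (mcs.1 m3.1.2).symm⟩, mcs.2 (mcs.1 m2.2).symm⟩ fun e => c1 (mcs.1 e.2)
  have e3 := dbl (X := Q ⊓ centralizer {a3} ⊓ centralizer {a2})
    (Y := Q ⊓ centralizer {a3}) (a := q2) inf_le_left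
    ⟨k2, mcs.2 (mcs.1 m3.2).symm⟩ fun e => c2 (mcs.1 e.2)
  have e4 := dbl (X := Q ⊓ centralizer {a3}) (Y := Q) (a := q3) inf_le_left k3
    fun e => c3 (mcs.1 e.2)
  omega

/-- elements of `Q` fixed modulo `z` by `H0` -/
def M (z : G) (Q H0 : Subgroup G) (q : G) : Prop := q ∈ Q ∧ ∀ h ∈ H0, F z h q

structure Cx (z : G) (Q H0 : Subgroup G) (x y : G) : Prop where
  es : ES Q z
  card : Nat.card Q = 512
  nq : ∀ {m q}, Commute m z → q ∈ Q → m * q * m⁻¹ ∈ Q
  hc : ∀ m, Commute m z → (∀ q ∈ Q, Commute m q) → m ∈ Q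
  QH : Q ≤ H0
  Hz : ∀ {h}, h ∈ H0 → Commute h z
  nH : ∀ {m h}, Commute m z → h ∈ H0 → m * h * m⁻¹ ∈ H0
  mx : M z Q H0 x
  my : M z Q H0 y
  xy : ¬ Commute x y
  all : ∀ q, M z Q H0 q → E z q 1 ∨ E z q x ∨ E z q y ∨ E z q (x * y)
  pf : ∀ f : H0 →* ℤˣ, (∀ h : H0, h.1 ∈ Q → f h = 1) → ∀ h, f h = 1
  ix : Ix z H0

theorem clo (h : ES Q z) (hx : x ∈ Q) (hy : y ∈ Q) (hq : q ∈ closure ({x, y} : Set G)) :
    E z q 1 ∨ E z q x ∨ E z q y ∨ E z q (x * y) := by
  have z2 := h.sq_z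
  have key : ∀ a ∈ ({x, y} : Set G), ∀ q, (E z q 1 ∨ E z q x ∨ E z q y ∨ E z q (x * y)) →
      (E z (a * q) 1 ∨ E z (a * q) x ∨ E z (a * q) y ∨ E z (a * q) (x * y)) := by
    rintro a (rfl | rfl) q (e | e | e | e)
    · exact .inr (.inl (by simpa using e.mull a))
    · exact .inl ((e.mull a).trans z2 (sqE h hx))
    · exact .inr (.inr (.inr (e.mull a)))
    · refine .inr (.inr (.inl ((e.mull a).trans z2 ?_)))
      simpa [mul_assoc] using (sqE h hx).mulr (qz h hy)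
    · exact .inr (.inr (.inl (by simpa using e.mull a)))
    · exact .inr (.inr (.inr ((e.mull a).trans z2 (swE h hy hx))))
    · exact .inl ((e.mull a).trans z2 (sqE h hy))
    · refine .inr (.inl (((e.trans z2 (swE h hx hy)).mull a).trans z2 ?_))
      simpa [mul_assoc] using (sqE h hy).mulr (qz h hx)
  have hQ : closure ({x, y} : Set G) ≤ Q := by
    rw [closure_le]; rintro _ (rfl | rfl) <;> assumption
  induction hq using closure_induction_left with
  | one => exact .inl E.rfl'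
  | mul_left a ha q hq ih => exact key a ha q ih
  | inv_mul_cancel a ha q hq ih =>
    have e := (invE h (hQ (subset_closure ha))).mulr (qz h (hQ hq))
    rcases key a ha q ih with e' | e' | e' | e'
    · exact .inl (e.trans z2 e')
    · exact .inr (.inl (e.trans z2 e'))
    · exact .inr (.inr (.inl (e.trans z2 e')))
    · exact .inr (.inr (.inr (e.trans z2 e')))

theorem cx_of {K : Type*} [Field K] (h : Hyp K z Q H0) (s : Six z Q H0 x y) (ix : Ix z H0) :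
    Cx z Q H0 x y :=
  ⟨h.es, h.card, h.nq, h.hc, h.QH, h.Hz, h.nH, ⟨s.xQ, s.fx⟩, ⟨s.yQ, s.fy⟩, s.xy,
    fun q hq => clo h.es s.xQ s.yQ (s.all q hq.1 hq.2), s.pf, ix⟩

namespace Cx

theorem z2 (C : Cx z Q H0 x y) : z * z = 1 := C.es.sq_z
theorem z1 (C : Cx z Q H0 x y) : z ≠ 1 := C.es.ne

theorem Mmul (C : Cx z Q H0 x y) (ha : M z Q H0 a) (hb : M z Q H0 b) : M z Q H0 (a * b) :=
  ⟨mul_mem ha.1 hb.1, fun h hh => (ha.2 h hh).mulw C.z2 (C.Hz hh) (qz C.es hb.1) (hb.2 h hh)⟩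

theorem Mcj (C : Cx z Q H0 x y) (hm : Commute m z) (ha : M z Q H0 a) :
    M z Q H0 (m * a * m⁻¹) := by
  refine ⟨C.nq hm ha.1, fun h hh => ?_⟩
  have := (ha.2 _ (C.nH hm.inv_left hh)).cj hm
  rwa [show m * (m⁻¹ * h * m⁻¹⁻¹ * a * (m⁻¹ * h * m⁻¹⁻¹)⁻¹) * m⁻¹ = h * (m * a * m⁻¹) * h⁻¹ by group]
    at this

theorem ME (C : Cx z Q H0 x y) (ha : M z Q H0 a) (e : E z b a) : M z Q H0 b :=
  ⟨e.mem C.es.mem ha.1, fun h hh => (ha.2 h hh).of_E C.z2 (C.Hz hh) e⟩

theorem cmM (C : Cx z Q H0 x y) (ha : M z Q H0 a) (hb : M z Q H0 b) (c : Commute a b) :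
    E z a 1 ∨ E z b 1 ∨ E z a b := by
  have z2 := C.z2
  have hx := C.mx.1
  have hy := C.my.1
  have n1 := C.xy
  have n2 : ¬ Commute x (x * y) := fun e => n1 (((cmQ' C.es hx hx hy).1 e).1 rfl)
  have n3 : ¬ Commute y (x * y) := fun e => n1 (((cmQ' C.es hy hx hy).1 e).2 rfl).symm
  have key : ∀ {a' b'}, a' ∈ Q → E z a a' → E z b b' → Commute a' b' := fun h1 e1 e2 =>
    (e2.cm (qz C.es h1)).1 ((e1.cm (qz C.es hb.1)).1 c.symm).symm
  rcases C.all a ha with e | e | e | e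
  · exact .inl e
  all_goals rcases C.all b hb with e' | e' | e' | e'
  all_goals first | exact .inr (.inl e') | exact .inr (.inr (e.trans z2 (e'.symm z2))) | skip
  · exact (n1 (key hx e e')).elim
  · exact (n2 (key hx e e')).elim
  · exact (n1 (key hy e e').symm).elim
  · exact (n3 (key hy e e')).elim
  · exact (n2 (key (mul_mem hx hy) e e').symm).elim
  · exact (n3 (key (mul_mem hx hy) e e').symm).elim

theorem tri (C : Cx z Q H0 x y) (ha : M z Q H0 a) (hb : M z Q H0 b) (c1 : Commute a b)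
    (hc : c ∈ Q) (c2 : Commute a c) (n : ¬ Commute b c) : E z a 1 := by
  rcases C.cmM ha hb c1 with e | e | e
  · exact e
  · exact (n (cm1 (qz C.es hc) e).symm).elim
  · exact (n ((e.cm (qz C.es hc)).1 c2.symm).symm).elim

theorem dec (h : ES Q z) (ha : a ∈ Q) (hb : b ∈ Q) (n : ¬ Commute a b) (hq : q ∈ Q) :
    ∃ j, (j = 1 ∨ j = a ∨ j = b ∨ j = a * b) ∧ Commute (j * q) a ∧ Commute (j * q) b := by
  have n' : ¬ Commute b a := fun e => n e.symm
  by_cases e1 : Commute q a <;> by_cases e2 : Commute q b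
  · exact ⟨1, .inl rfl, by simpa using e1, by simpa using e2⟩
  · exact ⟨a, .inr (.inl rfl), (Commute.refl a).mul_left e1, (cmQ h ha hq hb).2 (by simp [n, e2])⟩
  · exact ⟨b, .inr (.inr (.inl rfl)), (cmQ h hb hq ha).2 (by simp [n', e1]),
      (Commute.refl b).mul_left e2⟩
  · refine ⟨a * b, .inr (.inr (.inr rfl)), (cmQ h (mul_mem ha hb) hq ha).2 ?_,
      (cmQ h (mul_mem ha hb) hq hb).2 ?_⟩
    · rw [cmQ h ha hb ha]; simp [n', e1]
    · rw [cmQ h ha hb hb]; simp [n, e2]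

theorem chg (C : Cx z Q H0 x y) (ha : M z Q H0 a) (hb : M z Q H0 b) (n : ¬ Commute a b) :
    Cx z Q H0 a b := by
  refine { C with mx := ha, my := hb, xy := n, all := fun q hq => ?_ }
  obtain ⟨j, hj, c1, c2⟩ := dec C.es ha.1 hb.1 n hq.1
  rcases hj with rfl | rfl | rfl | rfl
  · rw [one_mul] at c1 c2
    exact .inl (C.tri hq ha c1 hb.1 c2 n)
  · exact .inr (.inl (E_of_mul C.es ha.1 (C.tri (C.Mmul ha hq) ha c1 hb.1 c2 n)))
  · exact .inr (.inr (.inl (E_of_mul C.es hb.1 (C.tri (C.Mmul hb hq) ha c1 hb.1 c2 n))))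
  · exact .inr (.inr (.inr (E_of_mul C.es (mul_mem ha.1 hb.1)
      (C.tri (C.Mmul (C.Mmul ha hb) hq) ha c1 hb.1 c2 n))))

theorem ce (C : Cx z Q H0 x y) (ht : Commute t z) (cx : Commute t x) (cy : Commute t y)
    (hw : M z Q H0 w) : Commute t w := by
  rcases C.all w hw with e | e | e | e
  · exact cm1 ht e
  · exact (e.cm ht).2 cx
  · exact (e.cm ht).2 cy
  · exact (e.cm ht).2 (cx.mul_right cy)

theorem hN (C : Cx z Q H0 x y) (hm : Commute m z) [Finite G] : m ∈ normalizer (Q : Set G) :=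
  mem_normalizer_fintype fun _ hq => C.nq hm hq

theorem sqH (C : Cx z Q H0 x y) (hb : Commute b z) : b * b ∈ H0 := by
  by_cases e : b ∈ H0
  · exact mul_mem e e
  · exact C.ix b b hb hb e e

theorem inner [Finite G] (C : Cx z Q H0 x y) (t2 : t * t = 1) (ht : Commute t z)
    (hF : ∀ q ∈ Q, F z t q) : t ∈ Q := by
  have h1 := card_half (Y := Q) (t := t) (z := z) (fun q hq => qz C.es hq) fun q hq => by
    rcases hF _ (inv_mem hq) with e | e
    · exact .inl (cj_iff.2 (by simpa using (cj_iff.1 e).inv_right.symm))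
    · right
      calc q * t * q⁻¹ = q * (t * q⁻¹ * t⁻¹) * t := by group
        _ = _ := by rw [e, ← mul_assoc, mul_inv_cancel, one_mul, ht.eq]
  obtain ⟨r, hr, e⟩ := C.es.exists_inner t2 (C.hN ht) (by
    have h2 := card_mul_index ((centralizer {t} ⊓ Q).subgroupOf Q)
    rw [Nat.card_congr (subgroupOfEquivOfLe inf_le_right).toEquiv, inf_comm] at h2
    rw [inf_comm]
    have h3 : 0 < Nat.card (Q ⊓ centralizer {t} : Subgroup G) := Nat.card_pos
    unfold relIndex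
    nlinarith)
  have := C.hc (r⁻¹ * t) ((qz C.es hr).inv_left.mul_left ht) fun q hq => cj_iff.1 (by
    rw [show r⁻¹ * t * q * (r⁻¹ * t)⁻¹ = r⁻¹ * (t * q * t⁻¹) * r by group, ← e q hq]; group)
  simpa using mul_mem hr this

end Cx

end U6.SB
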