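import Cfsg.Agent.U6.B2

/-! The case `6 ⊕ 2`: characters and pairs of commuting conjugates. -/

set_option autoImplicit false
set_option linter.unusedSectionVars false
set_option linter.unusedVariables false
open Subgroup MulAction H7 H4

namespace U6.SB

variable {G : Type*} [Group G] {z a b c d h k w w' x y q m t g r v : G} {Q H0 : Subgroup G}

theorem fcj (f : G →* ℤˣ) (g a : G) : f (g * a * g⁻¹) = f a := by
  rw [map_mul, map_mul, map_inv, mul_inv_cancel_comm]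

theorem u_eq {a b : ℤˣ} (e : a = 1 ↔ b = 1) : a = b := by
  rcases Int.units_eq_one_or a with rfl | rfl <;> rcases Int.units_eq_one_or b with rfl | rfl <;>
    simp_all

/-- the character `f` is the sign on `v`, twisted by `ε` outside `H0` -/
structure Rel (z : G) (Q H0 : Subgroup G) (f : G →* ℤˣ) (v : G) (ε : ℤˣ) : Prop where
  vQ : v ∈ Q
  fx : ∀ m, Commute m z → F z m v
  ne : ¬ E z v 1
  i : ∀ h ∈ H0, f h = ch v h
  o : ∀ m, Commute m z → m ∉ H0 → f m = ε * ch v m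

/-- a conjugate of `z` commuting with `z` -/
def P (z g : G) : Prop := Commute (g * z * g⁻¹) z ∧ g * z * g⁻¹ ≠ z

theorem cmc : Commute (g * a * g⁻¹) (g * b * g⁻¹) ↔ Commute a b := by
  unfold Commute SemiconjBy
  rw [conj_mul, conj_mul, mul_left_inj, mul_right_inj]

theorem cmi (e : Commute (g⁻¹ * z * g⁻¹⁻¹) a) : Commute (g * a * g⁻¹) z := by
  simpa [mul_assoc] using ((cmc (g := g)).2 e).symm

theorem cmi' (e : Commute (g * a * g⁻¹) z) : Commute (g⁻¹ * z * g⁻¹⁻¹) a := by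
  simpa [mul_assoc] using ((cmc (g := g⁻¹)).2 e).symm

theorem P.inv (p : P z g) : P z g⁻¹ :=
  ⟨cmi' p.1, fun e => p.2 (by
    calc g * z * g⁻¹ = g * (g⁻¹ * z * g⁻¹⁻¹) * g⁻¹ := by rw [e]
      _ = z := by group)⟩

theorem t2 (z2 : z * z = 1) (g : G) : g * z * g⁻¹ * (g * z * g⁻¹) = 1 := by
  rw [conj_mul, z2]; simp

namespace Cx

theorem fz (C : Cx z Q H0 x y) (f : G →* ℤˣ) : f z = 1 := by
  have e := congrArg f ((FQ C.es C.mx.1 C.my.1).nc C.xy)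
  rwa [fcj, map_mul, eq_comm, mul_eq_left] at e

theorem ft (C : Cx z Q H0 x y) (f : G →* ℤˣ) (g : G) : f (g * z * g⁻¹) = 1 := by
  rw [fcj, C.fz]

theorem tr [Finite G] (C : Cx z Q H0 x y) (hw : w ∈ Q) (hF : ∀ m, Commute m z → F z m w)
    (ha : a ∈ Q) (a2 : a * a = 1) (n : ¬ Commute a w) : ∃ f : G →* ℤˣ, f a ≠ 1 := by
  refine transf C.es (fun m hm => C.hN (mcs.1 hm)) (fun m hm => C.hc m
    (mem_centralizer_iff.1 hm z C.es.mem).symm fun q hq => (mem_centralizer_iff.1 hm q hq).symm)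
    (by rw [C.card]; norm_num) (K := centralizer {w}) ?_ ha (fun e => n (mcs.1 e)) a2
  refine index_eq_two_iff.2 ⟨⟨a, mcs.2 (qz C.es ha)⟩, fun b => ?_⟩
  have hb := mcs.1 b.2
  simp only [mem_subgroupOf, coe_mul, mcs]
  rw [cm_mul C.z2 C.z1 hb (hF _ hb) (hF _ (qz C.es ha))]
  unfold Xor
  tauto

theorem chm (C : Cx z Q H0 x y) (hF : ∀ m, Commute m z → F z m v) (ha : Commute a z)
    (hb : Commute b z) : ch v (a * b) = ch v a * ch v b :=
  ch_mul_of (cm_mul C.z2 C.z1 ha (hF a ha) (hF b hb))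

theorem rel [Finite G] (C : Cx z Q H0 x y) {f : G →* ℤˣ} (ha : a ∈ Q) (n : f a ≠ 1) :
    ∃ v ε, Rel z Q H0 f v ε := by
  obtain ⟨v, hv, h1, h2⟩ := C.es.exists_not_commute (M := f.ker) (C.fz f) ha n
  have key : ∀ q ∈ Q, Commute q v ↔ f q = 1 := fun q hq => by
    refine ⟨fun e => ?_, fun e => h1 q e hq⟩
    by_contra e'
    have : f (q * a) = 1 := by
      rw [map_mul, (Int.units_eq_one_or _).resolve_left e', (Int.units_eq_one_or _).resolve_left n]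
      simp
    exact h2 (((cmQ C.es hq ha hv).1 (h1 _ this (mul_mem hq ha))).1 e).symm
  have fx : ∀ m, Commute m z → F z m v := fun m hm => by
    refine E_of_mul C.es hv (E1.2 (C.es.center _ (mul_mem hv (C.nq hm hv)) fun q hq =>
      (cmQ' C.es hq hv (C.nq hm hv)).2 ?_))
    rw [key q hq, ← fcj f m⁻¹ q, ← key _ (C.nq hm.inv_left hq), ← cmc (g := m)]
    simp [mul_assoc]
  have i : ∀ h ∈ H0, f h = ch v h := fun h hh => by
    have := C.pf (MonoidHom.mk' (fun h : H0 => f h * ch v h) fun a b => by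
      rw [coe_mul, map_mul, C.chm fx (C.Hz a.2) (C.Hz b.2), mul_mul_mul_comm])
      (fun h hh => by
        change f h * ch v h = 1
        rw [u_eq (a := f h) (b := ch v h) (by rw [ch_one, key _ hh]), Int.units_mul_self]) ⟨h, hh⟩
    change f h * ch v h = 1 at this
    rw [eq_inv_of_mul_eq_one_left this, Int.units_inv_eq_self]
  have ne : ¬ E z v 1 := fun e => h2 (cm1 (qz C.es ha) e).symm
  by_cases hm : ∃ m, Commute m z ∧ m ∉ H0
  · obtain ⟨m, hm, nm⟩ := hm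
    refine ⟨v, f m * ch v m, hv, fx, ne, i, fun b hb nb => ?_⟩
    have := i _ (C.ix b m hb hm nb nm)
    rw [map_mul, C.chm fx hb hm] at this
    rw [eq_mul_inv_of_mul_eq this, Int.units_inv_eq_self, mul_comm (f m), mul_comm _ (ch v b),
      mul_assoc]
  · exact ⟨v, 1, hv, fx, ne, i, fun b hb nb => (hm ⟨b, hb, nb⟩).elim⟩

theorem relM (C : Cx z Q H0 x y) {f ε} (R : Rel z Q H0 f v ε) : M z Q H0 v :=
  ⟨R.vQ, fun h hh => R.fx h (C.Hz hh)⟩

theorem rel_mul (C : Cx z Q H0 x y) {f ε f' ε'} (R : Rel z Q H0 f v ε)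
    (R' : Rel z Q H0 f' w ε') (n : ¬ Commute v w) : Rel z Q H0 (f * f') (v * w) (ε * ε') := by
  have key : ∀ m, Commute m z → ch (v * w) m = ch v m * ch w m := fun m hm =>
    ch_mul_of (cm_mulw C.z2 C.z1 (qz C.es R'.vQ) (R.fx m hm) (R'.fx m hm))
  refine ⟨mul_mem R.vQ R'.vQ, fun m hm => (R.fx m hm).mulw C.z2 hm (qz C.es R'.vQ) (R'.fx m hm),
    fun e => n (((E_of_mul C.es R.vQ e).cm (qz C.es R.vQ)).2 rfl), fun h hh => ?_,
    fun m hm nm => ?_⟩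
  · rw [MonoidHom.mul_apply, R.i h hh, R'.i h hh, key h (C.Hz hh)]
  · rw [MonoidHom.mul_apply, R.o m hm nm, R'.o m hm nm, key m hm, mul_mul_mul_comm]

theorem sqin (C : Cx z Q H0 x y) (hb : b * b = z) (c : Commute (g⁻¹ * z * g⁻¹⁻¹) b) :
    g * z * g⁻¹ ∈ H0 := by
  have := C.sqH (cmi c)
  rwa [conj_mul, hb] at this

theorem sq (C : Cx z Q H0 x y) (n : g⁻¹ * z * g⁻¹⁻¹ ∉ H0) (hb : b ∈ Q)
    (c : Commute (g * z * g⁻¹) b) : b * b = 1 :=
  (C.es.sq b hb).resolve_right fun e => n (C.sqin e (by rwa [inv_inv]))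

theorem sqc (C : Cx z Q H0 x y) (n : g⁻¹ * z * g⁻¹⁻¹ ∉ H0) (ha : a ∈ Q) (hb : b ∈ Q)
    (c : Commute (g * z * g⁻¹) a) (c' : Commute (g * z * g⁻¹) b) : Commute a b :=
  comm_of_sq (A := Q ⊓ centralizer {g * z * g⁻¹}) (fun a ha => C.sq n ha.1 (mcs.1 ha.2).symm)
    ⟨ha, mcs.2 c.symm⟩ ⟨hb, mcs.2 c'.symm⟩

theorem Minv (C : Cx z Q H0 x y) (ha : M z Q H0 a) : M z Q H0 a⁻¹ := C.ME ha (invE C.es ha.1)

theorem ex_nM (C : Cx z Q H0 x y) (hv : M z Q H0 v) (n : ¬ E z v 1) :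
    ∃ a, M z Q H0 a ∧ ¬ Commute a v := by
  by_contra hc
  push Not at hc
  exact n (C.tri hv C.mx (hc x C.mx).symm C.my.1 (hc y C.my).symm C.xy)

theorem one_of (C : Cx z Q H0 x y) (p : P z g)
    (ct : ∀ w, M z Q H0 w → Commute (g * z * g⁻¹) w)
    (cs : ∀ w, M z Q H0 w → Commute (g⁻¹ * z * g⁻¹⁻¹) w) (hd : M z Q H0 d)
    (hd' : M z Q H0 (g * d * g⁻¹)) : d = 1 := by
  have nt : ¬ M z Q H0 (g * z * g⁻¹) := fun h => by
    rcases E1.1 (C.tri h C.mx (ct x C.mx) C.my.1 (ct y C.my) C.xy) with e | e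
    · exact C.z1 (by simpa using e)
    · exact p.2 e
  have key : ∀ b, M z Q H0 b → Commute b d := fun b hb => by
    by_contra n
    have e := (FQ C.es hb.1 hd.1).nc n
    have h1 := C.Mmul (C.Minv hd') (C.Mcj (cmi (cs b hb)) hd')
    rw [show (g * d * g⁻¹)⁻¹ * (g * b * g⁻¹ * (g * d * g⁻¹) * (g * b * g⁻¹)⁻¹) =
      g * (d⁻¹ * (b * d * b⁻¹)) * g⁻¹ by group, e, inv_mul_cancel_left] at h1
    exact nt h1
  rcases E1.1 (C.tri hd C.mx (key x C.mx).symm C.my.1 (key y C.my).symm C.xy) with e | rfl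
  · exact e
  · exact (nt hd').elim

theorem core (C : Cx z Q H0 x y) (p : P z g)
    (ct : ∀ w, M z Q H0 w → Commute (g * z * g⁻¹) w)
    (cs : ∀ w, M z Q H0 w → Commute (g⁻¹ * z * g⁻¹⁻¹) w) {f ε} (R : Rel z Q H0 f v ε)
    (h : ε = 1 ∨ ∀ m, Commute m z → m ∉ H0 → ∃ w, M z Q H0 w ∧ ¬ Commute m w) : False := by
  obtain ⟨a, ha, n⟩ := C.ex_nM (C.relM R) R.ne
  have hA := cmi (cs a ha)
  have key : ∀ w, M z Q H0 w → Commute (g * a * g⁻¹) w := fun w hw => by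
    have hW : Commute (g⁻¹ * w * g⁻¹⁻¹) z := cmi (by rw [inv_inv]; exact ct w hw)
    have := C.one_of p ct cs (C.Mmul ha (C.Mcj hW (C.Minv ha))) (by
      have := C.Mmul (C.Mcj hA hw) (C.Minv hw)
      convert this using 1
      group)
    rw [← cj_iff]
    calc _ = g * (a * (g⁻¹ * w * g⁻¹⁻¹ * a⁻¹ * (g⁻¹ * w * g⁻¹⁻¹)⁻¹)) * g⁻¹ * w := by group
      _ = w := by rw [this]; group
  have e1 : f (g * a * g⁻¹) ≠ 1 := by
    rw [fcj, R.i a (C.QH ha.1)]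
    exact fun e => n (ch_one.1 e)
  have e2 := ch_one.2 (key v (C.relM R))
  by_cases hH : g * a * g⁻¹ ∈ H0
  · exact e1 (by rw [R.i _ hH, e2])
  rcases h with rfl | h
  · exact e1 (by rw [R.o _ hA hH, e2, one_mul])
  · obtain ⟨w, hw, n⟩ := h _ hA hH
    exact n (key w hw)

theorem fin (C : Cx z Q H0 x y) (out : ∀ g, P z g → g * z * g⁻¹ ∉ H0) (p : P z g)
    (hw : w ∈ Q) (e : w * (g * z * g⁻¹) * w⁻¹ = g * z * g⁻¹ * z) (hr : r ∈ Q)
    (n : ¬ E z (r * (g * z * g⁻¹) * r⁻¹ * (g * z * g⁻¹)) 1)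
    (e2 : r * (g * z * g⁻¹) * r⁻¹ * (g * z * g⁻¹) * (r * (g * z * g⁻¹) * r⁻¹ * (g * z * g⁻¹)) = 1) :
    False := by
  have ht := t2 C.z2 g
  set t := g * z * g⁻¹ with htd
  have c : Commute (r * t * r⁻¹) t := by
    have h1 : (r * t * r⁻¹)⁻¹ = r * t * r⁻¹ := inv_eq_of_mul_eq_one_right (by
      rw [conj_mul, ht]; simp)
    have h2 := eq_inv_of_mul_eq_one_left e2
    rwa [mul_inv_rev, h1, inv_eq_of_mul_eq_one_right ht] at h2
  have key : ∀ k, Commute (k * t * k⁻¹) t → k * t * k⁻¹ ≠ t →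
      Commute (g⁻¹ * (k * t * k⁻¹) * g⁻¹⁻¹) z ∧ g⁻¹ * (k * t * k⁻¹) * g⁻¹⁻¹ ∉ H0 := by
    intro k h1 h2
    have e : g⁻¹ * k * g * z * (g⁻¹ * k * g)⁻¹ = g⁻¹ * (k * t * k⁻¹) * g⁻¹⁻¹ := by rw [htd]; group
    have h3 : Commute (g⁻¹ * (k * t * k⁻¹) * g⁻¹⁻¹) z := cmi (by rw [inv_inv]; exact h1.symm)
    refine ⟨h3, e ▸ out _ ⟨e ▸ h3, fun h4 => h2 ?_⟩⟩
    calc _ = g * (g⁻¹ * (k * t * k⁻¹) * g⁻¹⁻¹) * g⁻¹ := by group
      _ = t := by rw [← e, h4]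
  have e3 : r * w * t * (r * w)⁻¹ = r * t * r⁻¹ * z := by
    calc _ = r * (w * t * w⁻¹) * r⁻¹ := by group
      _ = _ := by rw [e, ← mul_assoc, mul_assoc _ z, ← (qz C.es hr).inv_left.eq, ← mul_assoc]
  obtain ⟨a1, a2⟩ := key r c fun e => n (E.of_eq (by rw [e, ht]))
  obtain ⟨b1, b2⟩ := key (r * w) (e3 ▸ c.mul_left p.1.symm) fun e => n (E1.2 (.inr (by
    rw [e3] at e
    calc r * t * r⁻¹ * t = r * t * r⁻¹ * (r * t * r⁻¹ * z) := by rw [e]
      _ = z := by rw [← mul_assoc, conj_mul, ht]; simp)))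
  have := C.ix _ _ a1 b1 a2 b2
  rw [conj_mul, e3, ← mul_assoc (r * t * r⁻¹), conj_mul, ht, mul_one, mul_inv_cancel,
    one_mul] at this
  exact out _ p.inv this

end Cx

end U6.SB
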