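import Cfsg.Agent.U6.B3

/-! The case `6 ⊕ 2`: the involution `z` is isolated. -/

set_option autoImplicit false
set_option linter.unusedSectionVars false
set_option linter.unusedVariables false
open Subgroup MulAction H7 H4

namespace U6.SB

variable {G : Type*} [Group G] {z a b c d h k w w' x y q m t g r v u : G} {Q H0 : Subgroup G}

theorem swapc (z2 : z * z = 1) (ht : Commute t z) (hy : Commute y z) (e : t * y * t⁻¹ = y * z) :
    y * t * y⁻¹ = t * z := by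
  calc y * t * y⁻¹ = y * z * z * t * y⁻¹ := by rw [mul_assoc y z, z2, mul_one]
    _ = t * (y * (t⁻¹ * z * t) * y⁻¹) := by rw [← e]; group
    _ = t * z := by rw [ht.inv_left.eq, inv_mul_cancel_right, hy.eq, mul_inv_cancel_right]

theorem nil (h : ES Q z) {D : G → Prop} (dQ : ∀ b, D b → b ∈ Q)
    (dm : ∀ a b, D a → D b → D (a * b)) (du : ∀ b, D b → D (u * b * u⁻¹)) (hu : Commute u z)
    (t4 : u * u * (u * u) = 1) (H : ∀ b, D b → Commute (u * u) b → Commute u b) (b : G)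
    (hb : D b) : F z (u * u) b := by
  have z2 := h.sq_z
  have hu2 := hu.mul_left hu
  have e0 : ∀ b, u * u * b * (u * u)⁻¹ = u * (u * b * u⁻¹) * u⁻¹ := fun b => by group
  have e1 : ∀ b c, u * u * (u * (u * b * u⁻¹) * u⁻¹ * c) * (u * u)⁻¹ =
      b * (u * (u * c * u⁻¹) * u⁻¹) := fun b c => by
    calc _ = u * u * (u * u) * b * (u * u * (u * u))⁻¹ * (u * (u * c * u⁻¹) * u⁻¹) := by group
      _ = _ := by rw [t4]; group
  have e2 : ∀ b, D b → E z (u * (u * b * u⁻¹ * b) * u⁻¹ * (u * b * u⁻¹ * b))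
      (u * (u * b * u⁻¹) * u⁻¹ * b) := fun b hb => by
    have := ((sqE h (dQ _ (du b hb))).mulr (qz h (dQ b hb))).mull (u * (u * b * u⁻¹) * u⁻¹)
    rw [one_mul] at this
    convert this using 1
    group
  have L : ∀ b, D b → F z (u * u) (u * b * u⁻¹ * b) → F z (u * u) b := fun b hb f => by
    have ha := du b hb
    have hc := du _ ha
    have h1 := dm _ _ ha hb
    have e3 := e2 b hb
    have e4 : u * (u * b * u⁻¹ * b) * u⁻¹ = u * (u * b * u⁻¹) * u⁻¹ * (u * b * u⁻¹) := by group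
    unfold F
    rw [e0]
    by_cases c1 : Commute (u * u) (u * b * u⁻¹ * b)
    · have := cj_iff.2 (H _ h1 c1)
      rw [e4] at this
      rw [eq_mul_inv_of_mul_eq this]
      exact FQ h (dQ _ ha) (dQ _ hb)
    exfalso
    have eu : u * (u * u) * u⁻¹ = u * u := by group
    have f' : F z (u * u) (u * (u * b * u⁻¹ * b) * u⁻¹) := by
      have := f.cj hu
      convert this using 1
      group
    have c2 := (cm_mulw z2 h.ne (qz h (dQ _ h1)) f' f).2 (by rw [← eu, cmc, eu])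
    have c3 := cj_iff.2 (H _ (dm _ _ (du _ h1) h1) c2)
    have c4 := cj_iff.2 ((e3.cm hu2).1 c2)
    rw [e1] at c4
    rw [← conj_mul, ← e0, f.nc c1] at c3
    have c5 : Commute (u * b * u⁻¹ * b) (u * (u * b * u⁻¹ * b) * u⁻¹) := by
      rw [e4, cmQ h (dQ _ ha) (dQ _ hb) (mul_mem (dQ _ hc) (dQ _ ha)),
        cmQ' h (dQ _ ha) (dQ _ hc) (dQ _ ha), cmQ' h (dQ _ hb) (dQ _ hc) (dQ _ ha), cmc]
      have c6 : Commute b (u * (u * b * u⁻¹) * u⁻¹) := c4
      simp only [Commute.refl, c6, iff_true, true_iff]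
    rw [← c5.eq, mul_left_inj, mul_eq_left] at c3
    exact h.ne c3
  refine L b hb (L _ (dm _ _ (du b hb) hb) (F.of_E z2 hu2 ?_ (e2 b hb)))
  unfold F
  rw [e1]
  exact swE h (dQ b hb) (dQ _ (du _ (du b hb)))

namespace Cx

theorem eE (C : Cx z Q H0 x y) (t2 : t * t = 1) (ht : Commute t z) (hr : r ∈ Q) :
    E z (r * t * r⁻¹ * t) (r * (t * r * t⁻¹)) := by
  have := ((invE C.es hr).cj ht).mull r
  convert this using 1
  rw [inv_eq_of_mul_eq_one_right t2, ← mul_assoc, ← mul_assoc]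

theorem eQ (C : Cx z Q H0 x y) (t2 : t * t = 1) (ht : Commute t z) (hr : r ∈ Q) :
    r * t * r⁻¹ * t ∈ Q := (C.eE t2 ht hr).mem C.es.mem (mul_mem hr (C.nq ht hr))

theorem eF (C : Cx z Q H0 x y) (t2 : t * t = 1) (ht : Commute t z) (hr : r ∈ Q)
    (e : E z (r * t * r⁻¹ * t) 1) : F z t r :=
  E_of_mul C.es hr (((C.eE t2 ht hr).symm C.z2).trans C.z2 e)

theorem e4 (C : Cx z Q H0 x y) (t2 : t * t = 1)
    (e : r * t * r⁻¹ * t * (r * t * r⁻¹ * t) = z) :
    t * (r * t * r⁻¹ * t) * t⁻¹ = r * t * r⁻¹ * t * z := by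
  have h1 : r * t * r⁻¹ * t * (t * (r * t * r⁻¹ * t) * t⁻¹) = 1 := by
    calc _ = r * t * r⁻¹ * (t * t) * r * t * r⁻¹ := by group
      _ = r * (t * t) * r⁻¹ := by rw [t2, mul_one, inv_mul_cancel_right, mul_assoc r, t2]
      _ = 1 := by rw [t2, mul_one, mul_inv_cancel]
  have h2 : r * t * r⁻¹ * t * (r * t * r⁻¹ * t * z) = 1 := by rw [← mul_assoc, e, C.z2]
  exact mul_left_cancel (h1.trans h2.symm)

theorem getf [Finite G] (C : Cx z Q H0 x y) (hw : M z Q H0 w) (hF : ∀ m, Commute m z → F z m w)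
    (ha : M z Q H0 a) (n : ¬ Commute a w) : ∃ f v ε, Rel z Q H0 f v ε ∧ ¬ Commute a v := by
  obtain ⟨s, hs, s2, e⟩ : ∃ s ∈ Q, s * s = 1 ∧ ∀ w, M z Q H0 w → (Commute s w ↔ Commute a w) := by
    rcases C.es.sq a ha.1 with e | e
    · exact ⟨a, ha.1, e, fun _ _ => Iff.rfl⟩
    have d1 := C.es.card_le_two_mul C.mx.1 le_rfl
    have d2 := C.es.card_le_two_mul C.my.1 (A := Q ⊓ centralizer {x}) inf_le_left
    obtain ⟨c, hc, c2⟩ := big C.es C.card (A := Q ⊓ centralizer {x} ⊓ centralizer {y})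
      (inf_le_left.trans inf_le_left) (by have := C.card; omega)
    have k : ∀ w, M z Q H0 w → Commute c w := fun w hw =>
      C.ce (qz C.es hc.1.1) (mcs.1 hc.1.2) (mcs.1 hc.2) hw
    refine ⟨a * c, mul_mem ha.1 hc.1.1, ?_, fun w hw => ?_⟩
    · rw [(k a ha).mul_mul_mul_comm, e, c2, C.z2]
    · rw [cmQ C.es ha.1 hc.1.1 hw.1]; simp [k w hw]
  obtain ⟨f, hf⟩ := C.tr hw.1 hF hs s2 (by rwa [e w hw])
  obtain ⟨v, ε, R⟩ := C.rel hs hf
  refine ⟨f, v, ε, R, fun e' => hf ?_⟩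
  rw [R.i s (C.QH hs), ch_one, e v (C.relM R)]
  exact e'

theorem caseA' [Finite G] (C : Cx z Q H0 x y) {f0 f1 ε} (R0 : Rel z Q H0 f0 x 1)
    (R1 : Rel z Q H0 f1 y ε) (p : P z g) : False := by
  have cx : ∀ g, P z g → Commute (g * z * g⁻¹) x := fun g p => by
    rw [← ch_one]
    by_cases e : g * z * g⁻¹ ∈ H0
    · rw [← R0.i _ e, C.ft]
    · rw [← one_mul (ch _ _), ← R0.o _ p.1 e, C.ft]
  have inn : ∀ g, P z g → g * z * g⁻¹ ∈ H0 → ∀ w, M z Q H0 w → Commute (g * z * g⁻¹) w :=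
    fun g p e w hw => C.ce p.1 (cx g p) (by rw [← ch_one, ← R1.i _ e, C.ft]) hw
  have out : ∀ g, P z g → g * z * g⁻¹ ∉ H0 := fun g p e => by
    refine C.core p (inn g p e) (inn _ p.inv ?_) R0 (.inl rfl)
    by_contra n
    exact C.xy (C.sqc n C.mx.1 C.my.1 (cx g p) (inn g p e y C.my))
  have ny : ¬ Commute (g * z * g⁻¹) y := fun e =>
    C.xy (C.sqc (out _ p.inv) C.mx.1 C.my.1 (cx g p) e)
  have ht := t2 C.z2 g
  obtain ⟨r, hr, n⟩ : ∃ r ∈ Q, ¬ F z (g * z * g⁻¹) r := by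
    by_contra hc
    push Not at hc
    exact out g p (C.QH (C.inner ht p.1 hc))
  have he := C.eQ ht p.1 hr
  rcases C.es.sq _ he with e | e
  · exact C.fin out p C.my.1 (swapc C.z2 p.1 (qz C.es C.my.1) ((R1.fx _ p.1).nc ny)) hr
      (fun e => n (C.eF ht p.1 hr e)) e
  have e' := C.e4 ht e
  have c1 := C.sqc (out _ p.inv) (mul_mem he C.my.1) C.mx.1
    ((cm_mulw C.z2 C.z1 (qz C.es C.my.1) (.inr e') (R1.fx _ p.1)).2
      (iff_of_false (nc_of C.z1 e') ny)) (cx g p)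
  refine C.xy (((cmQ C.es he C.my.1 C.mx.1).1 c1).1 ?_).symm
  rw [← ch_one, ← R0.i _ (C.QH he), map_mul, fcj, C.ft, one_mul]

theorem caseA [Finite G] (C : Cx z Q H0 x y) (hA : ∀ m, Commute m z → F z m x ∧ F z m y)
    (p : P z g) : False := by
  have hF : ∀ w, M z Q H0 w → ∀ m, Commute m z → F z m w := fun w hw m hm => by
    rcases C.all w hw with e | e | e | e
    · exact F.of_cm (cm1 hm e)
    · exact (hA m hm).1.of_E C.z2 hm e
    · exact (hA m hm).2.of_E C.z2 hm e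
    · exact ((hA m hm).1.mulw C.z2 hm (qz C.es C.my.1) (hA m hm).2).of_E C.z2 hm e
  obtain ⟨f1, v1, ε1, R1, -⟩ := C.getf C.my (hF y C.my) C.mx C.xy
  have m1 := C.relM R1
  obtain ⟨a, ha, n⟩ := C.ex_nM m1 R1.ne
  obtain ⟨f2, v2, ε2, R2, n⟩ := C.getf ha (hF a ha) m1 fun e => n e.symm
  have m2 := C.relM R2
  rcases Int.units_eq_one_or ε1 with rfl | rfl
  · exact (C.chg m1 m2 n).caseA' R1 R2 p
  rcases Int.units_eq_one_or ε2 with rfl | rfl
  · exact (C.chg m2 m1 fun e => n e.symm).caseA' R2 R1 p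
  have R := C.rel_mul R1 R2 n
  rw [Int.units_mul_self] at R
  exact (C.chg (C.Mmul m1 m2) m2 fun e =>
    n (((cmQ C.es m1.1 m2.1 m2.1).1 e).2 rfl)).caseA' R R2 p

end Cx

end U6.SB
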