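import Cfsg.Agent.U6.B4
import Cfsg.Prelude.Def_IsolatedElements

/-! The case `6 ⊕ 2`: conclusion. -/

set_option autoImplicit false
set_option linter.unusedSectionVars false
set_option linter.unusedVariables false
open Subgroup MulAction H7 H4

namespace U6.SB

variable {G : Type*} [Group G] {z a b c d h k w w' x y q m t g r v u : G} {Q H0 : Subgroup G}

/-- the outer elements act nontrivially on `⟨x, y⟩/⟨z⟩` -/
structure CB (z : G) (Q H0 : Subgroup G) (x y : G) (f : G →* ℤˣ) (ε : ℤˣ) : Prop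
    extends Cx z Q H0 x y where
  R : Rel z Q H0 f x ε
  hy : ∀ m, Commute m z → m ∉ H0 → E z (m * y * m⁻¹) (x * y)
  x2 : x * x = z

namespace CB

variable {f : G →* ℤˣ} {ε : ℤˣ}

theorem nt (C : CB z Q H0 x y f ε) (m : G) (hm : Commute m z) (n : m ∉ H0) :
    ∃ w, M z Q H0 w ∧ ¬ Commute m w := by
  refine ⟨y, C.my, fun e => C.R.ne ?_⟩
  have := C.hy m hm n
  rw [cj_iff.2 e] at this
  refine (E.canr (qz C.es C.my.1) ?_).symm C.toCx.z2
  rwa [one_mul]

theorem i1 (C : CB z Q H0 x y f ε) (e : g * z * g⁻¹ ∈ H0) : Commute (g * z * g⁻¹) x := by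
  rw [← ch_one, ← C.R.i _ e, C.toCx.ft]

theorem q2 [Finite G] (C : CB z Q H0 x y f ε) (hs : g⁻¹ * z * g⁻¹⁻¹ ∈ Q) :
    Commute (g * z * g⁻¹) y := by
  have d1 := C.es.card_le_two_mul hs le_rfl
  have d2 : Nat.card (Q ⊓ centralizer {g⁻¹ * z * g⁻¹⁻¹} : Subgroup G) ≤
      2 * Nat.card (Q ⊓ centralizer {g⁻¹ * z * g⁻¹⁻¹} ⊓ conjS g⁻¹ H0 : Subgroup G) := by
    by_cases e : ∃ b ∈ Q ⊓ centralizer {g⁻¹ * z * g⁻¹⁻¹}, g * b * g⁻¹ ∉ H0
    · obtain ⟨b, hb, n⟩ := e
      refine cover (y := b) fun r hr => ?_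
      by_cases e : g * r * g⁻¹ ∈ H0
      · exact .inl ⟨hr, mem_conjS.2 (by rwa [inv_inv])⟩
      · refine .inr ⟨mul_mem hr hb, mem_conjS.2 ?_⟩
        rw [inv_inv, ← conj_mul]
        exact C.ix _ _ (cmi (mcs.1 hr.2).symm) (cmi (mcs.1 hb.2).symm) e n
    · push Not at e
      exact cover (y := 1) fun r hr => .inl ⟨hr, mem_conjS.2 (by rw [inv_inv]; exact e r hr)⟩
  obtain ⟨a, ha, a2⟩ := big C.es C.card
    (A := Q ⊓ centralizer {g⁻¹ * z * g⁻¹⁻¹} ⊓ conjS g⁻¹ H0) (inf_le_left.trans inf_le_left)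
    (by have := C.card; omega)
  have h1 := mem_conjS.1 ha.2
  rw [inv_inv] at h1
  have := (C.my.2 _ h1).sq C.toCx.z2 C.toCx.z1 (C.Hz h1)
  rwa [conj_mul, a2] at this

theorem nQ [Finite G] (C : CB z Q H0 x y f ε) (p : P z g) : g * z * g⁻¹ ∉ Q := fun ht => by
  have hs : g⁻¹ * z * g⁻¹⁻¹ ∈ Q := by
    rw [inv_inv]
    exact mem_conjS.1 (C.es.toSymT.mem_conj (fun m hm => C.toCx.hN (mcs.1 hm))
      (fun m hm => C.hc m (mcs.1 hm.1) fun q hq => (mem_centralizer_iff.1 hm.2 q hq).symm) p.2 ht)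
  exact C.toCx.core p (fun w hw => C.toCx.ce p.1 (C.i1 (C.QH ht)) (C.q2 hs) hw)
    (fun w hw => C.toCx.ce p.inv.1 (C.i1 (C.QH hs)) (C.q2 (by simpa using ht)) hw) C.R (.inr C.nt)

theorem st1 (C : CB z Q H0 x y f ε) (c : Commute (g * z * g⁻¹) x) : g⁻¹ * z * g⁻¹⁻¹ ∈ H0 := by
  by_contra n
  exact C.toCx.z1 (C.x2.symm.trans (C.toCx.sq n C.mx.1 c))

theorem st2 [Finite G] (C : CB z Q H0 x y f ε) (p : P z g) (ht : g * z * g⁻¹ ∈ H0)
    (c : Commute (g⁻¹ * z * g⁻¹⁻¹) x) : Commute (g * z * g⁻¹) y := by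
  have z2 := C.toCx.z2
  have hu := cmi c
  have u2 : g * x * g⁻¹ * (g * x * g⁻¹) = g * z * g⁻¹ := by rw [conj_mul, C.x2]
  have fu : f (g * x * g⁻¹) = 1 := by
    rw [fcj, C.R.i x (C.QH C.mx.1), ch_one]
  have cb : ∀ b, Commute (g⁻¹ * b * g⁻¹⁻¹) x → Commute (g * x * g⁻¹) b := fun b e => by
    simpa [mul_assoc] using ((cmc (g := g)).2 e).symm
  set u := g * x * g⁻¹ with hud
  by_cases h0 : u ∈ H0
  · exact u2 ▸ (C.my.2 u h0).sq z2 C.toCx.z1 hu
  by_cases h1 : Commute u x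
  · exfalso
    have he : ε = 1 := by
      have := C.R.o u hu h0
      rwa [fu, ch_one.2 h1, mul_one, eq_comm] at this
    have hf : ∀ m, Commute m z → f m = ch x m := fun m hm => by
      by_cases e : m ∈ H0
      · exact C.R.i m e
      · rw [C.R.o m hm e, he, one_mul]
    have key := nil C.es (D := fun b => b ∈ Q ∧ ∀ w, M z Q H0 w → Commute b w) (u := u)
      (fun _ e => e.1) (fun a b ha hb => ⟨mul_mem ha.1 hb.1, fun w hw =>
        (ha.2 w hw).mul_left (hb.2 w hw)⟩)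
      (fun b hb => ⟨C.nq hu hb.1, fun w hw => by
        simpa [mul_assoc] using (cmc (g := u)).2 (hb.2 _ (C.toCx.Mcj hu.inv_left hw))⟩) hu
      (by rw [u2, t2 z2]) fun b hb e => cb b (by
        rw [← ch_one, ← hf _ (cmi (by rw [inv_inv, ← u2]; exact e)), fcj,
          hf b (qz C.es hb.1), ch_one]
        exact hb.2 x C.mx)
    rw [u2] at key
    refine C.nQ p (C.toCx.inner (t2 z2 g) p.1 fun q hq => ?_)
    obtain ⟨j, hj, c1, c2⟩ := Cx.dec C.es C.mx.1 C.my.1 C.xy hq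
    have mj : M z Q H0 j := by
      rcases hj with rfl | rfl | rfl | rfl
      · exact ⟨one_mem _, fun _ _ => F.of_cm (Commute.one_right _)⟩
      · exact C.mx
      · exact C.my
      · exact C.toCx.Mmul C.mx C.my
    have hjq := mul_mem mj.1 hq
    have := ((C.toCx.Minv mj).2 _ ht).mulw z2 p.1 (qz C.es hjq)
      (key _ ⟨hjq, fun w hw => C.toCx.ce (qz C.es hjq) c1 c2 hw⟩)
    rwa [inv_mul_cancel_left] at this
  have e1 := (C.R.fx u hu).nc h1
  have hx := qz C.es C.mx.1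
  obtain ⟨c, hc, c2, e⟩ : ∃ c, Commute u c ∧ c * c = 1 ∧ u * y * u⁻¹ = x * y * c := by
    rcases C.hy u hu h0 with e | e
    · exact ⟨1, Commute.one_right u, one_mul 1, by rw [e, mul_one]⟩
    · exact ⟨z, hu, z2, e⟩
  rw [← u2, ← cj_iff]
  calc u * u * y * (u * u)⁻¹ = u * (u * y * u⁻¹) * u⁻¹ := by group
    _ = u * x * u⁻¹ * (u * y * u⁻¹) * (u * c * u⁻¹) := by
      rw [conj_mul, conj_mul, ← e]
    _ = x * (z * x) * y * (c * c) := by rw [e1, e, cj_iff.2 hc]; group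
    _ = y := by rw [c2, ← hx.eq, ← mul_assoc, C.x2, z2, one_mul, mul_one]

theorem nx [Finite G] (C : CB z Q H0 x y f ε) (p : P z g) : ¬ Commute (g * z * g⁻¹) x := by
  intro c
  have hs := C.st1 c
  have cs := C.i1 hs
  have ht : g * z * g⁻¹ ∈ H0 := by simpa using C.st1 cs
  exact C.toCx.core p (fun w hw => C.toCx.ce p.1 c (C.st2 p ht cs) hw)
    (fun w hw => C.toCx.ce p.inv.1 cs (C.st2 p.inv hs (by simpa using c)) hw) C.R (.inr C.nt)

theorem caseB [Finite G] (C : CB z Q H0 x y f ε) (p : P z g) : False := by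
  have out : ∀ g, P z g → g * z * g⁻¹ ∉ H0 := fun g p e => C.nx p (C.i1 e)
  have z2 := C.toCx.z2
  have ht := t2 z2 g
  have hs := out _ p.inv
  have hx := C.mx.1
  have hy := C.my.1
  have e0 := (C.R.fx _ p.1).nc (C.nx p)
  have e1 := swapc z2 p.1 (qz C.es hx) e0
  have e2 := C.hy _ p.1 (out g p)
  have fin := fun r => C.toCx.fin (r := r) out p hx e1
  have sq := fun b => C.toCx.sq (b := b) hs
  have tz := p.1
  generalize g * z * g⁻¹ = t at ht e0 e1 e2 fin sq tz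
  have ey : ∀ r ∈ Q, E z (r * y * t * (r * y)⁻¹ * t) (r * t * r⁻¹ * t * x) := fun r hr => by
    have hr' := C.nq tz hr
    refine (C.toCx.eE ht tz (mul_mem hr hy)).trans z2 (E.trans z2 ?_
      (((C.toCx.eE ht tz hr).mulr (qz C.es hx)).symm z2))
    have a1 := (e2.mull (r * y * (t * r * t⁻¹))).trans z2
      (((invE C.es hy).symm z2).mull (r * y * (t * r * t⁻¹) * x) |> fun e => by
        simpa only [mul_assoc] using e)
    have a2 := (FQ C.es hy (mul_mem hr' hx)).mull r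
    refine E.trans z2 (by simpa only [mul_assoc, mul_inv_rev, inv_mul_cancel_left] using a1) ?_
    simpa only [mul_assoc] using a2
  obtain ⟨r, hr, n1, n2⟩ : ∃ r ∈ Q, ¬ E z (r * t * r⁻¹ * t) 1 ∧ ¬ E z (r * t * r⁻¹ * t) x := by
    by_contra hc
    push Not at hc
    let Y : Subgroup G :=
      { carrier := {r | r ∈ Q ∧ F z t r}
        mul_mem' := fun ha hb => ⟨mul_mem ha.1 hb.1, ha.2.mulw z2 tz (qz C.es hb.1) hb.2⟩
        one_mem' := ⟨one_mem _, F.of_cm (Commute.one_right _)⟩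
        inv_mem' := fun ha => ⟨inv_mem ha.1, ha.2.of_E z2 tz (invE C.es ha.1)⟩ }
    have d1 : Nat.card Q ≤ 2 * Nat.card Y := cover (y := y) fun r hr => by
      by_cases e : E z (r * t * r⁻¹ * t) 1
      · exact .inl ⟨hr, C.toCx.eF ht tz hr e⟩
      · exact .inr ⟨mul_mem hr hy, C.toCx.eF ht tz (mul_mem hr hy) (((ey r hr).trans z2
          ((hc r hr e).mulr (qz C.es hx))).trans z2 (sqE C.es hx))⟩
    have d2 := card_half (Y := Y) (t := t) (z := z) (fun q hq => qz C.es hq.1) fun q hq => by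
      by_cases e : Commute t q
      · exact .inl (cj_iff.2 e.symm)
      · exact .inr (swapc z2 tz (qz C.es hq.1) (hq.2.nc e))
    obtain ⟨a, ha, a2⟩ := big C.es C.card (A := Y ⊓ centralizer {t}) (fun a ha => ha.1.1)
      (by have := C.card; omega)
    exact C.toCx.z1 (a2.symm.trans (sq a ha.1.1 (mcs.1 ha.2).symm))
  have he := C.toCx.eQ ht tz hr
  rcases C.es.sq _ he with e | e
  · exact fin r hr n1 e
  have e' := C.toCx.e4 ht e
  have hex := mul_mem he hx
  refine fin _ (mul_mem hr hy) (fun e3 => n2 ?_) ?_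
  · exact (E_of_mul C.es he (((ey r hr).symm z2).trans z2 e3)).symm z2
  · rw [sq_of_E z2 (qz C.es hex) (ey r hr)]
    exact sq _ hex ((cm_mulw z2 C.toCx.z1 (qz C.es hx) (.inr e') (.inr e0)).2
      (iff_of_false (nc_of C.toCx.z1 e') (nc_of C.toCx.z1 e0)))

end CB

theorem Cx.toB [Finite G] (C : Cx z Q H0 x y) (hm : Commute m z) (my : M z Q H0 b)
    (ny : ¬ E z b 1) (n : ¬ F z m b) (p : P z g) : False := by
  have z2 := C.z2
  have nm : m ∉ H0 := fun e => n (my.2 m e)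
  have m1 := C.Mcj hm my
  have n1 : ¬ Commute (m * b * m⁻¹) b := fun e => by
    rcases C.cmM m1 my e with e | e | e
    · exact ny (by simpa [mul_assoc] using e.cj hm.inv_left)
    · exact ny e
    · exact n e
  have mx := C.Mmul m1 my
  have n2 : ¬ Commute (m * b * m⁻¹ * b) b := fun e => n1 (((cmQ C.es m1.1 my.1 my.1).1 e).2 rfl)
  have C' := C.chg mx my n2
  have red : ∀ a, Commute a z → a ∉ H0 → ∀ w, M z Q H0 w → E z (a * w * a⁻¹) (m * w * m⁻¹) :=
    fun a ha na w hw => by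
      have := (hw.2 _ (C.ix _ _ hm.inv_left ha (fun e => nm (inv_mem_iff.1 e)) na)).cj hm
      convert this using 1
      group
  have fm : F z m (m * b * m⁻¹ * b) := by
    have := ((my.2 _ (C.sqH hm)).mulr (qz C.es m1.1)).trans z2 (swE C.es my.1 m1.1)
    unfold F
    convert this using 1
    group
  have hx : ∀ a, Commute a z → F z a (m * b * m⁻¹ * b) := fun a ha => by
    by_cases e : a ∈ H0
    · exact mx.2 a e
    · exact (red a ha e _ mx).trans z2 fm
  have ey : E z (m * b * m⁻¹) (m * b * m⁻¹ * b * b) := by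
    simpa only [mul_assoc, mul_one] using ((sqE C.es my.1).mull (m * b * m⁻¹)).symm z2
  have x2 : m * b * m⁻¹ * b * (m * b * m⁻¹ * b) = z := by
    have e := (FQ C.es my.1 m1.1).nc fun e => n1 e.symm
    have hb := qz C.es my.1
    calc _ = m * b * m⁻¹ * (b * (m * b * m⁻¹) * b⁻¹) * (b * b) := by group
      _ = m * (b * b) * m⁻¹ * z * (b * b) := by rw [e]; group
      _ = z := by
        rcases C.es.sq b my.1 with e | e <;> rw [e]
        · simp
        · rw [cj_iff.2 hm, z2, one_mul]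
  generalize m * b * m⁻¹ * b = a at mx n2 C' fm hx ey x2
  obtain ⟨f, v, ε, R, nv⟩ := C'.getf mx hx my fun e => n2 e.symm
  have hb := qz C.es my.1
  have ev : E z v a := by
    rcases C'.all v (C.relM R) with e | e | e | e
    · exact (R.ne e).elim
    · exact e
    · exact (nv ((e.cm hb).2 rfl)).elim
    · exfalso
      have h1 := ((R.fx m hm).of_E z2 hm (e.symm z2)).symm z2
      rw [← conj_mul] at h1
      have h2 := h1.trans z2 (E.mul z2 (qz C.es m1.1) fm ey)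
      rw [← mul_assoc] at h2
      have h3 := (E.canr hb h2).trans z2 (sqE C.es mx.1)
      exact n2 (cm1 hb h3).symm
  have R' : Rel z Q H0 f a ε := ⟨mx.1, hx, fun e => R.ne (ev.trans z2 e),
    fun h hh => by rw [R.i h hh, ch_eq (ev.cm (C.Hz hh))],
    fun h hh nh => by rw [R.o h hh nh, ch_eq (ev.cm hh)]⟩
  exact CB.caseB ⟨C', R', fun c hc nc => (red c hc nc b my).trans z2 ey, x2⟩ p

end U6.SB

namespace U6

open SB

theorem sixB {G : Type*} [Group G] [Finite G] {F : Type*} [Field F] {z : G} {Q H0 : Subgroup G}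
    {x y : G} (h : Hyp F z Q H0) (s : Six z Q H0 x y) (ix : Ix z H0) : Cfsg.IsIsolated z := by
  intro g hg
  by_contra n
  have p : P z g := ⟨hg.symm, n⟩
  have C := cx_of h s ix
  refine C.caseA (fun m hm => ⟨?_, ?_⟩) p
  · by_contra e
    exact C.toB hm C.mx (fun e => C.xy (cm1 (qz C.es C.my.1) e).symm) e p
  · by_contra e
    exact C.toB hm C.my (fun e => C.xy (cm1 (qz C.es C.mx.1) e)) e p

end U6
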