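import Cfsg.Agent.U6.V

/-! Finite checks in `F₄⁴`. -/

set_option autoImplicit false
set_option maxRecDepth 100000

namespace U6

def a0 : V := (1, 1, 0, 0)
def b0 : V := (0, 0, 1, 1)
theorem k_ir1 : ∀ u : V, hf u u = 0 → u ≠ 0 → ∃ a, hf a a = 0 ∧ hf u a = 1 ∧
    ∃ b, hf b b = 0 ∧ hf a b = 1 ∧ hf b a0 = 1 := by decide +kernel
theorem k_ir2 : ∀ u : V, hf u u = 0 → u ≠ 0 → ∃ a, hf a a = 0 ∧ hf a0 a = 1 ∧
    ∃ b, hf b b = 0 ∧ hf a b = 1 ∧ hf b u = 1 := by decide +kernel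
theorem k_ir3 : ∀ x : V, ∃ a, hf a a = 0 ∧ hf (x + a) (x + a) = 0 := by decide +kernel
theorem k_ir4 : ∀ x : V, x ≠ 0 → ∃ a, hf a a = 0 ∧ hf x a = 1 := by decide +kernel
theorem k_unit : ∀ v : V, hf v v = 0 → ∃ x, hf x v = 0 ∧ hf x x = 1 := by decide +kernel
theorem k_pr : ∀ b : V, hf b b = 0 → hf b a0 = 0 → (∃ c : K4, b = c • a0) ∨
    ∃ x, hf x x = 0 ∧ hf x a0 = 0 ∧ ∃ y, hf y y = 0 ∧ hf y a0 = 0 ∧ ∃ c : K4,
      (b + hf b x • x) + hf (b + hf b x • x) y • y = c • b0 := by decide +kernel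
theorem k_ti : ∀ y : V, hf y a0 = 0 → hf y b0 = 0 → ∃ c d : K4, y = c • a0 + d • b0 := by
  decide +kernel
theorem k_p1 : ∀ y : V, (∀ x, hf x a0 = 0 → hf x y = 0) → ∃ c : K4, y = c • a0 := by
  intro y h
  have h1 := h (1, 1, 0, 0) (by decide +kernel)
  have h2 := h (0, 0, 1, 0) (by decide +kernel)
  have h3 := h (0, 0, 0, 1) (by decide +kernel)
  clear h
  revert y; decide +kernel

end U6
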