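import Cfsg.Agent.U6.St
import Cfsg.Agent.U6.CK

/-! Uniqueness of `Q`, abelian subgroups of `Q`, transitivity on points. -/

set_option autoImplicit false
set_option maxRecDepth 100000
open Equiv Subgroup

namespace U6


/-- irreducibility -/
theorem irr {F : Set V} (h0 : 0 ∈ F) (ha : ∀ x ∈ F, ∀ y ∈ F, x + y ∈ F)
    (ht : ∀ x ∈ F, ∀ p, hf p p = 0 → x + hf x p • p ∈ F) {v : V} (hv : v ∈ F) (v0 : v ≠ 0)
    (x : V) : x ∈ F := by
  have st : ∀ x ∈ F, ∀ p, hf p p = 0 → hf x p = 1 → p ∈ F := fun x hx p hp e => by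
    have := ha _ hx _ (ht x hx p hp)
    rwa [V2', e, one_smul] at this
  obtain ⟨u, hu, e⟩ := k_ir4 v v0
  have u0 : u ≠ 0 := fun c => by rw [c, hf0r] at e; exact zero_ne_one e
  obtain ⟨a, a1, a2, b, b1, b2, b3⟩ := k_ir1 u hu u0
  have m := st _ (st _ (st _ (st _ hv u hu e) a a1 a2) b b1 b2) a0 (by decide +kernel) b3
  have all : ∀ w, hf w w = 0 → w ∈ F := fun w hw => by
    by_cases w0 : w = 0
    · exact w0 ▸ h0
    obtain ⟨a, a1, a2, b, b1, b2, b3⟩ := k_ir2 w hw w0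
    exact st _ (st _ (st _ m a a1 a2) b b1 b2) w hw b3
  obtain ⟨a, a1, a2⟩ := k_ir3 x
  rw [← V2r a x]
  exact ha _ (all _ a2) _ (all _ a1)

theorem step1 {u w : V} (hu : hf u u = 0) (hw : hf w w = 0) (e : hf u w = 1) :
    ∃ h : hf (u + w) (u + w) = 0, τ (u + w) h u = w := by
  have e' : hf w u = 1 := by rw [hf_cj, e, cj_one]
  refine ⟨by rw [qf_add, hu, hw, bf, e, e', add_zero, zero_add, K2], ?_⟩
  show u + hf u (u + w) • (u + w) = w
  rw [hf_addr, hu, e, zero_add, one_smul, V2']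
/-- transitivity on isotropic vectors -/
theorem ex_a0 {u : V} (hu : hf u u = 0) (u0 : u ≠ 0) : ∃ g ∈ Γ0, g u = a0 := by
  obtain ⟨a, a1, a2, b, b1, b2, b3⟩ := k_ir1 u hu u0
  obtain ⟨h1, e1⟩ := step1 hu a1 a2
  obtain ⟨h2, e2⟩ := step1 a1 b1 b2
  obtain ⟨h3, e3⟩ := step1 b1 (by decide +kernel) b3
  exact ⟨τ _ h3 * (τ _ h2 * τ _ h1), mul_mem ((tv_τ h3).mem h3) (mul_mem ((tv_τ h2).mem h2)
    ((tv_τ h1).mem h1)), by rw [Perm.mul_apply, Perm.mul_apply, e1, e2, e3]⟩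
theorem ex_vec {u w : V} (hu : hf u u = 0) (u0 : u ≠ 0) (hw : hf w w = 0) (w0 : w ≠ 0) :
    ∃ g ∈ Γ0, g u = w := by
  obtain ⟨g, hg, e⟩ := ex_a0 hu u0
  obtain ⟨k, hk, f⟩ := ex_a0 hw w0
  exact ⟨k⁻¹ * g, mul_mem (inv_mem hk) hg, by rw [Perm.mul_apply, e, ← f]; simp⟩
/-- transitivity on ordered pairs of collinear points -/
theorem ex_pair {a b : V} (ha : hf a a = 0) (a0' : a ≠ 0) (hb : hf b b = 0) (ab : hf b a = 0)
    (n : ∀ c : K4, b ≠ c • a) : ∃ g ∈ Γ0, g a = a0 ∧ ∃ c : K4, c ≠ 0 ∧ g b = c • b0 := by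
  obtain ⟨g, hg, e⟩ := ex_a0 ha a0'
  have l := Γ0_lin hg
  rcases k_pr (g b) (by rw [l, hb]) (by rw [← e, l, ab]) with ⟨c, h⟩ | ⟨x, x1, x2, y, y1, y2, c, h⟩
  · exact absurd (g.injective (by rw [h, l.smul, e])) (n c)
  have m := mul_mem ((tv_τ y1).mem y1) (mul_mem ((tv_τ x1).mem x1) hg)
  refine ⟨_, m, ?_, c, fun c0 => n 0 ?_, h⟩
  · show τ y y1 (τ x x1 (g a)) = a0
    rw [e, tv_τ x1, hf_symm x2, zero_smul, add_zero, tv_τ y1, hf_symm y2, zero_smul, add_zero]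
  · rw [zero_smul, ← (show SL _ from Or.inl (Γ0_lin m)).eq0, ← zero_smul K4 b0, ← c0]
    exact h
/-- a totally isotropic line is its own orthogonal complement -/
theorem ti2 {a b y : V} (ha : hf a a = 0) (a0' : a ≠ 0) (hb : hf b b = 0) (ab : hf b a = 0)
    (n : ∀ c : K4, b ≠ c • a) (h1 : hf y a = 0) (h2 : hf y b = 0) :
    ∃ c d : K4, y = c • a + d • b := by
  obtain ⟨g, hg, e, c, c0, f⟩ := ex_pair ha a0' hb ab n
  have l := Γ0_lin hg
  obtain ⟨c', d, h⟩ := k_ti (g y) (by rw [← e, l, h1]) (by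
    have := l y b
    rw [f, hf_smulr, h2, mul_eq_zero, cj_eq_zero] at this
    exact this.resolve_left c0)
  refine ⟨c', d * c⁻¹, g.injective ?_⟩
  rw [h, SL.add (Or.inl l), l.smul, l.smul, e, f, smul_smul, inv_mul_cancel_right₀ c0]
theorem pp1 {a y : V} (ha : hf a a = 0) (a0' : a ≠ 0) (h : ∀ x, hf x a = 0 → hf x y = 0) :
    ∃ c : K4, y = c • a := by
  obtain ⟨g, hg, e⟩ := ex_a0 ha a0'
  have l := Γ0_lin hg
  obtain ⟨c, h⟩ := k_p1 (g y) fun x hx => by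
    obtain ⟨x, rfl⟩ := g.surjective x
    rw [l]; exact h x (by rw [← l, e, hx])
  exact ⟨c, g.injective (by rw [h, l.smul, e])⟩

/-- a `bf`-isotropic subgroup has at most `16` elements -/
theorem ti16 (A : Finset V) (h0 : 0 ∈ A) (ha : ∀ x ∈ A, ∀ y ∈ A, x + y ∈ A)
    (hi : ∀ x ∈ A, ∀ y ∈ A, bf x y = 0) : A.card ≤ 16 := by
  let χ : V → V → ℤ := fun x y => if bf x y = 0 then 1 else -1
  have neg : ∀ (B : Finset V) (x y0 : V), (∀ y ∈ B, y + y0 ∈ B) → bf x y0 = 1 →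
      ∑ y ∈ B, χ x y = 0 := fun B x y0 hB e => by
    refine Finset.sum_involution (fun y _ => y + y0) (fun y _ => ?_) (fun y _ _ c => ?_)
      (fun y hy => hB y hy) fun y _ => V2r _ _
    · simp only [χ, bf_addr, e]
      rcases bf01 x y with f | f <;> simp [f, K2]
    · rw [add_eq_left.1 c, bf_comm, ← V2 0, bf_addl, K2] at e
      exact zero_ne_one e
  have s1 : ∑ x ∈ A, ∑ y, χ x y = 256 := by
    rw [Finset.sum_eq_single_of_mem 0 h0 fun x _ x0 => ?_]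
    · have : ∀ y, χ 0 y = 1 := fun y => if_pos (by simp [bf])
      simp only [this, Finset.sum_const, Finset.card_univ, ← Nat.card_eq_fintype_card, cardV]
      rfl
    · obtain ⟨y, hy⟩ := not_forall.1 (mt bf_nd x0)
      exact neg _ x y (fun _ _ => Finset.mem_univ _) ((bf01 x y).resolve_left hy)
  have s2 : ∀ y, 0 ≤ ∑ x ∈ A, χ x y ∧ (y ∈ A → ∑ x ∈ A, χ x y = A.card) := fun y => by
    have e : ∀ x, χ x y = χ y x := fun x => by simp only [χ, bf_comm x y]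
    by_cases c : ∀ x ∈ A, bf x y = 0
    · rw [Finset.sum_congr rfl fun x hx => show χ x y = 1 from if_pos (c x hx)]
      simp
    · refine ⟨?_, fun hy => absurd (fun x hx => hi x hx y hy) c⟩
      push Not at c
      obtain ⟨x, hx, c⟩ := c
      simp only [e]
      rw [neg A y x (fun w hw => ha w hw x hx) (by rw [bf_comm]; exact (bf01 x y).resolve_left c)]
  rw [Finset.sum_comm] at s1
  have s3 : ∑ y ∈ A, ∑ x ∈ A, χ x y ≤ ∑ y, ∑ x ∈ A, χ x y :=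
    Finset.sum_le_sum_of_subset_of_nonneg (Finset.subset_univ _) fun y _ _ => (s2 y).1
  rw [s1, Finset.sum_congr rfl fun y hy => (s2 y).2 hy, Finset.sum_const, nsmul_eq_mul] at s3
  nlinarith

variable {G : Type*} [Group G]

theorem card_ix [Finite G] {A K : Subgroup G} (h : ∀ a ∈ A, ∀ b ∈ A, a ∉ K → b ∉ K → a * b ∈ K) :
    Nat.card A ≤ 2 * Nat.card (A ⊓ K : Subgroup G) := by
  by_cases c : A ≤ K
  · rw [inf_eq_left.2 c]; omega
  obtain ⟨a, ha, aK⟩ := SetLike.not_le_iff_exists.1 c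
  classical
  have := Nat.card_le_card_of_injective (fun x : A => if hx : x.1 ∈ K then
    ((⟨x.1, x.2, hx⟩ : (A ⊓ K : Subgroup G)), true) else
    (⟨a * x.1, mul_mem ha x.2, h a ha _ x.2 aK hx⟩, false)) fun x y e => by
      by_cases hx : x.1 ∈ K <;> by_cases hy : y.1 ∈ K <;> simp [hx, hy] at e
      · exact Subtype.ext (Subtype.mk.inj e)
      · exact Subtype.ext (mul_left_cancel (congrArg Subtype.val e))
  rwa [Nat.card_prod, Nat.card_eq_fintype_card (α := Bool), Fintype.card_bool, mul_comm] at this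

namespace St
variable {z : G} (S : St z)

/-- change of coordinates -/
def tw {g : Perm V} (hg : g ∈ Γ0) : St z where
  Q := S.Q
  π m := g * S.π m * g⁻¹
  ρ q := g (S.ρ q)
  z2 := S.z2
  z1 := S.z1
  zQ := S.zQ
  QM := S.QM
  pm ha hb := by rw [S.pm ha hb]; group
  pk ha := by rw [← S.pk ha]; simp [mul_inv_eq_iff_eq_mul]
  ps h := by
    obtain ⟨m, hm, e⟩ := S.ps (mul_mem (mul_mem (inv_mem hg) h) hg)
    exact ⟨m, hm, by rw [e]; group⟩
  rm ha hb := by rw [S.rm ha hb, SL.add (Or.inl (Γ0_lin hg))]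
  rk ha := by rw [← S.rk ha, SL.eq0 (Or.inl (Γ0_lin hg))]
  rs v := by
    obtain ⟨a, ha, e⟩ := S.rs (g⁻¹ v)
    exact ⟨a, ha, by rw [e]; simp⟩
  rc hm hq := by rw [S.rc hm hq]; simp
  sq hq := by rw [Γ0_lin hg, S.sq hq]
  sl hm := (SL.mul (Or.inl (Γ0_lin hg)) (S.sl hm)).mul (Or.inl (Γ0_lin hg).inv)
  ns {m} hm h := mul_mem (mul_mem hg (S.ns hm (by
    have := SL.conj (Or.inl (Γ0_lin hg).inv) h
    rwa [show g⁻¹ * (g * S.π m * g⁻¹) * g⁻¹⁻¹ = S.π m by group] at this))) (inv_mem hg)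

theorem Q_le [Finite G] (T : St z) : S.Q ≤ T.Q := by
  have hc : ∀ x ∈ S.Q, Commute x z := fun _ h => S.QM h
  let A := T.im S.Q hc
  have hp : IsPGroup 2 A := fun a => ⟨2, Subtype.ext (by
    simpa [pow_succ, mul_assoc] using T.im_four hc (fun x hx => S.four hx) a a.2)⟩
  have sl : ∀ a ∈ A, SL a := fun a ha => by
    obtain ⟨x, hx, rfl⟩ := T.mem_im.1 ha
    exact T.sl (hc x hx)
  obtain ⟨v, hv, v0⟩ := hp.exists_fixed_point_of_prime_dvd_card_of_fixed_point V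
    (by rw [cardV]; decide) (a := 0) fun a => (sl a a.2).zero
  intro q hq
  refine (T.pk (hc q hq)).1 (Perm.ext fun x => ?_)
  refine irr (F := {x | ∀ a ∈ A, a x = x}) (fun a ha => (sl a ha).zero)
    (fun x hx y hy a ha => by rw [(sl a ha).add, hx a ha, hy a ha]) (fun x hx p hp a ha => ?_)
    (fun a ha => hv ⟨a, ha⟩) (Ne.symm v0) x _ (T.mem_im.2 ⟨q, hq, rfl⟩)
  obtain ⟨m, hm, e⟩ := T.ps ((tv_τ hp).mem hp)
  obtain ⟨r, hr, rfl⟩ := T.mem_im.1 ha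
  have := hx _ (T.mem_im.2 ⟨_, S.nq hm.inv_left hr, rfl⟩)
  rw [T.pc hm.inv_left (hc r hr), T.pinv hm, e, inv_inv, Perm.mul_apply, Perm.mul_apply,
    Perm.inv_eq_iff_eq] at this
  exact this
theorem Q_eq [Finite G] (T : St z) : S.Q = T.Q := le_antisymm (S.Q_le T) (T.Q_le S)

theorem f1 [Finite G] {a : G} (T : St a) (c : IsConj z a) (ha : a ∈ S.Q) : z ∈ T.Q := by
  by_cases n : a = z
  · subst n; exact T.zQ
  obtain ⟨g, rfl⟩ := isConj_iff.1 c
  have := S.es.toSymT.mem_conj (fun m hm => mem_normalizer_fintype fun n hn => S.nq (mcs.1 hm) hn)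
    (fun m hm => S.mem_of_fix (mcs.1 hm.1) fun q hq =>
      S.fix_of_comm (mcs.1 hm.1) hq (hm.2 q hq)) n ha
  rw [← (S.cjg g).Q_eq T]
  rw [H4.mem_conjS] at this
  simpa [cjg, mem_comap] using this

theorem ab32 [Finite G] {A : Subgroup G} (hA : A ≤ S.Q) (h : ∀ a ∈ A, ∀ b ∈ A, Commute a b) :
    Nat.card A ≤ 32 := by
  classical
  have hm : ∀ a ∈ A, ∀ b ∈ A, Multiplicative.ofAdd (S.ρ (a * b)) =
      Multiplicative.ofAdd (S.ρ a) * Multiplicative.ofAdd (S.ρ b) := fun a ha b hb => by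
    rw [S.rm (hA ha) (hA hb)]; rfl
  rw [card_imf (N := zpowers z) (p := fun q => Multiplicative.ofAdd (S.ρ q)) hm fun x hx => by
    rw [ofAdd_eq_one, S.rk (hA hx), S.es.mem_zpowers_iff]]
  have c1 := card_le_of_le (inf_le_right : A ⊓ zpowers z ≤ _)
  rw [S.es.card_zpowers] at c1
  let F : Finset V := Finset.univ.filter fun v => ∃ a ∈ A, S.ρ a = v
  have mF : ∀ v, v ∈ F ↔ ∃ a ∈ A, S.ρ a = v := fun v => by simp [F]
  have c2 := ti16 F ((mF _).2 ⟨1, one_mem _, S.r1⟩) (fun x hx y hy => by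
    obtain ⟨a, ha, rfl⟩ := (mF _).1 hx
    obtain ⟨b, hb, rfl⟩ := (mF _).1 hy
    exact (mF _).2 ⟨_, mul_mem ha hb, S.rm (hA ha) (hA hb)⟩) fun x hx y hy => by
      obtain ⟨a, ha, rfl⟩ := (mF _).1 hx
      obtain ⟨b, hb, rfl⟩ := (mF _).1 hy
      exact (S.cm (hA ha) (hA hb)).1 (h a ha b hb)
  have c3 := card_le_list (imf A _ hm) (F.toList.map Multiplicative.ofAdd) fun x hx => by
    obtain ⟨q, hq, rfl⟩ := mem_imf.1 hx
    exact List.mem_map_of_mem (Finset.mem_toList.2 ((mF _).2 ⟨q, hq, rfl⟩))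
  rw [List.length_map, Finset.length_toList] at c3
  exact Nat.mul_le_mul c1 (c3.trans c2)

/-- lifting the stabilizer of the image of an element of `Q` -/
theorem lifta {a : G} (ha : a ∈ S.Q) (h0 : S.ρ a ≠ 0) {γ : Perm V} (h : γ ∈ Γ0)
    (hc : γ (S.ρ a) = S.ρ a) : ∃ x, Commute x z ∧ Commute x a ∧ S.π x = γ := by
  obtain ⟨x, hx, rfl⟩ := S.ps h
  rcases S.eqr ha (S.nq hx ha) (by rw [S.rc hx ha, hc]) with e | e
  · exact ⟨x, hx, mul_inv_eq_iff_eq_mul.1 e, rfl⟩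
  · obtain ⟨q, hq, e'⟩ := S.cjz ha h0
    have qz := (S.QM hq).inv_left
    refine ⟨q⁻¹ * x, qz.mul_left hx, mul_inv_eq_iff_eq_mul.1 ?_,
      by rw [S.pm qz hx, S.pQ (inv_mem hq), one_mul]⟩
    calc _ = q⁻¹ * (x * a * x⁻¹) * q := by group
      _ = a := by rw [e, ← e']; group

end St
end U6
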