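import Cfsg.Agent.U6.C0

/-! Involutions of `ΓU₄(2)`. -/

set_option autoImplicit false
open Equiv Subgroup

namespace U6
variable {γ δ : Perm V}

/-- `γ` is a transvection -/
def TV (γ : Perm V) : Prop := ∃ p, p ≠ 0 ∧ hf p p = 0 ∧ Tv γ p
/-- `γ` is a product of two commuting transvections -/
structure TB (γ : Perm V) (a b : V) : Prop where
  a0 : a ≠ 0
  ia : hf a a = 0
  ib : hf b b = 0
  ba : hf b a = 0
  ne : ∀ c : K4, b ≠ c • a
  ap : ∀ x, γ x = x + hf x a • a + hf x b • b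

theorem ex_dual {a b : V} (ha : hf a a = 0) (a0 : a ≠ 0) (n : ∀ c : K4, b ≠ c • a) (d : K4) :
    ∃ y, hf y a = 0 ∧ hf y b = d := by
  have : ¬ ∀ x, hf x a = 0 → hf x b = 0 := fun h => (pp1 ha a0 h).elim n
  push Not at this
  obtain ⟨x, h1, h2⟩ := this
  exact ⟨(d * (hf x b)⁻¹) • x, by rw [hf_smull, h1, mul_zero],
    by rw [hf_smull, inv_mul_cancel_right₀ h2]⟩
theorem ne_symm' {a b : V} (a0 : a ≠ 0) (n : ∀ c : K4, b ≠ c • a) (c : K4) : a ≠ c • b :=
  fun e => by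
    have c0 : c ≠ 0 := fun h => a0 (by rw [e, h, zero_smul])
    exact n c⁻¹ (by rw [e, smul_smul, inv_mul_cancel₀ c0, one_smul])
theorem TB.b0 {a b : V} (h : TB γ a b) : b ≠ 0 := fun e => h.ne 0 (by rw [e, zero_smul])
theorem TB.symm {a b : V} (h : TB γ a b) : TB γ b a :=
  ⟨h.b0, h.ib, h.ia, hf_symm h.ba, ne_symm' h.a0 h.ne, fun x => by rw [h.ap, add_right_comm]⟩
theorem TB.dual {a b : V} (h : TB γ a b) (c d : K4) : ∃ y, hf y a = c ∧ hf y b = d := by
  obtain ⟨x, x1, x2⟩ := ex_dual h.ia h.a0 h.ne d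
  obtain ⟨y, y1, y2⟩ := ex_dual h.ib h.b0 h.symm.ne c
  exact ⟨x + y, by rw [hf_addl, x1, y2, zero_add], by rw [hf_addl, x2, y1, add_zero]⟩
theorem TB.fix {a b x : V} (h : TB γ a b) : γ x = x ↔ hf x a = 0 ∧ hf x b = 0 := by
  rw [h.ap]
  refine ⟨fun e => ?_, fun e => by simp [e]⟩
  rw [add_assoc, add_eq_left] at e
  obtain ⟨y, y1, y2⟩ := h.dual 1 0
  obtain ⟨w, w1, w2⟩ := h.dual 0 1
  have e1 := congrArg (hf y) e
  have e2 := congrArg (hf w) e
  simpa [hf_addr, hf_smulr, y1, y2, w1, w2] using And.intro e1 e2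
theorem TB.span {a b x : V} (h : TB γ a b) (e : γ x = x) : ∃ c d : K4, x = c • a + d • b :=
  ti2 h.ia h.a0 h.ib h.ba h.ne (h.fix.1 e).1 (h.fix.1 e).2
theorem TB.ti {a b x y : V} (h : TB γ a b) (e : γ x = x) (f : γ y = y) : hf x y = 0 := by
  obtain ⟨c, d, rfl⟩ := h.span f
  rw [hf_addr, hf_smulr, hf_smulr, (h.fix.1 e).1, (h.fix.1 e).2]; simp
theorem TB.fa {a b : V} (h : TB γ a b) : γ a = a := h.fix.2 ⟨h.ia, hf_symm h.ba⟩
theorem TB.fb {a b : V} (h : TB γ a b) : γ b = b := h.symm.fa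
theorem TB.N {a b : V} (h : TB γ a b) (y : V) : y + γ y = hf y a • a + hf y b • b := by
  rw [h.ap, add_assoc, V2']
theorem TB.m4 {a b : V} (h : TB γ a b) : M4 γ := fun x e => by
  obtain ⟨c, d, rfl⟩ := h.span e
  obtain ⟨y, rfl, rfl⟩ := h.dual c d
  exact ⟨y, (h.N y).symm⟩
theorem TB.isA {a b : V} (h : TB γ a b) : IsA γ := fun y => by
  rw [h.N]
  simp [hf_addl, hf_addr, hf_smull, hf_smulr, h.ia, h.ib, h.ba, hf_symm h.ba]
theorem TB.lin {a b : V} (h : TB γ a b) : Lin γ := by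
  have : γ = τ b h.ib * τ a h.ia := Perm.ext fun x => by
    rw [h.ap, Perm.mul_apply, tv_τ h.ib, tv_τ h.ia, hf_addl, hf_smull, hf_symm h.ba, mul_zero,
      add_zero]
  rw [this]
  exact ((tv_τ h.ib).lin h.ib).mul ((tv_τ h.ia).lin h.ia)
theorem TB.conj {a b : V} (h : TB γ a b) (k : Lin δ) : TB (δ * γ * δ⁻¹) (δ a) (δ b) where
  a0 := mt (SL.eq0 (Or.inl k)).1 h.a0
  ia := by rw [k, h.ia]
  ib := by rw [k, h.ib]
  ba := by rw [k, h.ba]
  ne c e := h.ne c (δ.injective (by rw [e, k.smul]))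
  ap x := by
    obtain ⟨x, rfl⟩ := δ.surjective x
    rw [Perm.mul_apply, Perm.mul_apply, Perm.inv_def, Equiv.symm_apply_apply, h.ap,
      SL.add (Or.inl k), SL.add (Or.inl k), k.smul, k.smul, k, k]
theorem TB.smul {a b : V} (h : TB γ a b) {c : K4} (c0 : c ≠ 0) : TB γ a (c • b) where
  a0 := h.a0
  ia := h.ia
  ib := by rw [qf_smul c0, h.ib]
  ba := by rw [hf_smull, h.ba, mul_zero]
  ne d e := h.ne (c⁻¹ * d) (by rw [← smul_smul, ← e, smul_smul, inv_mul_cancel₀ c0, one_smul])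
  ap x := by
    rw [h.ap, hf_smulr, smul_smul, mul_right_comm, mul_comm (cj c), mul_cj c c0, one_mul]
theorem TB.eq {a b : V} (h : TB γ a b) (k : TB δ a b) : γ = δ :=
  Perm.ext fun x => (h.ap x).trans (k.ap x).symm
theorem TB.ex0 {a b : V} (h : TB γ a b) : ∃ g ∈ Γ0, TB (g * γ * g⁻¹) U6.a0 U6.b0 := by
  obtain ⟨g, hg, e, c, c0, f⟩ := ex_pair h.ia h.a0 h.ib h.ba h.ne
  have := (h.conj (Γ0_lin hg)).smul (inv_ne_zero c0)
  rw [e, f, smul_smul, inv_mul_cancel₀ c0, one_smul] at this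
  exact ⟨g, hg, this⟩
theorem TB.isConj {a b a' b' : V} (h : TB γ a b) (k : TB δ a' b') :
    ∃ g ∈ Γ0, g * γ * g⁻¹ = δ := by
  obtain ⟨g, hg, e⟩ := h.ex0
  obtain ⟨g', hg', e'⟩ := k.ex0
  refine ⟨g'⁻¹ * g, mul_mem (inv_mem hg') hg, ?_⟩
  calc _ = g'⁻¹ * (g * γ * g⁻¹) * g' := by group
    _ = δ := by rw [e.eq e']; group
theorem ALin.m4 (h : ALin γ) : M4 γ := fun x e => ⟨ω • x, by
  rw [h.smul, e, cj_ω, add_smul, one_smul, V2']⟩
theorem ALin.dec (h : ALin γ) (h2 : γ * γ = 1) (x : V) :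
    ∃ a b, γ a = a ∧ γ b = b ∧ x = a + ω • b := by
  have i : ∀ y, γ (y + γ y) = y + γ y := fun y => by
    rw [SL.add (Or.inr h), ← Perm.mul_apply, h2, Perm.one_apply, add_comm]
  refine ⟨_, _, i ((ω + 1) • x), i x, ?_⟩
  rw [h.smul, cj_add, cj_ω, cj_one, add_assoc ω, K2, add_zero, smul_add, add_smul, one_smul,
    add_add_add_comm, add_assoc, V2, add_zero, add_right_comm, V2, zero_add]
theorem ALin.f2 (h : ALin γ) {x y : V} (e : γ x = x) (f : γ y = y) : hf x y = 0 ∨ hf x y = 1 :=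
  (cj_fix _).1 (by rw [← h, e, f])

theorem ex_one {N : V → V} (ad : ∀ x y, N (x + y) = N x + N y)
    (adj : ∀ x y, hf (N x) y = hf x (N y)) {y : V} (h : N y ≠ 0) : ∃ x, hf x (N x) = 1 := by
  by_contra hc
  push Not at hc
  have z : ∀ x, hf x (N x) = 0 := fun x =>
    ((cj_fix _).1 (by rw [← hf_cj, adj])).resolve_right (hc x)
  refine h (bf_nd fun x => ?_)
  have := z (x + y)
  rw [ad, hf_addl, hf_addr, hf_addr, z, z, zero_add, add_zero, ← adj y] at this
  rw [bf, add_comm, this]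

theorem tri (h : SL γ) (h2 : γ * γ = 1) (h1 : γ ≠ 1) : TV γ ∨ (∃ a b, TB γ a b) ∨ ALin γ := by
  rcases h with h | h
  swap
  · exact Or.inr (Or.inr h)
  have ad := SL.add (Or.inl h)
  have i : ∀ y, γ (γ y) = y := fun y => by rw [← Perm.mul_apply, h2, Perm.one_apply]
  have adj : ∀ x y, hf (x + γ x) y = hf x (y + γ y) := fun x y => by
    rw [hf_addl, hf_addr, ← h x (γ y), i]
  have nn : ∀ x y, hf (x + γ x) (y + γ y) = 0 := fun x y => by
    rw [adj, ad, i, add_comm (γ y), V2, hf0r]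
  obtain ⟨y, hy⟩ : ∃ y, y + γ y ≠ 0 := by
    by_contra hc
    push Not at hc
    exact h1 (Perm.ext fun x => (eq_of_add (hc x)).symm)
  obtain ⟨x1, e1⟩ := ex_one (N := fun x => x + γ x) (fun x y => by rw [ad, add_add_add_comm]) adj hy
  set a := x1 + γ x1 with ha
  have ia : hf a a = 0 := nn _ _
  have a0 : a ≠ 0 := fun e => by rw [e, hf0r] at e1; exact zero_ne_one e1
  have e1' : hf a x1 = 1 := by rw [hf_cj, e1, cj_one]
  by_cases c : ∀ x, x + γ x + hf x a • a = 0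
  · exact Or.inl ⟨a, a0, ia, fun x => by rw [← eq_of_add (c x), V2']⟩
  obtain ⟨y, hy⟩ := not_forall.1 c
  have adj2 : ∀ x y, hf (x + γ x + hf x a • a) y = hf x (y + γ y + hf y a • a) := fun x y => by
    rw [hf_addl, adj, hf_addr (y + γ y), hf_smull, hf_smulr, ← hf_cj, mul_comm]
  obtain ⟨x2, e2⟩ := ex_one (N := fun x => x + γ x + hf x a • a) (fun x y => by
    rw [ad, hf_addl, add_smul]; abel) adj2 hy
  set b := x2 + γ x2 + hf x2 a • a with hb
  have na : ∀ x, hf (x + γ x + hf x a • a) a = 0 := fun x => by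
    rw [hf_addl, nn, hf_smull, ia]; simp
  have n1 : ∀ x, hf (x + γ x + hf x a • a) x1 = 0 := fun x => by
    rw [adj2, e1, one_smul, V2, hf0r]
  have nb : ∀ x, hf (x + γ x + hf x a • a) b = 0 := fun x => by
    rw [hb, hf_addr, hf_smulr, na, hf_addl, nn, hf_smull, hf_symm (nn x2 x1)]; simp
  have e2' : hf b x2 = 1 := by rw [hf_cj, e2, cj_one]
  have ne : ∀ c : K4, b ≠ c • a := fun c e => by
    have := n1 x2
    rw [← hb, e, hf_smull, e1', mul_one] at this
    rw [e, this, zero_smul, hf0l] at e2'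
    exact zero_ne_one e2'
  refine Or.inr (Or.inl ⟨a, b, a0, ia, nb _, na _, ne, fun x => ?_⟩)
  obtain ⟨c, d, e⟩ := ti2 ia a0 (nb _) (na _) ne (na x) (nb x)
  have f1 := n1 x
  have f2 := adj2 x x2
  rw [e, hf_addl, hf_smull, hf_smull, e1', n1, mul_zero, add_zero, mul_one] at f1
  rw [e, f1, zero_smul, zero_add, hf_smull, e2', mul_one] at f2
  rw [f1, zero_smul, zero_add, f2] at e
  rw [← e, add_assoc, add_comm (x + γ x), V2', V2']

theorem notv3 {p q : V} (h : Tv γ p) (k : Tv δ q) (hp : hf p p = 0) (hq : hf q q = 0)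
    (p0 : p ≠ 0) (q0 : q ≠ 0) (c : γ * δ = δ * γ) (l : TV (γ * δ)) : False := by
  obtain ⟨r, r0, -, l⟩ := l
  have pq := h.perp k hq c
  by_cases n : ∃ c : K4, q = c • p
  · obtain ⟨c, e⟩ := n
    have c0 : c ≠ 0 := fun h => q0 (by rw [e, h, zero_smul])
    exact l.ne_one r0 (by rw [show δ = γ from Tv.eq (e ▸ k) (h.smul c0), h.sq hp])
  push Not at n
  obtain ⟨x, x1, x2⟩ := ex_dual hp p0 n 1
  obtain ⟨y, y1, y2⟩ := ex_dual hq q0 (ne_symm' p0 n) 1
  have e1 := l x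
  have e2 := l y
  rw [Perm.mul_apply, k, h, hf_addl, hf_smull, hf_symm pq] at e1 e2
  simp only [x1, x2, y1, y2, mul_zero, add_zero, zero_smul, one_smul, add_right_inj] at e1 e2
  have : hf y r ≠ 0 := fun e => p0 (by rw [e2, e, zero_smul])
  exact n (hf x r * (hf y r)⁻¹) (by
    rw [← smul_smul, e1, e2, smul_smul (hf y r)⁻¹, inv_mul_cancel₀ this, one_smul])

theorem ker_ge (f : V → V) (ha : ∀ x y, f (x + y) = f x + f y) (F : Finset V) (hF : ∀ x, f x ∈ F) :
    256 ≤ (Finset.univ.filter fun x => f x = 0).card * F.card := by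
  have := Finset.card_le_mul_card_image (f := f) Finset.univ
    (Finset.univ.filter fun x => f x = 0).card fun v hv => by
      obtain ⟨y, -, rfl⟩ := Finset.mem_image.1 hv
      refine Finset.card_le_card_of_injOn (· + y) (fun x hx => ?_) fun _ _ _ _ e => add_right_cancel e
      have : f x = f y := by simpa using hx
      simp [ha, this, V2]
  rw [Finset.card_univ, ← Nat.card_eq_fintype_card, cardV] at this
  exact this.trans (Nat.mul_le_mul_left _ (Finset.card_le_card fun v hv => by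
    obtain ⟨y, -, rfl⟩ := Finset.mem_image.1 hv
    exact hF y))
theorem Fx_ker (γ : Perm V) : (Finset.univ.filter fun x => x + γ x = 0) = Fx γ := by
  ext x
  simp only [Finset.mem_filter, Finset.mem_univ, true_and, mem_Fx]
  exact ⟨fun e => (eq_of_add e).symm, fun e => by rw [e, V2]⟩
theorem Fx16 (h : SL γ) (h2 : γ * γ = 1) : 16 ≤ (Fx γ).card := by
  have := ker_ge (fun x => x + γ x) (fun x y => by rw [h.add, add_add_add_comm]) (Fx γ) fun x =>
    mem_Fx.2 (by rw [h.add, ← Perm.mul_apply, h2, Perm.one_apply, add_comm])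
  rw [Fx_ker] at this
  nlinarith
theorem Tv.fix {p x : V} (h : Tv γ p) (p0 : p ≠ 0) : γ x = x ↔ hf x p = 0 := by
  rw [h, add_eq_left, smul_eq_zero, or_iff_left p0]
theorem Fx64 {p : V} (h : Tv γ p) (hp : hf p p = 0) : 64 ≤ (Fx γ).card := by
  have := ker_ge (fun x => x + γ x) (fun x y => by
    rw [SL.add (Or.inl (h.lin hp)), add_add_add_comm]) (Finset.univ.image fun c : K4 => c • p)
    fun x => Finset.mem_image.2 ⟨hf x p, Finset.mem_univ _, by rw [h, V2']⟩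
  have c : (Finset.univ.image fun c : K4 => c • p).card ≤ 4 := Finset.card_image_le
  rw [Fx_ker] at this
  nlinarith

end U6
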