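import Cfsg.Agent.U6.C1

/-! Pairs of commuting conjugates when `z` is weakly closed in `Q`. -/

set_option autoImplicit false
open Equiv Subgroup

namespace U6
variable {G : Type*} [Group G]

structure Wk (z0 : G) : Prop where
  st : ∀ t, IsConj z0 t → Nonempty (St t)
  wc : ∀ t, IsConj z0 t → ∀ T : St t, ∀ a ∈ T.Q, IsConj z0 a → a = t

/-- two distinct commuting conjugates of `z0` -/
structure Pr (z0 : G) {z t : G} (S : St z) (T : St t) : Prop where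
  W : Wk z0
  cz : IsConj z0 z
  ct : IsConj z0 t
  tz : Commute t z
  ne : t ≠ z

def St.pre {z : G} (S : St z) (L : Subgroup (Perm V)) : Subgroup G where
  carrier := {a | Commute a z ∧ S.π a ∈ L}
  one_mem' := ⟨Commute.one_left z, by rw [S.p1]; exact one_mem _⟩
  mul_mem' ha hb := ⟨ha.1.mul_left hb.1, by rw [S.pm ha.1 hb.1]; exact mul_mem ha.2 hb.2⟩
  inv_mem' ha := ⟨ha.1.inv_left, by rw [S.pinv ha.1]; exact inv_mem ha.2⟩
def FixS (F : Set V) : Subgroup (Perm V) where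
  carrier := {γ | ∀ y ∈ F, γ y = y}
  one_mem' _ _ := rfl
  mul_mem' ha hb y hy := by rw [Perm.mul_apply, hb y hy, ha y hy]
  inv_mem' ha y hy := by rw [Perm.inv_eq_iff_eq, ha y hy]
theorem St.card_lin [Finite G] {z : G} (S : St z) {A : Subgroup G} (h : ∀ a ∈ A, Commute a z) :
    Nat.card A ≤ 2 * Nat.card (A ⊓ S.pre LinS : Subgroup G) :=
  card_ix fun a ha b hb na nb => ⟨(h a ha).mul_left (h b hb), by
    rw [S.pm (h a ha) (h b hb)]
    exact ((S.sl (h a ha)).resolve_left fun e => na ⟨h a ha, e⟩).mul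
      ((S.sl (h b hb)).resolve_left fun e => nb ⟨h b hb, e⟩)⟩

theorem Lin.triv {γ : Perm V} {p : V} (l : Lin γ) (hp : hf p p = 0) (p0 : p ≠ 0)
    (fx : ∀ y, hf y p = 0 → γ y = y) : γ = 1 ∨ Tv γ p := by
  obtain ⟨x, hx⟩ := ex_hf p0 1
  obtain ⟨c, e⟩ := pp1 (y := x + γ x) hp p0 fun y hy => by
    rw [hf_addr, ← l y x, fx y hy, K2]
  have e' : γ x = x + c • p := by rw [← e, V2']
  have k := l x x
  rw [e', qf_add, hf_smull, hf_smulr, hp, mul_zero, mul_zero, add_zero, add_eq_left, bf_eq,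
    hf_smulr, hx, mul_one, tr0, cj_eq_zero] at k
  have ap : ∀ y, γ y = y + (hf y p * c) • p := fun y => by
    have := fx (y + hf y p • x) (by rw [hf_addl, hf_smull, hx, mul_one, K2])
    rw [SL.add (Or.inl l), l.smul, e', smul_add, ← add_assoc, add_right_comm,
      add_left_inj, smul_smul] at this
    rw [← V2r ((hf y p * c) • p) (γ y), this]
  rcases k with k | k
  · exact Or.inl (Perm.ext fun y => by rw [ap, k]; simp)
  · exact Or.inr fun y => by rw [ap, ← cj_cj c, k, cj_one, mul_one]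

theorem e_mul {t r r' : G} (t2 : t * t = 1) (h : Commute r (r' * t * r'⁻¹ * t)) :
    IsConj t (r' * t * r'⁻¹ * t * (r * t * r⁻¹ * t) * t) := by
  refine isConj_iff.2 ⟨r * r', ?_⟩
  calc r * r' * t * (r * r')⁻¹ = r * (r' * t * r'⁻¹ * t) * t⁻¹ * r⁻¹ := by group
    _ = r' * t * r'⁻¹ * t * (r * t * r⁻¹ * (t * t)) := by
      rw [h.eq, t2, inv_eq_of_mul_eq_one_left t2]; group
    _ = _ := by group

namespace Pr
variable {z0 z t : G} {S : St z} {T : St t} (h : Pr z0 S T)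
include h

theorem symm : Pr z0 T S := ⟨h.W, h.ct, h.cz, h.tz.symm, h.ne.symm⟩
theorem tQ : t ∉ S.Q := fun e => h.ne (h.W.wc z h.cz S t e h.ct)
theorem zQ : z ∉ T.Q := h.symm.tQ
theorem p1 : S.π t ≠ 1 := fun e => h.tQ ((S.pk h.tz).1 e)
theorem p2 : S.π t * S.π t = 1 := S.p2 T.z2 h.tz
theorem sl : SL (S.π t) := S.sl h.tz
theorem tri : TV (S.π t) ∨ (∃ a b, TB (S.π t) a b) ∨ ALin (S.π t) := U6.tri h.sl h.p2 h.p1
theorem m4 (n : ¬ TV (S.π t)) : M4 (S.π t) :=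
  (h.tri.resolve_left n).elim (fun ⟨_, _, e⟩ => e.m4) ALin.m4
theorem dsq {b : G} (hb : b ∈ S.Q ⊓ T.Q) : b * b = 1 :=
  (S.sq' hb.1).resolve_right fun e => h.zQ (e ▸ mul_mem hb.2 hb.2)
theorem cd {q b : G} (hq : q ∈ S.Q) (c : Commute q t) (hb : b ∈ S.Q ⊓ T.Q) : Commute q b := by
  by_contra hc
  have := T.nq c hb.2
  rw [S.ncm hq hb.1 hc] at this
  exact h.zQ ((T.Q.mul_mem_cancel_left hb.2).1 this)
theorem inj {a b : G} (ha : a ∈ S.Q ⊓ T.Q) (hb : b ∈ S.Q ⊓ T.Q) (e : S.ρ a = S.ρ b) : b = a :=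
  (S.eqr ha.1 hb.1 e).resolve_right fun e => h.zQ ((T.Q.mul_mem_cancel_left ha.2).1 (e ▸ hb.2))
theorem r0 {a : G} (ha : a ∈ S.Q ⊓ T.Q) (e : S.ρ a = 0) : a = 1 :=
  h.inj (one_mem _) ha (S.r1.trans e.symm)
omit h in
theorem cardB [Finite G] {A : Subgroup G} (hA : A ≤ S.Q) (c : ∀ a ∈ A, Commute a t) :
    Nat.card A ≤ Nat.card (S.Q ⊓ T.Q : Subgroup G) * Nat.card (T.im A c) := by
  rw [T.card_im c]
  exact Nat.mul_le_mul_right _ (card_le_of_le (inf_le_inf_right _ hA))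
omit h in
/-- `[A, B] ≤ X` -/
theorem cmX {a r : G} (ha : a ∈ S.Q) (c : Commute a t) (hr : r ∈ T.Q) (rz : Commute r z) :
    ∃ x ∈ S.Q ⊓ T.Q, T.π a (T.ρ r) = T.ρ r + T.ρ x := by
  have m2 := T.Q.mul_mem (T.Q.inv_mem hr) (T.nq c hr)
  refine ⟨r⁻¹ * (a * r * a⁻¹), ⟨?_, m2⟩, ?_⟩
  · rw [show r⁻¹ * (a * r * a⁻¹) = r⁻¹ * a * r⁻¹⁻¹ * a⁻¹ by group]
    exact S.Q.mul_mem (S.nq rz.inv_left ha) (S.Q.inv_mem ha)
  · rw [T.rm (inv_mem hr) (T.nq c hr), T.rinv hr, T.rc c hr, V2']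
theorem fixX {a x : G} (ha : a ∈ S.Q) (c : Commute a t) (hx : x ∈ S.Q ⊓ T.Q) :
    T.π a (T.ρ x) = T.ρ x := T.fix_of_comm c hx.2 (h.cd ha c hx).symm
theorem nc {b : G} (hb : b ∈ T.Q) (c : IsConj t (b * t)) : b = 1 := by
  simpa using h.W.wc t h.ct T _ (mul_mem hb T.zQ) (h.ct.trans c)
theorem dz {b : G} (hb : b ∈ S.Q ⊓ T.Q) (b1 : b ≠ 1) (m : ∃ y, S.ρ b = y + S.π t y) :
    ∃ r ∈ S.Q, b = r * t * r⁻¹ * t * z := by
  obtain ⟨r, hr, e | e⟩ := S.ex_e T.z2 h.tz hb.1 m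
  · exact absurd (h.nc hb.2 (e ▸ St.conj_e T.z2 r)) b1
  · exact ⟨r, hr, e⟩
theorem mv (m : M4 (S.π t)) {c r : G} (hc : c ∈ S.Q ⊓ T.Q) (c1 : c ≠ 1) (hr : r ∈ S.Q)
    (k : Commute r c) : IsConj t (c * (r * t * r⁻¹ * t * z) * t) := by
  obtain ⟨r', hr', rfl⟩ := h.dz hc c1 (m _ (S.fix_of_comm h.tz hc.1 (T.QM hc.2)))
  have k' : Commute r (r' * t * r'⁻¹ * t) := by
    have := k.mul_right (S.QM hr)
    rwa [mul_assoc _ z z, S.z2, mul_one] at this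
  have := e_mul T.z2 k'
  have e := (S.QM (S.e_mem T.z2 h.tz hr).1).eq
  rwa [show r' * t * r'⁻¹ * t * z * (r * t * r⁻¹ * t * z) =
    r' * t * r'⁻¹ * t * (r * t * r⁻¹ * t) by
      rw [e, mul_assoc _ z, ← mul_assoc z z, S.z2, one_mul]]
theorem d4 (m : M4 (S.π t)) : Nat.card (S.Q ⊓ T.Q : Subgroup G) ≤ 4 := by
  by_contra hc
  obtain ⟨a, ha, a1⟩ := ex_not_mem (S.Q ⊓ T.Q) [1] (by show 1 < _; omega)
  obtain ⟨b, hb, b1⟩ := ex_not_mem (S.Q ⊓ T.Q) [1, a] (by show 2 < _; omega)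
  obtain ⟨c, hc', c1⟩ := ex_not_mem (S.Q ⊓ T.Q) [1, a, b, b * a] (by show 4 < _; omega)
  simp only [List.mem_cons, List.not_mem_nil, or_false, not_or] at a1 b1 c1
  obtain ⟨r, hr, e⟩ := h.dz ha a1 (m _ (S.fix_of_comm h.tz ha.1 (T.QM ha.2)))
  have key : ∀ x ∈ S.Q ⊓ T.Q, x ≠ 1 → x ≠ a → ¬ Commute r x := fun x hx x1 xa k => by
    have := h.nc (mul_mem hx ha).2 (by rw [e]; exact h.mv m hx x1 hr k)
    exact xa (mul_right_cancel (this.trans (h.dsq ha).symm))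
  have bb := h.dsq hb
  rcases S.third hr hb.1 hc'.1 with k | k | k
  · exact key b hb b1.1 b1.2 k
  · exact key c hc' c1.1 c1.2.1 k
  · refine key _ (mul_mem hb hc') (fun e => c1.2.2.1 ?_) (fun e => c1.2.2.2 ?_) k
    · exact mul_left_cancel (e.trans bb.symm)
    · rw [← e, ← mul_assoc, bb, one_mul]

/-- type `c` with `m = 4`: all elements of `t C_Q(t)` are conjugate -/
theorem allc (m : M4 (S.π t)) (hA : ¬ IsA (S.π t)) {b : G} (hb : b ∈ S.Q) (c : Commute b t) :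
    IsConj t (b * t) := by
  obtain ⟨q0, -, e0⟩ := S.notA T.z2 h.tz hA
  exact S.conj_e' T.z2 h.tz hb e0 (m _ (S.fix_of_comm h.tz hb c))
theorem x1 (m : M4 (S.π t)) (hA : ¬ IsA (S.π t)) {d : G} (hd : d ∈ S.Q ⊓ T.Q) : d = 1 :=
  h.nc hd.2 (h.allc m hA hd.1 (T.QM hd.2))

omit h in
/-- `X` has at most two elements -/
def Sm (S : St z) (T : St t) : Prop :=
  ∀ x ∈ S.Q ⊓ T.Q, ∀ y ∈ S.Q ⊓ T.Q, x = 1 ∨ y = 1 ∨ x = y
omit h in
theorem Sm.symm (s : Sm S T) : Sm T S := fun x hx y hy => s x ⟨hx.2, hx.1⟩ y ⟨hy.2, hy.1⟩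
omit h in
theorem Sm.ex (s : Sm S T) : ∃ x0 ∈ S.Q ⊓ T.Q, ∀ x ∈ S.Q ⊓ T.Q, x = 1 ∨ x = x0 := by
  by_cases c : ∀ x ∈ S.Q ⊓ T.Q, x = 1
  · exact ⟨1, one_mem _, fun x hx => Or.inl (c x hx)⟩
  push Not at c
  obtain ⟨y, hy, y1⟩ := c
  exact ⟨y, hy, fun x hx => (s x hx y hy).imp id fun e => e.resolve_left y1⟩
omit h in
theorem Sm.card (s : Sm S T) : Nat.card (S.Q ⊓ T.Q : Subgroup G) ≤ 2 := by
  obtain ⟨x0, -, e⟩ := s.ex
  exact card_le_list _ [1, x0] fun x hx => by simpa using e x hx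
/-- if `X` is large, every coset of `X` in `C_Q(t)` yields a conjugate of `t` -/
theorem big (m : M4 (S.π t)) (s : ¬ Sm S T) {a : G} (ha : a ∈ S.Q) (c : Commute a t) :
    ∃ x ∈ S.Q ⊓ T.Q, IsConj t (x * a * t) := by
  obtain ⟨r, hr, e | e⟩ := S.ex_e T.z2 h.tz ha (m _ (S.fix_of_comm h.tz ha c))
  · exact ⟨1, one_mem _, by rw [one_mul, e]; exact St.conj_e T.z2 r⟩
  simp only [Sm, not_forall, not_or] at s
  obtain ⟨x, hx, y, hy, x1, y1, xy⟩ := s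
  rw [e]
  rcases S.third hr hx.1 hy.1 with k | k | k
  · exact ⟨x, hx, h.mv m hx x1 hr k⟩
  · exact ⟨y, hy, h.mv m hy y1 hr k⟩
  · exact ⟨_, mul_mem hx hy, h.mv m (mul_mem hx hy)
      (fun e => xy (mul_left_cancel (e.trans (h.dsq hx).symm)).symm) hr k⟩
/-- the pair `(t, a t)` -/
theorem shift {a : G} (c : Commute a t) (k : IsConj t (a * t)) (a1 : a ≠ 1) :
    ∃ U : St (a * t), Pr z0 T U ∧ T.π (a * t) = T.π a := by
  obtain ⟨U⟩ := h.W.st _ (h.ct.trans k)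
  exact ⟨U, ⟨h.W, h.ct, h.ct.trans k, c.mul_left (Commute.refl t), by simpa using a1⟩,
    by rw [T.pm c (Commute.refl t), T.pQ T.zQ, mul_one]⟩

variable [Finite G]

theorem c16 : 16 ≤ Nat.card (S.Q ⊓ centralizer {t} : Subgroup G) :=
  (Fx16 h.sl h.p2).trans (S.card_fix h.tz)
theorem c32 (m : M4 (S.π t)) (a : IsA (S.π t)) :
    32 ≤ Nat.card (S.Q ⊓ centralizer {t} : Subgroup G) := by
  have := S.card_fix2 h.tz (S.isA_comm T.z2 h.tz m a)
  have := Fx16 h.sl h.p2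
  omega

/-- if `X` is small and `z` induces a transvection on `T.Q`, then `C_Q(t)` is small -/
theorem g2 (s : Sm S T) (v : TV (T.π z)) : Nat.card (S.Q ⊓ centralizer {t} : Subgroup G) ≤
    8 * Nat.card (S.Q ⊓ T.Q : Subgroup G) := by
  obtain ⟨p, p0, hp, v⟩ := v
  obtain ⟨x0, hx0, e0⟩ := s.ex
  let F : Set V := {y | ∃ r ∈ T.Q, Commute r z ∧ T.ρ r = y}
  have Fa : ∀ y ∈ F, ∀ w ∈ F, y + w ∈ F := by
    rintro _ ⟨r, hr, c, rfl⟩ _ ⟨r', hr', c', rfl⟩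
    exact ⟨_, mul_mem hr hr', c.mul_left c', T.rm hr hr'⟩
  have Fp : ∀ y ∈ F, hf y p = 0 := by
    rintro _ ⟨r, hr, c, rfl⟩
    exact (v.fix p0).1 (T.fix_of_comm h.tz.symm hr c)
  have Fn : ∀ y w, hf y p = 0 → hf w p = 0 → y ∉ F → w ∉ F → y + w ∈ F := fun y w hy hw ny nw => by
    obtain ⟨r, hr, rfl⟩ := T.rs y
    obtain ⟨r', hr', rfl⟩ := T.rs w
    have k : ∀ r ∈ T.Q, hf (T.ρ r) p = 0 → T.ρ r ∉ F → r * z * r⁻¹ = z * t := fun r hr a n =>
      (T.fix_cases h.tz.symm hr ((v.fix p0).2 a)).resolve_left fun e =>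
        n ⟨r, hr, mul_inv_eq_iff_eq_mul.1 e, rfl⟩
    refine ⟨_, mul_mem hr hr', mul_inv_eq_iff_eq_mul.1 ?_, T.rm hr hr'⟩
    calc _ = r * (r' * z * r'⁻¹) * r⁻¹ := by group
      _ = r * z * r⁻¹ * (r * t * r⁻¹) := by rw [k r' hr' hw nw]; group
      _ = z := by rw [k r hr hy ny, (T.QM hr).eq, mul_inv_cancel_right, mul_assoc, T.z2, mul_one]
  have mvF : ∀ a ∈ S.Q, Commute a t → ∀ y ∈ F, T.π a y = y ∨ T.π a y = y + T.ρ x0 := by
    rintro a ha c _ ⟨r, hr, rz, rfl⟩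
    obtain ⟨x, hx, e⟩ := cmX (S := S) ha c hr rz
    rcases e0 x hx with rfl | rfl
    · left; rw [e, T.r1, add_zero]
    · exact Or.inr e
  have ωp : ∀ y, hf y p = 0 → hf (ω • y) p = 0 := fun y e => by rw [hf_smull, e, mul_zero]
  have both : ∀ a ∈ S.Q, Commute a t → Lin (T.π a) → ∀ y ∈ F, ω • y ∈ F → T.π a y = y :=
    fun a ha c l y hy hy' => by
      refine (mvF a ha c y hy).elim id fun e => ?_
      have := mvF a ha c _ hy'
      rw [l.smul, e, smul_add, add_eq_left, add_right_inj] at this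
      have : T.ρ x0 = 0 := by
        rcases this with e | e
        · exact (smul_eq_zero.1 e).resolve_left ω0
        · have := ωv (T.ρ x0)
          rwa [e, e, V2] at this
      rw [e, this, add_zero]
  let A := S.Q ⊓ centralizer {t}
  have hc : ∀ a ∈ A, Commute a t := fun _ hx => mcs.1 hx.2
  have c1 := T.card_lin hc
  have c2 := card_ix (A := A ⊓ T.pre LinS) (K := T.pre (FixS F)) fun a ha b hb na nb => by
    have key : ∀ a ∈ A ⊓ T.pre LinS, a ∉ T.pre (FixS F) → ∀ y ∈ F, ω • y ∉ F →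
        T.π a y = y + T.ρ x0 := fun a ha na y hy ny => by
      have : ¬ ∀ y ∈ F, T.π a y = y := fun e => na ⟨ha.2.1, e⟩
      push Not at this
      obtain ⟨w, hw, n⟩ := this
      have nw := mt (both a ha.1.1 ha.2.1 ha.2.2 w hw) n
      have := both a ha.1.1 ha.2.1 ha.2.2 _ (Fa y hy w hw) (by
        rw [smul_add]; exact Fn _ _ (ωp _ (Fp _ hy)) (ωp _ (Fp _ hw)) ny nw)
      rw [SL.add (Or.inl ha.2.2), (mvF a ha.1.1 ha.2.1 w hw).resolve_left n] at this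
      rw [← V2r (w + T.ρ x0) (T.π a y), this, add_assoc, V2']
    refine ⟨ha.2.1.mul_left hb.2.1, fun y hy => ?_⟩
    rw [T.pm ha.2.1 hb.2.1, Perm.mul_apply]
    by_cases n : ω • y ∈ F
    · rw [both b hb.1.1 hb.2.1 hb.2.2 y hy n, both a ha.1.1 ha.2.1 ha.2.2 y hy n]
    · rw [key b hb nb y hy n, SL.add (Or.inl ha.2.2), key a ha na y hy n,
        h.fixX ha.1.1 ha.2.1 hx0, V2r]
  have hc' : ∀ a ∈ A ⊓ T.pre LinS ⊓ T.pre (FixS F), Commute a t := fun a ha => ha.2.1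
  have c3 := cardB (S := S) (T := T) (inf_le_left.trans (inf_le_left.trans inf_le_left)) hc'
  have c4 := card_le_list (T.im _ hc') [1, T.π z] fun g hg => by
    obtain ⟨a, ha, rfl⟩ := T.mem_im.1 hg
    have l : Lin (T.π a) := ha.1.2.2
    have fx : ∀ y, hf y p = 0 → T.π a y = y := fun y hy => by
      by_cases n : y ∈ F
      · exact ha.2.2 y n
      by_cases n' : ω • y ∈ F
      · exact smul_right_injective V ω0 (by
          show ω • _ = ω • _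
          rw [← l.smul]; exact ha.2.2 _ n')
      · have := ha.2.2 _ (Fn _ _ (ωp _ hy) hy n' n)
        rw [← ωv, l.smul, l.smul] at this
        exact smul_right_injective V ω0 (smul_right_injective V ω0 this)
    rcases l.triv hp p0 fx with e | e
    · simp [e]
    · simp [e.eq v]
  have : [1, T.π z].length = 2 := rfl
  show Nat.card A ≤ _
  nlinarith

end Pr
end U6
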