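import Cfsg.Agent.U6.C2

/-! Conjugates inducing transvections. -/

set_option autoImplicit false
open Equiv Subgroup

namespace U6
variable {G : Type*} [Group G] [Finite G]

namespace Pr
variable {z0 z t : G} {S : St z} {T : St t} (h : Pr z0 S T)
include h

theorem nsm (v : TV (S.π t)) : ¬ Sm S T := fun s => by
  have c1 := h.symm.g2 s.symm v
  have c2 := s.symm.card
  by_cases v' : TV (T.π z)
  · obtain ⟨p, -, hp, e⟩ := v'
    have := (Fx64 e hp).trans (T.card_fix h.tz.symm)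
    omega
  have m := h.symm.m4 v'
  by_cases a : IsA (T.π z)
  · have := h.symm.c32 m a
    omega
  · have := card_le_list (T.Q ⊓ S.Q) [1] fun d hd => by simpa using h.symm.x1 m a hd
    have := h.symm.c16
    have e : [(1 : G)].length = 1 := rfl
    omega

omit [Finite G] in
theorem tvβ {p : V} (p0 : p ≠ 0) (hp : hf p p = 0) (v : Tv (S.π t) p) {q0 : G} (hq0 : q0 ∈ S.Q)
    (f0 : hf (S.ρ q0) p = 0) (n0 : ¬ Commute q0 t) : Sm S T := by
  have e0 := (S.fix_cases h.tz hq0 ((v.fix p0).2 f0)).resolve_left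
    fun e => n0 (mul_inv_eq_iff_eq_mul.1 e)
  have nD : ∀ d ∈ S.Q ⊓ T.Q, Commute q0 d → d = 1 := fun d hd k => by
    have pp : ∀ y, hf y p = 0 → bf y (S.ρ d) = 0 := fun y hy => by
      obtain ⟨q, hq, rfl⟩ := S.rs y
      refine (S.cm hq hd.1).1 ?_
      rcases S.fix_cases h.tz hq ((v.fix p0).2 hy) with e | e
      · exact h.cd hq (mul_inv_eq_iff_eq_mul.1 e) hd
      · have : Commute (q0⁻¹ * q) t := mul_inv_eq_iff_eq_mul.1 (by
          calc _ = q0⁻¹ * (q * t * q⁻¹) * q0 := by group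
            _ = t := by rw [e, ← e0]; group)
        have := k.mul_left (h.cd (mul_mem (inv_mem hq0) hq) this hd)
        rwa [mul_inv_cancel_left] at this
    obtain ⟨c, e⟩ := pp1 hp p0 fun y hy => hf_of_bf (pp y hy) (pp _ (by rw [hf_smull, hy, mul_zero]))
    obtain ⟨y, hy⟩ := ex_hf p0 c
    exact h.nc hd.2 (S.conj_e' T.z2 h.tz hd.1 e0 ⟨y, by rw [v, V2', hy, e]⟩)
  intro x hx y hy
  rcases S.third hq0 hx.1 hy.1 with k | k | k
  · exact Or.inl (nD x hx k)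
  · exact Or.inr (Or.inl (nD y hy k))
  · exact Or.inr (Or.inr (mul_left_cancel ((nD _ (mul_mem hx hy) k).trans (h.dsq hx).symm)).symm)

theorem tvα {p : V} (p0 : p ≠ 0) (hp : hf p p = 0) (v : Tv (S.π t) p) {q : G} (hq : q ∈ S.Q)
    (f : hf (S.ρ q) p = 0) : Commute q t := by
  by_contra n
  exact h.nsm ⟨p, p0, hp, v⟩ (h.tvβ p0 hp v hq f n)

theorem XK {p : V} (p0 : p ≠ 0) (hp : hf p p = 0) (v : Tv (S.π t) p) {d : G}
    (hd : d ∈ S.Q ⊓ T.Q) : ∃ c : K4, S.ρ d = c • p := by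
  have pp : ∀ y, hf y p = 0 → bf y (S.ρ d) = 0 := fun y hy => by
    obtain ⟨q, hq, rfl⟩ := S.rs y
    exact (S.cm hq hd.1).1 (h.cd hq (h.tvα p0 hp v hq hy) hd)
  exact pp1 hp p0 fun y hy => hf_of_bf (pp y hy) (pp _ (by rw [hf_smull, hy, mul_zero]))

omit h [Finite G] in
theorem k_c : ∀ c d e : K4, c ≠ 0 → d ≠ 0 → c ≠ d → e = 0 ∨ e = c ∨ e = d ∨ e = c + d := by
  decide +kernel
/-- the structure of `X` for a transvection -/
theorem X4 (v : TV (S.π t)) : ∃ x ∈ S.Q ⊓ T.Q, ∃ y ∈ S.Q ⊓ T.Q, x ≠ 1 ∧ y ≠ 1 ∧ x ≠ y ∧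
    ∀ d ∈ S.Q ⊓ T.Q, d = 1 ∨ d = x ∨ d = y ∨ d = x * y := by
  have s := h.nsm v
  obtain ⟨p, p0, hp, v⟩ := v
  simp only [Sm, not_forall, not_or] at s
  obtain ⟨x, hx, y, hy, x1, y1, xy⟩ := s
  refine ⟨x, hx, y, hy, x1, y1, xy, fun d hd => ?_⟩
  obtain ⟨a, ea⟩ := h.XK p0 hp v hx
  obtain ⟨b, eb⟩ := h.XK p0 hp v hy
  obtain ⟨c, ec⟩ := h.XK p0 hp v hd
  rcases k_c a b c (fun e => x1 (h.r0 hx (by rw [ea, e, zero_smul])))
    (fun e => y1 (h.r0 hy (by rw [eb, e, zero_smul])))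
    (fun e => xy (h.inj hy hx (by rw [ea, eb, e]))) with e | e | e | e
  · exact Or.inl (h.r0 hd (by rw [ec, e, zero_smul]))
  · exact Or.inr (Or.inl (h.inj hx hd (by rw [ec, e, ea])))
  · exact Or.inr (Or.inr (Or.inl (h.inj hy hd (by rw [ec, e, eb]))))
  · exact Or.inr (Or.inr (Or.inr (h.inj (mul_mem hx hy) hd (by
      rw [ec, e, S.rm hx.1 hy.1, ea, eb, add_smul]))))

omit h [Finite G] in
theorem k_d : ∀ c : K4, c ≠ 0 → c ≠ 1 → ω = c ∨ ω = 1 + c := by decide +kernel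
omit h [Finite G] in
theorem lin2 {δ : Perm V} (l : SL δ) {x : V} {c : K4} (x0 : x ≠ 0) (c0 : c ≠ 0) (c1 : c ≠ 1)
    (h1 : δ x = x) (h2 : δ (c • x) = c • x) : Lin δ := l.lin x0 h1 (by
  rcases k_d c c0 c1 with e | e <;> rw [e]
  · exact h2
  · rw [add_smul, one_smul, l.add, h1, h2])

/-- the partner of a transvection is a transvection -/
theorem partner (v : TV (S.π t)) : TV (T.π z) := by
  by_contra n
  obtain ⟨x, hx, y, hy, x1, y1, xy, X⟩ := h.X4 v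
  obtain ⟨p, p0, hp, v⟩ := v
  have m := h.symm.m4 n
  have iA : IsA (T.π z) := by
    by_contra c
    exact x1 (h.symm.x1 m c ⟨hx.2, hx.1⟩)
  obtain ⟨u, u1, u2⟩ := k_unit p hp
  have sq : ∀ a ∈ S.Q, hf (S.ρ a) (S.ρ a) = 1 → Commute a t → T.π a * T.π a = T.π z :=
    fun a ha e c => by
      rw [← T.pm c c, (S.sq' ha).resolve_left fun k => by
        rw [(S.sq ha).1 k] at e; exact zero_ne_one e]
  obtain ⟨a, ha, ea⟩ := S.rs u
  obtain ⟨b, hb, eb⟩ := S.rs (ω • u)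
  have ca := h.tvα p0 hp v ha (ea ▸ u1)
  have cb := h.tvα p0 hp v hb (by rw [eb, hf_smull, u1, mul_zero])
  have sa := sq a ha (ea ▸ u2) ca
  have sb := sq b hb (by rw [eb, qf_smul ω0, u2]) cb
  have sc := sq _ (mul_mem ha hb) (by
    rw [S.rm ha hb, ea, eb, add_comm, ← ωv, qf_smul ω0, qf_smul ω0, u2]) (ca.mul_left cb)
  obtain ⟨a', b', B⟩ : ∃ a' b', TB (T.π z) a' b' :=
    (h.symm.tri.resolve_left n).resolve_right (sa ▸ (T.sl' ca).sq).not
  have x0 : T.ρ x ≠ 0 := fun e => x1 (h.symm.r0 ⟨hx.2, hx.1⟩ e)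
  have fz : ∀ d ∈ S.Q ⊓ T.Q, T.π z (T.ρ d) = T.ρ d := fun d hd =>
    T.fix_of_comm h.tz.symm hd.2 (S.QM hd.1)
  have ix := B.ti (fz x hx) (fz x hx)
  -- the action on the fixed line
  have act : ∀ g ∈ S.Q, Commute g t → ∀ l, T.π z l = l → ∃ d ∈ S.Q ⊓ T.Q, T.π g l = l + T.ρ d :=
    fun g hg c l hl => by
      obtain ⟨r, hr, rfl⟩ := T.rs l
      exact cmX hg c hr (T.isA_comm S.z2 h.tz.symm m iA r hr hl)
  by_cases c : ∀ c : K4, T.ρ y ≠ c • T.ρ x
  · have key : ∀ g ∈ S.Q, Commute g t → Lin (T.π g) → T.π g * T.π g ≠ T.π z := fun g hg k l e => by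
      have sp : ∀ w, hf w (T.ρ x) = 0 → hf w (T.ρ y) = 0 → T.π g w = w := fun w w1 w2 => by
        obtain ⟨c, d, rfl⟩ := ti2 ix x0 (B.ti (fz y hy) (fz y hy)) (B.ti (fz y hy) (fz x hx)) c w1 w2
        rw [SL.add (Or.inl l), l.smul, l.smul, h.fixX hg k hx, h.fixX hg k hy]
      refine h.symm.p1 (Perm.ext fun w => ?_)
      have := sp (w + T.π g w) (by rw [hf_addl, ← l w, h.fixX hg k hx, K2])
        (by rw [hf_addl, ← l w, h.fixX hg k hy, K2])
      rw [SL.add (Or.inl l), add_comm, add_left_inj] at this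
      rw [← e]; exact this
    rcases T.sl ca with la | la
    · exact key a ha ca la sa
    rcases T.sl cb with lb | lb
    · exact key b hb cb lb sb
    · exact key _ (mul_mem ha hb) (ca.mul_left cb) (T.pm ca cb ▸ la.mul lb) sc
  push Not at c
  obtain ⟨c, ec⟩ := c
  have c0 : c ≠ 0 := fun e => y1 (h.symm.r0 ⟨hy.2, hy.1⟩ (by rw [ec, e, zero_smul]))
  have c1 : c ≠ 1 := fun e => xy (h.symm.inj ⟨hy.2, hy.1⟩ ⟨hx.2, hx.1⟩ (by rw [ec, e, one_smul]))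
  have lin : ∀ g ∈ S.Q, Commute g t → Lin (T.π g) := fun g hg k =>
    lin2 (T.sl k) x0 c0 c1 (h.fixX hg k hx) (ec ▸ h.fixX hg k hy)
  have dK : ∀ d ∈ S.Q ⊓ T.Q, ∃ e : K4, T.ρ d = e • T.ρ x := fun d hd => by
    rcases X d hd with rfl | rfl | rfl | rfl
    exacts [⟨0, by rw [T.r1, zero_smul]⟩, ⟨1, (one_smul _ _).symm⟩, ⟨c, ec⟩,
      ⟨1 + c, by rw [T.rm hx.2 hy.2, ec, add_smul, one_smul]⟩]
  obtain ⟨y0, fy, ny⟩ : ∃ y0, T.π z y0 = y0 ∧ ∀ c : K4, y0 ≠ c • T.ρ x := by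
    by_contra hc
    push Not at hc
    obtain ⟨c, e⟩ := hc _ B.fa
    obtain ⟨d, f⟩ := hc _ B.fb
    have c0 : c ≠ 0 := fun k => B.a0 (by rw [e, k, zero_smul])
    exact B.ne (d * c⁻¹) (by rw [f, e, smul_smul, inv_mul_cancel_right₀ c0])
  have iy := B.ti fy fy
  have yx := B.ti fy (fz x hx)
  obtain ⟨w, w1, w2⟩ := ex_dual ix x0 ny 1
  have par : ∀ g ∈ S.Q, Commute g t → ∃ d e : K4, (e = 0 ∨ e = 1) ∧
      T.π g w = w + (d • T.ρ x + e • y0) := fun g hg k => by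
    have l := lin g hg k
    obtain ⟨d, hd, e⟩ := act _ (inv_mem hg) k.inv_left y0 fy
    obtain ⟨e', f⟩ := dK d hd
    rw [T.pinv k, Perm.inv_eq_iff_eq] at e
    obtain ⟨d, e, f⟩ := ti2 ix x0 iy yx ny (y := w + T.π g w)
      (by rw [hf_addl, ← l w, h.fixX hg k hx, K2]) (by
        rw [hf_addl]
        nth_rewrite 2 [e]
        rw [l, hf_addr, f, hf_smulr, w1, mul_zero, add_zero, K2])
    have f' : T.π g w = w + (d • T.ρ x + e • y0) := by rw [← f, V2']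
    refine ⟨d, e, ?_, f'⟩
    have := l w w
    rw [f', qf_add] at this
    simp only [hf_addl, hf_addr, hf_smull, hf_smulr, ix, iy, yx, hf_symm yx, mul_zero, add_zero,
      bf_eq, w1, w2, zero_add, mul_one, add_eq_left, cj_cj] at this
    exact (tr0 e).1 (by rw [add_comm, this])
  have key : ∀ g ∈ S.Q, Commute g t → T.π g * T.π g = T.π z → ∀ d : K4,
      T.π g w ≠ w + d • T.ρ x := fun g hg k e d f => by
    have l := lin g hg k
    have : T.π z w = w := by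
      rw [← e, Perm.mul_apply, f, SL.add (Or.inl l), l.smul, h.fixX hg k hx, f, V2r]
    rw [B.ti this fy] at w2
    exact zero_ne_one w2
  obtain ⟨d1, e1, g1, f1⟩ := par a ha ca
  obtain ⟨d2, e2, g2, f2⟩ := par b hb cb
  rcases g1 with rfl | rfl
  · exact key a ha ca sa d1 (by rw [f1, zero_smul, add_zero])
  rcases g2 with rfl | rfl
  · exact key b hb cb sb d2 (by rw [f2, zero_smul, add_zero])
  obtain ⟨d, hd, e⟩ := act a ha ca y0 fy
  obtain ⟨e', f⟩ := dK d hd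
  have l := lin a ha ca
  refine key _ (mul_mem ha hb) (ca.mul_left cb) sc (d1 + d2 + e') ?_
  rw [T.pm ca cb, Perm.mul_apply, f2, SL.add (Or.inl l), SL.add (Or.inl l), l.smul, l.smul, f1,
    h.fixX ha ca hx, e, f, one_smul, one_smul, add_smul, add_smul]
  refine Eq.trans ?_ (add_zero _)
  rw [← V2 y0]
  abel

end Pr
end U6
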