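import Cfsg.Agent.U6.C3

/-! The centralizer of a totally isotropic line, and exclusion of the classes with `m = 4`. -/

set_option autoImplicit false
set_option maxRecDepth 100000
set_option synthInstance.maxSize 2000
open Equiv Subgroup

namespace U6

theorem k_ab : hf a0 a0 = 0 ∧ hf b0 b0 = 0 ∧ hf a0 b0 = 0 ∧ hf b0 a0 = 0 := by decide +kernel
def Uf (α δ μ : K4) (x : V) : V :=
  x + ((α * hf x a0 + μ * hf x b0) • a0 + (cj μ * hf x a0 + δ * hf x b0) • b0)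
theorem Uf_Uf (α δ μ α' δ' μ' : K4) (x : V) :
    Uf α δ μ (Uf α' δ' μ' x) = Uf (α + α') (δ + δ') (μ + μ') x := by
  simp only [Uf, hf_addl, hf_smull, k_ab, mul_zero, add_zero, cj_add, add_mul, add_smul]
  abel
def Uτ (α δ μ : K4) : Perm V := Function.Involutive.toPerm (Uf α δ μ) fun x => by
  rw [Uf_Uf, K2, K2, K2]; simp [Uf]
theorem Uτ_mul (α δ μ α' δ' μ' : K4) :
    Uτ α δ μ * Uτ α' δ' μ' = Uτ (α + α') (δ + δ') (μ + μ') := Perm.ext (Uf_Uf α δ μ α' δ' μ')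
theorem Uτ0 : Uτ 0 0 0 = 1 := Perm.ext fun x => by
  show Uf 0 0 0 x = x
  simp [Uf]
theorem TB.U {γ : Perm V} (h : TB γ U6.a0 U6.b0) : γ = Uτ 1 1 0 := Perm.ext fun x => by
  show _ = Uf 1 1 0 x
  simp [Uf, h.ap, add_assoc]
theorem tvU1 (μ : K4) : TV (Uτ 1 (μ * cj μ) μ) := by
  refine ⟨a0 + cj μ • b0, by revert μ; decide +kernel, by revert μ; decide +kernel, fun x => ?_⟩
  show Uf _ _ _ x = _
  simp only [Uf, hf_addr, hf_smulr, cj_cj, smul_add, smul_smul, one_mul]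
  congr 3; ring
theorem tvU2 : TV (Uτ 0 1 0) := by
  refine ⟨b0, by decide +kernel, k_ab.2.1, fun x => ?_⟩
  show Uf _ _ _ x = _
  simp [Uf]
def e1 : V := (1, 0, 0, 0)
def e3 : V := (0, 0, 1, 0)
theorem k_dec : ∀ x : V, x = hf x a0 • e1 + hf x b0 • e3 + (x.2.1 • a0 + x.2.2.2 • b0) := by
  decide +kernel
theorem k_par : ∀ c d c' d' : K4, hf (e1 + (c • a0 + d • b0)) (e1 + (c • a0 + d • b0)) = hf e1 e1 →
    hf (e3 + (c' • a0 + d' • b0)) (e3 + (c' • a0 + d' • b0)) = hf e3 e3 →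
    hf (e1 + (c • a0 + d • b0)) (e3 + (c' • a0 + d' • b0)) = hf e1 e3 →
    (c = 0 ∨ c = 1) ∧ (d' = 0 ∨ d' = 1) ∧ d = cj c' := by decide +kernel
theorem Lin.par {β : Perm V} (l : Lin β) (ha : β a0 = a0) (hb : β b0 = b0) :
    ∃ α δ μ : K4, (α = 0 ∨ α = 1) ∧ (δ = 0 ∨ δ = 1) ∧ β = Uτ α δ μ := by
  have k : ∀ w, ∃ c d : K4, β w = w + (c • a0 + d • b0) := fun w => by
    obtain ⟨c, d, e⟩ := k_ti (w + β w) (by rw [hf_addl, ← l w, ha, K2])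
      (by rw [hf_addl, ← l w, hb, K2])
    exact ⟨c, d, by rw [← e, V2']⟩
  obtain ⟨c, d, e⟩ := k e1
  obtain ⟨c', d', e'⟩ := k e3
  obtain ⟨h1, h2, rfl⟩ := k_par c d c' d' (by rw [← e, l]) (by rw [← e', l]) (by rw [← e, ← e', l])
  refine ⟨c, d', c', h1, h2, Perm.ext fun x => ?_⟩
  show _ = Uf _ _ _ x
  have ad := SL.add (Or.inl l)
  rw [Uf]
  nth_rewrite 1 [k_dec x]
  nth_rewrite 5 [k_dec x]
  simp only [ad, l.smul, e, e', ha, hb, smul_add, add_smul, smul_smul, mul_comm]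
  abel
def LU : List (Perm V) := [0, 1].flatMap fun α => [0, 1].flatMap fun δ => all4.map (Uτ α δ)
theorem mem_LU {α δ : K4} (h : α = 0 ∨ α = 1) (k : δ = 0 ∨ δ = 1) (μ : K4) : Uτ α δ μ ∈ LU := by
  simp only [LU, List.mem_flatMap, List.mem_map]
  exact ⟨α, by simpa using h, δ, by simpa using k, μ, mem_all4 μ, rfl⟩
def θ0 : Perm V := τ (1, 0, 1, 0) (by decide +kernel) * τ (1, 0, ω, 0) (by decide +kernel) *
  (τ (0, 1, 0, 1) (by decide +kernel) * τ (0, 1, 0, ω) (by decide +kernel))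
theorem θ0_mem : θ0 ∈ Γ0 :=
  mul_mem (mul_mem ((tv_τ _).mem (by decide +kernel)) ((tv_τ _).mem (by decide +kernel)))
    (mul_mem ((tv_τ _).mem (by decide +kernel)) ((tv_τ _).mem (by decide +kernel)))
def θf (x : V) : V := (ω * x.1, ω * x.2.1, cj ω * x.2.2.1, cj ω * x.2.2.2)
theorem θ0_ap : ∀ x, θ0 x = θf x := by
  have : ∀ x : V, (let a := x + hf x (0, 1, 0, ω) • (0, 1, 0, ω)
      let b := a + hf a (0, 1, 0, 1) • (0, 1, 0, 1)
      let c := b + hf b (1, 0, ω, 0) • (1, 0, ω, 0)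
      c + hf c (1, 0, 1, 0) • (1, 0, 1, 0)) = θf x := by decide +kernel
  exact this
theorem θ0_U (α δ μ : K4) : θ0 * Uτ α δ μ = Uτ α δ (cj ω * μ) * θ0 := Perm.ext fun x => by
  have l := Γ0_lin θ0_mem
  have ha : θ0 a0 = ω • a0 := by rw [θ0_ap]; decide +kernel
  have hb : θ0 b0 = cj ω • b0 := by rw [θ0_ap]; decide +kernel
  have h1 : hf (θ0 x) a0 = ω * hf x a0 := by
    rw [← l x, ha, hf_smulr, ← mul_assoc, mul_cj ω ω0, one_mul]
  have h2 : hf (θ0 x) b0 = cj ω * hf x b0 := by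
    rw [← l x, hb, hf_smulr, cj_cj, ← mul_assoc, mul_comm (cj ω), mul_cj ω ω0, one_mul]
  show θ0 (Uf _ _ _ x) = Uf _ _ _ (θ0 x)
  simp only [Uf, SL.add (Or.inl l), l.smul, ha, hb, h1, h2, smul_smul]
  generalize hf x a0 = s, hf x b0 = r
  congr 3
  · revert α μ s r; decide +kernel
  · revert δ μ s r; decide +kernel
theorem k_θ : ∀ x : V, x ≠ 0 → θf (θf x) ≠ 0 ∧ θf (θf x) ≠ x ∧ (hf x a0 = 0 → hf x b0 = 0 →
    (∃ c : K4, x = c • a0) ∨ (∃ c : K4, x = c • b0) ∨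
      [0, x, ω • x, x + ω • x, θf (θf x)].Nodup) := by decide +kernel
theorem k_μ : ∀ α δ μ : K4, (α = 0 ∨ α = 1) → (δ = 0 ∨ δ = 1) → (α = 0 ∧ δ = 0 ∧ μ = 0) ∨
    (α = 1 ∧ δ = 1 ∧ μ = 0) ∨ (α = 1 ∧ δ = 0 ∧ μ = 0) ∨ (α = 0 ∧ δ = 1 ∧ μ = 0) ∨
    (μ + cj ω * (cj ω * μ)) * cj (μ + cj ω * (cj ω * μ)) = 1 := by decide +kernel
theorem θ0_UU (α δ μ : K4) :
    θ0 * θ0 * Uτ α δ μ * (θ0 * θ0)⁻¹ = Uτ α δ (cj ω * (cj ω * μ)) := by
  have a := θ0_U α δ μ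
  have b := θ0_U α δ (cj ω * μ)
  generalize Uτ α δ μ = A, Uτ α δ (cj ω * μ) = B, Uτ α δ (cj ω * (cj ω * μ)) = C, θ0 = θ at a b
  rw [mul_inv_eq_iff_eq_mul, mul_assoc, a, ← mul_assoc, b, mul_assoc]
theorem tvU1' {ν : K4} (e : ν * cj ν = 1) : TV (Uτ 1 1 ν) := by
  have := tvU1 ν
  rwa [e] at this
theorem tvU0 : TV (Uτ 1 0 0) := by
  have := tvU1 0
  rwa [zero_mul] at this
/-- a `θ`-invariant subgroup of the centralizer of the line contains a transvection -/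
theorem h8 {B : Subgroup (Perm V)} (h1 : Uτ 1 1 0 ∈ B)
    (hθ : ∀ β ∈ B, θ0 * θ0 * β * (θ0 * θ0)⁻¹ ∈ B) {β : Perm V} (hβ : β ∈ B) (l : Lin β)
    (ha : β a0 = a0) (hb : β b0 = b0) (n1 : β ≠ 1) (n2 : β ≠ Uτ 1 1 0) : ∃ δ ∈ B, TV δ := by
  obtain ⟨α, δ, μ, k1, k2, e0⟩ := l.par ha hb
  rcases k_μ α δ μ k1 k2 with ⟨r1, r2, r3⟩ | ⟨r1, r2, r3⟩ | ⟨r1, r2, r3⟩ | ⟨r1, r2, r3⟩ | e
  · rw [r1, r2, r3, Uτ0] at e0; exact absurd e0 n1
  · rw [r1, r2, r3] at e0; exact absurd e0 n2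
  · rw [r1, r2, r3] at e0; exact ⟨β, hβ, by rw [e0]; exact tvU0⟩
  · rw [r1, r2, r3] at e0; exact ⟨β, hβ, by rw [e0]; exact tvU2⟩
  have := mul_mem h1 (mul_mem hβ (hθ _ hβ))
  rw [e0, θ0_UU, Uτ_mul, Uτ_mul, K2, K2, add_zero, zero_add] at this
  exact ⟨_, this, tvU1' e⟩

variable {G : Type*} [Group G]

theorem St.lift2 {z t : G} (S : St z) (t2 : t * t = 1) (tz : Commute t z) (m : M4 (S.π t))
    {γ : Perm V} (h : γ ∈ Γ0) (hc : γ * S.π t = S.π t * γ) :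
    ∃ x, Commute x z ∧ Commute x t ∧ S.π x = γ * γ := by
  obtain ⟨x, hx, rfl⟩ := S.ps h
  have c := (hx.mul_left tz).mul_left hx.inv_left
  have hq : x * t * x⁻¹ * t ∈ S.Q := by
    rw [← S.pk (c.mul_left tz), S.pm c tz, S.pc hx tz, hc, mul_inv_cancel_right, S.p2 t2 tz]
  have ti : t⁻¹ = t := inv_eq_of_mul_eq_one_left t2
  obtain ⟨r, hr, e⟩ := S.ex_e t2 tz hq (m _ (by
    rw [← S.rc tz hq, ← S.rinv hq]; congr 1
    simp only [mul_inv_rev, inv_inv, ti]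
    rw [mul_assoc t, mul_assoc _ t t, t2]; group))
  have rz := (S.QM hr).inv_left
  have yz := rz.mul_left hx
  have py : S.π (r⁻¹ * x) = S.π x := by rw [S.pm rz hx, S.pQ (inv_mem hr), one_mul]
  have k : r⁻¹ * x * t * (r⁻¹ * x)⁻¹ = t ∨ r⁻¹ * x * t * (r⁻¹ * x)⁻¹ = t * z := by
    rcases e with e | e
    · left
      calc _ = r⁻¹ * (x * t * x⁻¹) * r := by group
        _ = t := by rw [mul_right_cancel e]; group
    · right
      have e' : x * t * x⁻¹ = r * t * r⁻¹ * z := by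
        rw [mul_assoc _ t z, tz.eq, ← mul_assoc] at e; exact mul_right_cancel e
      calc _ = r⁻¹ * (x * t * x⁻¹) * r := by group
        _ = t * (r⁻¹ * z) * r := by rw [e']; group
        _ = t * z := by rw [rz.eq]; group
  rw [← py]
  generalize r⁻¹ * x = y at k yz
  refine ⟨y * y, yz.mul_left yz, mul_inv_eq_iff_eq_mul.1 ?_, S.pm yz yz⟩
  rw [show y * y * t * (y * y)⁻¹ = y * (y * t * y⁻¹) * y⁻¹ by group]
  rcases k with k | k
  · rw [k, k]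
  · rw [k]
    calc y * (t * z) * y⁻¹ = y * t * (z * y⁻¹) := by group
      _ = y * t * y⁻¹ * z := by rw [← yz.inv_left.eq]; group
      _ = t := by rw [k, mul_assoc, S.z2, mul_one]

theorem St.card_ge1 [Finite G] {z : G} (S : St z) {X : Subgroup G} {l : List V} (n : l.Nodup)
    (h : ∀ v ∈ l, ∃ q ∈ X, S.ρ q = v) : l.length ≤ Nat.card X := by
  choose f f1 f2 using h
  rw [← List.toFinset_card_of_nodup n, ← Nat.card_eq_finsetCard]
  exact Nat.card_le_card_of_injective (fun v => (⟨f v.1 (List.mem_toFinset.1 v.2), f1 _ _⟩ : X))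
    fun a b e => Subtype.ext (by rw [← f2 a.1 (List.mem_toFinset.1 a.2), Subtype.mk.inj e, f2])

namespace Pr
variable [Finite G] {z0 z t : G} {S : St z} {T : St t} (h : Pr z0 S T)
include h

/-- if transvections occur, products of two commuting transvections do not -/
theorem k2 (v : TV (S.π t)) {s : G} (cs : IsConj z0 s) (st : Commute s t) {a b : V}
    (B : TB (T.π s) a b) : False := by
  obtain ⟨p', p0', hp', v'⟩ := h.partner v
  obtain ⟨x, hx, x', hx', x1, y1, xy, -⟩ := h.X4 v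
  obtain ⟨p, p0, hp, v⟩ := v
  obtain ⟨g, hg, eg⟩ := ex_a0 hp p0
  have lg := Γ0_lin hg
  obtain ⟨y, hy, ey⟩ := S.rs (g⁻¹ b0)
  have gy : g (S.ρ y) = b0 := by rw [ey]; simp
  have yp : hf (S.ρ y) p = 0 := by rw [← lg, gy, eg, k_ab.2.2.2]
  have ny : ∀ c : K4, S.ρ y ≠ c • p := fun c e => by
    rw [e, lg.smul, eg] at gy
    exact (by decide +kernel : ∀ c : K4, c • a0 ≠ b0) c gy
  have y2 : y * y = 1 := (S.sq hy).2 (by rw [← lg, gy, k_ab.2.1])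
  have yt := h.tvα p0 hp v hy yp
  have nX : ∀ d ∈ S.Q ⊓ T.Q, S.ρ d ≠ S.ρ y := fun d hd e => (h.XK p0 hp v hd).elim fun c k =>
    ny c (e.symm.trans k)
  obtain ⟨c, ec⟩ := h.symm.XK p0' hp' v' (d := x) ⟨hx.2, hx.1⟩
  obtain ⟨d, ed⟩ := h.symm.XK p0' hp' v' (d := x') ⟨hx'.2, hx'.1⟩
  have c0 : c ≠ 0 := fun e => x1 (h.symm.r0 ⟨hx.2, hx.1⟩ (by rw [ec, e, zero_smul]))
  have e' : T.ρ x' = (d * c⁻¹) • T.ρ x := by rw [ed, ec, smul_smul, inv_mul_cancel_right₀ c0]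
  have l : Lin (T.π y) := lin2 (T.sl yt) (fun e => x1 (h.symm.r0 ⟨hx.2, hx.1⟩ e))
    (fun e => y1 (h.symm.r0 ⟨hx'.2, hx'.1⟩ (by rw [e', e, zero_smul])))
    (fun e => xy (h.symm.inj ⟨hx'.2, hx'.1⟩ ⟨hx.2, hx.1⟩ (by rw [e', e, one_smul])))
    (h.fixX hy yt hx) (e' ▸ h.fixX hy yt hx')
  have n1 : T.π y ≠ 1 := fun e => nX y ⟨hy, (T.pk yt).1 e⟩ rfl
  rcases U6.tri (Or.inl l) (T.p2 y2 yt) n1 with ⟨r, r0, hr, u⟩ | ⟨a', b', B'⟩ | u
  · obtain ⟨e, er⟩ : ∃ e : K4, r = e • p' := by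
      by_contra hc
      push Not at hc
      obtain ⟨w, w1, w2⟩ := ex_dual hp' p0' hc 1
      obtain ⟨q, hq, rfl⟩ := T.rs w
      obtain ⟨k, hk, e⟩ := cmX hy yt hq (h.symm.tvα p0' hp' v' hq w1)
      rw [u, w2, one_smul, add_right_inj] at e
      exact (h.symm.XK p0' hp' v' (d := k) ⟨hk.2, hk.1⟩).elim fun c f => hc c (e.trans f)
    have e0 : e ≠ 0 := fun k => r0 (by rw [er, k, zero_smul])
    have zt := h.tz.symm
    refine nX (y * z) ⟨mul_mem hy S.zQ, (T.pk (yt.mul_left zt)).1 ?_⟩ (by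
      rw [S.rm hy S.zQ, S.rz, add_zero])
    rw [T.pm yt zt, u.eq (er ▸ v'.smul e0), h.symm.p2]
  swap
  · exact l.not u
  obtain ⟨k, hk, e⟩ := B.isConj B'
  obtain ⟨m, mt, rfl⟩ := T.ps hk
  rw [← T.pc mt st] at e
  have ct := (mt.mul_left st).mul_left mt.inv_left
  have cu : IsConj z0 (m * s * m⁻¹) := cs.trans (isConj_iff.2 ⟨m, rfl⟩)
  obtain ⟨U⟩ := h.W.st _ cu
  generalize m * s * m⁻¹ = u at e ct cu U
  have hq : y * u ∈ T.Q := by rw [← T.pk (yt.mul_left ct), T.pm yt ct, e, T.p2 y2 yt]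
  obtain ⟨r, hr, k⟩ := T.ex_e U.z2 ct hq ((e ▸ B'.m4) _ (by
    rw [← T.rc ct hq, ← T.rinv hq]; congr 1
    rw [mul_inv_rev, inv_eq_of_mul_eq_one_left U.z2, inv_eq_of_mul_eq_one_left y2, mul_assoc,
      mul_assoc y, U.z2, mul_one]))
  have cr : IsConj z0 (r * u * r⁻¹) := cu.trans (isConj_iff.2 ⟨r, rfl⟩)
  rcases k with k | k
  · rw [← mul_right_cancel k] at cr
    exact ny 0 (by rw [h.W.wc z h.cz S y hy cr, S.rz, zero_smul])
  have e2 : y * t = r * u * r⁻¹ := by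
    rw [mul_assoc _ u t, ct.eq, ← mul_assoc] at k
    rw [mul_right_cancel k, mul_assoc, T.z2, mul_one]
  rw [← e2] at cr
  obtain ⟨U'⟩ := h.W.st _ cr
  have yz := S.QM hy
  have h' : Pr z0 S U' := ⟨h.W, h.cz, cr, yz.mul_left h.tz, fun e =>
    h.tQ ((S.Q.mul_mem_cancel_left hy).1 (e ▸ S.zQ))⟩
  have v2 : Tv (S.π (y * t)) p := by rwa [S.pm yz h.tz, S.pQ hy, one_mul]
  have pp : ∀ w, hf w p = 0 → bf w (S.ρ y) = 0 := fun w hw => by
    obtain ⟨q, hq, rfl⟩ := S.rs w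
    have := (h'.tvα p0 hp v2 hq hw).mul_right (h.tvα p0 hp v hq hw).inv_right
    exact (S.cm hq hy).1 (by rwa [mul_inv_cancel_right] at this)
  exact (pp1 hp p0 fun y hy => hf_of_bf (pp y hy)
    (pp _ (by rw [hf_smull, hy, mul_zero]))).elim ny

end Pr
end U6
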