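import Cfsg.Agent.U6.C4

/-! All commuting conjugates induce transvections. -/

set_option autoImplicit false
open Equiv Subgroup

namespace U6
variable {G : Type*} [Group G] [Finite G]

namespace Pr
variable {z0 z t : G} {S : St z} {T : St t} (h : Pr z0 S T)
include h

/-- no transvection at all: products of two transvections do not occur -/
theorem k1' (nt : ∀ {z t : G} {S : St z} {T : St t}, Pr z0 S T → ¬ TV (S.π t))
    (B : TB (S.π t) a0 b0) : False := by
  have m := B.m4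
  have m' := h.symm.m4 (nt h.symm)
  obtain ⟨y, yz, yt, ey⟩ := S.lift2 T.z2 h.tz m θ0_mem (by rw [B.U, θ0_U, mul_zero])
  have yX : ∀ x ∈ S.Q ⊓ T.Q, y * x * y⁻¹ ∈ S.Q ⊓ T.Q ∧ S.ρ (y * x * y⁻¹) = θf (θf (S.ρ x)) :=
    fun x hx => ⟨⟨S.nq yz hx.1, T.nq yt hx.2⟩, by
      rw [S.rc yz hx.1, ey, Perm.mul_apply, θ0_ap, θ0_ap]⟩
  have act : ∀ b ∈ T.Q, Commute b z → ∀ l, S.π t l = l → ∃ d ∈ S.Q ⊓ T.Q, S.π b l = l + S.ρ d :=
    fun b hb c l hl => by
      obtain ⟨r, hr, rfl⟩ := S.rs l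
      obtain ⟨d, hd, e⟩ := cmX hb c hr (S.isA_comm T.z2 h.tz m B.isA r hr hl)
      exact ⟨d, ⟨hd.2, hd.1⟩, e⟩
  have d4 := h.d4 m
  have one : ∀ {a b : V}, TB (S.π t) a b → ∀ g ∈ T.Q, Commute g z → Lin (S.π g) →
      S.π g a = a → S.π g b = b := fun {a b} B g hg c l ha => by
    obtain ⟨w, w1, w2⟩ := B.dual 0 1
    have e : S.π g (S.π t w) = S.π t (S.π g w) := by
      rw [← Perm.mul_apply, ← S.pm c h.tz, (T.QM hg).eq, S.pm h.tz c, Perm.mul_apply]
    rw [B.ap, B.ap, w1, w2, ← ha, l, w1, zero_smul, add_zero, add_zero, one_smul,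
      SL.add (Or.inl l), add_right_inj] at e
    have e2 : S.π g (S.π g b) = b := by
      rw [← Perm.mul_apply, ← S.pm c c]
      rcases T.sq' hg with k | k <;> rw [k]
      · rw [S.p1]; rfl
      · exact B.fb
    generalize hf (S.π g w) b = d at e
    rw [e, l.smul, e, smul_smul] at e2
    have : d * d = 1 := smul_left_injective K4 B.b0 (e2.trans (one_smul _ _).symm)
    rw [e, show d = 1 by rw [← cj_cj d]; exact (congrArg cj this).trans cj_one, one_smul]
  have L0 : ∀ g ∈ T.Q, Commute g z → Lin (S.π g) → S.π g a0 = a0 ∧ S.π g b0 = b0 :=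
    fun g hg c l => by
      have key : ∀ v, S.π t v = v → S.π g v ≠ v → S.π g a0 = a0 ∧ S.π g b0 = b0 :=
        fun v hv n => by
          obtain ⟨x, hx, e⟩ := act g hg c v hv
          obtain ⟨x', hx', e'⟩ := act g hg c (ω • v) (by rw [B.lin.smul, hv])
          rw [l.smul, e, smul_add, add_right_inj] at e'
          have x0 : S.ρ x ≠ 0 := fun k => n (by rw [e, k, add_zero])
          have fx := h.symm.fixX hg c ⟨hx.2, hx.1⟩
          have ft := B.fix.1 (S.fix_of_comm h.tz hx.1 (T.QM hx.2))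
          have sc : ∀ {c : K4} {u : V}, S.ρ x = c • u → S.π g u = u := fun {c u} k => by
            rw [k, l.smul] at fx
            exact smul_right_injective V (fun e => x0 (by rw [k, e, zero_smul])) fx
          rcases (k_θ _ x0).2.2 ft.1 ft.2 with ⟨c, k⟩ | ⟨c, k⟩ | k
          · exact ⟨sc k, one B g hg ‹_› l (sc k)⟩
          · exact ⟨one B.symm g hg ‹_› l (sc k), sc k⟩
          have := S.card_ge1 (X := S.Q ⊓ T.Q) k fun v hv => by
            simp only [List.mem_cons, List.not_mem_nil, or_false] at hv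
            rcases hv with rfl | rfl | rfl | rfl | rfl
            exacts [⟨1, one_mem _, S.r1⟩, ⟨x, hx, rfl⟩, ⟨x', hx', e'.symm⟩,
              ⟨_, mul_mem hx hx', by rw [S.rm hx.1 hx'.1, e']⟩, ⟨_, (yX x hx).1, (yX x hx).2⟩]
          exact absurd (this.trans d4) (by simp)
      by_contra hc
      rcases not_and_or.1 hc with k | k
      · exact hc (key _ B.fa k)
      · exact hc (key _ B.fb k)
  let A := T.Q ⊓ centralizer {z} ⊓ S.pre LinS
  have hc : ∀ a ∈ A, Commute a z := fun a ha => ha.2.1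
  have c1 := S.card_lin (A := T.Q ⊓ centralizer {z}) fun a ha => mcs.1 ha.2
  have c2 := cardB (S := T) (T := S) (A := A) (inf_le_left.trans inf_le_left) hc
  rw [inf_comm T.Q] at c2
  have tv : 2 < Nat.card (S.im A hc) → ∃ b ∈ T.Q, Commute b z ∧ TV (S.π b) := fun c => by
    obtain ⟨β, hβ, n⟩ := ex_not_mem _ [1, Uτ 1 1 0] c
    simp only [List.mem_cons, List.not_mem_nil, or_false, not_or] at n
    obtain ⟨b, hb, rfl⟩ := S.mem_im.1 hβ
    obtain ⟨δ, hδ, v⟩ := h8 (B := S.im A hc) (S.mem_im.2 ⟨t, ⟨⟨T.zQ, mcs.2 h.tz⟩, h.tz, B.lin⟩,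
      B.U⟩) (fun β hβ => by
        obtain ⟨b, hb, rfl⟩ := S.mem_im.1 hβ
        have k := (yz.mul_left hb.2.1).mul_left yz.inv_left
        have e := S.pc yz hb.2.1
        exact S.mem_im.2 ⟨_, ⟨⟨T.nq yt hb.1.1, mcs.2 k⟩, k, e ▸ (S.sl' yz).conj hb.2.2⟩,
          by rw [e, ey]⟩) hβ hb.2.2 (L0 b hb.1.1 hb.2.1 hb.2.2).1 (L0 b hb.1.1 hb.2.1 hb.2.2).2
      n.1 n.2
    obtain ⟨b, hb, rfl⟩ := S.mem_im.1 hδ
    exact ⟨b, hb.1.1, hb.2.1, v⟩
  have fin : ∀ b, Commute b z → IsConj z (b * z) → ¬ TV (S.π b) := fun b c k v => by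
    obtain ⟨U, h', e⟩ := h.symm.shift c k fun e => by
      obtain ⟨p, p0, -, v⟩ := v
      exact v.ne_one p0 (by rw [e, S.p1])
    exact nt h' (e ▸ v)
  by_cases iA : IsA (T.π z)
  swap
  · have := card_le_list (S.Q ⊓ T.Q) [1] fun d hd => by
      simpa using h.symm.x1 m' iA ⟨hd.2, hd.1⟩
    have c16 := h.symm.c16
    have e : [(1 : G)].length = 1 := rfl
    obtain ⟨b, hb, c, v⟩ := tv (by nlinarith)
    exact fin b c (h.symm.allc m' iA hb c) v
  have c32 := h.symm.c32 m' iA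
  by_cases s : Sm T S
  swap
  · obtain ⟨b, hb, c, v⟩ := tv (by nlinarith)
    obtain ⟨x, hx, k⟩ := h.symm.big m' s hb c
    refine fin _ ((S.QM hx.2).mul_left c) k ?_
    rwa [S.pm (S.QM hx.2) c, S.pQ hx.2, one_mul]
  have X1 : ∀ x ∈ S.Q ⊓ T.Q, x = 1 := fun x hx => by
    by_contra n
    have x0 : S.ρ x ≠ 0 := fun e => n (h.r0 hx e)
    rcases s.symm x hx _ (yX x hx).1 with e | e | e
    · exact n e
    · exact (k_θ _ x0).1 (by rw [← (yX x hx).2, e, S.r1])
    · exact (k_θ _ x0).2.1 (by rw [← (yX x hx).2, ← e])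
  have hc' : ∀ a ∈ T.Q ⊓ centralizer {z}, Commute a z := fun a ha => mcs.1 ha.2
  have c3 := cardB (S := T) (T := S) inf_le_left hc'
  have c4 := card_le_list (T.Q ⊓ S.Q) [1] fun d hd => by simpa using X1 d ⟨hd.2, hd.1⟩
  have c5 := card_le_list (S.im _ hc') LU fun β hβ => by
    obtain ⟨b, hb, rfl⟩ := S.mem_im.1 hβ
    have k : ∀ l, S.π t l = l → S.π b l = l := fun l hl => by
      obtain ⟨d, hd, e⟩ := act b hb.1 (hc' b hb) l hl
      rw [e, X1 d hd, S.r1, add_zero]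
    obtain ⟨α, δ, μ, k1, k2, e⟩ := ((S.sl' (hc' b hb)).lin B.a0 (k _ B.fa)
      (k _ (by rw [B.lin.smul, B.fa]))).par (k _ B.fa) (k _ B.fb)
    exact e ▸ mem_LU k1 k2 μ
  have e : [(1 : G)].length = 1 := rfl
  have e' : LU.length = 16 := rfl
  nlinarith

theorem noB {a b : V} : ¬ TB (S.π t) a b := fun B => by
  by_cases nt : ∀ {z t : G} {S : St z} {T : St t}, Pr z0 S T → ¬ TV (S.π t)
  · obtain ⟨g, hg, e⟩ := B.ex0
    exact k1' (S := S.tw hg) (T := T) ⟨h.W, h.cz, h.ct, h.tz, h.ne⟩ nt e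
  push Not at nt
  obtain ⟨z1, u, S1, T1, h1, v⟩ := nt
  obtain ⟨g, rfl⟩ := isConj_iff.1 (h.cz.symm.trans h1.ct)
  refine k2 (T := S.cjg g) ⟨h1.W, h1.cz, h1.ct, h1.tz, h1.ne⟩ v
    (h.ct.trans (isConj_iff.2 ⟨g, rfl⟩)) (s := g * t * g⁻¹) ?_ (a := a) (b := b) ?_
  · show _ = _
    calc g * t * g⁻¹ * (g * z * g⁻¹) = g * (t * z) * g⁻¹ := by group
      _ = _ := by rw [h.tz.eq]; group
  · show TB (S.π (g⁻¹ * (g * t * g⁻¹) * g)) a b
    rwa [show g⁻¹ * (g * t * g⁻¹) * g = t by group]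

theorem imgT {a : G} (c : Commute a t) (k : IsConj t (a * t)) (l : Lin (T.π a))
    (n : T.π a ≠ 1) : TV (T.π a) := by
  obtain ⟨U, h', e⟩ := h.shift c k fun e => n (by rw [e, T.p1])
  rcases h'.tri with v | ⟨a, b, v⟩ | v
  · exact e ▸ v
  · exact absurd v h'.noB
  · exact absurd (e ▸ v) l.not

theorem tv : TV (S.π t) := by
  by_contra n
  have n' : ¬ TV (T.π z) := fun v => n (h.symm.partner v)
  have m := h.m4 n
  have m' := h.symm.m4 n'
  have al : ALin (T.π z) := (h.symm.tri.resolve_left n').resolve_left fun ⟨_, _, e⟩ => h.symm.noB e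
  have three : ∀ {z t : G} {S : St z} {T : St t}, Pr z0 S T → M4 (S.π t) →
      (∀ a ∈ S.Q, Commute a t → ∃ x ∈ T.Q, IsConj t (x * a * t)) →
      4 * Nat.card (S.Q ⊓ T.Q : Subgroup G) < Nat.card (S.Q ⊓ centralizer {t} : Subgroup G) →
      False := fun {z t S T} h m all c => by
    let A := S.Q ⊓ centralizer {t} ⊓ T.pre LinS
    have hc : ∀ a ∈ A, Commute a t := fun a ha => ha.2.1
    have c1 := T.card_lin (A := S.Q ⊓ centralizer {t}) fun a ha => mcs.1 ha.2
    have c2 := cardB (S := S) (T := T) (A := A) (inf_le_left.trans inf_le_left) hc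
    have a2 := T.im_two hc fun x hx => S.m4_sq T.z2 h.tz m hx.1.1 hx.2.1
    have v : ∀ β ∈ T.im A hc, β ≠ 1 → TV β := fun β hβ n => by
      obtain ⟨a, ha, rfl⟩ := T.mem_im.1 hβ
      obtain ⟨x, hx, k⟩ := all a ha.1.1 ha.2.1
      have e : T.π (x * a) = T.π a := by rw [T.pm (T.QM hx) ha.2.1, T.pQ hx, one_mul]
      exact e ▸ h.imgT ((T.QM hx).mul_left ha.2.1) k (e ▸ ha.2.2) (e ▸ n)
    have c3 : 2 < Nat.card (T.im A hc) := by nlinarith
    obtain ⟨a, ha, a1⟩ := ex_not_mem (T.im A hc) [1] (by show 1 < _; omega)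
    obtain ⟨b, hb, b1⟩ := ex_not_mem (T.im A hc) [1, a] c3
    simp only [List.mem_cons, List.not_mem_nil, or_false, not_or] at a1 b1
    obtain ⟨p, p0, hp, u⟩ := v a ha a1
    obtain ⟨q, q0, hq, w⟩ := v b hb b1.1
    exact notv3 u w hp hq p0 q0 (comm_of_sq a2 ha hb) (v _ (mul_mem ha hb) fun e =>
      b1.2 (mul_left_cancel (e.trans (a2 a ha).symm)))
  have β : ∀ {z t : G} {S : St z} {T : St t}, Pr z0 S T → M4 (S.π t) → IsA (S.π t) :=
    fun {z t S T} h m => by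
      by_contra c
      have := card_le_list (S.Q ⊓ T.Q) [1] fun d hd => by simpa using h.x1 m c hd
      have c16 := h.c16
      have e : [(1 : G)].length = 1 := rfl
      exact three h m (fun a ha k => ⟨1, one_mem _, by rw [one_mul]; exact h.allc m c ha k⟩)
        (by omega)
  have c32 := h.c32 m (β h m)
  by_cases s : Sm S T
  swap
  · have := h.d4 m
    exact three h m (fun a ha k => (h.big m s ha k).imp fun x hx => ⟨hx.1.2, hx.2⟩) (by omega)
  obtain ⟨x0, hx0, e0⟩ := s.ex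
  let A := S.Q ⊓ centralizer {t} ⊓ T.pre LinS
  have hc : ∀ a ∈ A, Commute a t := fun a ha => ha.2.1
  have c1 := T.card_lin (A := S.Q ⊓ centralizer {t}) fun a ha => mcs.1 ha.2
  have c2 := cardB (S := S) (T := T) (A := A) (inf_le_left.trans inf_le_left) hc
  have c3 := s.card
  have ix : hf (T.ρ x0) (T.ρ x0) = 0 := (T.sq hx0.2).1 (h.dsq hx0)
  have c4 := card_le_list (T.im A hc) [1, τ _ ix] fun δ hδ => by
    obtain ⟨a, ha, rfl⟩ := T.mem_im.1 hδ
    have l : Lin (T.π a) := ha.2.2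
    have fx := T.fix_of_comm h.tz.symm hx0.2 (S.QM hx0.1)
    have mv : ∀ y, T.π z y = y → T.π a y = y ∨ T.π a y = y + T.ρ x0 := fun y hy => by
      obtain ⟨r, hr, rfl⟩ := T.rs y
      obtain ⟨x, hx, e⟩ := cmX ha.1.1 ha.2.1 hr
        (T.isA_comm S.z2 h.tz.symm m' (β h.symm m') r hr hy)
      rcases e0 x hx with rfl | rfl
      · left; rw [e, T.r1, add_zero]
      · exact Or.inr e
    have ext : ∀ δ : Perm V, Lin δ → (∀ y, T.π z y = y → T.π a y = δ y) → T.π a = δ :=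
      fun δ k e => Perm.ext fun x => by
        obtain ⟨u, w, hu, hw, rfl⟩ := al.dec h.symm.p2 x
        rw [SL.add (Or.inl l), SL.add (Or.inl k), l.smul, k.smul, e u hu, e w hw]
    by_cases c : ∀ y, T.π z y = y → T.π a y = y
    · simp [ext 1 lin_one c]
    push Not at c
    obtain ⟨y0, hy0, n0⟩ := c
    have e0 := (mv y0 hy0).resolve_left n0
    have rel : ∀ y, T.π z y = y → (T.π a y = y ∧ hf y (T.ρ x0) = 0) ∨
        (T.π a y = y + T.ρ x0 ∧ hf y (T.ρ x0) = hf (T.ρ x0) y0) := fun y hy => by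
      have := l y y0
      rcases mv y hy with e | e <;> rw [e0, e] at this
      · exact Or.inl ⟨e, by rwa [hf_addr, add_eq_left] at this⟩
      · refine Or.inr ⟨e, ?_⟩
        rw [hf_addl, hf_addr, hf_addr, ix, add_zero, add_assoc, add_eq_left] at this
        rw [← add_zero (hf y _), ← this, ← add_assoc, K2, zero_add]
    have one : hf (T.ρ x0) y0 = 1 := (al.f2 fx hy0).resolve_left fun e => n0 (by
      rw [e0, add_eq_left]
      refine hf_nd fun x => hf_symm ?_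
      obtain ⟨u, w, hu, hw, rfl⟩ := al.dec h.symm.p2 x
      have k : ∀ y, T.π z y = y → hf y (T.ρ x0) = 0 := fun y hy =>
        (rel y hy).elim (·.2) fun k => k.2.trans e
      rw [hf_addl, hf_smull, k u hu, k w hw]; simp)
    have := ext (τ _ ix) ((tv_τ ix).lin ix) fun y hy => by
      rw [tv_τ ix]
      rcases rel y hy with ⟨a, b⟩ | ⟨a, b⟩ <;> rw [a, b]
      · simp
      · rw [one, one_smul]
    simp [this]
  have e : [1, τ _ ix].length = 2 := rfl
  nlinarith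

end Pr

theorem good_of {z0 : G} (W : Wk z0) : Good z0 := fun z cz S t ct tz ne => by
  obtain ⟨T⟩ := W.st t ct
  have h : Pr z0 S T := ⟨W, cz, ct, tz, ne⟩
  obtain ⟨p, p0, hp, v⟩ := h.tv
  exact ⟨p, p0, hp, v, fun q hq f => h.tvα p0 hp v hq f⟩

end U6
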