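import Cfsg.Agent.U6.C2

/-! `z` is weakly closed in `Q`. -/

set_option autoImplicit false
open Equiv Subgroup

namespace U6

/-- the linear algebra of a pair `t ∈ Q_z`, `z ∈ Q_t` -/
structure WD (v : V) (R : Set V) (P : Set (Perm V)) : Prop where
  v0 : v ≠ 0
  Ra : ∀ x ∈ R, ∀ y ∈ R, x + y ∈ R
  Rv : v ∈ R
  Ri : ∀ x ∈ R, hf x x = 0
  sl : ∀ β ∈ P, SL β
  p2 : ∀ β ∈ P, β * β = 1
  pv : ∀ β ∈ P, β v = v
  pN : ∀ β ∈ P, ∀ x, bf x v = 0 → x + β x ∈ R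
  pR : ∀ β ∈ P, ∀ y ∈ R, β y = y ∨ β y = y + v
  cen : ∀ y ∈ R, (∀ β ∈ P, β y = y) → y = 0 ∨ y = v
  pm : ∀ β ∈ P, ∀ γ ∈ P, β * γ ∈ P
  pc : ∀ γ ∈ Γ0, γ v = v → ∀ β ∈ P, γ * β * γ⁻¹ ∈ P

theorem wk1 : ∀ e e' : K4, (e = 0 ∨ e = 1) → (e' = 0 ∨ e' = 1) → ω * e = e' → e = 0 := by
  decide +kernel
theorem wk2 : ∀ c : K4, c ≠ 0 → c = ω ∨ ω * c = ω ∨ c + ω * c = ω := by decide +kernel
theorem wk3 : ∀ d : K4, (d = 0 ∨ d = 1) → cj ω * d + cj (cj ω * d) = 1 → d = 1 := by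
  decide +kernel
theorem wk4 : ∀ α ν : K4, α + (α + ν) + (α + cj ω * ν) + (α + cj ω * ν + ν) = 0 ∧
    (α + ν) + (α + cj ω * ν) * ω + (α + cj ω * ν + ν) * (ω + 1) = ν := by decide +kernel

namespace WD
variable {v : V} {R : Set V} {P : Set (Perm V)} (h : WD v R P)
include h

theorem vi : hf v v = 0 := h.Ri v h.Rv
theorem bfR {x y : V} (hx : x ∈ R) (hy : y ∈ R) : bf x y = 0 := by
  have := h.Ri _ (h.Ra x hx y hy)
  rwa [qf_add, h.Ri x hx, h.Ri y hy, zero_add, zero_add] at this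
theorem pR' {β : Perm V} (hβ : β ∈ P) {y : V} (hy : y ∈ R) :
    ∃ e : K4, (e = 0 ∨ e = 1) ∧ β y = y + e • v := by
  rcases h.pR β hβ y hy with e | e
  · exact ⟨0, Or.inl rfl, by rw [e, zero_smul, add_zero]⟩
  · exact ⟨1, Or.inr rfl, by rw [e, one_smul]⟩

theorem lin_all (hl : ∀ β ∈ P, Lin β) {β : Perm V} (hβ : β ∈ P) : β = 1 ∨ Tv β v := by
  refine (hl β hβ).triv h.vi h.v0 fun x hx => ?_
  have m1 := h.pN β hβ x (bf_of_hf hx)
  have m2 := h.pN β hβ (ω • x) (bf_of_hf (by rw [hf_smull, hx, mul_zero]))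
  rw [(hl β hβ).smul, ← smul_add] at m2
  have fx : ∀ y ∈ R, ω • y ∈ R → y = 0 ∨ y = v := fun y hy hy' => h.cen y hy fun γ hγ => by
    obtain ⟨e, he, f⟩ := h.pR' hγ hy
    obtain ⟨e', he', f'⟩ := h.pR' hγ hy'
    rw [(hl γ hγ).smul, f, smul_add, add_right_inj, smul_smul] at f'
    rw [f, wk1 e e' he he' (smul_left_injective K4 h.v0 f'), zero_smul, add_zero]
  rcases fx _ m1 m2 with e | e
  · exact (eq_of_add e).symm
  · exfalso
    rw [e] at m2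
    rcases h.cen _ m2 fun γ hγ => by rw [(hl γ hγ).smul, h.pv γ hγ] with f | f
    · exact (smul_eq_zero.1 f).elim ω0 h.v0
    · exact ω1 (smul_left_injective K4 h.v0 (f.trans (one_smul _ _).symm))

theorem alin {β : Perm V} (hβ : β ∈ P) (l : ALin β) :
    (∃ γ ∈ P, Tv γ v) ∧ (∀ y ∈ R, hf y v = 0) ∧ ∃ F : Finset V, F.card = 16 ∧ ∀ y ∈ F, y ∈ R := by
  have vi := h.vi
  obtain ⟨x, xv, xx⟩ := k_unit v vi
  have i : ∀ y, β (y + β y) = y + β y := fun y => by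
    rw [SL.add (Or.inr l), ← Perm.mul_apply, h.p2 β hβ, Perm.one_apply, add_comm]
  have pe : ∀ y, hf y v = 0 → hf (y + β y) v = 0 := fun y hy => by
    rw [hf_addl, hy, zero_add, ← h.pv β hβ, l, hy, cj_zero]
  have xv' : hf ((ω + 1) • x) v = 0 := by rw [hf_smull, xv, mul_zero]
  have aR := h.pN β hβ _ (bf_of_hf xv')
  have bR := h.pN β hβ _ (bf_of_hf xv)
  have av := pe _ xv'
  have bv := pe _ xv
  have fa := i ((ω + 1) • x)
  have fb := i x
  have dec : x = ((ω + 1) • x + β ((ω + 1) • x)) + ω • (x + β x) := by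
    rw [l.smul, cj_add, cj_ω, cj_one, add_assoc ω, K2, add_zero, smul_add, add_smul, one_smul,
      add_add_add_comm, add_assoc, V2, add_zero, add_right_comm, V2, zero_add]
  generalize (ω + 1) • x + β ((ω + 1) • x) = a at aR av fa dec
  generalize x + β x = b at bR bv fb dec
  have aa := h.Ri a aR
  have bb := h.Ri b bR
  have va := hf_symm av
  have vb := hf_symm bv
  have ab : hf a b = 1 := by
    rw [dec, qf_add, aa, qf_smul ω0, bb, zero_add, zero_add, bf_eq, hf_smulr] at xx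
    exact wk3 _ (l.f2 fa fb) xx
  have ba : hf b a = 1 := by rw [hf_cj, ab, cj_one]
  -- the elements `σ y`
  have iv : ∀ y, hf y y = 0 → hf y v = 0 → ∀ c : K4, hf (y + c • v) (y + c • v) = 0 ∧
      hf (y + c • v) v = 0 := fun y hy yv c => by
    simp [hf_addl, hf_addr, hf_smull, hf_smulr, hy, yv, hf_symm yv, vi]
  let Sg : V → Prop := fun y => ∃ γ ∈ P, ∀ x, γ x = x + hf x y • y + hf x (y + v) • (y + v)
  have τv : ∀ y (hy : hf y y = 0), hf y v = 0 → τ y hy v = v := fun y hy yv => by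
    rw [tv_τ hy, hf_symm yv, zero_smul, add_zero]
  have cj' : ∀ y (hy : hf y y = 0), hf y v = 0 → ∀ w, Sg w → Sg (w + hf w y • y) :=
    fun y hy yv w ⟨γ, hγ, e⟩ => by
      have lt := (tv_τ hy).lin hy
      refine ⟨_, h.pc _ ((tv_τ hy).mem hy) (τv y hy yv) γ hγ, fun x => ?_⟩
      obtain ⟨x, rfl⟩ := (τ y hy).surjective x
      rw [← tv_τ hy w, Perm.mul_apply, Perm.mul_apply, Perm.inv_def, Equiv.symm_apply_apply, e,
        SL.add (Or.inl lt), SL.add (Or.inl lt), lt.smul, lt.smul, lt, ← τv y hy yv,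
        ← SL.add (Or.inl lt), lt, τv y hy yv]
  obtain ⟨i1, v1⟩ := iv a aa av ω
  have s1 : Sg (a + ω • v) := by
    have e1 : β (a + ω • v) = a + ω • v + v := by
      rw [SL.add (Or.inr l), fa, l.smul, h.pv β hβ, cj_ω, add_smul, one_smul, add_assoc]
    have t := (tv_τ i1).conj (Or.inr l)
    rw [e1] at t
    refine ⟨_, h.pm _ (h.pc _ ((tv_τ i1).mem i1) (τv _ i1 v1) β hβ) β hβ, fun x => ?_⟩
    have e2 : τ _ i1 * β * (τ _ i1)⁻¹ * β = τ _ i1 * (β * τ _ i1 * β⁻¹) := by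
      rw [inv_eq_of_mul_eq_one_left ((tv_τ i1).sq i1), inv_eq_of_mul_eq_one_left (h.p2 β hβ)]
      group
    rw [e2, Perm.mul_apply, t, tv_τ i1, hf_addl x, hf_smull, hf_addl _ v, i1, hf_symm v1]
    simp only [add_zero, mul_zero]
    abel
  obtain ⟨i2, v2⟩ := iv b bb bv ω
  have s2 := cj' b bb bv _ (cj' _ i2 v2 _ s1)
  have e3 : a + ω • v + hf (a + ω • v) (b + ω • v) • (b + ω • v) = a + b := by
    simp only [hf_addl, hf_addr, hf_smull, hf_smulr, ab, av, vb, vi, mul_zero, add_zero, one_smul]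
    rw [add_add_add_comm, V2, add_zero]
  rw [e3, hf_addl, ab, bb, add_zero, one_smul, V2r] at s2
  have ωR : ω • v ∈ R := by
    obtain ⟨γ, hγ, e⟩ := s1
    have := h.pN γ hγ (ω • b) (bf_of_hf (by rw [hf_smull, bv, mul_zero]))
    rw [e, add_assoc, V2'] at this
    simp only [hf_addr, hf_smull, hf_smulr, ba, bv, mul_zero, add_zero, mul_one] at this
    rwa [smul_add ω (a + ω • v), V2'] at this
  refine ⟨?_, fun y hy => hf_symm (hf_of_bf (h.bfR h.Rv hy) (h.bfR ωR hy)), ?_⟩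
  · obtain ⟨γ, hγ, e⟩ := s1
    obtain ⟨δ, hδ, f⟩ := s2
    refine ⟨_, h.pm _ hγ _ hδ, fun x => ?_⟩
    rw [Perm.mul_apply, f, e]
    simp only [hf_addl, hf_addr, hf_smull, hf_smulr, aa, av, va, vi, mul_zero, add_zero]
    obtain ⟨k1, k2⟩ := wk4 (hf x a) (hf x v)
    generalize hf x a = α at *
    generalize hf x v = ν at *
    have : x + α • a + (α + ν) • (a + v) + (α + cj ω * ν) • (a + ω • v) +
        (α + cj ω * ν + ν) • (a + ω • v + v) =
        x + (α + (α + ν) + (α + cj ω * ν) + (α + cj ω * ν + ν)) • a +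
        ((α + ν) + (α + cj ω * ν) * ω + (α + cj ω * ν + ν) * (ω + 1)) • v := by module
    rw [this, k1, k2, zero_smul, add_zero]
  · have cR : ∀ c : K4, c • v ∈ R := fun c => by
      rcases K4c c with rfl | rfl | rfl | rfl
      · rw [zero_smul, ← V2 v]; exact h.Ra _ h.Rv _ h.Rv
      · rw [one_smul]; exact h.Rv
      · exact ωR
      · rw [add_smul, one_smul]; exact h.Ra _ ωR _ h.Rv
    let e : Bool → K4 := fun i => if i then 1 else 0
    have ei : Function.Injective e := by decide +kernel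
    have eR : ∀ i, ∀ y ∈ R, e i • y ∈ R := fun i y hy => by
      cases i
      · simpa [e] using cR 0
      · simpa [e] using hy
    refine ⟨Finset.univ.image fun p : K4 × Bool × Bool => p.1 • v + e p.2.1 • a + e p.2.2 • b,
      ?_, fun y hy => ?_⟩
    · rw [Finset.card_image_of_injective _ fun p q E => ?_]
      · rfl
      have E1 := congrArg (hf · b) E
      have E2 := congrArg (hf · a) E
      simp only [hf_addl, hf_smull, ab, ba, aa, bb, va, vb, mul_zero, mul_one, add_zero,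
        zero_add] at E1 E2
      simp only [E1, E2, add_left_inj] at E
      exact Prod.ext (smul_left_injective K4 h.v0 E) (Prod.ext (ei E1) (ei E2))
    · obtain ⟨p, -, rfl⟩ := Finset.mem_image.1 hy
      exact h.Ra _ (h.Ra _ (cR _) _ (eR _ _ aR)) _ (eR _ _ bR)

end WD

variable {G : Type*} [Group G]

theorem wboth {z a x y : G} (n : a ≠ z) (h : y = x ∨ y = x * z) (h' : y = x ∨ y = x * a) :
    y = x := by
  rcases h with h | h
  · exact h
  · exact h'.resolve_right fun e => n (mul_left_cancel (e.symm.trans h))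

theorem St.wd {z t : G} (S : St z) (T : St t) (ht : t ∈ S.Q) (hz : z ∈ T.Q) (n : t ≠ z) :
    WD (S.ρ t) {y | ∃ w ∈ S.Q ⊓ T.Q, S.ρ w = y} {β | ∃ b ∈ T.Q, Commute b z ∧ S.π b = β} where
  v0 := S.ne0 T ht n
  Ra := by
    rintro _ ⟨a, ha, rfl⟩ _ ⟨b, hb, rfl⟩
    exact ⟨a * b, mul_mem ha hb, S.rm ha.1 hb.1⟩
  Rv := ⟨t, ⟨ht, T.zQ⟩, rfl⟩
  Ri := by
    rintro _ ⟨a, ha, rfl⟩
    refine (S.sq ha.1).1 ?_
    rcases S.sq' ha.1 with e | e
    · exact e
    · exact (T.sq' ha.2).resolve_right fun f => n (f.symm.trans e)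
  sl := by
    rintro _ ⟨b, -, bz, rfl⟩
    exact S.sl bz
  p2 := by
    rintro _ ⟨b, hb, bz, rfl⟩
    rw [← S.pm bz bz]
    rcases T.sq' hb with e | e <;> rw [e]
    · exact S.p1
    · exact S.pQ ht
  pv := by
    rintro _ ⟨b, hb, bz, rfl⟩
    exact S.fix_of_comm bz ht (T.QM hb).symm
  pN := by
    rintro _ ⟨b, hb, bz, rfl⟩ x hx
    obtain ⟨q, hq, rfl⟩ := S.rs x
    have qt := (S.cm hq ht).2 hx
    refine ⟨q⁻¹ * (b * q * b⁻¹), ⟨S.Q.mul_mem (S.Q.inv_mem hq) (S.nq bz hq), ?_⟩, ?_⟩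
    · rw [show q⁻¹ * (b * q * b⁻¹) = q⁻¹ * b * q⁻¹⁻¹ * b⁻¹ by group]
      exact T.Q.mul_mem (T.nq qt.inv_left hb) (T.Q.inv_mem hb)
    · rw [S.rm (inv_mem hq) (S.nq bz hq), S.rinv hq, S.rc bz hq]
  pR := by
    rintro _ ⟨b, hb, bz, rfl⟩ _ ⟨w, hw, rfl⟩
    rw [← S.rc bz hw.1]
    rcases T.cm' hb hw.2 with e | e <;> rw [e]
    · exact Or.inl rfl
    · exact Or.inr (S.rm hw.1 ht)
  cen := by
    rintro _ ⟨w, hw, rfl⟩ h
    have := T.perp hz hw.2 fun b hb bz => mul_inv_eq_iff_eq_mul.1 (wboth n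
      (S.eqr hw.1 (S.nq bz hw.1) (by rw [S.rc bz hw.1, h _ ⟨b, hb, bz, rfl⟩])) (T.cm' hb hw.2))
    rcases this with e | e
    · rcases (T.rk hw.2).1 e with rfl | rfl
      · exact Or.inl S.r1
      · exact Or.inr rfl
    · rcases T.eqr hz hw.2 e.symm with rfl | rfl
      · exact Or.inl S.rz
      · right; rw [S.rm S.zQ ht, S.rz, zero_add]
  pm := by
    rintro _ ⟨a, ha, az, rfl⟩ _ ⟨b, hb, bz, rfl⟩
    exact ⟨a * b, mul_mem ha hb, az.mul_left bz, S.pm az bz⟩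
  pc := by
    rintro γ hγ e _ ⟨b, hb, bz, rfl⟩
    obtain ⟨x, xz, xt, rfl⟩ := S.lifta ht (S.ne0 T ht n) hγ e
    exact ⟨_, T.nq xt hb, (xz.mul_left bz).mul_left xz.inv_left, S.pc xz bz⟩

/-- `z` is weakly closed in `Q` -/
theorem St.wc [Finite G] {z t : G} (S : St z) (c : IsConj z t) (ht : t ∈ S.Q) : t = z := by
  by_contra n
  obtain ⟨T⟩ := S.ex_conj c
  have hz := S.f1 T c ht
  have D := S.wd T ht hz n
  have cW : ∀ a ∈ S.Q ⊓ T.Q, ∀ b ∈ S.Q ⊓ T.Q, Commute a b := fun a ha b hb =>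
    (S.cm ha.1 hb.1).2 (D.bfR ⟨a, ha, rfl⟩ ⟨b, hb, rfl⟩)
  by_cases hl : ∀ b ∈ T.Q, Commute b z → Lin (S.π b)
  · have hc : ∀ x ∈ T.Q ⊓ centralizer {z}, Commute x z := fun _ hx => mcs.1 hx.2
    have c1 := T.cardQ
    have c2 := card_half (Y := T.Q) (t := z) (fun q hq => T.QM hq) fun q hq => T.cm' hq hz
    have c3 := S.card_im hc
    have c4 := S.ab32 (A := T.Q ⊓ centralizer {z} ⊓ S.Q) inf_le_right fun a ha b hb =>
      cW a ⟨ha.2, ha.1.1⟩ b ⟨hb.2, hb.1.1⟩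
    have c5 := card_le_list (S.im _ hc) [1, τ _ D.vi] fun g hg => by
      obtain ⟨a, ha, rfl⟩ := S.mem_im.1 hg
      rcases D.lin_all (by rintro _ ⟨b, hb, bz, rfl⟩; exact hl b hb bz)
        ⟨a, ha.1, hc a ha, rfl⟩ with e | e
      · simp [e]
      · simp [e.eq (tv_τ D.vi)]
    have : [1, τ _ D.vi].length = 2 := rfl
    nlinarith
  push Not at hl
  obtain ⟨b, hb, bz, nl⟩ := hl
  obtain ⟨⟨_, ⟨b0, h0, z0, rfl⟩, tv⟩, pv, F, cF, hF⟩ :=
    D.alin ⟨b, hb, bz, rfl⟩ ((S.sl bz).resolve_left nl)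
  have c0 : ∀ w ∈ S.Q ⊓ T.Q, Commute b0 w := fun w hw => mul_inv_eq_iff_eq_mul.1 (wboth n
    (S.eqr hw.1 (S.nq z0 hw.1) (by
      rw [S.rc z0 hw.1, tv, pv _ ⟨w, hw, rfl⟩, zero_smul, add_zero])) (T.cm' h0 hw.2))
  have c1 := S.card_ge (X := S.Q ⊓ T.Q) inf_le_left ⟨S.zQ, hz⟩ F hF
  let Y : Set G := insert b0 (S.Q ⊓ T.Q : Subgroup G)
  have YY : Y ⊆ centralizer Y := fun a ha b hb => by
    rcases ha with rfl | ha <;> rcases hb with rfl | hb
    exacts [rfl, (c0 b hb).eq.symm, (c0 a ha).eq, (cW b hb a ha).eq]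
  have YA : ∀ y ∈ Y, y ∈ centralizer (centralizer Y : Set G) := fun y hy g hg => (hg y hy).symm
  have c2 := T.ab32 (A := centralizer (centralizer Y : Set G) ⊓ T.Q) inf_le_right
    fun a ha b hb => (ha.1 b fun y hy => (hb.1 y (YY hy))).symm
  have lt : S.Q ⊓ T.Q < centralizer (centralizer Y : Set G) ⊓ T.Q :=
    lt_of_le_of_ne (fun w hw => ⟨YA w (Or.inr hw), hw.2⟩) fun e => by
      have : b0 ∈ S.Q ⊓ T.Q := e ▸ ⟨YA b0 (Or.inl rfl), h0⟩
      exact tv.ne_one D.v0 (S.pQ this.1)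
  have := Subgroup.eq_of_le_of_card_ge lt.le (by omega)
  exact lt.ne this

end U6
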