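import Cfsg.Agent.U6.C5
import Cfsg.Agent.U6.W1

/-! Commuting conjugates of `z` induce transvections. -/

set_option autoImplicit false

namespace U6

theorem good {G : Type*} [Group G] [Finite G] {z : G} (S : St z) : Good z :=
  good_of ⟨fun _ c => S.ex_conj c, fun _ c T _ ha ca => T.wc (c.symm.trans ca) ha⟩

end U6
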