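import Cfsg.Agent.U6.St
import Cfsg.Prelude.Def_IsolatedElements

/-! Lines of the commuting graph. -/

set_option autoImplicit false
set_option maxRecDepth 100000
set_option linter.unusedVariables false
open Equiv Subgroup

namespace U6.Ge

def p0 : V := (1, 1, 0, 0)
theorem k_out : ∀ p : V, p ≠ 0 → hf p p = 0 → ∃ v, hf v p = 0 ∧ ∀ c : K4, v ≠ c • p := by
  decide +kernel
theorem k_np : ∀ p : V, p ≠ 0 → hf p p = 0 → ∃ r, hf r r = 0 ∧ hf p r ≠ 0 ∧ hf r p0 ≠ 0 := by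
  decide +kernel
theorem k_pp : ∀ p : V, p ≠ 0 → hf p p = 0 →
    ∃ r, r ≠ 0 ∧ hf r r = 0 ∧ hf p r = 0 ∧ hf r p0 = 0 := by
  decide +kernel
theorem k_sum : ∀ v : V, ∃ a, hf a a = 0 ∧ hf (v + a) (v + a) = 0 := by decide +kernel
theorem k_tr : ∀ a t : K4, a ≠ 0 → (t = 0 ∨ t = 1) → ∃ c, t + (c * a + cj (c * a)) = 0 := by
  decide +kernel
theorem k_inv : ∀ a c : K4, c * a = 1 → c = cj a := by decide +kernel
theorem p0_ne : p0 ≠ 0 := by decide +kernel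
theorem p0_iso : hf p0 p0 = 0 := by decide +kernel

theorem pp {p r : V} (h0 : p ≠ 0) (h : ∀ y, hf y p = 0 → hf y r = 0) : ∃ c : K4, r = c • p := by
  obtain ⟨y1, h1⟩ := ex_hf h0 1
  refine ⟨cj (hf y1 r), hf_ext fun y => ?_⟩
  have := h (y + hf y p • y1) (by rw [hf_addl, hf_smull, h1, mul_one, K2])
  rw [hf_addl, hf_smull] at this
  rw [hf_cj y r, hf_cj y, hf_smulr, cj_cj, mul_comm]
  congr 1
  rw [← add_zero (hf y r), ← K2 (hf y p * hf y1 r), ← add_assoc, this, zero_add]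

theorem pp' {p r : V} (h0 : p ≠ 0) (h : ∀ y, hf y p = 0 → bf r y = 0) : ∃ c : K4, r = c • p :=
  pp h0 fun y hy => hf_of_bf (by rw [bf_comm, h y hy])
    (by rw [bf_comm, h _ (by rw [hf_smull, hy, mul_zero])])

theorem ex2 {p r : V} (h0 : p ≠ 0) (n : ∀ c : K4, r ≠ c • p) (a : K4) :
    ∃ y, hf y r = 0 ∧ hf y p = a := by
  by_cases r0 : r = 0
  · exact (n 0 (by rw [r0, zero_smul])).elim
  have : ¬ ∀ y, hf y r = 0 → hf y p = 0 := fun h => by
    obtain ⟨c, hc⟩ := pp r0 h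
    have c0 : c ≠ 0 := fun e => h0 (by rw [hc, e, zero_smul])
    exact n c⁻¹ (by rw [hc, smul_smul, inv_mul_cancel₀ c0, one_smul])
  push Not at this
  obtain ⟨y, h1, h2⟩ := this
  exact ⟨(a * (hf y p)⁻¹) • y, by rw [hf_smull, h1, mul_zero],
    by rw [hf_smull, inv_mul_cancel_right₀ h2]⟩

theorem iso_add {y p : V} (hp : hf p p = 0) (c : K4) :
    hf (y + c • p) (y + c • p) = hf y y + (c * hf p y + cj (c * hf p y)) := by
  rw [qf_add, bf_comm, bf_eq, hf_smull, hf_smull, hf_smulr, hp]; simp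

/-- a linear isometry trivial on `p^⊥` is `1` or the transvection -/
theorem triv {γ : Perm V} {p : V} (h : Lin γ) (h0 : p ≠ 0) (hp : hf p p = 0)
    (t : ∀ y, hf y p = 0 → γ y = y) : γ = 1 ∨ Tv γ p := by
  obtain ⟨q, hq⟩ := ex_hf h0 1
  obtain ⟨c, hc⟩ := pp (r := q + γ q) h0 fun y hy => by
    rw [hf_addr]; nth_rewrite 2 [← t y hy]; rw [h, K2]
  have e : γ q = q + c • p := by rw [← hc, V2']
  have n := h q q
  rw [e, iso_add hp, hf_cj q p, hq, cj_one, mul_one, add_eq_left, tr0] at n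
  have k : ∀ x, γ x = x + (hf x p * c) • p := fun x => by
    have := t (x + hf x p • q) (by rw [hf_addl, hf_smull, hq, mul_one, K2])
    rw [SL.add (Or.inl h), h.smul, e, smul_add, smul_smul] at this
    rw [← V2r (hf x p • q + (hf x p * c) • p) (γ x), this, add_assoc, V2']
  rcases n with rfl | rfl
  · exact Or.inl (Perm.ext fun x => by rw [k]; simp)
  · exact Or.inr fun x => by rw [k, mul_one]

theorem card_perp {p : V} (h0 : p ≠ 0) : Nat.card {v : V // hf v p = 0} = 64 := by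
  let f : V →+ K4 := AddMonoidHom.mk' (fun v => hf v p) fun a b => hf_addl a b p
  have h := f.ker.card_mul_index
  rw [AddSubgroup.index_ker, (AddMonoidHom.range_eq_top (f := f)).2 (ex_hf h0), cardV, AddSubgroup.card_top,
    Nat.card_eq_fintype_card (α := K4), H2.F4.card_F4] at h
  have : Nat.card f.ker = Nat.card {v : V // hf v p = 0} := rfl
  omega

variable {G : Type*} [Group G]

/-- `u` is a neighbour of `z` over the point `p` -/
structure Ov (z0 : G) {z : G} (S : St z) (u : G) (p : V) : Prop where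
  zc : IsConj z0 z
  cj : IsConj z0 u
  cm : Commute u z
  ne : u ≠ z
  p0 : p ≠ 0
  iso : hf p p = 0
  tv : Tv (S.π u) p
  cq : ∀ q ∈ S.Q, hf (S.ρ q) p = 0 → Commute q u

structure Cx (z0 : G) : Prop where
  good : Good z0
  st : Nonempty (St z0)
  nis : ¬ Cfsg.IsIsolated z0

theorem icj {z0 u : G} (h : IsConj z0 u) (g : G) : IsConj z0 (g * u * g⁻¹) :=
  h.trans (isConj_iff.2 ⟨g, rfl⟩)

theorem cjc {a b g : G} (h : Commute a b) : Commute (g * a * g⁻¹) (g * b * g⁻¹) := by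
  show _ = _
  rw [conj_mul, conj_mul, h.eq]

theorem cj_of {g a : G} (h : Commute g a) : g * a * g⁻¹ = a := mul_inv_eq_iff_eq_mul.2 h.eq

variable {z0 z u u' w : G} {S : St z} {T : St u} {p p' p2 q' : V}

namespace Cx
variable (C : Cx z0)
include C

theorem st' (h : IsConj z0 z) : Nonempty (St z) := C.st.elim fun S => S.ex_conj h
theorem sq (h : IsConj z0 z) : z * z = 1 := (C.st' h).elim fun S => S.z2
theorem ov (S : St z) (hz : IsConj z0 z) (hu : IsConj z0 u) (c : Commute u z) (n : u ≠ z) :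
    ∃ p, Ov z0 S u p := by
  obtain ⟨p, h1, h2, h3, h4⟩ := C.good z hz S u hu c n
  exact ⟨p, hz, hu, c, n, h1, h2, h3, h4⟩
theorem nJ (hz : IsConj z0 z) (hu : IsConj z0 u) (m : u ∈ S.Q) : u = z := by
  by_contra n
  obtain ⟨p, h⟩ := C.ov S hz hu (S.QM m) n
  exact h.tv.ne_one h.p0 (S.pQ m)
theorem back (h : Ov z0 S u p) (T : St u) : ∃ p', Ov z0 T z p' :=
  C.ov T h.cj h.zc h.cm.symm h.ne.symm
end Cx

namespace Ov

theorem smul (h : Ov z0 S u p) {c : K4} (c0 : c ≠ 0) : Ov z0 S u (c • p) :=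
  ⟨h.zc, h.cj, h.cm, h.ne, smul_ne_zero c0 h.p0, by rw [qf_smul c0, h.iso], h.tv.smul c0,
    fun q hq e => h.cq q hq (by
      rw [hf_smulr, mul_eq_zero, cj_eq_zero] at e; exact e.resolve_left c0)⟩
theorem of_smul {c : K4} (h : Ov z0 S u (c • p)) : Ov z0 S u p := by
  have c0 : c ≠ 0 := fun e => h.p0 (by rw [e, zero_smul])
  have := h.smul (inv_ne_zero c0)
  rwa [smul_smul, inv_mul_cancel₀ c0, one_smul] at this
theorem of_tv (h : Ov z0 S u p) (k : Tv (S.π u) p2) : Ov z0 S u p2 := by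
  obtain ⟨c, -, rfl⟩ := h.tv.pt k h.p0
  exact h.of_smul
theorem conj (h : Ov z0 S u p) {m : G} (hm : Commute m z) : Ov z0 S (m * u * m⁻¹) (S.π m p) := by
  have sl := S.sl' hm
  refine ⟨h.zc, icj h.cj m, (hm.mul_left h.cm).mul_left hm.inv_left, fun e => h.ne ?_,
    fun e => h.p0 (sl.eq0.1 e), by rw [sl.qf, h.iso], by rw [S.pc hm h.cm]; exact h.tv.conj sl,
    fun q hq e => ?_⟩
  · rw [← cj_of hm] at e; simpa using e
  · have h1 := S.nq hm.inv_left hq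
    have := cjc (g := m) (h.cq _ h1 (by
      rw [S.rc hm.inv_left hq, ← sl.hf0, S.pinv hm]; simpa using e))
    simpa [mul_assoc] using this
theorem conjQ (h : Ov z0 S u p) {r : G} (hr : r ∈ S.Q) : Ov z0 S (r * u * r⁻¹) p := by
  have := h.conj (S.QM hr)
  rwa [S.pQ hr] at this
theorem cq' (h : Ov z0 S u p) {q : G} (hq : q ∈ S.Q) : Commute q u ↔ hf (S.ρ q) p = 0 := by
  refine ⟨fun c => ?_, h.cq q hq⟩
  have := S.fix_of_comm h.cm hq c
  rw [h.tv, add_eq_left, smul_eq_zero] at this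
  exact this.resolve_right h.p0
theorem nQ (h : Ov z0 S u p) : u ∉ S.Q := fun m => h.tv.ne_one h.p0 (S.pQ m)
theorem cj_eq (h : Ov z0 S u p) {r s : G} (hr : r ∈ S.Q) (hs : s ∈ S.Q) :
    r * u * r⁻¹ = s * u * s⁻¹ ↔ hf (S.ρ r) p = hf (S.ρ s) p := by
  have := h.cq' (mul_mem (inv_mem hs) hr)
  rw [S.rm (inv_mem hs) hr, S.rinv hs, hf_addl] at this
  refine Iff.trans ⟨fun e => ?_, fun e => ?_⟩ (this.trans ⟨fun e => ?_, fun e => by rw [e, K2]⟩)
  · show _ = _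
    calc s⁻¹ * r * u = s⁻¹ * (r * u * r⁻¹) * r := by group
      _ = _ := by rw [e]; group
  · calc r * u * r⁻¹ = s * (s⁻¹ * r * u) * r⁻¹ := by group
      _ = _ := by rw [e.eq]; group
  · rw [← add_zero (hf (S.ρ r) p), ← e, add_comm (hf (S.ρ s) p), ← add_assoc, K2, zero_add]
theorem e (C : Cx z0) (h : Ov z0 S u p) {r : G} (hr : r ∈ S.Q) :
    r * u * r⁻¹ * u ∈ S.Q ∧ S.ρ (r * u * r⁻¹ * u) = hf (S.ρ r) p • p := by
  obtain ⟨h1, h2⟩ := S.e_mem (C.sq h.cj) h.cm hr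
  exact ⟨h1, by rw [h2, h.tv, V2']⟩

/-- `J_z ∩ J_u` lies over the point -/
theorem XK (h : Ov z0 S u p) (k : Ov z0 T z p') {x : G} (h1 : x ∈ S.Q) (h2 : x ∈ T.Q) :
    ∃ c : K4, T.ρ x = c • p' := pp' k.p0 fun y hy => by
  obtain ⟨t, ht, rfl⟩ := T.rs y
  rw [bf_comm, ← T.cm ht h2]
  by_contra n
  have := S.nq (k.cq t ht hy) h1
  rw [T.ncm ht h2 n] at this
  exact h.nQ ((S.Q.mul_mem_cancel_left h1).1 this)

theorem mv (h : Ov z0 S u p) (k : Ov z0 T z p') {g : G} (hg : g ∈ S.Q) (c : Commute g u) {y : V}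
    (hy : hf y p' = 0) : ∃ x ∈ S.Q, x ∈ T.Q ∧ T.π g y = y + T.ρ x := by
  obtain ⟨t, ht, rfl⟩ := T.rs y
  have h1 := T.nq c ht
  refine ⟨t⁻¹ * (g * t * g⁻¹), ?_, mul_mem (inv_mem ht) h1, ?_⟩
  · have := S.nq (k.cq t ht hy).inv_left hg
    rw [show t⁻¹ * (g * t * g⁻¹) = t⁻¹ * g * t⁻¹⁻¹ * g⁻¹ by group]
    exact mul_mem this (inv_mem hg)
  · rw [T.rm (inv_mem ht) h1, T.rinv ht, T.rc c ht, V2']

theorem kerK (C : Cx z0) (h : Ov z0 S u p) (k : Ov z0 T z p') {g : G} (hg : g ∈ S.Q)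
    (c : Commute g u) (l : Lin (T.π g)) (t : ∀ y, hf y p' = 0 → T.π g y = y) :
    ∃ c : K4, S.ρ g = c • p := by
  rcases triv l k.p0 k.iso t with e | e
  · exact k.XK h ((T.pk c).1 e) hg
  · have h1 : g * z ∈ T.Q := by
      rw [← T.pk (c.mul_left k.cm), T.pm c k.cm, e.eq k.tv]; exact k.tv.sq k.iso
    have := k.XK h h1 (mul_mem hg S.zQ)
    rwa [S.rm hg S.zQ, S.rz, add_zero] at this

theorem X (C : Cx z0) (h : Ov z0 S u p) (k : Ov z0 T z p') (c : K4) :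
    ∃ x ∈ S.Q, x ∈ T.Q ∧ T.ρ x = c • p' := by
  have key : ∃ g ∈ S.Q, Commute g u ∧ Lin (T.π g) ∧ ∀ c : K4, S.ρ g ≠ c • p := by
    obtain ⟨v, hv, n⟩ := k_out p h.p0 h.iso
    obtain ⟨a, ha, ea⟩ := S.rs v
    obtain ⟨b, hb, eb⟩ := S.rs (ω • v)
    have n' : ∀ d : K4, d ≠ 0 → ∀ c : K4, d • v ≠ c • p := fun d d0 c e =>
      n (d⁻¹ * c) (by rw [mul_smul, ← e, smul_smul, inv_mul_cancel₀ d0, one_smul])
    have ca := h.cq a ha (ea ▸ hv)
    have cb := h.cq b hb (by rw [eb, hf_smull, hv, mul_zero])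
    rcases T.sl ca with la | la
    · exact ⟨a, ha, ca, la, ea ▸ n⟩
    rcases T.sl cb with lb | lb
    · exact ⟨b, hb, cb, lb, eb ▸ n' ω ω0⟩
    refine ⟨b * a, mul_mem hb ha, cb.mul_left ca, by rw [T.pm cb ca]; exact lb.mul la, ?_⟩
    rw [S.rm hb ha, ea, eb, ← ωv, smul_smul]
    exact n' _ (mul_ne_zero ω0 ω0)
  obtain ⟨g, hg, cg, l, n⟩ := key
  have : ¬ ∀ y, hf y p' = 0 → T.π g y = y := fun t => by
    obtain ⟨c, e⟩ := h.kerK C k hg cg l t
    exact n c e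
  push Not at this
  obtain ⟨y, hy, ny⟩ := this
  obtain ⟨x, h1, h2, e⟩ := h.mv k hg cg hy
  obtain ⟨d, hd⟩ := h.XK k h1 h2
  have d0 : d ≠ 0 := fun e0 => ny (by rw [e, hd, e0, zero_smul, add_zero])
  obtain ⟨x', h3, h4, e'⟩ := h.mv k hg cg (y := (c * d⁻¹) • y) (by rw [hf_smull, hy, mul_zero])
  refine ⟨x', h3, h4, ?_⟩
  rw [l.smul, e, hd, smul_add, smul_smul, inv_mul_cancel_right₀ d0, add_right_inj] at e'
  exact e'.symm

theorem Xe (C : Cx z0) (h : Ov z0 S u p) (T : St u) {r : G} (hr : r ∈ S.Q)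
    (n : hf (S.ρ r) p ≠ 0) : r * u * r⁻¹ * u * z ∈ T.Q ∧ ¬ IsConj z0 (u * z) := by
  obtain ⟨p', k⟩ := C.back h T
  obtain ⟨x, h1, h2, e⟩ := k.X C h (hf (S.ρ r) p)
  obtain ⟨e1, e2⟩ := h.e C hr
  have u2 := C.sq h.cj
  have x1 : x ≠ 1 := by
    rintro rfl
    rw [S.r1, eq_comm, smul_eq_zero] at e
    exact e.elim n h.p0
  have key : IsConj z0 (x * u) → False := fun c =>
    x1 (mul_eq_right.1 (C.nJ h.cj c (mul_mem h1 T.zQ)))
  rcases S.eqr e1 h2 (e2.trans e.symm) with f | f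
  · exact (key (by rw [f, mul_assoc, u2, mul_one]; exact icj h.cj r)).elim
  · refine ⟨f ▸ h1, fun c => key ?_⟩
    have : x * u = r * (u * z) * r⁻¹ := by
      rw [f, mul_assoc _ z u, ← h.cm.eq, ← mul_assoc, mul_assoc _ u u, u2, mul_one, mul_assoc,
        (S.QM hr).inv_left.eq]; group
    rw [this]; exact icj c r

theorem nz (C : Cx z0) (h : Ov z0 S u p) : ¬ IsConj z0 (u * z) := by
  obtain ⟨T⟩ := C.st' h.cj
  obtain ⟨v, hv⟩ := ex_hf h.p0 1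
  obtain ⟨r, hr, rfl⟩ := S.rs v
  exact (h.Xe C T hr (by rw [hv]; exact one_ne_zero)).2

theorem line (C : Cx z0) (h : Ov z0 S u p) (k : Ov z0 S u' p) :
    ∃ r ∈ S.Q, u' = r * u * r⁻¹ := by
  have h1 : u' * u ∈ S.Q := by
    rw [← S.pk (k.cm.mul_left h.cm), S.pm k.cm h.cm, k.tv.eq h.tv]; exact h.tv.sq h.iso
  obtain ⟨c, hc⟩ := pp' (r := S.ρ (u' * u)) h.p0 fun y hy => by
    obtain ⟨t, ht, rfl⟩ := S.rs y
    rw [bf_comm, ← S.cm ht h1]
    exact (k.cq t ht hy).mul_right (h.cq t ht hy)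
  obtain ⟨v, hv⟩ := ex_hf h.p0 c
  obtain ⟨r, hr, rfl⟩ := S.rs v
  obtain ⟨e1, e2⟩ := h.e C hr
  rcases S.eqr e1 h1 (by rw [e2, hv, hc]) with f | f
  · exact ⟨r, hr, mul_right_cancel f⟩
  · refine ((h.conjQ hr).nz C ?_).elim
    rw [mul_assoc _ u z, h.cm.eq, ← mul_assoc] at f
    exact mul_right_cancel f ▸ k.cj

/-- the line through `z` and `u` seen from `u` -/
theorem line' (C : Cx z0) (h : Ov z0 S u p) (k : Ov z0 S u' p) (n : u' ≠ u) (l : Ov z0 T z p') :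
    Ov z0 T u' p' := by
  obtain ⟨r, hr, rfl⟩ := h.line C k
  have n' : hf (S.ρ r) p ≠ 0 := fun e => n (cj_of (h.cq r hr e))
  have h1 := (h.Xe C T hr n').1
  have h2 : r * u * r⁻¹ = r * u * r⁻¹ * u * z * z * u := by
    rw [mul_assoc _ z z, S.z2, mul_one, mul_assoc _ u u, C.sq h.cj, mul_one]
  have c1 := (T.QM h1).mul_left l.cm
  have c2 : Commute (r * u * r⁻¹) u := h2 ▸ c1.mul_left (Commute.refl u)
  obtain ⟨p2, o⟩ := C.ov T h.cj k.cj c2 n
  refine o.of_tv ?_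
  rw [h2, T.pm c1 (Commute.refl u), T.pm (T.QM h1) l.cm, T.pQ h1, T.pQ T.zQ, one_mul, mul_one]
  exact l.tv

theorem cmm (C : Cx z0) (h : Ov z0 S u p) (k : Ov z0 S u' p2) : Commute u u' ↔ hf p p2 = 0 := by
  refine ⟨fun c => h.tv.perp k.tv k.iso (by rw [← S.pm h.cm k.cm, c.eq, S.pm k.cm h.cm]),
    fun e => ?_⟩
  have u2 := C.sq h.cj
  have u2' := C.sq k.cj
  by_cases d : ∃ c : K4, p = c • p2
  · obtain ⟨c, rfl⟩ := d
    obtain ⟨r, hr, rfl⟩ := k.line C h.of_smul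
    obtain ⟨e1, e2⟩ := k.e C hr
    have := (k.cq _ e1 (by rw [e2, hf_smull, k.iso, mul_zero])).mul_left (Commute.refl u')
    rwa [mul_assoc, u2', mul_one] at this
  push Not at d
  have a1 := k.conj h.cm
  have a2 := h.conj k.cm
  rw [h.tv, hf_symm e, zero_smul, add_zero] at a1
  rw [k.tv, e, zero_smul, add_zero] at a2
  obtain ⟨r, hr, er⟩ := k.line C a1
  obtain ⟨s, hs, es⟩ := h.line C a2
  obtain ⟨e1, e2⟩ := k.e C hr
  obtain ⟨e3, e4⟩ := h.e C hs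
  rw [← er] at e1 e2
  rw [← es] at e3 e4
  have i1 : u⁻¹ = u := inv_eq_of_mul_eq_one_left u2
  have i2 : u'⁻¹ = u' := inv_eq_of_mul_eq_one_left u2'
  have i3 : u' * u * u'⁻¹ * u = (u * u' * u⁻¹ * u')⁻¹ := by
    simp only [mul_inv_rev, i1, i2, mul_assoc]
  rw [i3, S.rinv e1, e2] at e4
  have z1 : hf (S.ρ s) p = 0 := by
    by_contra n
    exact d ((hf (S.ρ s) p)⁻¹ * hf (S.ρ r) p2) (by
      rw [mul_smul, e4, smul_smul, inv_mul_cancel₀ n, one_smul])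
  exact (mul_inv_eq_iff_eq_mul.1 (es.trans (cj_of (h.cq s hs z1)))).symm

theorem step (h : Ov z0 S u p) (hp : hf p2 p2 = 0) (n : hf p p2 ≠ 0) : ∃ u', Ov z0 S u' p2 := by
  have e : U6.cj (hf p p2) * hf p p2 = 1 := by rw [mul_comm, mul_cj _ n]
  have hr : hf (p + hf p p2 • p2) (p + hf p p2 • p2) = 0 := by
    rw [iso_add hp, h.iso, hf_cj p p2, mul_cj _ n, cj_one, K2, add_zero]
  obtain ⟨m, hm, em⟩ := S.ps ((tv_τ hr).mem hr)
  have := h.conj hm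
  rw [em, tv_τ hr, hf_addr, h.iso, hf_smulr, e, zero_add, one_smul, V2'] at this
  exact ⟨_, this.of_smul⟩

end Ov

theorem Cx.ex (C : Cx z0) (S : St z) (hz : IsConj z0 z) (h0 : p ≠ 0) (hp : hf p p = 0) :
    ∃ u, Ov z0 S u p := by
  obtain ⟨g, rfl⟩ := isConj_iff.1 hz
  have := C.nis
  unfold Cfsg.IsIsolated at this
  push Not at this
  obtain ⟨k, c, n⟩ := this
  obtain ⟨p1, h⟩ := C.ov S hz (icj (icj (IsConj.refl z0) k) g) (cjc c.symm) (by simpa using n)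
  obtain ⟨r, r1, r2, r3⟩ := k_np p1 h.p0 h.iso
  obtain ⟨_, h⟩ := h.step r1 r2
  obtain ⟨_, h⟩ := h.step p0_iso r3
  obtain ⟨r, r1, r2, r3⟩ := k_np p h0 hp
  obtain ⟨_, h⟩ := h.step r1 fun e => r3 (hf_symm e)
  exact h.step hp fun e => r2 (hf_symm e)

end U6.Ge
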