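import Cfsg.Agent.U6.G1

/-! Opposite points of the commuting graph. -/

set_option autoImplicit false
set_option linter.unusedVariables false
open Equiv Subgroup

namespace U6.Ge

variable {G : Type*} [Group G] {z0 z u u' w d : G} {S : St z} {T : St u} {p p' p2 q' : V}

namespace Ov

theorem fixp (C : Cx z0) (h : Ov z0 S u p) (k : Ov z0 T z p') {g : G} (hg : g ∈ S.Q)
    (c : Commute g u) (a : K4) : T.π g (a • p') = a • p' := by
  obtain ⟨x, h1, h2, e⟩ := h.X C k a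
  obtain ⟨b, hb⟩ := k.XK h h2 h1
  have : Commute g x := (S.cm hg h1).2 (bf_of_hf (by rw [hb, hf_smulr, (h.cq' hg).1 c, mul_zero]))
  rw [← e, ← T.rc c h2, cj_of this]

theorem fixp1 (C : Cx z0) (h : Ov z0 S u p) (k : Ov z0 T z p') {g : G} (hg : g ∈ S.Q)
    (c : Commute g u) : T.π g p' = p' := by simpa using h.fixp C k hg c 1

theorem lin (C : Cx z0) (h : Ov z0 S u p) (k : Ov z0 T z p') {g : G} (hg : g ∈ S.Q)
    (c : Commute g u) : Lin (T.π g) :=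
  (T.sl' c).lin k.p0 (h.fixp1 C k hg c) (h.fixp C k hg c ω)

theorem inj (C : Cx z0) (h : Ov z0 S u p) (k : Ov z0 T z p') (n : hf q' p' ≠ 0) {g g' : G}
    (hg : g ∈ S.Q) (c : Commute g u) (hg' : g' ∈ S.Q) (c' : Commute g' u) {a : K4}
    (e : T.π g' q' = T.π g q' + a • p') : ∃ b : K4, S.ρ g + S.ρ g' = b • p := by
  have m := mul_mem (inv_mem hg) hg'
  have cc := c.inv_left.mul_left c'
  have l := h.lin C k m cc
  have e1 : T.π (g⁻¹ * g') q' = q' + a • p' := by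
    rw [T.pm c.inv_left c', Perm.mul_apply, e, (T.sl' c.inv_left).add,
      h.fixp C k (inv_mem hg) c.inv_left, T.pinv c]; simp
  have := h.kerK C k m cc l fun y hy => by
    obtain ⟨x, h1, h2, e2⟩ := h.mv k m cc hy
    obtain ⟨b, hb⟩ := h.XK k h1 h2
    have := l y q'
    rw [e1, e2, hb] at this
    simp only [hf_addl, hf_addr, hf_smull, hf_smulr, hy, k.iso, mul_zero, add_zero, add_eq_left,
      mul_eq_zero] at this
    rw [e2, hb, this.resolve_right fun e => n (hf_symm e), zero_smul, add_zero]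
  rwa [S.rm (inv_mem hg) hg', S.rinv hg] at this

theorem tr (C : Cx z0) (h : Ov z0 S u p) (k : Ov z0 T z p') (n : hf q' p' ≠ 0)
    (hq : hf q' q' = 0) {y : V} (hy : hf y y = 0) (e : hf y p' = hf q' p') :
    ∃ g ∈ S.Q, Commute g u ∧ T.π g q' = y := by
  obtain ⟨q0, h0⟩ := ex_hf h.p0 1
  have h0' : hf p q0 = 1 := by rw [hf_cj, h0, cj_one]
  choose s hs es using S.rs
  have cs : ∀ v, hf v p = 0 → Commute (s (v + hf v q0 • p)) u := fun v hv =>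
    h.cq _ (hs _) (by rw [es, hf_addl, hf_smull, hv, h.iso]; simp)
  have f1 : ∀ g ∈ S.Q, Commute g u → hf (T.π g q') p' = hf q' p' := fun g hg c => by
    nth_rewrite 1 [← h.fixp1 C k hg c]; exact h.lin C k hg c _ _
  let Ψ : {v : V // hf v p = 0} → {v : V // hf v p' = 0} := fun v =>
    ⟨T.π (s (v + hf v q0 • p)) q' + hf v q0 • p' + q', by
      rw [hf_addl, hf_addl, hf_smull, k.iso, f1 _ (hs _) (cs _ v.2)]; simp [K2]⟩
  have inj : Function.Injective Ψ := by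
    rintro ⟨v, hv⟩ ⟨v', hv'⟩ e
    have e1 : T.π (s (v + hf v q0 • p)) q' + hf v q0 • p' =
        T.π (s (v' + hf v' q0 • p)) q' + hf v' q0 • p' :=
      add_right_cancel (congrArg Subtype.val e)
    obtain ⟨b, hb⟩ := h.inj C k n (hs _) (cs v hv) (hs _) (cs v' hv') (a := hf v q0 + hf v' q0)
      (by rw [add_smul, ← add_assoc, e1, V2r])
    rw [es, es] at hb
    have b0 := congrArg (hf · q0) hb
    simp only [hf_addl, hf_smull, h0', mul_one, K2, add_zero] at b0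
    rw [← b0, zero_smul] at hb
    have e2 := eq_of_add hb
    rw [e2, add_right_inj] at e1
    have e3 : hf v q0 = hf v' q0 := smul_left_injective K4 k.p0 e1
    rw [e3] at e2
    exact Subtype.ext (add_right_cancel e2)
  obtain ⟨⟨v, hv⟩, ev⟩ := (inj.bijective_of_nat_card_le
    (by rw [card_perp h.p0, card_perp k.p0])).2 ⟨y + q', by rw [hf_addl, e, K2]⟩
  have e1 : T.π (s (v + hf v q0 • p)) q' + hf v q0 • p' = y :=
    add_right_cancel (congrArg Subtype.val ev)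
  have c := cs v hv
  have m := hs (v + hf v q0 • p)
  generalize s (v + hf v q0 • p) = g at e1 c m
  generalize hf v q0 = μ at e1
  rw [← e1, iso_add k.iso, (T.sl' c).qf, hq, zero_add, tr0, hf_cj, f1 g m c] at hy
  rcases hy with hy | hy
  · rw [mul_eq_zero, cj_eq_zero] at hy
    exact ⟨g, m, c, by rw [← e1, hy.resolve_right n, zero_smul, add_zero]⟩
  · refine ⟨z * g, mul_mem S.zQ m, k.cm.mul_left c, ?_⟩
    rw [T.pm k.cm c, Perm.mul_apply, k.tv, f1 g m c, ← e1, k_inv _ _ hy, cj_cj]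

theorem onl (C : Cx z0) (h : Ov z0 S u p) (k : Ov z0 T z p') (a : Ov z0 T w q')
    (n : hf q' p' ≠ 0) (b : Ov z0 T d q') : ∃ x ∈ S.Q, x ∈ T.Q ∧ d = x * w * x⁻¹ := by
  obtain ⟨r, hr, rfl⟩ := a.line C b
  have n' : hf p' q' ≠ 0 := fun e => n (hf_symm e)
  obtain ⟨x, h1, h2, e⟩ := h.X C k (hf (T.ρ r) q' * (hf p' q')⁻¹)
  exact ⟨x, h1, h2, (a.cj_eq hr h2).2 (by rw [e, hf_smull, inv_mul_cancel_right₀ n'])⟩

theorem np (C : Cx z0) (k : Ov z0 T z p') (a : Ov z0 T w q') (n : ¬ Commute w z) :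
    hf q' p' ≠ 0 := fun e => n ((a.cmm C k).2 e)

theorem nb (C : Cx z0) (h : Ov z0 S u p) (hw : IsConj z0 w) (c : Commute u w)
    (n : ¬ Commute w z) (T : St u) : ∃ q', Ov z0 T w q' :=
  C.ov T h.cj hw c.symm fun e => n (e ▸ h.cm)

/-- the neighbours of `u` not commuting with `z` form one orbit of `J_z` -/
theorem orb (C : Cx z0) (h : Ov z0 S u p) (hw : IsConj z0 w) (c : Commute u w)
    (n : ¬ Commute w z) (hd : IsConj z0 d) (c' : Commute u d) (n' : ¬ Commute d z) :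
    ∃ g ∈ S.Q, d = g * w * g⁻¹ := by
  obtain ⟨T⟩ := C.st' h.cj
  obtain ⟨p', k⟩ := C.back h T
  obtain ⟨q', a⟩ := h.nb C hw c n T
  obtain ⟨q'', b⟩ := h.nb C hd c' n' T
  have n1 := k.np C a n
  have n2 := k.np C b n'
  have b' := b.smul (mul_ne_zero n1 (inv_ne_zero n2))
  obtain ⟨g, hg, cg, e⟩ := h.tr C k n1 a.iso b'.iso (by rw [hf_smull, inv_mul_cancel_right₀ n2])
  have a' := a.conj cg
  rw [e] at a'
  obtain ⟨x, h1, -, e⟩ := h.onl C k a' (k.np C b' n') b'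
  exact ⟨x * g, mul_mem h1 hg, by rw [e]; group⟩

theorem nxt (C : Cx z0) (h : Ov z0 S u p) (hw : IsConj z0 w) (c : Commute u w)
    (n : ¬ Commute w z) (h0 : p2 ≠ 0) (hp : hf p2 p2 = 0) (e : hf p p2 = 0) :
    ∃ u', Ov z0 S u' p2 ∧ Commute u' w := by
  by_cases d : ∃ a : K4, p = a • p2
  · obtain ⟨a, rfl⟩ := d
    exact ⟨u, h.of_smul, c⟩
  push Not at d
  obtain ⟨T⟩ := C.st' h.cj
  obtain ⟨p', k⟩ := C.back h T
  obtain ⟨q', a⟩ := h.nb C hw c n T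
  have n1 := k.np C a n
  obtain ⟨u2, h2⟩ := C.ex S h.zc h0 hp
  have ne : u2 ≠ u := by
    rintro rfl
    obtain ⟨b, -, e⟩ := h.tv.pt h2.tv h.p0
    exact d b e
  obtain ⟨r, b⟩ := C.ov T h.cj h2.cj ((h.cmm C h2).2 e).symm ne
  have rp : hf r p' = 0 := (b.cmm C k).1 h2.cm
  obtain ⟨y, y1, y2⟩ := ex2 (r := r) k.p0 (fun c e => by
    rw [e] at b
    obtain ⟨b, -, e⟩ := h.tv.pt (((k.line' C b.of_smul h2.ne h).tv.eq h.tv) ▸ h2.tv) h.p0
    exact d b e) (hf q' p')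
  obtain ⟨t, ht⟩ := k_tr (hf p' y) (hf y y) (fun e => n1 (y2 ▸ hf_symm e)) (hf_self y)
  obtain ⟨g, hg, cg, eg⟩ := h.tr C k n1 a.iso (y := y + t • p') (by rw [iso_add k.iso, ht])
    (by rw [hf_addl, hf_smull, k.iso, y2]; simp)
  refine ⟨_, h2.conjQ (inv_mem hg), ((b.conj cg.inv_left).cmm C a).2 ?_⟩
  rw [← (T.sl' cg).hf0, T.pinv cg, eg, hf_addr, hf_smulr]
  simp [rp, hf_symm y1]

theorem all (C : Cx z0) (h : Ov z0 S u p) (hw : IsConj z0 w) (c : Commute u w)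
    (n : ¬ Commute w z) (h0 : p2 ≠ 0) (hp : hf p2 p2 = 0) :
    ∃ u', Ov z0 S u' p2 ∧ Commute u' w := by
  obtain ⟨r, r0, r1, r2, r3⟩ := k_pp p h.p0 h.iso
  obtain ⟨_, h, c⟩ := h.nxt C hw c n r0 r1 r2
  obtain ⟨_, h, c⟩ := h.nxt C hw c n p0_ne p0_iso r3
  obtain ⟨r, r0, r1, r2, r3⟩ := k_pp p2 h0 hp
  obtain ⟨_, h, c⟩ := h.nxt C hw c n r0 r1 (hf_symm r3)
  exact h.nxt C hw c n h0 hp (hf_symm r2)

theorem uniq (C : Cx z0) (h : Ov z0 S u p) (h' : Ov z0 S u' p) (hw : IsConj z0 w)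
    (c : Commute u w) (c' : Commute u' w) (n : ¬ Commute w z) : u' = u := by
  by_contra ne
  obtain ⟨T⟩ := C.st' h.cj
  obtain ⟨p', k⟩ := C.back h T
  obtain ⟨q', a⟩ := h.nb C hw c n T
  exact k.np C a n (hf_symm (((h.line' C h' ne k).cmm C a).1 c'))

end Ov

/-- `z` and `w` are opposite points -/
structure Op (z0 z w : G) : Prop where
  C : Cx z0
  zc : IsConj z0 z
  wc : IsConj z0 w
  n : ¬ Commute w z
  nb : ∃ u, IsConj z0 u ∧ Commute u z ∧ Commute u w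

namespace Op
variable (O : Op z0 z w)
include O

theorem symm : Op z0 w z :=
  ⟨O.C, O.wc, O.zc, fun c => O.n c.symm, O.nb.imp fun _ h => ⟨h.1, h.2.2, h.2.1⟩⟩
theorem ov (S : St z) (hu : IsConj z0 u) (c : Commute u z) (c' : Commute u w) :
    ∃ p, Ov z0 S u p := O.C.ov S O.zc hu c fun e => O.n (e ▸ c'.symm)
theorem all (S : St z) (h0 : p ≠ 0) (hp : hf p p = 0) : ∃ u, Ov z0 S u p ∧ Commute u w := by
  obtain ⟨u, h1, h2, h3⟩ := O.nb
  obtain ⟨_, h⟩ := O.ov S h1 h2 h3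
  exact h.all O.C O.wc h3 O.n h0 hp
theorem uniq (h : Ov z0 S u p) (h' : Ov z0 S u' p) (c : Commute u w) (c' : Commute u' w) :
    u' = u := h.uniq O.C h' O.wc c c' O.n
theorem stab (h : Ov z0 S u p) (c : Commute u w) {q : G} (hq : q ∈ S.Q) :
    Commute (q * u * q⁻¹) w ↔ hf (S.ρ q) p = 0 :=
  ⟨fun c' => (h.cq' hq).1 (mul_inv_eq_iff_eq_mul.1 (O.uniq h (h.conjQ hq) c c')),
    fun e => by rwa [cj_of (h.cq q hq e)]⟩
theorem reg {q : G} (hq : q ∈ S.Q) (c : Commute q w) : q = 1 := by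
  have key : ∀ p, hf p p = 0 → hf (S.ρ q) p = 0 := fun p hp => by
    by_cases h0 : p = 0
    · rw [h0, hf0r]
    obtain ⟨u, h, c'⟩ := O.all S h0 hp
    exact (O.stab h c' hq).1 (by have := cjc (g := q) c'; rwa [cj_of c] at this)
  refine ((S.rk hq).1 (hf_nd fun y => ?_)).resolve_right fun e => O.n (e ▸ c.symm)
  obtain ⟨a, h1, h2⟩ := k_sum y
  rw [← V2r a y, hf_addr, key _ h1, key _ h2, add_zero]
theorem reg' {q r : G} (hq : q ∈ S.Q) (hr : r ∈ S.Q) (e : q * w * q⁻¹ = r * w * r⁻¹) : q = r := by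
  refine (inv_mul_eq_one.1 (O.reg (mul_mem (inv_mem hr) hq) ?_)).symm
  show _ = _
  calc r⁻¹ * q * w = r⁻¹ * (q * w * q⁻¹) * q := by group
    _ = _ := by rw [e]; group
theorem ncj {q : G} (hq : q ∈ S.Q) : ¬ Commute (q * w * q⁻¹) z := fun c => O.n (by
  have := cjc (g := q⁻¹) c
  rw [cj_of (S.QM hq).inv_left] at this
  simpa [mul_assoc] using this)

/-- every neighbour of `w` is on a line through a common neighbour -/
theorem nbw (W : St w) {r : V} (b : Ov z0 W d r) :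
    ∃ u, Ov z0 W u r ∧ Commute u z ∧ Commute u d := by
  obtain ⟨u, h, c⟩ := O.symm.all W b.p0 b.iso
  exact ⟨u, h, c, (h.cmm O.C b).2 b.iso⟩

theorem clw (S : St z) (hd : IsConj z0 d) (c : Commute d w) (n : ¬ Commute d z) :
    ∃ g ∈ S.Q, d = g * w * g⁻¹ := by
  by_cases e : d = w
  · exact ⟨1, one_mem _, by simp [e]⟩
  obtain ⟨W⟩ := O.C.st' O.wc
  obtain ⟨r, b⟩ := O.C.ov W O.wc hd c e
  obtain ⟨u, h, c1, c2⟩ := O.nbw W b
  obtain ⟨p, k⟩ := O.ov S h.cj c1 h.cm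
  exact k.orb O.C O.wc h.cm O.n hd c2 n

theorem clu (h : Ov z0 S u p) (hd : IsConj z0 d) (c : Commute d u) (n : ¬ Commute d z) :
    ∃ g ∈ S.Q, d = g * w * g⁻¹ := by
  obtain ⟨u', k, c'⟩ := O.all S h.p0 h.iso
  obtain ⟨r, hr, rfl⟩ := k.line O.C h
  have := cjc (g := r) c'
  obtain ⟨g, hg, e⟩ := h.orb O.C (icj O.wc r) this (O.ncj hr) hd c.symm n
  exact ⟨g * r, mul_mem hg hr, by rw [e]; group⟩

/-- the elements of `J` moving `w` to a neighbour -/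
theorem s1 (S : St z) (W : St w) {q : G} (hq : q ∈ S.Q) (q1 : q ≠ 1)
    (c : Commute (q * w * q⁻¹) w) :
    ∃ u r, Ov z0 S u (S.ρ q) ∧ Ov z0 W u r ∧ Ov z0 W (q * w * q⁻¹) r := by
  have ne : q * w * q⁻¹ ≠ w := fun e => q1 (O.reg hq (mul_inv_eq_iff_eq_mul.1 e))
  obtain ⟨r, b⟩ := O.C.ov W O.wc (icj O.wc q) c ne
  obtain ⟨u, h, c1, c2⟩ := O.nbw W b
  obtain ⟨p, k⟩ := O.ov S h.cj c1 h.cm
  obtain ⟨T⟩ := O.C.st' h.cj
  obtain ⟨p', k'⟩ := O.C.back k T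
  obtain ⟨q', a⟩ := O.C.back h T
  have b' := h.line' O.C b (fun e => O.ncj hq (e ▸ c1)) a
  obtain ⟨x, h1, h2, e⟩ := k.onl O.C k' a (k'.np O.C a O.n) b'
  obtain rfl := O.reg' hq h1 e
  obtain ⟨t, ht⟩ := k'.XK k h2 h1
  have t0 : t ≠ 0 := fun e => ((S.rk hq).1 (by rw [ht, e, zero_smul])).elim q1 fun e =>
    k'.nQ (e ▸ h2)
  exact ⟨u, r, ht ▸ k.smul t0, h, b⟩

theorem s2 (S : St z) {v : V} (hv : hf v v = 0) :
    ∃ q ∈ S.Q, S.ρ q = v ∧ Commute (q * w * q⁻¹) w := by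
  by_cases h0 : v = 0
  · exact ⟨1, one_mem _, by rw [h0, S.r1], by simp⟩
  obtain ⟨u, h, c⟩ := O.all S h0 hv
  obtain ⟨T⟩ := O.C.st' h.cj
  obtain ⟨p', k⟩ := O.C.back h T
  obtain ⟨x, h1, h2, e⟩ := k.X O.C h 1
  obtain ⟨q', a⟩ := h.nb O.C O.wc c O.n T
  exact ⟨x, h2, by rw [e, one_smul], ((a.conjQ h1).cmm O.C a).2 a.iso⟩

theorem s3 (S : St z) {q : G} (hq : q ∈ S.Q) (c : Commute (q * w * q⁻¹) w) :
    hf (S.ρ q) (S.ρ q) = 0 := by
  by_cases q1 : q = 1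
  · rw [q1, S.r1, hf0l]
  obtain ⟨W⟩ := O.C.st' O.wc
  obtain ⟨u, r, h, -⟩ := O.s1 S W hq q1 c
  exact h.iso

theorem s4 (S : St z) {q r : G} (hq : q ∈ S.Q) (hr : r ∈ S.Q) (c : Commute (q * w * q⁻¹) w)
    (c' : Commute (r * w * r⁻¹) w) :
    Commute (q * r * w * (q * r)⁻¹) w ↔ hf (S.ρ q) (S.ρ r) = 0 := by
  by_cases q1 : q = 1
  · simpa [q1, S.r1] using c'
  by_cases r1 : r = 1
  · simpa [r1, S.r1] using c
  obtain ⟨W⟩ := O.C.st' O.wc
  obtain ⟨u, a, h1, h2, h3⟩ := O.s1 S W hq q1 c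
  obtain ⟨u', b, k1, k2, k3⟩ := O.s1 S W hr r1 c'
  rw [← h1.cmm O.C k1, h2.cmm O.C k2, ← h3.cmm O.C k3]
  have i : q⁻¹ = q := inv_eq_of_mul_eq_one_left ((S.sq hq).2 h1.iso)
  refine ⟨fun c => ?_, fun c => ?_⟩
  · have := (cjc (g := q⁻¹) c).symm
    nth_rewrite 1 2 [i] at this
    simpa [mul_assoc] using this
  · have := (cjc (g := q) c).symm
    rw [show q * (q * w * q⁻¹) * q⁻¹ = q * q * w * (q * q)⁻¹ by group, (S.sq hq).2 h1.iso] at this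
    simpa [mul_assoc] using this

theorem s5 (S : St z) : ¬ Commute (z * w * z⁻¹) w := fun c => by
  obtain ⟨W⟩ := O.C.st' O.wc
  obtain ⟨u, r, h, -⟩ := O.s1 S W S.zQ S.z1 c
  exact h.p0 S.rz

end Op

theorem Cx.op (C : Cx z0) (hz : IsConj z0 z) : ∃ w, Op z0 z w := by
  obtain ⟨S⟩ := C.st' hz
  obtain ⟨u, h⟩ := C.ex S hz p0_ne p0_iso
  obtain ⟨T⟩ := C.st' h.cj
  obtain ⟨p', k⟩ := C.back h T
  obtain ⟨r, r1, r2, -⟩ := k_np p' k.p0 k.iso
  obtain ⟨w, a⟩ := C.ex T h.cj (p := r) (fun e => r2 (by rw [e, hf0r])) r1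
  exact ⟨w, C, hz, a.cj, fun c => r2 ((k.cmm C a).1 c.symm), u, h.cj, h.cm, a.cm.symm⟩

end U6.Ge
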