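import Cfsg.Agent.U6.G2

/-! Heisenberg coordinates on `J`. -/

set_option autoImplicit false
set_option linter.unusedVariables false
set_option maxRecDepth 100000
open Equiv Subgroup

namespace U6.Ge

variable {G : Type*} [Group G] {z : G} {S : St z}

structure Hc (S : St z) (U : V → Prop) (c : G → K4) : Prop where
  u0 : U 0
  ua : ∀ {a b}, U a → U b → U (a + b)
  mul : ∀ {q r}, q ∈ S.Q → r ∈ S.Q → U (S.ρ q) → U (S.ρ r) →
    c (q * r) = c q + c r + hf (S.ρ q) (S.ρ r)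
  cz : c z = 1
  nm : ∀ {q}, q ∈ S.Q → U (S.ρ q) → c q + cj (c q) = hf (S.ρ q) (S.ρ q)

theorem Hc.c1 {U : V → Prop} {c : G → K4} (h : Hc S U c) : c 1 = 0 := by
  have := h.mul (one_mem _) (one_mem _) (S.r1 ▸ h.u0) (S.r1 ▸ h.u0)
  rwa [mul_one, K2, S.r1, hf0l, add_zero] at this

theorem Hc.mz {U : V → Prop} {c : G → K4} (h : Hc S U c) {q : G} (hq : q ∈ S.Q)
    (u : U (S.ρ q)) : c (q * z) = c q + 1 := by
  rw [h.mul hq S.zQ u (S.rz ▸ h.u0), h.cz, S.rz, hf0r, add_zero]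

theorem hc0 (S : St z) : ∃ c, Hc S (· = 0) c := by
  classical
  refine ⟨fun q => if q = 1 then 0 else 1, rfl, fun a b => by rw [a, b, add_zero], ?_,
    if_neg S.z1, fun hq u => by rw [u, hf0l]; split_ifs <;> simp [K2]⟩
  intro q r hq hr u v
  rcases (S.rk hq).1 u with rfl | rfl <;> rcases (S.rk hr).1 v with rfl | rfl <;>
    simp [S.z1, S.z2, S.r1, S.rz, K2]

theorem Hc.ext {U : V → Prop} {c : G → K4} (h : Hc S U c) {g : G} (hg : g ∈ S.Q)
    (i : hf (S.ρ g) (S.ρ g) = 0) (n : ¬ U (S.ρ g)) :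
    ∃ c', Hc S (fun v => U v ∨ U (v + S.ρ g)) c' ∧ c' g = 0 ∧ ∀ q, U (S.ρ q) → c' q = c q := by
  classical
  have g2 := (S.sq hg).2 i
  obtain ⟨c', hc⟩ : ∃ c' : G → K4, ∀ q, c' q = if U (S.ρ q) then c q else
    c (q * g) + hf (S.ρ q) (S.ρ g) := ⟨_, fun _ => rfl⟩
  have a1 : ∀ q, U (S.ρ q) → c' q = c q := fun q u => by rw [hc, if_pos u]
  have a2 : ∀ q ∈ S.Q, U (S.ρ q) → c' (q * g) = c q + hf (S.ρ q) (S.ρ g) := fun q hq u => by
    rw [hc, S.rm hq hg, if_neg fun e => n (by simpa [V2'] using h.ua u e), mul_assoc, g2, mul_one,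
      hf_addl, i, add_zero]
  have a3 : ∀ q ∈ S.Q, U (S.ρ q) ∨ U (S.ρ q + S.ρ g) →
      U (S.ρ q) ∨ ∃ r ∈ S.Q, U (S.ρ r) ∧ q = r * g := fun q hq u => u.imp id fun u =>
    ⟨q * g, mul_mem hq hg, by rwa [S.rm hq hg], by rw [mul_assoc, g2, mul_one]⟩
  have a4 : ∀ r ∈ S.Q, U (S.ρ r) → ∃ r' ∈ S.Q, S.ρ r' = S.ρ r ∧ g * r = r' * g ∧
      c r' = c r + bf (S.ρ g) (S.ρ r) := fun r hr u => by
    by_cases e : Commute g r
    · exact ⟨r, hr, rfl, e.eq, by rw [(S.cm hg hr).1 e, add_zero]⟩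
    · refine ⟨r * z, mul_mem hr S.zQ, by rw [S.rm hr S.zQ, S.rz, add_zero],
        mul_inv_eq_iff_eq_mul.1 (S.ncm hg hr e), ?_⟩
      rw [h.mz hr u, (bf01 _ _).resolve_left (mt (S.cm hg hr).2 e)]
  have k2 : (2 : K4) = 0 := by decide +kernel
  refine ⟨c', ⟨Or.inl h.u0, ?_, ?_, by rw [a1 z (S.rz ▸ h.u0), h.cz], ?_⟩, ?_, a1⟩
  · rintro a b (u | u) (v | v)
    · exact Or.inl (h.ua u v)
    · exact Or.inr (by rw [add_assoc]; exact h.ua u v)
    · exact Or.inr (by rw [add_right_comm]; exact h.ua u v)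
    · exact Or.inl (by have := h.ua u v; rwa [add_add_add_comm, V2, add_zero] at this)
  · intro q0 r0 hq0 hr0 u0 v0
    rcases (a3 _ hq0 u0).imp_left fun u => (⟨_, hq0, u, rfl⟩ : ∃ q ∈ S.Q, U (S.ρ q) ∧ q0 = q) with
      ⟨q, hq, u, rfl⟩ | ⟨q, hq, u, rfl⟩ <;>
    rcases (a3 _ hr0 v0).imp_left fun u => (⟨_, hr0, u, rfl⟩ : ∃ q ∈ S.Q, U (S.ρ q) ∧ r0 = q) with
      ⟨r, hr, v, rfl⟩ | ⟨r, hr, v, rfl⟩
    · rw [a1 _ (by rw [S.rm hq hr]; exact h.ua u v), a1 _ u, a1 _ v, h.mul hq hr u v]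
    · rw [← mul_assoc, a2 _ (mul_mem hq hr) (by rw [S.rm hq hr]; exact h.ua u v), a1 _ u,
        a2 r hr v, h.mul hq hr u v, S.rm hq hr, S.rm hr hg, hf_addl, hf_addr]
      ring
    · obtain ⟨r', h1, h2, h3, h4⟩ := a4 _ hr v
      rw [← h2] at v
      rw [mul_assoc, h3, ← mul_assoc, a2 _ (mul_mem hq h1) (by rw [S.rm hq h1]; exact h.ua u v),
        h.mul hq h1 u v, a2 q hq u, a1 _ (h2 ▸ v : U (S.ρ r0)), S.rm hq h1, S.rm hq hg, h4, h2, bf, hf_addl,
        hf_addl]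
      linear_combination hf (S.ρ r0) (S.ρ g) * k2
    · obtain ⟨r', h1, h2, h3, h4⟩ := a4 r hr v
      rw [show q * g * (r * g) = q * (g * r) * g by group, h3, ← mul_assoc, mul_assoc _ g g, g2,
        mul_one, a2 q hq u, a2 r hr v, a1 _ (by rw [S.rm hq h1, h2]; exact h.ua u v),
        h.mul hq h1 u (h2 ▸ v), S.rm hq hg, S.rm hr hg, h4, h2, bf]
      simp only [hf_addl, hf_addr, i]
      linear_combination (-hf (S.ρ q) (S.ρ g)) * k2
  · intro q0 hq0 u0
    rcases a3 _ hq0 u0 with u | ⟨q, hq, u, rfl⟩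
    · rw [a1 _ u, h.nm hq0 u]
    · rw [a2 q hq u, S.rm hq hg, qf_add, i, bf_eq, ← h.nm hq u, cj_add]; ring
  · have := a2 1 (one_mem _) (S.r1 ▸ h.u0)
    rwa [one_mul, h.c1, S.r1, hf0l, add_zero] at this

def inU : List V → V → Bool
  | [], v => v = 0
  | b :: l, v => inU l v || inU l (v + b)
def ind : List V → Bool
  | [] => true
  | b :: l => hf b b = 0 && !inU l b && ind l

theorem hcL (P : G → Prop) (hP : ∀ v, hf v v = 0 → ∃ q ∈ S.Q, S.ρ q = v ∧ P q) (l : List V)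
    (hl : ind l = true) : ∃ c, Hc S (inU l · = true) c ∧
      ∀ b ∈ l, inU l b = true ∧ ∃ q ∈ S.Q, S.ρ q = b ∧ P q ∧ c q = 0 := by
  induction l with
  | nil => simpa [inU] using hc0 S
  | cons b l ih =>
    simp only [ind, Bool.and_eq_true, decide_eq_true_eq, Bool.not_eq_eq_eq_not, Bool.not_true] at hl
    obtain ⟨c, h, k⟩ := ih hl.2
    obtain ⟨g, hg, rfl, pg⟩ := hP b hl.1.1
    obtain ⟨c', h', g0, e⟩ := h.ext hg hl.1.1 (by simp [hl.1.2])
    simp only [inU, Bool.or_eq_true]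
    refine ⟨c', h', fun b hb => ?_⟩
    rcases List.mem_cons.1 hb with rfl | hb
    · exact ⟨Or.inr (by rw [V2]; exact h.u0), g, hg, rfl, pg, g0⟩
    · obtain ⟨u, q, hq, rfl, pq, q0⟩ := k b hb
      exact ⟨Or.inl u, q, hq, rfl, pq, by rw [e q u, q0]⟩

def dv (n : ℕ) : V := (H2.F4.mk' n, H2.F4.mk' (n / 4), H2.F4.mk' (n / 16), H2.F4.mk' (n / 64))
def bas : List V := [50, 173, 60, 154, 176, 224, 112, 208].map dv
def chk : List V → List (ℕ × ℕ) → Bool
  | l, [] => allV.all fun v => hf v v ≠ 0 || v ∈ l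
  | l, (a, b) :: t => dv a ∈ l && dv b ∈ l && hf (dv a + dv b) (dv a + dv b) = 0 &&
      chk ((dv a + dv b) :: l) t
def cert : List (ℕ × ℕ) := [
  (50, 173), (50, 60), (50, 176), (50, 112), (173, 112), (173, 208), (173, 66), (60, 154),
  (60, 176), (60, 112), (60, 130), (60, 66), (60, 125), (154, 224), (154, 112), (154, 159),
  (154, 130), (154, 125), (154, 239), (154, 76), (154, 190), (154, 65), (176, 224), (176, 208),
  (176, 221), (176, 239), (176, 234), (176, 5), (176, 231), (176, 214), (176, 219), (224, 112),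
  (224, 159), (224, 14), (224, 125), (224, 239), (224, 190), (224, 126), (224, 234), (224, 5),
  (224, 231), (224, 117), (224, 36), (224, 95), (224, 90), (224, 181), (224, 87), (112, 208),
  (112, 125), (112, 65), (112, 231), (112, 219), (112, 157), (112, 7), (208, 14), (208, 166),
  (208, 190), (208, 126), (208, 122), (208, 5), (208, 24), (208, 117), (208, 214), (208, 219),
  (208, 109), (208, 181), (208, 102), (208, 107), (208, 127), (208, 15), (208, 10), (208, 7),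
  (208, 196), (208, 191), (208, 186), (208, 183), (208, 171), (208, 119), (50, 122), (50, 219),
  (50, 107), (50, 10), (50, 196), (50, 186), (50, 171), (50, 118), (50, 200), (50, 6), (50, 182),
  (50, 111), (173, 140), (173, 190), (173, 80), (173, 90), (173, 238), (173, 158), (173, 196),
  (173, 191), (173, 110), (173, 20), (173, 111), (173, 246), (173, 93), (60, 229), (60, 149),
  (60, 191), (60, 170), (60, 189), (60, 218), (60, 215), (60, 20), (60, 106), (60, 167),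
  (60, 253), (60, 195), (60, 194), (60, 240), (154, 182), (154, 111), (154, 185), (176, 185),
  (224, 153), (224, 194), (208, 193), (208, 204), (159, 102), (14, 245)]
theorem k_ind : ind bas = true := by decide +kernel
theorem k_all : ∀ v, inU bas v = true := by decide +kernel
theorem k_chk : chk (0 :: bas) cert = true := by decide +kernel

theorem chk_ok (P : V → Prop) (hP : ∀ a b, P a → P b → hf (a + b) (a + b) = 0 → P (a + b))
    (t : List (ℕ × ℕ)) (l : List V) (hl : ∀ v ∈ l, P v) (h : chk l t = true) :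
    ∀ v, hf v v = 0 → P v := by
  induction t generalizing l with
  | nil =>
    intro v hv
    simp only [chk, List.all_eq_true, Bool.or_eq_true, decide_eq_true_eq] at h
    exact hl v ((h v (mem_allV v)).resolve_left fun e => e hv)
  | cons a t ih =>
    simp only [chk, Bool.and_eq_true, decide_eq_true_eq] at h
    refine ih _ (fun v hv => ?_) h.2
    rcases List.mem_cons.1 hv with rfl | hv
    · exact hP _ _ (hl _ h.1.1.1) (hl _ h.1.1.2) h.1.2
    · exact hl v hv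

theorem Op.hc {z0 w : G} (O : Op z0 z w) (S : St z) : ∃ c, Hc S (fun _ => True) c ∧
    ∀ q ∈ S.Q, c q = 0 ↔ Commute (q * w * q⁻¹) w := by
  obtain ⟨c, h, k⟩ := hcL (fun q => Commute (q * w * q⁻¹) w) (fun v hv => O.s2 S hv) bas k_ind
  simp only [k_all] at h
  have u3 : ∀ q ∈ S.Q, Commute (q * w * q⁻¹) w → ¬ Commute (q * z * w * (q * z)⁻¹) w := by
    intro q hq c c'
    have := (O.s4 S hq (mul_mem hq S.zQ) c c').2 (by
      rw [S.rm hq S.zQ, S.rz, add_zero]; exact O.s3 S hq c)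
    rw [← mul_assoc q q, (S.sq hq).2 (O.s3 S hq c), one_mul] at this
    exact O.s5 S this
  have key := chk_ok (fun v => ∃ q ∈ S.Q, S.ρ q = v ∧ Commute (q * w * q⁻¹) w ∧ c q = 0) (by
    rintro _ _ ⟨q, hq, rfl, c1, q0⟩ ⟨r, hr, rfl, c2, r0⟩ i
    have e := h.mul hq hr trivial trivial
    rw [q0, r0, add_zero, zero_add] at e
    have m := mul_mem hq hr
    have t := i
    rw [qf_add, O.s3 S hq c1, O.s3 S hr c2, bf_eq, add_zero, zero_add, tr0] at t
    rcases t with t | t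
    · exact ⟨q * r, m, S.rm hq hr, (O.s4 S hq hr c1 c2).2 t, e.trans t⟩
    · obtain ⟨s, hs, es, c3⟩ := O.s2 S i
      refine ⟨s, hs, es, c3, ?_⟩
      rcases S.eqr m hs ((S.rm hq hr).trans es.symm) with rfl | rfl
      · rw [(O.s4 S hq hr c1 c2).1 c3] at t; exact (zero_ne_one t).elim
      · rw [h.mz m trivial, e, t, K2]) cert (0 :: bas) (fun v hv => by
    rcases List.mem_cons.1 hv with rfl | hv
    · exact ⟨1, one_mem _, S.r1, by simp, h.c1⟩
    · exact (k v hv).2) k_chk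
  refine ⟨c, h, fun q hq => ⟨fun e => ?_, fun e => ?_⟩⟩
  · obtain ⟨r, hr, er, c1, r0⟩ := key (S.ρ q) (by rw [← h.nm hq trivial, e]; simp)
    rcases S.eqr hr hq er with rfl | rfl
    · exact c1
    · rw [h.mz hr trivial, r0, zero_add] at e; exact (one_ne_zero e).elim
  · obtain ⟨r, hr, er, c1, r0⟩ := key (S.ρ q) (O.s3 S hq e)
    rcases S.eqr hr hq er with rfl | rfl
    · exact r0
    · exact (u3 r hr c1 e).elim

end U6.Ge
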