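import Cfsg.Agent.U6.G3

/-! The unitary polar space on the commuting graph. -/

set_option autoImplicit false
set_option linter.unusedVariables false
set_option linter.unusedSectionVars false
open Equiv Subgroup

namespace U6.Ge

variable {G : Type*} [Group G] {z w : G} {S : St z} {c : G → K4}

/-- the data used for the coordinates -/
structure Co (S : St z) (w : G) (c : G → K4) : Prop where
  O : Op z z w
  h : Hc S (fun _ => True) c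
  s : ∀ q ∈ S.Q, c q = 0 ↔ Commute (q * w * q⁻¹) w

def R1 (S : St z) (w : G) (c : G → K4) (x : W6) (d : G) : Prop :=
  x.2.2 ≠ 0 ∧ ∃ q ∈ S.Q, x.2.1 = x.2.2 • S.ρ q ∧ x.1 = x.2.2 * cj (c q) ∧ d = q * w * q⁻¹
def R2 (S : St z) (w : G) (x : W6) (d : G) : Prop :=
  x.2.2 = 0 ∧ ∃ q ∈ S.Q, ∃ u, Ov z S u x.2.1 ∧ Commute u w ∧ x.1 = hf x.2.1 (S.ρ q) ∧
    d = q * u * q⁻¹
def R3 (z : G) (x : W6) (d : G) : Prop := x.2.2 = 0 ∧ x.2.1 = 0 ∧ x.1 ≠ 0 ∧ d = z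
/-- `d` is the point with coordinates `x` -/
def Rep (S : St z) (w : G) (c : G → K4) (x : W6) (d : G) : Prop :=
  R1 S w c x d ∨ R2 S w x d ∨ R3 z x d

theorem add0 {a b : K4} : a + b = 0 ↔ a = b :=
  ⟨fun e => by rw [← add_zero a, ← e, ← add_assoc, K2, zero_add], fun e => by rw [e, K2]⟩

theorem h6_symm {x y : W6} : h6 x y = 0 ↔ h6 y x = 0 := by
  have : h6 y x = cj (h6 x y) := by
    simp only [h6, cj_add, cj_mul, cj_cj, ← hf_cj]; ring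
  rw [this, cj_eq_zero]

theorem cjc_iff {a b g : G} : Commute (g * a * g⁻¹) (g * b * g⁻¹) ↔ Commute a b :=
  ⟨fun h => by simpa [mul_assoc] using cjc (g := g⁻¹) h, cjc⟩

theorem cj2 {a b q r : G} :
    Commute (q * a * q⁻¹) (r * b * r⁻¹) ↔ Commute (r⁻¹ * q * a * (r⁻¹ * q)⁻¹) b := by
  rw [← cjc_iff (g := r⁻¹)]; simp [mul_assoc]

namespace Co
variable (K : Co S w c) {x y : W6} {d e : G}
include K

theorem cinv {q : G} (hq : q ∈ S.Q) : c q⁻¹ = cj (c q) := by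
  have := K.h.mul hq (inv_mem hq) trivial trivial
  rw [mul_inv_cancel, K.h.c1, S.rinv hq, ← K.h.nm hq trivial, add_add_add_comm, K2, zero_add,
    eq_comm, add0] at this
  exact this

theorem exq {v : V} {a : K4} (h : a + cj a = hf v v) : ∃ q ∈ S.Q, S.ρ q = v ∧ c q = a := by
  obtain ⟨q, hq, rfl⟩ := S.rs v
  have := (tr0 (c q + a)).1 (by rw [cj_add, add_add_add_comm, h, K.h.nm hq trivial, K2])
  rcases this with e | e
  · exact ⟨q, hq, rfl, add0.1 e⟩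
  · exact ⟨q * z, mul_mem hq S.zQ, by rw [S.rm hq S.zQ, S.rz, add_zero], by
      rw [K.h.mz hq trivial, ← e, ← add_assoc, K2, zero_add]⟩

theorem c11 (h : R1 S w c x d) (k : R1 S w c y e) : Commute d e ↔ h6 x y = 0 := by
  obtain ⟨b0, q, hq, e1, e2, rfl⟩ := h
  obtain ⟨b0', r, hr, e3, e4, rfl⟩ := k
  rw [commute_iff_eq, eq_comm, ← commute_iff_eq, cj2, ← K.s _ (mul_mem (inv_mem hq) hr),
    K.h.mul (inv_mem hq) hr trivial trivial, K.cinv hq, S.rinv hq, h6, e1, e2, e3, e4, hf_smull,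
    hf_smulr, cj_mul, cj_cj]
  rw [show x.2.2 * cj (c q) * cj y.2.2 + x.2.2 * (cj y.2.2 * hf (S.ρ q) (S.ρ r)) +
    x.2.2 * (cj y.2.2 * c r) = x.2.2 * cj y.2.2 * (cj (c q) + c r + hf (S.ρ q) (S.ρ r)) by ring]
  simp [b0, b0']

theorem c21 (h : R2 S w x d) (k : R1 S w c y e) : Commute d e ↔ h6 x y = 0 := by
  obtain ⟨b0, q, hq, u, o, cu, e1, rfl⟩ := h
  obtain ⟨b0', r, hr, e3, e4, rfl⟩ := k
  rw [cj2, K.O.stab o cu (mul_mem (inv_mem hr) hq), S.rm (inv_mem hr) hq, S.rinv hr, hf_comm,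
    hf_addr, h6, b0, e1, e3, hf_smulr]
  rw [show hf x.2.1 (S.ρ q) * cj y.2.2 + cj y.2.2 * hf x.2.1 (S.ρ r) + 0 * cj y.1 =
    cj y.2.2 * (hf x.2.1 (S.ρ r) + hf x.2.1 (S.ρ q)) by ring]
  simp [b0']

theorem c31 (h : R3 z x d) (k : R1 S w c y e) : Commute d e ↔ h6 x y = 0 := by
  obtain ⟨b0, v0, a0, rfl⟩ := h
  obtain ⟨b0', r, hr, e3, e4, rfl⟩ := k
  simp only [h6, b0, v0, hf0l, zero_mul, add_zero, mul_eq_zero, a0, cj_eq_zero, b0', or_self,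
    iff_false]
  exact fun c => K.O.ncj hr c.symm

theorem c22 (h : R2 S w x d) (k : R2 S w y e) : Commute d e ↔ h6 x y = 0 := by
  obtain ⟨b0, q, hq, u, o, cu, e1, rfl⟩ := h
  obtain ⟨b0', q', hq', u', o', cu', e1', rfl⟩ := k
  rw [(o.conjQ hq).cmm K.O.C (o'.conjQ hq'), h6, b0, b0']; simp

theorem c32 (h : R3 z x d) (k : R2 S w y e) : Commute d e ↔ h6 x y = 0 := by
  obtain ⟨b0, v0, a0, rfl⟩ := h
  obtain ⟨b0', q', hq', u', o', cu', e1', rfl⟩ := k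
  simpa [h6, b0, b0', v0] using (o'.conjQ hq').cm.symm

theorem cm (h : Rep S w c x d) (k : Rep S w c y e) : Commute d e ↔ h6 x y = 0 := by
  have sy : ∀ {x y : W6} {d e : G}, (Commute d e ↔ h6 x y = 0) → (Commute e d ↔ h6 y x = 0) :=
    fun h => Commute.symm_iff.trans (h.trans h6_symm)
  rcases h with h | h | h <;> rcases k with k | k | k
  exacts [K.c11 h k, sy (K.c21 k h), sy (K.c31 k h), K.c21 h k, K.c22 h k, sy (K.c32 k h),
    K.c31 h k, K.c32 h k, by simp [h6, h.1, h.2.1, h.2.2.2, k.1, k.2.2.2]]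

theorem ex (h : Iso x) : ∃ d, Rep S w c x d := by
  obtain ⟨a, v, b⟩ := x
  have i := h.2
  simp only [h6] at i
  by_cases b0 : b = 0
  · subst b0
    by_cases v0 : v = 0
    · exact ⟨z, Or.inr (Or.inr ⟨rfl, v0, fun e => h.1 (by rw [v0, show a = 0 from e]; rfl), rfl⟩)⟩
    · obtain ⟨u, o, cu⟩ := K.O.all S v0 (by simpa using i)
      obtain ⟨y, hy⟩ := ex_hf v0 (cj a)
      obtain ⟨q, hq, rfl⟩ := S.rs y
      exact ⟨_, Or.inr (Or.inl ⟨rfl, q, hq, u, o, cu, by rw [hf_cj, hy, cj_cj], rfl⟩)⟩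
  · obtain ⟨q, hq, e1, e2⟩ := K.exq (v := b⁻¹ • v) (a := cj (b⁻¹ * a)) (by
      rw [qf_smul (inv_ne_zero b0), cj_cj, k_inv b b⁻¹ (inv_mul_cancel₀ b0), cj_mul, cj_cj, ← add0,
        ← i]; ring)
    exact ⟨_, Or.inl ⟨b0, q, hq, by rw [e1, smul_smul, mul_inv_cancel₀ b0, one_smul],
      by rw [e2, cj_cj, mul_inv_cancel_left₀ b0], rfl⟩⟩

theorem iso (h : Rep S w c x d) : Iso x := by
  refine ⟨?_, (K.cm h h).1 (Commute.refl d)⟩
  rintro rfl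
  rcases h with h | ⟨-, _, -, _, o, -⟩ | h
  exacts [h.1 rfl, o.p0 rfl, h.2.2.1 rfl]

theorem conj (h : Rep S w c x d) : IsConj z d := by
  rcases h with ⟨-, q, -, -, -, rfl⟩ | ⟨-, q, -, u, o, -, -, rfl⟩ | ⟨-, -, -, rfl⟩
  exacts [icj K.O.wc q, icj o.cj q, IsConj.refl _]

theorem smul (h : Rep S w c x d) {a : K4} (a0 : a ≠ 0) : Rep S w c (a • x) d := by
  rcases h with ⟨b0, q, hq, e1, e2, rfl⟩ | ⟨b0, q, hq, u, o, cu, e1, rfl⟩ | ⟨b0, v0, e, rfl⟩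
  · exact Or.inl ⟨mul_ne_zero a0 b0, q, hq, by simp [e1, smul_smul], by simp [e2, mul_assoc], rfl⟩
  · exact Or.inr (Or.inl ⟨by simp [b0], q, hq, u, o.smul a0, cu, by simp [e1, hf_smull], rfl⟩)
  · exact Or.inr (Or.inr ⟨by simp [b0], by simp [v0], mul_ne_zero a0 e, rfl⟩)

theorem uniq (h : Rep S w c x d) (k : Rep S w c x e) : d = e := by
  rcases h with ⟨b0, q, hq, e1, e2, rfl⟩ | ⟨b0, q, hq, u, o, cu, e1, rfl⟩ | ⟨b0, v0, e1, rfl⟩ <;>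
  rcases k with ⟨b1, r, hr, e3, e4, rfl⟩ | ⟨b1, r, hr, u', o', cu', e3, rfl⟩ | ⟨b1, v1, e3, rfl⟩ <;>
  try first | exact (b0 b1).elim | exact (b1 b0).elim
  · have a1 : S.ρ q = S.ρ r := smul_right_injective V b0 (e1.symm.trans e3)
    have a2 := congrArg cj (mul_left_cancel₀ b0 (e2.symm.trans e4))
    rcases S.eqr hq hr a1 with rfl | rfl
    · rfl
    · rw [cj_cj, cj_cj, K.h.mz hq trivial] at a2; simp at a2
  · obtain rfl := K.O.uniq o o' cu cu'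
    exact (o.cj_eq hq hr).2 (by rw [hf_cj, ← e1, e3, ← hf_cj])
  · exact (o.p0 v1).elim
  · exact (o'.p0 v0).elim
  · rfl

theorem inj (h : Rep S w c x d) (k : Rep S w c y d) : ∃ a : K4, y = a • x := by
  obtain ⟨a, v, b⟩ := x
  obtain ⟨a', v', b'⟩ := y
  rcases h with ⟨b0, q, hq, e1, e2, f⟩ | ⟨b0, q, hq, u, o, cu, e1, f⟩ | ⟨b0, v0, e1, f⟩ <;>
  rcases k with ⟨b1, r, hr, e3, e4, g⟩ | ⟨b1, r, hr, u', o', cu', e3, g⟩ | ⟨b1, v1, e3, g⟩ <;>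
  simp only at *
  · obtain rfl := K.O.reg' hq hr (f.symm.trans g)
    exact ⟨b' * b⁻¹, by simp [e1, e2, e3, e4, smul_smul, b0, mul_assoc]⟩
  · exact (K.O.ncj hq (f ▸ g ▸ (o'.conjQ hr).cm)).elim
  · exact (K.O.ncj hq (f ▸ g ▸ Commute.refl z)).elim
  · exact (K.O.ncj hr (g ▸ f ▸ (o.conjQ hq).cm)).elim
  · have o1 := o.conjQ hq
    have o2 := o'.conjQ hr
    rw [← f] at o1; rw [← g] at o2
    obtain ⟨t, t0, rfl⟩ := o2.tv.pt o1.tv o2.p0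
    obtain rfl := K.O.uniq o o'.of_smul cu cu'
    have := (o.cj_eq hq hr).1 (f.symm.trans g)
    rw [hf_smull, hf_cj, ← this, ← hf_cj, ← e1] at e3
    exact ⟨t, by simp [b0, b1, e3]⟩
  · exact ((o.conjQ hq).ne (f ▸ g)).elim
  · exact (K.O.ncj hr (g ▸ f ▸ Commute.refl z)).elim
  · exact ((o'.conjQ hr).ne (g ▸ f)).elim
  · exact ⟨a' * a⁻¹, by simp [b0, b1, v0, v1, e1]⟩

theorem rw' {q : G} (hq : q ∈ S.Q) : Rep S w c (cj (c q), S.ρ q, 1) (q * w * q⁻¹) :=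
  Or.inl ⟨one_ne_zero, q, hq, (one_smul _ _).symm, (one_mul _).symm, rfl⟩
theorem rz : Rep S w c (1, 0, 0) z := Or.inr (Or.inr ⟨rfl, rfl, one_ne_zero, rfl⟩)

theorem rnb (hd : IsConj z d) (cz : Commute d z) : ∃ y, Rep S w c y d := by
  by_cases e : d = z
  · exact ⟨_, by rw [e]; exact K.rz⟩
  obtain ⟨p, o⟩ := K.O.C.ov S K.O.zc hd cz e
  obtain ⟨u, o', cu⟩ := K.O.all S o.p0 o.iso
  obtain ⟨r, hr, rfl⟩ := o'.line K.O.C o
  exact ⟨(hf p (S.ρ r), p, 0), Or.inr (Or.inl ⟨rfl, r, hr, u, o', cu, rfl, rfl⟩)⟩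

theorem cl (h : Rep S w c x d) (he : IsConj z e) (ce : Commute e d) : ∃ y, Rep S w c y e := by
  by_cases n : Commute e z
  · exact K.rnb he n
  rcases h with ⟨-, q, hq, -, -, rfl⟩ | ⟨-, q, hq, u, o, -, -, rfl⟩ | ⟨-, -, -, rfl⟩
  · obtain ⟨g, hg, e1⟩ := K.O.clw S (icj he q⁻¹) (by simpa [mul_assoc] using cjc (g := q⁻¹) ce)
      fun c => n (by rwa [← cj_of (S.QM hq).inv_left, cjc_iff] at c)
    have : e = q * g * w * (q * g)⁻¹ := by
      rw [show e = q * (q⁻¹ * e * q⁻¹⁻¹) * q⁻¹ by group, e1]; group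
    exact ⟨_, this ▸ K.rw' (mul_mem hq hg)⟩
  · obtain ⟨g, hg, rfl⟩ := K.O.clu (o.conjQ hq) he ce n
    exact ⟨_, K.rw' hg⟩
  · exact (n ce).elim

theorem fa {g : G} (h : ∀ x d, Rep S w c x d → Commute g d) : g = 1 := by
  have gz := h _ _ K.rz
  have gw : Commute g w := by simpa using h _ _ (K.rw' (one_mem _))
  refine K.O.reg (S.mem_of_fix gz fun q hq => ?_) gw
  rw [← S.rc gz hq, K.O.reg' (S.nq gz hq) hq]
  rw [← cj_of (h _ _ (K.rw' hq))]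
  nth_rewrite 1 [← cj_of gw]
  group

end Co

end U6.Ge

namespace U6
open Ge

theorem geo {G : Type*} [Group G] {z : G} (S : St z) (hg : Good z) (hn : ¬ Cfsg.IsIsolated z) :
    ∃ Γ : Geo z, S.Q ≤ Γ.G0 ∧ (∀ m, Commute m z → Lin (S.π m) → m ∈ Γ.G0) ∧
      ∀ x, Iso x → Commute (Γ.pt x) z → Lin (S.π (Γ.pt x)) := by
  classical
  have C : Cx z := ⟨hg, ⟨S⟩, hn⟩
  obtain ⟨w, O⟩ := C.op (IsConj.refl z)
  obtain ⟨c, h, s⟩ := O.hc S
  have K : Co S w c := ⟨O, h, s⟩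
  obtain ⟨pt, hp⟩ : ∃ pt : W6 → G, ∀ x, Iso x → Rep S w c x (pt x) :=
    ⟨fun x => if h : Iso x then (K.ex h).choose else 1, fun x h => by
      simp only [dif_pos h]; exact (K.ex h).choose_spec⟩
  have rp : ∀ {x d}, Rep S w c x d → pt x = d := fun h => K.uniq (hp _ (K.iso h)) h
  obtain ⟨G0, hG⟩ : ∃ G0, G0 = closure (pt '' {x | Iso x}) := ⟨_, rfl⟩
  have nb : ∀ d, IsConj z d → Commute d z → d ∈ G0 := fun d hd cd => by
    obtain ⟨y, hy⟩ := K.rnb hd cd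
    exact hG ▸ subset_closure ⟨y, K.iso hy, rp hy⟩
  have zG := nb z (IsConj.refl z) (Commute.refl z)
  have i1 : ∀ v, hf v v = 0 → ∃ q ∈ S.Q, q ∈ G0 ∧ S.ρ q = v := fun v hv => by
    by_cases v0 : v = 0
    · exact ⟨1, one_mem _, one_mem _, by rw [v0, S.r1]⟩
    obtain ⟨u, o⟩ := C.ex S (IsConj.refl z) v0 hv
    obtain ⟨y, hy⟩ := ex_hf v0 1
    obtain ⟨r, hr, rfl⟩ := S.rs y
    obtain ⟨e1, e2⟩ := o.e C hr
    exact ⟨_, e1, mul_mem (nb _ (o.conjQ hr).cj (o.conjQ hr).cm) (nb _ o.cj o.cm),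
      by rw [e2, hy, one_smul]⟩
  have QG : S.Q ≤ G0 := fun q hq => by
    obtain ⟨a, h1, h2⟩ := k_sum (S.ρ q)
    obtain ⟨x, x1, x2, x3⟩ := i1 _ h1
    obtain ⟨y, y1, y2, y3⟩ := i1 _ h2
    rcases S.eqr (mul_mem y1 x1) hq (by rw [S.rm y1 x1, x3, y3, V2r]) with e | e <;> rw [e]
    exacts [mul_mem y2 x2, mul_mem (mul_mem y2 x2) zG]
  have LG : ∀ m, Commute m z → Lin (S.π m) → m ∈ G0 := fun m hm l => by
    have : ∀ γ ∈ Γ0, ∃ m ∈ G0, Commute m z ∧ S.π m = γ := fun γ hγ => by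
      induction hγ using closure_induction with
      | mem γ h =>
        obtain ⟨p, hp, t⟩ := h
        by_cases p0 : p = 0
        · exact ⟨1, one_mem _, Commute.one_left z, by
            rw [S.p1]; exact Equiv.ext fun x => by rw [t, p0]; simp⟩
        obtain ⟨u, o⟩ := C.ex S (IsConj.refl z) p0 hp
        exact ⟨u, nb _ o.cj o.cm, o.cm, o.tv.eq t⟩
      | one => exact ⟨1, one_mem _, Commute.one_left z, S.p1⟩
      | mul _ _ _ _ h1 h2 =>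
        obtain ⟨a, a1, a2, rfl⟩ := h1
        obtain ⟨b, b1, b2, rfl⟩ := h2
        exact ⟨a * b, mul_mem a1 b1, a2.mul_left b2, S.pm a2 b2⟩
      | inv _ _ h1 =>
        obtain ⟨a, a1, a2, rfl⟩ := h1
        exact ⟨a⁻¹, inv_mem a1, a2.inv_left, S.pinv a2⟩
    obtain ⟨a, a1, a2, e⟩ := this _ (S.ns hm l)
    have : a⁻¹ * m ∈ S.Q := by
      rw [← S.pk (a2.inv_left.mul_left hm), S.pm a2.inv_left hm, S.pinv a2, e, inv_mul_cancel]
    simpa using mul_mem a1 (QG this)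
  refine ⟨⟨pt, orderOf_eq_prime (by rw [pow_two, S.z2]) S.z1, fun h => K.conj (hp _ h),
    fun {x y} hx hy => ⟨fun e => K.inj (hp x hx) (e ▸ hp y hy), ?_⟩,
    fun hx hy => K.cm (hp _ hx) (hp _ hy), fun hx hd cd => ?_, rp K.rz,
    fun g h => K.fa fun x d r => rp r ▸ h x (K.iso r),
    fun m hm => hG ▸ LG _ (hm.mul_left hm) (by rw [S.pm hm hm]; exact (S.sl' hm).sq)⟩,
    hG ▸ QG, hG ▸ LG, fun x hx cx => ?_⟩
  · rintro ⟨a, rfl⟩
    exact (rp (K.smul (hp x hx) fun e => hy.1 (by rw [e, zero_smul]))).symm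
  · obtain ⟨y, hy⟩ := K.cl (hp _ hx) hd cd
    exact ⟨y, K.iso hy, rp hy⟩
  · by_cases e : pt x = z
    · show Lin (S.π (pt x))
      rw [e, S.pQ S.zQ]; exact lin_one
    obtain ⟨p, o⟩ := C.ov S (IsConj.refl z) (K.conj (hp x hx)) cx e
    exact o.tv.lin o.iso

end U6
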