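import Cfsg.Agent.U6.Defs
import Cfsg.Agent.H5.Basic

/-! The standard unitary space of dimension six over the field with four elements:
transvections, reflections and generation of `SU₆(2)`. -/

set_option autoImplicit false
set_option linter.unusedVariables false

namespace U6.Id

open Subgroup

abbrev W := Fin 6 → K4
abbrev A := W ≃ₗ[K4] W

def h (u v : W) : K4 := ∑ i, u i * v i ^ 2

theorem two0 : (2 : K4) = 0 := by decide +kernel
theorem aa : ∀ a : K4, a + a = 0 := by decide +kernel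
theorem sq_add : ∀ a b : K4, (a + b) ^ 2 = a ^ 2 + b ^ 2 := by decide +kernel
theorem sq_sq : ∀ a : K4, (a ^ 2) ^ 2 = a := by decide +kernel
theorem cube : ∀ a : K4, a ≠ 0 → a ^ 3 = 1 := by decide +kernel
theorem fix2 : ∀ a : K4, a = a ^ 2 → a = 0 ∨ a = 1 := by decide +kernel
theorem ω1 : ω ^ 2 + ω = 1 := by decide +kernel
theorem ω0 : ω ≠ 0 := by decide +kernel
theorem ω3 : ω ^ 3 = 1 := by decide +kernel
theorem vv (x : W) : x + x = 0 := funext fun i => aa _
theorem eq_of_add {x y : W} (e : x + y = 0) : x = y := by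
  rw [← add_zero x, ← vv y, ← add_assoc, e, zero_add]

@[simp] theorem hal (u v w : W) : h (u + v) w = h u w + h v w := by
  simp [h, add_mul, Finset.sum_add_distrib]
@[simp] theorem hsl (c : K4) (u w : W) : h (c • u) w = c * h u w := by
  simp [h, Finset.mul_sum, mul_assoc]
@[simp] theorem har (u v w : W) : h u (v + w) = h u v + h u w := by
  simp [h, sq_add, mul_add, Finset.sum_add_distrib]
@[simp] theorem hsr (c : K4) (u w : W) : h u (c • w) = c ^ 2 * h u w := by
  simp only [h, Finset.mul_sum, Pi.smul_apply, smul_eq_mul]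
  exact Finset.sum_congr rfl fun i _ => by ring
@[simp] theorem h0l (w : W) : h 0 w = 0 := by simp [h]
@[simp] theorem h0r (w : W) : h w 0 = 0 := by simp [h]
theorem hsy (u v : W) : h v u = h u v ^ 2 := by
  simp only [h, Fin.sum_univ_six, sq_add, mul_pow, sq_sq]; ring
theorem hz {u v : W} (e : h u v = 0) : h v u = 0 := by rw [hsy, e]; simp
theorem ho {u v : W} (e : h u v = 1) : h v u = 1 := by rw [hsy, e]; simp
theorem hpp (p : W) : h p p = 0 ∨ h p p = 1 := fix2 _ (hsy p p)

def e (i : Fin 6) : W := Pi.single i 1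
theorem he (x : W) (i : Fin 6) : h x (e i) = x i := by
  simp [h, e, Pi.single_apply]
theorem ee (i : Fin 6) : h (e i) (e i) = 1 := by rw [he]; simp [e]
theorem ee' {i j : Fin 6} (n : i ≠ j) : h (e i) (e j) = 0 := by rw [he]; simp [e, n.symm]
theorem nd {x : W} (a : ∀ y, h x y = 0) : x = 0 := funext fun i => by rw [← he x i, a]; rfl
theorem nd' {x : W} (a : ∀ y, h y x = 0) : x = 0 := nd fun y => hz (a y)

theorem ext_e {g k : A} (a : ∀ i, g (e i) = k (e i)) : g = k := by
  apply LinearEquiv.toLinearMap_injective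
  refine (Pi.basisFun K4 (Fin 6)).ext fun i => ?_
  simpa [e] using a i

/-- the isometry group -/
def U : Subgroup A where
  carrier := {g | ∀ u v, h (g u) (g v) = h u v}
  mul_mem' {a b} ha hb u v := by simp [ha _ _, hb u v]
  one_mem' u v := rfl
  inv_mem' {a} ha u v := by rw [← ha]; simp

theorem U.h {g : A} (hg : g ∈ U) (u v : W) : h (g u) (g v) = h u v := hg u v

def Tr (c : K4) (p : W) (g : A) : Prop := ∀ x, g x = x + (c * h x p) • p
def Cd (c : K4) (p : W) : Prop := c + c ^ 2 + c ^ 3 * h p p = 0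

def hl (p : W) : W →ₗ[K4] K4 where
  toFun x := h x p
  map_add' x y := hal x y p
  map_smul' c x := hsl c x p

def tl (c : K4) (p : W) : W →ₗ[K4] W := LinearMap.id + (c • hl p).smulRight p

theorem tl_apply (c : K4) (p x : W) : tl c p x = x + (c * h x p) • p := rfl

theorem ex_tr {c : K4} {p : W} (hc : Cd c p) : ∃ g, Tr c p g := by
  have k : ∀ a b : K4, a + b + a * b * h p p = 0 → tl a p ∘ₗ tl b p = LinearMap.id := by
    intro a b e
    refine LinearMap.ext fun x => ?_
    simp only [LinearMap.comp_apply, tl_apply, hal, hsl, LinearMap.id_apply, add_assoc, ← add_smul]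
    rw [show b * h x p + a * (h x p + b * h x p * h p p) = (a + b + a * b * h p p) * h x p by ring, e]
    simp
  refine ⟨LinearEquiv.ofLinearMap (tl c p) (tl (c ^ 2) p) (k _ _ ?_) (k _ _ ?_), fun x => rfl⟩
  · rw [← hc]; ring
  · rw [← hc]; ring

theorem Tr.U {c : K4} {p : W} {g : A} (t : Tr c p g) (hc : Cd c p) : g ∈ U := fun u v => by
  rw [t, t]
  simp only [hal, har, hsl, hsr, mul_pow, ← hsy v p]
  have hc' : c + c ^ 2 + c ^ 3 * h p p = 0 := hc
  linear_combination (h u p * h p v) * hc'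

theorem Tr.det {c : K4} {p : W} {g : A} (t : Tr c p g) :
    LinearMap.det (g : W →ₗ[K4] W) = 1 + c * h p p := by
  have : (g : W →ₗ[K4] W) = Matrix.toLin' (1 + Matrix.replicateCol Unit (c • p) *
      Matrix.replicateRow Unit (fun i => p i ^ 2)) := by
    refine LinearMap.ext fun x => funext fun i => ?_
    simp only [LinearEquiv.coe_coe, t x, Matrix.toLin'_apply, Matrix.add_mulVec, Matrix.one_mulVec,
      ← Matrix.mulVec_mulVec, Pi.add_apply, Pi.smul_apply, smul_eq_mul]
    congr 1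
    simp [Matrix.mulVec, dotProduct, h, Finset.mul_sum, Finset.sum_mul]
    exact Finset.sum_congr rfl fun i _ => by ring
  rw [this, LinearMap.det_toLin', Matrix.det_one_add_replicateCol_mul_replicateRow]
  simp only [dotProduct, h, Finset.mul_sum, Pi.smul_apply, smul_eq_mul]
  congr 1
  exact Finset.sum_congr rfl fun i _ => by ring

theorem Tr.conj {c : K4} {p : W} {g k : A} (t : Tr c p g) (hk : k ∈ Id.U) :
    Tr c (k p) (k * g * k⁻¹) := fun x => by
  obtain ⟨y, rfl⟩ := k.surjective x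
  simp [t y, U.h hk]

theorem Tr.uniq {c : K4} {p : W} {g k : A} (t : Tr c p g) (s : Tr c p k) : g = k :=
  LinearEquiv.ext fun x => by rw [t, s]

theorem Tr.smul {c d : K4} {p : W} {g : A} (t : Tr c p g) (hd : d ≠ 0) : Tr c (d • p) g := fun x => by
  rw [t, hsr, smul_smul]
  congr 2
  linear_combination (-c * h x p) * cube d hd

theorem Tr.fix {c : K4} {p x : W} {g : A} (t : Tr c p g) (e : h x p = 0) : g x = x := by
  rw [t, e]; simp

theorem cd1 {p : W} (e : h p p = 0) : Cd 1 p := by simp [Cd, e, aa]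

/-- supported in `S` -/
def Sp (S : Finset (Fin 6)) (p : W) : Prop := ∀ i, i ∉ S → p i = 0

theorem Sp.add {S : Finset (Fin 6)} {p q : W} (a : Sp S p) (b : Sp S q) : Sp S (p + q) :=
  fun i hi => by simp [a i hi, b i hi]
theorem Sp.smul {S : Finset (Fin 6)} {p : W} (a : Sp S p) (c : K4) : Sp S (c • p) :=
  fun i hi => by simp [a i hi]
theorem sp_e {S : Finset (Fin 6)} {i : Fin 6} (hi : i ∈ S) : Sp S (e i) := fun j hj => by
  have : j ≠ i := fun e => hj (e ▸ hi)
  simp [e, this]

def T (S : Finset (Fin 6)) : Subgroup A := closure {g | ∃ p, Sp S p ∧ h p p = 0 ∧ Tr 1 p g}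
def R (S : Finset (Fin 6)) : Subgroup A := closure {g | ∃ c p, Sp S p ∧ Cd c p ∧ Tr c p g}

theorem T_le (S : Finset (Fin 6)) : T S ≤ U :=
  (closure_le _).2 fun g ⟨p, _, a, b⟩ => b.U (cd1 a)
theorem R_le (S : Finset (Fin 6)) : R S ≤ U :=
  (closure_le _).2 fun g ⟨c, p, _, a, b⟩ => b.U a

theorem T_det {S : Finset (Fin 6)} {g : A} (hg : g ∈ T S) : LinearEquiv.det g = 1 := by
  refine (show T S ≤ LinearEquiv.det.ker from (closure_le _).2 ?_) hg
  rintro g ⟨p, -, a, b⟩
  refine Units.ext ?_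
  show _ = (1 : K4)
  rw [LinearEquiv.coe_det, b.det, a]; simp

theorem move0 {S : Finset (Fin 6)} {u v : W} (su : Sp S u) (sv : Sp S v) (hu : h u u = 1)
    (hv : h v v = 1) (a : h u v ≠ 1) :
    ∃ s ∈ R S, s u = v ∧ ∀ x, h x u = 0 → h x v = 0 → s x = x := by
  have k1 : ∀ a : K4, a ≠ 1 → (1 + a) ^ 2 + ((1 + a) ^ 2) ^ 2 +
    ((1 + a) ^ 2) ^ 3 * (1 + a + (a ^ 2 + 1)) = 0 := by decide +kernel
  have k2 : ∀ a : K4, a ≠ 1 → (1 + a) ^ 2 * (1 + a) = 1 := by decide +kernel
  have hc : Cd ((1 + h u v) ^ 2) (u + v) := by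
    simp only [Cd, hal, har, hu, hv, hsy u v]
    linear_combination k1 _ a
  obtain ⟨s, hs⟩ := ex_tr hc
  refine ⟨s, subset_closure ⟨_, _, su.add sv, hc, hs⟩, ?_, fun x x1 x2 => hs.fix (by simp [x1, x2])⟩
  rw [hs, har, hu, k2 _ a, one_smul, ← add_assoc, vv, zero_add]

theorem move {S : Finset (Fin 6)} {u v : W} (su : Sp S u) (sv : Sp S v) (hu : h u u = 1)
    (hv : h v v = 1) : ∃ s ∈ R S, s u = v ∧ ∀ x, h x u = 0 → h x v = 0 → s x = x := by
  by_cases a : h u v = 1
  swap; · exact move0 su sv hu hv a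
  have hc : Cd (ω ^ 2) u := by rw [Cd, hu]; decide +kernel
  obtain ⟨s, hs⟩ := ex_tr hc
  have e1 : s u = ω • u := by
    rw [hs, hu, show ω = 1 + ω ^ 2 * 1 by decide +kernel, add_smul, one_smul]
    congr 2
  obtain ⟨s', m, e2, f⟩ := move0 (su.smul ω) sv (u := ω • u)
    (by rw [hsl, hsr, hu]; decide +kernel) hv (by rw [hsl, a]; decide +kernel)
  refine ⟨s' * s, mul_mem m (subset_closure ⟨_, _, su, hc, hs⟩), by simp [e1, e2], fun x x1 x2 => ?_⟩
  simp [hs.fix x1, f x (by simp [x1]) x2]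

theorem genR {S : Finset (Fin 6)} (S' : Finset (Fin 6)) : S' ⊆ S → ∀ g ∈ U,
    (∀ i, i ∉ S' → g (e i) = e i) → g ∈ R S := by
  induction S' using Finset.induction_on with
  | empty => intro _ g _ a; rw [ext_e (k := 1) fun i => a i (by simp)]; exact one_mem _
  | insert k S' hk ih =>
    intro hS g hg a
    have z : ∀ i, i ∉ insert k S' → h (g (e k)) (e i) = 0 := fun i hi => by
      rw [← a i hi, U.h hg, ee' fun e => hi (by simp [e])]
    obtain ⟨s, m, e1, f⟩ := move (S := S) (u := g (e k)) (v := e k)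
      (fun i hi => (he _ i).symm.trans (z i fun e => hi (hS e))) (sp_e (hS (by simp)))
      (by rw [U.h hg, ee]) (ee k)
    have := ih ((Finset.subset_insert _ _).trans hS) (s * g) (mul_mem (R_le S m) hg) fun i hi => by
      by_cases ik : i = k
      · simp [ik, e1]
      · have hi' : i ∉ insert k S' := by simp [ik, hi]
        simp [a i hi', f _ (hz (z i hi')) (ee' ik)]
    simpa using mul_mem (inv_mem m) this

theorem swap {S : Finset (Fin 6)} {u v : W} (su : Sp S u) (sv : Sp S v) (hu : h u u = 1)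
    (hv : h v v = 1) (a : h u v = 0) : ∃ s ∈ T S, s u = v := by
  have hc : h (u + v) (u + v) = 0 := by simp [hu, hv, a, hz a, aa]
  obtain ⟨s, hs⟩ := ex_tr (cd1 hc)
  refine ⟨s, subset_closure ⟨_, su.add sv, hc, hs⟩, ?_⟩
  rw [hs, har, hu, a]; simp [← add_assoc, vv]

theorem genT {S : Finset (Fin 6)} {i0 : Fin 6} (h0 : i0 ∈ S)
    (hS : ∀ p, Sp S p → h p p = 1 → ∃ j ∈ S, p j = 0) {g : A} (hg : g ∈ U)
    (a : ∀ i, i ∉ S → g (e i) = e i) (d : LinearEquiv.det g = 1) : g ∈ T S := by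
  have tr : ∀ p, Sp S p → h p p = 1 → ∃ t ∈ T S, t (e i0) = p := fun p sp hp => by
    obtain ⟨j, hj, pj⟩ := hS p sp hp
    obtain ⟨s, m, e1⟩ := swap (sp_e hj) sp (ee j) hp (hz (by rw [he, pj]))
    by_cases ji : i0 = j
    · exact ⟨s, m, ji ▸ e1⟩
    · obtain ⟨s', m', e2⟩ := swap (sp_e h0) (sp_e hj) (ee _) (ee j) (ee' ji)
      exact ⟨s * s', mul_mem m m', by simp [e1, e2]⟩
  let R0 : Subgroup A :=
    { carrier := {g | ∃ c, Tr c (e i0) g}
      mul_mem' := by
        rintro a b ⟨c, ha⟩ ⟨d, hb⟩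
        refine ⟨c + d + c * d, fun x => ?_⟩
        simp only [LinearEquiv.mul_apply, ha _, hb x, hal, hsl, ee, add_assoc, ← add_smul]
        congr 2; ring
      one_mem' := ⟨0, fun x => by simp⟩
      inv_mem' := by
        rintro a ⟨c, ha⟩
        have c1 : 1 + c ≠ 0 := fun e0 => by
          have := ha.det
          rw [ee, mul_one, e0, ← LinearEquiv.coe_det] at this
          exact Units.ne_zero _ this
        refine ⟨c * (1 + c) ^ 2, fun x => ?_⟩
        obtain ⟨y, rfl⟩ := a.surjective x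
        have k : ∀ c : K4, 1 + c ≠ 0 → c + c * (1 + c) ^ 2 * (1 + c) = 0 := by decide +kernel
        rw [LinearEquiv.coe_inv, LinearEquiv.symm_apply_apply, ha y]
        simp only [hal, hsl, ee, add_assoc, ← add_smul]
        rw [show c * h y (e i0) + c * (1 + c) ^ 2 * (h y (e i0) + c * h y (e i0) * 1) =
          (c + c * (1 + c) ^ 2 * (1 + c)) * h y (e i0) by ring, k c c1]
        simp }
  have RU : R0 ≤ U := by
    rintro a ⟨c, ha⟩
    have c1 : 1 + c ≠ 0 := fun e0 => by
      have := ha.det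
      rw [ee, mul_one, e0, ← LinearEquiv.coe_det] at this
      exact Units.ne_zero _ this
    have k : ∀ c : K4, 1 + c ≠ 0 → c + c ^ 2 + c ^ 3 * 1 = 0 := by decide +kernel
    exact ha.U (by rw [Cd, ee]; exact k c c1)
  have nor : R0 ≤ normalizer (T S : Set A) := by
    have k : ∀ a ∈ R0, ∀ t ∈ T S, a * t * a⁻¹ ∈ T S := fun a ha t ht => by
      refine (show T S ≤ (T S).comap (MulAut.conj a).toMonoidHom from (closure_le _).2 ?_) ht
      rintro t ⟨p, sp, hp, ht⟩
      refine subset_closure ⟨a p, ?_, by rw [U.h (RU ha), hp], ht.conj (RU ha)⟩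
      obtain ⟨c, ha⟩ := ha
      rw [ha]; exact sp.add ((sp_e h0).smul _)
    exact fun a ha => mem_normalizer_iff.2 fun t => ⟨k a ha t, fun ht => by
      simpa [mul_assoc] using k _ (inv_mem ha) _ ht⟩
  have le : R S ≤ T S ⊔ R0 := by
    refine (closure_le _).2 ?_
    rintro s ⟨c, p, sp, hc, hs⟩
    rcases hpp p with hp | hp
    · have k : ∀ c : K4, c + c ^ 2 + c ^ 3 * 0 = 0 → c = 0 ∨ c = 1 := by decide +kernel
      rcases k c (by rwa [Cd, hp] at hc) with rfl | rfl
      · rw [show s = 1 from LinearEquiv.ext fun x => by simp [hs x]]; exact one_mem _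
      · exact mem_sup_left (subset_closure ⟨p, sp, hp, hs⟩)
    · obtain ⟨t, ht, rfl⟩ := tr p sp hp
      obtain ⟨r, hr⟩ := ex_tr (c := c) (p := e i0) (by rwa [Cd, U.h (T_le S ht)] at hc)
      rw [hs.uniq (hr.conj (T_le S ht))]
      exact mul_mem (mul_mem (mem_sup_left ht) (mem_sup_right ⟨c, hr⟩)) (inv_mem (mem_sup_left ht))
  obtain ⟨t, ht, r, ⟨c, hr⟩, rfl⟩ := (H5.mem_sup_left_iff nor).1 (le (genR S subset_rfl g hg a))
  rw [map_mul, T_det ht, one_mul] at d
  have := hr.det
  rw [← LinearEquiv.coe_det, d, ee, mul_one] at this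
  have c0 : c = 0 := by simpa using this
  rwa [show r = 1 from LinearEquiv.ext fun x => by simp [hr x, c0], mul_one]

theorem genT6 {g : A} (hg : g ∈ U) (d : LinearEquiv.det g = 1) : g ∈ T Finset.univ := by
  refine genT (i0 := 0) (by simp) (fun p _ hp => ?_) hg (by simp) d
  by_contra hn
  push Not at hn
  have k : ∀ i, p i * p i ^ 2 = 1 := fun i => by rw [← cube _ (hn i (by simp))]; ring
  simp only [h, k, Fin.sum_univ_six] at hp
  revert hp; decide +kernel

theorem genT4 {g : A} (hg : g ∈ U) (d : LinearEquiv.det g = 1) (a0 : g (e 0) = e 0)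
    (a1 : g (e 1) = e 1) : g ∈ T {2, 3, 4, 5} := by
  refine genT (i0 := 2) (by simp) (fun p sp hp => ?_) hg (fun i hi => ?_) d
  · by_contra hn
    push Not at hn
    have k : ∀ i ∈ ({2, 3, 4, 5} : Finset (Fin 6)), p i * p i ^ 2 = 1 := fun i hi => by
      rw [← cube _ (hn i hi)]; ring
    simp only [h, Fin.sum_univ_six, k 2 (by simp), k 3 (by simp), k 4 (by simp), k 5 (by simp),
      sp 0 (by simp), sp 1 (by simp)] at hp
    revert hp; decide +kernel
  · fin_cases i <;> simp_all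

end U6.Id
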