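import Cfsg.Agent.U6.Id1

/-! Geometry of the isotropic points of the unitary space. -/

set_option autoImplicit false
set_option linter.unusedVariables false

namespace U6.Id

open Subgroup Polynomial

theorem span3 (a b c : W) : ¬ ∀ x : W, ∃ α β γ : K4, x = α • a + β • b + γ • c := fun H => by
  have := Fintype.card_le_of_surjective (fun t : K4 × K4 × K4 => t.1 • a + t.2.1 • b + t.2.2 • c)
    fun x => by obtain ⟨α, β, γ, e⟩ := H x; exact ⟨(α, β, γ), e.symm⟩
  simp [H2.F4.card_F4] at this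

theorem greedy {a b c : W} (ha : h a a = 1) (hb : h b b = 1) (hc : h c c = 1) (ab : h a b = 0)
    (ac : h a c = 0) (bc : h b c = 0) : ∃ y, h y y = 1 ∧ h y a = 0 ∧ h y b = 0 ∧ h y c = 0 := by
  by_contra hn
  have iso : ∀ y, h y a = 0 → h y b = 0 → h y c = 0 → h y y = 0 := fun y y1 y2 y3 =>
    (hpp y).resolve_right fun e => hn ⟨y, e, y1, y2, y3⟩
  have k : ∀ t : K4, t + t ^ 2 = 0 → ω ^ 2 * t + ω * t ^ 2 = 0 → t = 0 := by decide +kernel
  have pol : ∀ y y', h y a = 0 → h y b = 0 → h y c = 0 → h y' a = 0 → h y' b = 0 → h y' c = 0 →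
      h y y' = 0 := fun y y' y1 y2 y3 z1 z2 z3 => by
    have e1 := iso (y + y') (by simp [y1, z1]) (by simp [y2, z2]) (by simp [y3, z3])
    have e2 := iso (y + ω • y') (by simp [y1, z1]) (by simp [y2, z2]) (by simp [y3, z3])
    simp only [hal, har, hsl, hsr, iso y y1 y2 y3, iso y' z1 z2 z3, hsy y y'] at e1 e2
    exact k _ (by linear_combination e1) (by linear_combination e2)
  let P : W → W := fun w => w + (h w a • a + h w b • b + h w c • c)
  have p1 : ∀ w, h (P w) a = 0 := fun w => by simp [P, ha, hz ab, hz ac, aa]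
  have p2 : ∀ w, h (P w) b = 0 := fun w => by simp [P, hb, ab, hz bc, aa]
  have p3 : ∀ w, h (P w) c = 0 := fun w => by simp [P, hc, ac, bc, aa]
  refine span3 a b c fun x => ⟨_, _, _, eq_of_add (nd (x := P x) fun w => ?_)⟩
  have := pol _ _ (p1 x) (p2 x) (p3 x) (p1 w) (p2 w) (p3 w)
  rw [show P w = w + (h w a • a + h w b • b + h w c • c) from rfl] at this
  simpa only [har, hsr, p1, p2, p3, mul_zero, add_zero] using this

theorem span4 {p q r : W} (hp : h p p = 0) (hq : h q q = 0) (pq : h p q = 1)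
    (H : ∀ y, h y y = 0 → h y p = 0 → h y q = 0 → h y r = 0) : r = h r q • p + h r p • q := by
  have qp := ho pq
  have key : ∀ x, h x p = 0 → h x q = 0 → h x r = 0 := fun x x1 x2 => by
    rcases hpp x with hx | hx
    · exact H x hx x1 x2
    obtain ⟨y, hy, y1, y2, y3⟩ := greedy (a := p + ω • q) (b := p + ω ^ 2 • q) (c := x)
      (by simp only [hal, har, hsl, hsr, hp, hq, pq, qp]; decide +kernel)
      (by simp only [hal, har, hsl, hsr, hp, hq, pq, qp]; decide +kernel) hx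
      (by simp only [hal, har, hsl, hsr, hp, hq, pq, qp]; decide +kernel)
      (by simp [hz x1, hz x2]) (by simp [hz x1, hz x2])
    have k : ∀ s t : K4, s + ω ^ 2 * t = 0 → s + (ω ^ 2) ^ 2 * t = 0 → s = 0 ∧ t = 0 := by
      decide +kernel
    obtain ⟨z1, z2⟩ := k (h y p) (h y q) (by simpa using y1) (by simpa using y2)
    have e1 := H (x + y) (by simp [hx, hy, y3, hz y3, aa]) (by simp [x1, z1]) (by simp [x2, z2])
    have e2 := H (x + ω • y) (by
      simp only [hal, har, hsl, hsr, hx, hy, y3, hz y3]; decide +kernel) (by simp [x1, z1])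
      (by simp [x2, z2])
    have k' : ∀ s t : K4, s + t = 0 → s + ω * t = 0 → s = 0 := by decide +kernel
    exact k' _ (h y r) (by simpa using e1) (by simpa using e2)
  refine eq_of_add (nd' fun w => ?_)
  have := key (w + (h w q • p + h w p • q)) (by simp [hp, qp, aa]) (by simp [hq, pq, aa])
  simp only [hal, har, hsl, hsr, ← hsy r p, ← hsy r q] at this ⊢
  linear_combination this

theorem ex1 {q : W} (hq : q ≠ 0) : ∃ y, h y q = 1 := by
  by_contra hn
  refine hq (nd' fun y => by_contra fun e => hn ⟨h y q ^ 2 • y, ?_⟩)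
  rw [hsl, ← cube _ e]; ring

theorem dual2 {p q : W} (hq : q ≠ 0) (n : ∀ c : K4, p ≠ c • q) : ∃ x, h x p = 1 ∧ h x q = 0 := by
  by_contra hn
  obtain ⟨y, hy⟩ := ex1 hq
  have k : ∀ x, h x q = 0 → h x p = 0 := fun x hx => by_contra fun e =>
    hn ⟨h x p ^ 2 • x, by rw [hsl, ← cube _ e]; ring, by simp [hx]⟩
  refine n (h y p ^ 2) (eq_of_add (nd' fun x => ?_))
  have := k (x + h x q • y) (by simp [hy, aa])
  simp only [hal, har, hsl, hsr, sq_sq] at this ⊢
  linear_combination this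

def Is (p : W) : Prop := p ≠ 0 ∧ h p p = 0

theorem Is.smul {p : W} (hp : Is p) {c : K4} (hc : c ≠ 0) : Is (c • p) :=
  ⟨smul_ne_zero hc hp.1, by simp [hp.2]⟩

theorem Is.map {p : W} (hp : Is p) {g : A} (hg : g ∈ U) : Is (g p) :=
  ⟨by simpa using hp.1, by rw [U.h hg, hp.2]⟩

theorem is_of {p q : W} (hp : h p p = 0) (e : h p q ≠ 0) : Is p :=
  ⟨fun e0 => e (by simp [e0]), hp⟩

theorem nrm {p q : W} (e : h p q ≠ 0) : h p (h p q • q) = 1 := by
  rw [hsr, ← cube _ e]; ring

/-- a common neighbour -/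
theorem perp2 {p q : W} (hp : Is p) (hq : Is q) : ∃ f, Is f ∧ h f p = 0 ∧ h f q = 0 := by
  by_cases e : h p q = 0
  · exact ⟨p, hp, hp.2, e⟩
  by_contra hn
  refine span3 p (h p q • q) 0 fun x => ⟨h x (h p q • q), h x p, 0, ?_⟩
  rw [zero_smul, add_zero]
  refine span4 hp.2 (hq.smul e).2 (nrm e) fun y y0 y1 y2 => ?_
  have : y = 0 := by_contra fun y' => hn ⟨y, ⟨y', y0⟩, y1, by simpa [e] using y2⟩
  simp [this]

/-- a common non-neighbour -/
theorem nperp2 {p q : W} (hp : Is p) (hq : Is q) (pq : h p q = 0) :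
    ∃ f, Is f ∧ h f p ≠ 0 ∧ h f q ≠ 0 := by
  have : ∃ x, h x p = 1 ∧ h x q ≠ 0 := by
    by_cases n : ∀ c : K4, p ≠ c • q
    · obtain ⟨x, x1, x2⟩ := dual2 hq.1 n
      obtain ⟨y, y1, y2⟩ := dual2 hp.1 (p := q) fun c e => by
        have c0 : c ≠ 0 := fun c0 => hq.1 (by simp [e, c0])
        exact n c⁻¹ (by rw [e, smul_smul, inv_mul_cancel₀ c0, one_smul])
      exact ⟨x + y, by simp [x1, y2], by simp [x2, y1]⟩
    · push Not at n
      obtain ⟨c, rfl⟩ := n
      obtain ⟨x, hx⟩ := ex1 hp.1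
      exact ⟨x, hx, fun e => by simp [e] at hx⟩
  obtain ⟨x, x1, x2⟩ := this
  have k : ∀ t : K4, t = 0 ∨ t = 1 → ∃ c : K4, t + c ^ 2 + c = 0 := by decide +kernel
  obtain ⟨c, hc⟩ := k _ (hpp x)
  refine ⟨x + c • p, is_of (q := p) ?_ (by simp [x1, hp.2]), by simp [x1, hp.2], by simpa [pq] using x2⟩
  simp only [hal, har, hsl, hsr, x1, ho x1, hp.2]
  linear_combination hc

theorem scal {g : A} (H : ∀ p, Is p → ∃ c : K4, g p = c • p) : ∃ l : K4, ∀ x, g x = l • x := by
  have p0 : Is (e 0 + e 1) := is_of (q := e 0) (by simp [ee, ee', aa]) (by simp [ee, ee'])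
  obtain ⟨l, hl⟩ := H _ p0
  have k : ∀ q, h q q = 0 → h (e 0 + e 1) q = 1 → g q = l • q := fun q hq pq => by
    generalize e 0 + e 1 = p at *
    obtain ⟨b, hb⟩ := H q (is_of hq (by rw [ho pq]; exact one_ne_zero))
    obtain ⟨c, hc⟩ := H (p + q) (is_of (q := q) (by
      rw [hal, har, har, p0.2, hq, pq, ho pq]; decide +kernel) (by rw [hal, pq, hq]; decide +kernel))
    rw [map_add, hl, hb] at hc
    have e1 := congrArg (h · q) hc
    have e2 := congrArg (h · p) hc
    simp only [hal, hsl, hq, pq, ho pq, p0.2, mul_zero, mul_one, add_zero,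
      zero_add] at e1 e2
    rw [hb, e1, e2]
  have k2 : ∀ i : Fin 6, i ≠ 0 → i ≠ 1 → g (e i) = l • e i ∧ g (e 0) = l • e 0 := fun i i0 i1 => by
    have a := k (e 0 + e i) (by simp [ee, ee' i0, ee' i0.symm, aa]) (by
      simp [ee, ee' i0.symm, ee' i1.symm, ee'])
    have b := k (e 0 + ω • e i) (by
      simp only [hal, har, hsl, hsr, ee, ee' i0, ee' i0.symm]; decide +kernel) (by
      simp [ee, ee' i0.symm, ee' i1.symm, ee'])
    simp only [map_add, map_smul, smul_add] at a b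
    have c : g (e i) = l • e i := by
      refine funext fun j => ?_
      have k : ∀ a b c d : K4, a + b = c + d → a + ω * b = c + ω * d → b = d := by decide +kernel
      refine k (g (e 0) j) _ ((l • e 0) j) _ (congrFun a j) ?_
      have := congrFun b j
      simp only [Pi.add_apply, Pi.smul_apply, smul_eq_mul] at this ⊢
      linear_combination this
    exact ⟨c, by rwa [c, add_left_inj] at a⟩
  have a0 := (k2 2 (by decide) (by decide)).2
  have all : ∀ i, g (e i) = l • e i := fun i => by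
    by_cases i0 : i = 0; · rw [i0, a0]
    by_cases i1 : i = 1
    · rwa [map_add, smul_add, a0, add_right_inj, ← i1] at hl
    · exact (k2 i i0 i1).1
  refine ⟨l, fun x => ?_⟩
  have : (g : W →ₗ[K4] W) = l • LinearMap.id :=
    (Pi.basisFun K4 (Fin 6)).ext fun i => by simpa [e] using all i
  exact LinearMap.congr_fun this x

theorem eig1 {g : A} (g3 : ∀ x, g (g (g x)) = x) : ∃ p, Is p ∧ ∃ c : K4, g p = c • p := by
  by_contra hn
  have k : ∀ c : K4, ∃ u, ∀ x, g x = c • x → ∃ a : K4, x = a • u := fun c => by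
    by_cases ex : ∃ u, u ≠ 0 ∧ g u = c • u
    swap
    · exact ⟨0, fun x hx => ⟨0, by_contra fun e => ex ⟨x, by simpa using e, hx⟩⟩⟩
    obtain ⟨u, u0, hu⟩ := ex
    refine ⟨u, fun x hx => by_contra fun n => ?_⟩
    have u1 : h u u = 1 := (hpp u).resolve_left fun e => hn ⟨u, ⟨u0, e⟩, c, hu⟩
    have k : ∀ s t : K4, s = 0 ∨ s = 1 → ∃ a : K4, s + a ^ 2 * t + (a * t ^ 2 + a * (a ^ 2 * 1)) = 0 := by
      decide +kernel
    obtain ⟨a, ha⟩ := k _ (h x u) (hpp x)
    refine hn ⟨x + a • u, ⟨fun e => n ⟨a, eq_of_add e⟩, ?_⟩, c, ?_⟩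
    · simp only [hal, har, hsl, hsr, hsy x u, u1]; linear_combination ha
    · rw [map_add, map_smul, hx, hu, smul_add, smul_comm]
  choose u hu using k
  have k2 : ∀ c : K4, c ≠ 0 → ∀ x, ∃ a : K4, x + c ^ 2 • g x + c • g (g x) = a • u c :=
    fun c c0 x => hu c _ (by
      simp only [map_add, map_smul, g3, smul_add, smul_smul]
      rw [show c * c ^ 2 = 1 by rw [← cube c c0]; ring, one_smul, pow_two]
      refine funext fun j => ?_
      simp only [Pi.add_apply, Pi.smul_apply, smul_eq_mul]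
      ring)
  refine span3 (u 1) (u ω) (u (ω ^ 2)) fun x => ?_
  obtain ⟨a, ha⟩ := k2 1 one_ne_zero x
  obtain ⟨b, hb⟩ := k2 ω ω0 x
  obtain ⟨c, hc⟩ := k2 (ω ^ 2) (pow_ne_zero _ ω0) x
  refine ⟨a, b, c, ?_⟩
  rw [← ha, ← hb, ← hc]
  refine funext fun j => ?_
  simp only [Pi.add_apply, Pi.smul_apply, smul_eq_mul]
  have k : ∀ x y z : K4, x = x + 1 ^ 2 * y + 1 * z + (x + ω ^ 2 * y + ω * z) +
    (x + (ω ^ 2) ^ 2 * y + ω ^ 2 * z) := by decide +kernel
  exact k _ _ _

theorem det_cube {M : Matrix (Fin 6) (Fin 6) K4} {l : K4} (l0 : l ≠ 0) (l1 : l ≠ 1)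
    (e : M ^ 3 = Matrix.scalar _ l) : M.det = l ^ 2 := by
  have irr : Irreducible (X ^ 3 - C l : K4[X]) := X_pow_sub_C_irreducible_of_prime Nat.prime_three
    fun b hb => by
      by_cases b0 : b = 0
      · exact l0 (by rw [← hb, b0]; simp)
      · exact l1 (by rw [← hb, cube b b0])
  have dv : M.charpoly ∣ (X ^ 3 - C l) ^ 6 := by
    let N := (C : K4 →+* K4[X]).mapMatrix M
    let x := Matrix.scalar (Fin 6) (X : K4[X])
    have c : Commute x N := Matrix.scalar_commute _ (fun r => Commute.all _ _) _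
    refine ⟨(∑ i ∈ Finset.range 3, x ^ i * N ^ (3 - 1 - i)).det, ?_⟩
    rw [Matrix.charpoly, ← Matrix.det_mul, Matrix.charmatrix, c.mul_geom_sum₂ 3, ← map_pow,
      ← map_pow, e]
    have : (C : K4 →+* K4[X]).mapMatrix (Matrix.scalar (Fin 6) l) = Matrix.scalar _ (C l) := by
      simp [Matrix.scalar_apply]
    rw [this, ← map_sub]
    simp [Matrix.scalar_apply]
  obtain ⟨i, -, hi⟩ := (dvd_prime_pow irr.prime 6).1 dv
  have mo : (X ^ 3 - C l : K4[X]).Monic := monic_X_pow_sub_C l (by norm_num)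
  have eq := eq_of_monic_of_associated M.charpoly_monic (mo.pow i) hi
  have dg := M.charpoly_natDegree_eq_dim
  rw [eq, mo.natDegree_pow, natDegree_X_pow_sub_C] at dg
  obtain rfl : i = 2 := by simp at dg; omega
  rw [Matrix.det_eq_sign_charpoly_coeff, eq, coeff_zero_eq_eval_zero]
  simp; norm_num

theorem eig {g : A} (d : LinearEquiv.det g = 1) {l : K4} (g3 : ∀ x, g (g (g x)) = l • x) :
    ∃ p, Is p ∧ ∃ c : K4, g p = c • p := by
  have l0 : l ≠ 0 := fun l0 => by
    have := g3 (e 0)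
    rw [l0, zero_smul] at this
    have e0 : e 0 = 0 := by simpa using this
    simpa [e0] using ee 0
  by_cases l1 : l = 1
  · exact eig1 (by simpa [l1] using g3)
  have := det_cube (M := LinearMap.toMatrix' (g : W →ₗ[K4] W)) l0 l1 (by
    rw [pow_three, ← LinearMap.toMatrix'_mul, ← LinearMap.toMatrix'_mul,
      show (g : W →ₗ[K4] W) * ((g : W →ₗ[K4] W) * (g : W →ₗ[K4] W)) = l • LinearMap.id from LinearMap.ext g3]
    simp [Matrix.scalar_apply, Matrix.smul_one_eq_diagonal])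
  rw [LinearMap.det_toMatrix', ← LinearEquiv.coe_det, d] at this
  have k : ∀ l : K4, 1 = l ^ 2 → l = 1 := by decide +kernel
  exact absurd (k l this) l1

theorem two {u u' p q : W} (u0 : u' ≠ 0) (n : ∀ c : K4, u ≠ c • u')
    (H : ∀ x, h x u • u + h x u' • u' = h x p • p + h x q • q) :
    (∃ c : K4, u = c • p) ∨ ∃ c : K4, u = c • q := by
  obtain ⟨x, x1, x2⟩ := dual2 u0 n
  have e := H x
  rw [x1, x2, one_smul, zero_smul, add_zero] at e
  have e2 := congrArg (h x) e
  rw [x1, har, hsr, hsr] at e2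
  have k : ∀ a b : K4, 1 = a ^ 2 * a + b ^ 2 * b → a = 0 ∨ b = 0 := by decide +kernel
  rcases k _ _ e2 with e0 | e0
  · right; exact ⟨_, by rw [e, e0, zero_smul, zero_add]⟩
  · left; exact ⟨_, by rw [e, e0, zero_smul, add_zero]⟩

end U6.Id
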